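/-
The combinatorial geometry of a minimal counterexample to the bound `2 f + 1 ≤ n` for the number `f`
of fixed points of a pronormal subgroup of a transitive group of degree `n` (S3399).

The flats are the fixed point sets of the conjugates of the pronormal subgroup, `P F` is generated by
the conjugates with fixed point set `F`, and `J A` by the `P F` with `A ⊆ F`.
-/
import Mathlib

set_option autoImplicit false

open Equiv

namespace CfsgLib.Pronormal

/-- The flat geometry of a minimal counterexample, all facts that the later arguments use. -/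
structure Geom (α : Type*) [Fintype α] [DecidableEq α] where
  G : Subgroup (Perm α)
  flats : Finset (Finset α)
  P : Finset α → Subgroup (Perm α)
  f : ℕ
  r : ℕ
  two_le_r : 2 ≤ r
  card_univ_eq : Fintype.card α = 2 * f
  flat_card : ∀ F ∈ flats, F.card = f
  flats_nonempty : flats.Nonempty
  flat_image : ∀ g ∈ G, ∀ F ∈ flats, F.image g ∈ flats
  transitive : ∀ a b : α, ∃ g ∈ G, g a = b
  P_le : ∀ F ∈ flats, P F ≤ G
  P_fix : ∀ F ∈ flats, ∀ k ∈ P F, ∀ a ∈ F, k a = a
  P_moves : ∀ F ∈ flats, ∀ a ∉ F, ∃ k ∈ P F, k a ≠ a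
  P_conj : ∀ g ∈ G, ∀ F ∈ flats, ∀ k ∈ P F, g * k * g⁻¹ ∈ P (F.image g)
  flat_conj : ∀ F ∈ flats, ∀ F' ∈ flats, ∃ j ∈ P F ⊔ P F', F.image j = F'
  r_le_of_invariant : ∀ F ∈ flats, ∀ O : Finset α, O.Nonempty → Disjoint O F →
    (∀ k ∈ P F, O.image k = O) → r ≤ O.card
  r_attained : ∃ F ∈ flats, ∃ O : Finset α, O.card = r ∧ Disjoint O F ∧ ∀ k ∈ P F, O.image k = O
  invariant_not_subset_flat : ∀ F ∈ flats, ∀ O : Finset α, O.Nonempty → Disjoint O F →
    (∀ k ∈ P F, O.image k = O) → ∀ F' ∈ flats, ¬ O ⊆ F'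
  singleton_closed : ∀ a x : α, (∀ F ∈ flats, a ∈ F → x ∈ F) → x = a
  /-- a nontrivial orbit of the group generated by the conjugates fixing a nonempty set -/
  deficit : ∀ A : Finset α, A.Nonempty → ∀ F ∈ flats, A ⊆ F → ∀ O : Finset α, ∀ x ∈ O,
    (∃ F' ∈ flats, A ⊆ F' ∧ x ∉ F') →
    (∀ y, y ∈ O ↔ ∃ j ∈ (⨆ (F' : Finset α) (_ : F' ∈ flats) (_ : A ⊆ F'), P F'), j x = y) →
    2 * (O ∩ F).card < O.card

namespace Geom

variable {α : Type*} [Fintype α] [DecidableEq α] (X : Geom α)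

/-- The group generated by the conjugates fixing `A` pointwise. -/
def J (A : Finset α) : Subgroup (Perm α) :=
  ⨆ (F' : Finset α) (_ : F' ∈ X.flats) (_ : A ⊆ F'), X.P F'

/-- The closure of `A`: the intersection of the flats containing it. -/
def cl (A : Finset α) : Finset α :=
  Finset.univ.filter fun x => ∀ F ∈ X.flats, A ⊆ F → x ∈ F

/-- `A` lies in some flat. -/
def Covered (A : Finset α) : Prop := ∃ F ∈ X.flats, A ⊆ F

/-- All sets of exactly `m` points lie in a flat. -/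
def CoveredAt (m : ℕ) : Prop := ∀ A : Finset α, A.card = m → X.Covered A

/-- All sets of exactly `m` points are closed. -/
def ClosedAt (m : ℕ) : Prop := ∀ A : Finset α, A.card = m → X.cl A = A

/-- For every set `B` of `m` points, `J B` is transitive on the other points. -/
def OrbitAt (m : ℕ) : Prop :=
  ∀ B : Finset α, B.card = m → ∀ x y : α, x ∉ B → y ∉ B → ∃ j ∈ X.J B, j x = y

/-- `G` is transitive on the ordered sets of `m` distinct points. -/
def MultiTrans (m : ℕ) : Prop :=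
  ∀ u v : Fin m ↪ α, ∃ g ∈ X.G, ∀ i, g (u i) = v i

theorem mem_cl {A : Finset α} {x : α} : x ∈ X.cl A ↔ ∀ F ∈ X.flats, A ⊆ F → x ∈ F := by
  simp [cl]

theorem subset_cl (A : Finset α) : A ⊆ X.cl A := fun _ ha => X.mem_cl.mpr fun _ _ h => h ha

theorem cl_subset {A F : Finset α} (hF : F ∈ X.flats) (h : A ⊆ F) : X.cl A ⊆ F :=
  fun _ hx => X.mem_cl.mp hx F hF h

theorem cl_mono {A B : Finset α} (h : A ⊆ B) : X.cl A ⊆ X.cl B :=
  fun _ hx => X.mem_cl.mpr fun F hF hB => X.mem_cl.mp hx F hF (h.trans hB)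

theorem P_le_J {A F : Finset α} (hF : F ∈ X.flats) (h : A ⊆ F) : X.P F ≤ X.J A :=
  le_iSup_of_le F (le_iSup_of_le hF (le_iSup_of_le h le_rfl))

theorem J_le_iff {A : Finset α} {H : Subgroup (Perm α)} :
    X.J A ≤ H ↔ ∀ F ∈ X.flats, A ⊆ F → X.P F ≤ H := by
  simp only [J, iSup_le_iff]

theorem J_le (A : Finset α) : X.J A ≤ X.G := X.J_le_iff.mpr fun F hF _ => X.P_le F hF

theorem J_mono {A B : Finset α} (h : A ⊆ B) : X.J B ≤ X.J A :=
  X.J_le_iff.mpr fun _ hF hB => X.P_le_J hF (h.trans hB)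

theorem J_fix {A : Finset α} {j : Perm α} (hj : j ∈ X.J A) {a : α} (ha : a ∈ X.cl A) :
    j a = a := by
  have h : X.J A ≤ MulAction.stabilizer (Perm α) a :=
    X.J_le_iff.mpr fun F hF hA k hk => X.P_fix F hF k hk a (X.mem_cl.mp ha F hF hA)
  exact h hj

/-- The orbit of `x` under `J A`. -/
noncomputable def orb (A : Finset α) (x : α) : Finset α :=
  open Classical in Finset.univ.filter fun y => ∃ j ∈ X.J A, j x = y

theorem mem_orb {A : Finset α} {x y : α} : y ∈ X.orb A x ↔ ∃ j ∈ X.J A, j x = y := by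
  simp [orb]

theorem self_mem_orb (A : Finset α) (x : α) : x ∈ X.orb A x :=
  X.mem_orb.mpr ⟨1, one_mem _, rfl⟩

end Geom

end CfsgLib.Pronormal
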