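/-
Basic facts on the flat geometry of a minimal counterexample: transport by the group, orbits of
`J A`, their weights, extension of covered sets.
-/
import Cfsg.Agent.Lib.Pronormal.Defs

set_option autoImplicit false
set_option linter.unusedSectionVars false

open Equiv Finset

namespace CfsgLib.Pronormal.Geom

variable {α : Type*} [Fintype α] [DecidableEq α] (X : Geom α)

/-- The number of flats through `A`. -/
def N (A : Finset α) : ℕ := (X.flats.filter (A ⊆ ·)).card

/-- The weight of `T` with respect to the flat `F`. -/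
def wt (T F : Finset α) : ℤ := (T.card : ℤ) - 2 * (T ∩ F).card

/-- The orbits of `J A` off the closure of `A`. -/
noncomputable def orbits (A : Finset α) : Finset (Finset α) :=
  (univ \ X.cl A).image (X.orb A)

theorem image_inv_image (g : Perm α) (A : Finset α) : (A.image g).image (g⁻¹ : Perm α) = A := by
  simp [Finset.image_image, Function.comp_def]

theorem image_inv_image' (g : Perm α) (A : Finset α) : (A.image (g⁻¹ : Perm α)).image g = A := by
  simp [Finset.image_image, Function.comp_def]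

theorem subset_image_iff_inv (g : Perm α) (A B : Finset α) :
    A.image g ⊆ B ↔ A ⊆ B.image (g⁻¹ : Perm α) := by
  constructor
  · intro h
    have h' := Finset.image_subset_image (f := (g⁻¹ : Perm α)) h
    rwa [image_inv_image] at h'
  · intro h
    have h' := Finset.image_subset_image (f := g) h
    rwa [image_inv_image'] at h'

theorem cl_image {g : Perm α} (hg : g ∈ X.G) (A : Finset α) :
    X.cl (A.image g) = (X.cl A).image g := by
  ext x
  simp only [mem_cl, Finset.mem_image]
  constructor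
  · intro h
    refine ⟨(g⁻¹ : Perm α) x, fun F hF hA => ?_, by simp⟩
    obtain ⟨y, hy, hyx⟩ := Finset.mem_image.mp
      (h (F.image g) (X.flat_image g hg F hF) (Finset.image_subset_image hA))
    rw [← hyx]; simpa using hy
  · rintro ⟨y, hy, rfl⟩ F hF hA
    obtain ⟨z, hz, hzy⟩ := Finset.mem_image.mp
      (hy (F.image (g⁻¹ : Perm α)) (X.flat_image _ (inv_mem hg) F hF)
        ((subset_image_iff_inv g A F).mp hA))
    rw [← hzy]; simpa using hz

theorem N_image {g : Perm α} (hg : g ∈ X.G) (A : Finset α) : X.N (A.image g) = X.N A := by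
  apply Finset.card_nbij' (fun F => F.image (g⁻¹ : Perm α)) (fun F => F.image g)
  · intro F hF
    simp only [Finset.mem_coe, Finset.mem_filter] at hF ⊢
    exact ⟨X.flat_image _ (inv_mem hg) F hF.1, (subset_image_iff_inv g A F).mp hF.2⟩
  · intro F hF
    simp only [Finset.mem_coe, Finset.mem_filter] at hF ⊢
    exact ⟨X.flat_image _ hg F hF.1, Finset.image_subset_image hF.2⟩
  · intro F _; exact image_inv_image' g F
  · intro F _; exact image_inv_image g F

theorem N_mono {A B : Finset α} (h : A ⊆ B) : X.N B ≤ X.N A :=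
  Finset.card_le_card fun F hF => by
    simp only [Finset.mem_filter] at hF ⊢
    exact ⟨hF.1, h.trans hF.2⟩

theorem subset_iff_cl {A F : Finset α} (hF : F ∈ X.flats) : X.cl A ⊆ F ↔ A ⊆ F :=
  ⟨(X.subset_cl A).trans, X.cl_subset hF⟩

theorem N_cl (A : Finset α) : X.N (X.cl A) = X.N A :=
  congrArg Finset.card (Finset.filter_congr fun _ hF => X.subset_iff_cl hF)

/-- If `A' ⊆ cl A` has no more flats than `A`, then it has the same closure. -/
theorem cl_eq_of_N_le {A A' : Finset α} (h : A' ⊆ X.cl A) (hN : X.N A' ≤ X.N A) :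
    X.cl A' = X.cl A := by
  have hsub : X.flats.filter (A ⊆ ·) ⊆ X.flats.filter (A' ⊆ ·) := fun F hF => by
    simp only [Finset.mem_filter] at hF ⊢
    exact ⟨hF.1, h.trans (X.cl_subset hF.1 hF.2)⟩
  have heq := Finset.eq_of_subset_of_card_le hsub hN
  ext x
  simp only [mem_cl]
  constructor <;> intro hx F hF hA
  · refine hx F hF ?_
    have : F ∈ X.flats.filter (A' ⊆ ·) := heq ▸ (Finset.mem_filter.mpr ⟨hF, hA⟩)
    exact (Finset.mem_filter.mp this).2
  · refine hx F hF ?_
    have : F ∈ X.flats.filter (A ⊆ ·) := heq.symm ▸ (Finset.mem_filter.mpr ⟨hF, hA⟩)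
    exact (Finset.mem_filter.mp this).2

theorem N_eq_of_cl_eq {A A' : Finset α} (h : X.cl A = X.cl A') : X.N A = X.N A' := by
  rw [← X.N_cl A, h, X.N_cl]

theorem cl_cl (A : Finset α) : X.cl (X.cl A) = X.cl A :=
  X.cl_eq_of_N_le (subset_refl _) (X.N_cl A).le

theorem J_cl (A : Finset α) : X.J (X.cl A) = X.J A :=
  le_antisymm (X.J_mono (X.subset_cl A))
    (X.J_le_iff.mpr fun _ hF hA => X.P_le_J hF (X.cl_subset hF hA))

theorem J_conj_mem {g : Perm α} (hg : g ∈ X.G) {A : Finset α} {j : Perm α} (hj : j ∈ X.J A) :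
    g * j * g⁻¹ ∈ X.J (A.image g) := by
  have h : X.J A ≤ (X.J (A.image g)).comap (MulAut.conj g).toMonoidHom :=
    X.J_le_iff.mpr fun F hF hA k hk =>
      X.P_le_J (X.flat_image g hg F hF) (Finset.image_subset_image hA) (X.P_conj g hg F hF k hk)
  exact h hj

theorem orb_image {g : Perm α} (hg : g ∈ X.G) (A : Finset α) (x : α) :
    (X.orb A x).image g = X.orb (A.image g) (g x) := by
  ext y
  simp only [Finset.mem_image, mem_orb]
  constructor
  · rintro ⟨_, ⟨j, hj, rfl⟩, rfl⟩
    exact ⟨g * j * g⁻¹, X.J_conj_mem hg hj, by simp⟩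
  · rintro ⟨j, hj, rfl⟩
    refine ⟨_, ⟨g⁻¹ * j * g, ?_, rfl⟩, by simp⟩
    have h' := X.J_conj_mem (inv_mem hg) hj
    rw [image_inv_image] at h'
    simpa using h'

theorem orb_eq_of_mem {A : Finset α} {x y : α} (h : y ∈ X.orb A x) : X.orb A y = X.orb A x := by
  obtain ⟨i, hi, rfl⟩ := X.mem_orb.mp h
  ext z
  simp only [mem_orb]
  constructor
  · rintro ⟨j, hj, rfl⟩; exact ⟨j * i, mul_mem hj hi, by simp⟩
  · rintro ⟨j, hj, rfl⟩; exact ⟨j * i⁻¹, mul_mem hj (inv_mem hi), by simp⟩

theorem image_orb {A : Finset α} {x : α} {j : Perm α} (hj : j ∈ X.J A) :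
    (X.orb A x).image j = X.orb A x := by
  refine Finset.eq_of_subset_of_card_le ?_ (Finset.card_image_of_injective _ j.injective).ge
  intro y hy
  obtain ⟨z, hz, rfl⟩ := Finset.mem_image.mp hy
  obtain ⟨i, hi, rfl⟩ := X.mem_orb.mp hz
  exact X.mem_orb.mpr ⟨j * i, mul_mem hj hi, by simp⟩

theorem orb_eq_singleton {A : Finset α} {x : α} (hx : x ∈ X.cl A) : X.orb A x = {x} := by
  ext y
  simp only [mem_orb, Finset.mem_singleton]
  exact ⟨fun ⟨j, hj, h⟩ => by rw [← h, X.J_fix hj hx], fun h => ⟨1, one_mem _, h.symm⟩⟩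

theorem notMem_cl_of_mem_orb {A : Finset α} {x y : α} (h : y ∈ X.orb A x) (hx : x ∉ X.cl A) :
    y ∉ X.cl A := by
  intro hy
  have := X.self_mem_orb A x
  rw [← X.orb_eq_of_mem h, X.orb_eq_singleton hy, Finset.mem_singleton] at this
  exact hx (this ▸ hy)

theorem disjoint_orb_cl {A : Finset α} {x : α} (hx : x ∉ X.cl A) :
    Disjoint (X.orb A x) (X.cl A) :=
  Finset.disjoint_left.mpr fun _ h => X.notMem_cl_of_mem_orb h hx

theorem P_fix_image {F : Finset α} (hF : F ∈ X.flats) {k : Perm α} (hk : k ∈ X.P F) :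
    F.image k = F := by
  conv_rhs => rw [← Finset.image_id (s := F)]
  exact Finset.image_congr fun a ha => X.P_fix F hF k hk a ha

/-- Two flats through `A` differ by an element of `J A`. -/
theorem flat_conj_J {A F F' : Finset α} (hF : F ∈ X.flats) (hA : A ⊆ F) (hF' : F' ∈ X.flats)
    (hA' : A ⊆ F') : ∃ j ∈ X.J A, F.image j = F' := by
  obtain ⟨j, hj, h⟩ := X.flat_conj F hF F' hF'
  exact ⟨j, sup_le (X.P_le_J hF hA) (X.P_le_J hF' hA') hj, h⟩

/-- The weight of a `J A`-invariant set does not depend on the flat through `A`. -/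
theorem wt_eq {A T F F' : Finset α} (hF : F ∈ X.flats) (hA : A ⊆ F) (hF' : F' ∈ X.flats)
    (hA' : A ⊆ F') (hT : ∀ j ∈ X.J A, T.image j = T) : wt T F = wt T F' := by
  obtain ⟨j, hj, rfl⟩ := X.flat_conj_J hF hA hF' hA'
  have h : T ∩ F.image j = (T ∩ F).image j := by
    rw [Finset.image_inter _ _ j.injective, hT j hj]
  simp only [wt, h, Finset.card_image_of_injective _ j.injective]

theorem one_le_wt_orb {A F : Finset α} (hne : A.Nonempty) (hF : F ∈ X.flats) (hA : A ⊆ F) {x : α}
    (hx : x ∉ X.cl A) : 1 ≤ wt (X.orb A x) F := by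
  rw [mem_cl] at hx
  push Not at hx
  obtain ⟨F', hF', hA', hxF'⟩ := hx
  have := X.deficit A hne F hF hA (X.orb A x) x (X.self_mem_orb A x) ⟨F', hF', hA', hxF'⟩
    (fun _ => X.mem_orb)
  simp only [wt]; omega

theorem r_le_card_sdiff {A F : Finset α} (hne : A.Nonempty) (hF : F ∈ X.flats) (hA : A ⊆ F)
    {x : α} (hx : x ∉ X.cl A) : X.r ≤ (X.orb A x \ F).card := by
  refine X.r_le_of_invariant F hF _ ?_ Finset.sdiff_disjoint fun k hk => ?_
  · rw [← Finset.card_pos]
    have h := X.one_le_wt_orb hne hF hA hx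
    have := Finset.card_sdiff_add_card_inter (X.orb A x) F
    simp only [wt] at h; omega
  · rw [Finset.image_sdiff _ _ k.injective, X.image_orb (X.P_le_J hF hA hk),
      X.P_fix_image hF hk]

theorem mem_orbits {A O : Finset α} : O ∈ X.orbits A ↔ ∃ x, x ∉ X.cl A ∧ X.orb A x = O := by
  simp [orbits]

theorem orb_mem_orbits {A : Finset α} {x : α} (hx : x ∉ X.cl A) : X.orb A x ∈ X.orbits A :=
  X.mem_orbits.mpr ⟨x, hx, rfl⟩

theorem eq_of_mem_orbits {A O : Finset α} (hO : O ∈ X.orbits A) {x : α} (hx : x ∈ O) :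
    X.orb A x = O := by
  obtain ⟨y, -, rfl⟩ := X.mem_orbits.mp hO
  exact X.orb_eq_of_mem hx

/-- The weight of an invariant set off `cl A` is the sum over its orbits. -/
theorem wt_eq_sum {A F T : Finset α} (hTd : Disjoint T (X.cl A))
    (hT : ∀ j ∈ X.J A, T.image j = T) :
    wt T F = ∑ O ∈ (X.orbits A).filter (· ⊆ T), wt O F := by
  have hsub : ∀ x ∈ T, X.orb A x ⊆ T := fun x hx y hy => by
    obtain ⟨j, hj, rfl⟩ := X.mem_orb.mp hy
    rw [← hT j hj]; exact Finset.mem_image_of_mem _ hx
  have himg : T.image (X.orb A) = (X.orbits A).filter (· ⊆ T) := by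
    ext O
    simp only [Finset.mem_image, Finset.mem_filter]
    constructor
    · rintro ⟨x, hx, rfl⟩
      exact ⟨X.orb_mem_orbits (Finset.disjoint_left.mp hTd hx), hsub x hx⟩
    · rintro ⟨hO, hOT⟩
      obtain ⟨x, -, rfl⟩ := X.mem_orbits.mp hO
      exact ⟨x, hOT (X.self_mem_orb A x), rfl⟩
  have key : ∀ U : Finset α, (∑ O ∈ T.image (X.orb A), ((O ∩ U).card : ℤ)) = (T ∩ U).card := by
    intro U
    have hd : (↑(T.image (X.orb A)) : Set (Finset α)).PairwiseDisjoint (fun O => O ∩ U) := by
      intro O hO O' hO' hne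
      refine Finset.disjoint_left.mpr fun z hz hz' => hne ?_
      obtain ⟨x, hx, rfl⟩ := Finset.mem_image.mp hO
      obtain ⟨x', hx', rfl⟩ := Finset.mem_image.mp hO'
      rw [← X.orb_eq_of_mem (Finset.mem_inter.mp hz).1, X.orb_eq_of_mem (Finset.mem_inter.mp hz').1]
    rw [← Nat.cast_sum, ← Finset.card_biUnion hd]
    congr 2
    ext z
    simp only [Finset.mem_biUnion, Finset.mem_image, Finset.mem_inter]
    constructor
    · rintro ⟨_, ⟨x, hx, rfl⟩, hz, hzU⟩; exact ⟨hsub x hx hz, hzU⟩
    · rintro ⟨hz, hzU⟩; exact ⟨_, ⟨z, hz, rfl⟩, X.self_mem_orb A z, hzU⟩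
  rw [← himg]
  simp only [wt, Finset.sum_sub_distrib, ← Finset.mul_sum, key F]
  have h := key univ
  simp only [Finset.inter_univ] at h
  rw [h]

/-- The orbits of `J A` off `cl A` have total weight the size of `cl A`. -/
theorem sum_wt {A F : Finset α} (hF : F ∈ X.flats) (hA : A ⊆ F) :
    ∑ O ∈ X.orbits A, wt O F = (X.cl A).card := by
  have hT : ∀ j ∈ X.J A, (univ \ X.cl A).image j = univ \ X.cl A := fun j hj => by
    rw [Finset.image_sdiff _ _ j.injective, Finset.image_univ_of_surjective j.surjective,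
      Finset.image_congr (f := j) (g := id) (s := X.cl A) (fun a ha => X.J_fix hj ha),
      Finset.image_id]
  have h := X.wt_eq_sum (F := F) Finset.sdiff_disjoint hT
  have hfil : (X.orbits A).filter (· ⊆ univ \ X.cl A) = X.orbits A := by
    refine Finset.filter_true_of_mem fun O hO => ?_
    obtain ⟨x, hx, rfl⟩ := X.mem_orbits.mp hO
    exact fun y hy => by simp [X.notMem_cl_of_mem_orb hy hx]
  rw [hfil] at h
  rw [← h]
  have h1 : (univ \ X.cl A) ∩ F = F \ X.cl A := by ext; simp [and_comm]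
  have h2 := Finset.card_sdiff_of_subset (X.cl_subset hF hA)
  have h3 := Finset.card_le_card (X.cl_subset hF hA)
  have h4 := Finset.card_le_univ (X.cl A)
  simp only [wt, h1, h2, Finset.card_univ_sdiff, X.card_univ_eq, X.flat_card F hF] at *
  omega

theorem card_orbits_le {A F : Finset α} (hne : A.Nonempty) (hF : F ∈ X.flats) (hA : A ⊆ F) :
    (X.orbits A).card ≤ (X.cl A).card := by
  have h := Finset.card_nsmul_le_sum (X.orbits A) (fun O => wt O F) 1 fun O hO => by
    obtain ⟨x, hx, rfl⟩ := X.mem_orbits.mp hO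
    exact X.one_le_wt_orb hne hF hA hx
  rw [X.sum_wt hF hA] at h
  simpa using h

/-- A covered set with closure smaller than `r` extends by every point. -/
theorem covered_insert {A : Finset α} (hne : A.Nonempty) (hc : X.Covered A)
    (hlt : (X.cl A).card < X.r) (x : α) : X.Covered (insert x A) := by
  obtain ⟨F, hF, hA⟩ := hc
  by_cases hx : x ∈ X.cl A
  · exact ⟨F, hF, Finset.insert_subset (X.cl_subset hF hA hx) hA⟩
  by_cases hd : Disjoint (X.orb A x) F
  · exfalso
    have hr := X.r_le_card_sdiff hne hF hA hx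
    rw [sdiff_eq_left.mpr hd] at hr
    have hle : wt (X.orb A x) F ≤ ∑ O ∈ X.orbits A, wt O F :=
      Finset.single_le_sum (f := fun O => wt O F) (fun O hO => by
        obtain ⟨y, hy, rfl⟩ := X.mem_orbits.mp hO
        exact le_trans (by norm_num) (X.one_le_wt_orb hne hF hA hy)) (X.orb_mem_orbits hx)
    rw [X.sum_wt hF hA] at hle
    simp only [wt, Finset.disjoint_iff_inter_eq_empty.mp hd, Finset.card_empty] at hle
    omega
  · rw [Finset.not_disjoint_iff] at hd
    obtain ⟨y, hy, hyF⟩ := hd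
    obtain ⟨j, hj, rfl⟩ := X.mem_orb.mp hy
    refine ⟨F.image (j⁻¹ : Perm α), X.flat_image _ (inv_mem (X.J_le A hj)) F hF,
      Finset.insert_subset (Finset.mem_image.mpr ⟨j x, hyF, by simp⟩) fun a ha => ?_⟩
    exact Finset.mem_image.mpr ⟨a, hA ha, X.J_fix (inv_mem hj) (X.subset_cl A ha)⟩

/-- Multiple transitivity moves any set to any other set of the same size. -/
theorem exists_image_eq {m : ℕ} (htr : X.MultiTrans m) {A B : Finset α} (hA : A.card = m)
    (hB : B.card = m) : ∃ g ∈ X.G, A.image g = B := by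
  obtain ⟨g, hg, h⟩ := htr ((Finset.equivFinOfCardEq hA).symm.toEmbedding.trans
    (Function.Embedding.subtype _)) ((Finset.equivFinOfCardEq hB).symm.toEmbedding.trans
    (Function.Embedding.subtype _))
  refine ⟨g, hg, Finset.eq_of_subset_of_card_le ?_ ?_⟩
  · intro y hy
    obtain ⟨a, ha, rfl⟩ := Finset.mem_image.mp hy
    have := h (Finset.equivFinOfCardEq hA ⟨a, ha⟩)
    simp at this
    rw [this]; exact Finset.coe_mem _
  · rw [Finset.card_image_of_injective _ g.injective, hA, hB]

theorem multiTrans_one : X.MultiTrans 1 := fun u v => by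
  obtain ⟨g, hg, h⟩ := X.transitive (u 0) (v 0)
  exact ⟨g, hg, fun i => by rw [Subsingleton.elim i 0]; exact h⟩

theorem multiTrans_succ {m : ℕ} (htr : X.MultiTrans m) (horb : X.OrbitAt m) :
    X.MultiTrans (m + 1) := by
  intro u v
  obtain ⟨g, hg, h⟩ := htr (Fin.castSuccEmb.trans u) (Fin.castSuccEmb.trans v)
  let B : Finset α := Finset.univ.image (fun i : Fin m => v i.castSucc)
  have hB : B.card = m := by
    rw [Finset.card_image_of_injective _
      (fun a b hab => Fin.castSucc_injective m (v.injective hab))]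
    simp
  have h1 : g (u (Fin.last m)) ∉ B := by
    simp only [B, Finset.mem_image, not_exists, not_and]
    intro i _ hi
    have := h i
    simp at this
    rw [← this] at hi
    exact absurd (u.injective (g.injective hi)) (Fin.castSucc_lt_last i).ne
  have h2 : v (Fin.last m) ∉ B := by
    simp only [B, Finset.mem_image, not_exists, not_and]
    exact fun i _ hi => absurd (v.injective hi) (Fin.castSucc_lt_last i).ne
  obtain ⟨j, hj, hjx⟩ := horb B hB _ _ h1 h2
  refine ⟨j * g, mul_mem (X.J_le B hj) hg, fun i => ?_⟩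
  refine Fin.lastCases ?_ (fun i => ?_) i
  · simpa using hjx
  · have := h i
    simp at this
    simp only [Equiv.Perm.mul_apply, this]
    exact X.J_fix hj (X.subset_cl B (Finset.mem_image.mpr ⟨i, Finset.mem_univ _, rfl⟩))

end CfsgLib.Pronormal.Geom
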