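/-
Set-up for the transitivity step: the level hypothesis, own orbits, patterns, cells, lifts and the
group induced on a set of `m + 1` points.
-/
import Cfsg.Agent.Lib.Pronormal.Basic

set_option autoImplicit false
set_option linter.unusedSectionVars false

open Equiv Finset

namespace CfsgLib.Pronormal.Geom

variable {α : Type*} [Fintype α] [DecidableEq α] (X : Geom α)

/-- The hypothesis refuted by the transitivity step at level `m`. -/
structure Level (m : ℕ) : Prop where
  two_le : 2 ≤ m
  lt_r : m + 1 < X.r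
  covered : ∀ k, 1 ≤ k → k ≤ m + 1 → X.CoveredAt k
  closed : ∀ k, 1 ≤ k → k ≤ m → X.ClosedAt k
  orbit : X.OrbitAt (m - 1)
  trans : X.MultiTrans m
  not_orbit : ¬ X.OrbitAt m

/-- The orbit of `b` under the conjugates through `S - b`, with `b` removed. -/
noncomputable def own (S : Finset α) (b : α) : Finset α := (X.orb (S.erase b) b).erase b

/-- The points `b` of `S` whose own orbit holds `v`. -/
noncomputable def pat (S : Finset α) (v : α) : Finset α := S.filter fun b => v ∈ X.own S b

/-- The points off `cl S` with pattern `P`. -/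
noncomputable def cell (S P : Finset α) : Finset α :=
  (univ \ X.cl S).filter fun v => X.pat S v = P

/-- Every three-cycle on `S` is induced by an element of `G` fixing the other points of `Q`. -/
def HasLifts (S Q : Finset α) : Prop :=
  ∀ a ∈ S, ∀ b ∈ S, ∀ c ∈ S, a ≠ b → b ≠ c → c ≠ a →
    ∃ g ∈ X.G, g a = b ∧ g b = c ∧ g c = a ∧ ∀ v ∈ Q, v ≠ a → v ≠ b → v ≠ c → g v = v

/-- All patterns are single points, empty or everything; the single cells are orbits of weight
one and of equal size. -/
def Singles (S : Finset α) : Prop :=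
  (∀ v, v ∉ X.cl S → (X.pat S v).card = 1 ∨ X.pat S v = ∅ ∨ X.pat S v = S) ∧
  (∀ b ∈ S, ∀ F ∈ X.flats, S ⊆ F → wt (X.cell S {b}) F = 1) ∧
  (∀ b ∈ S, ∃ v ∈ X.cell S {b}, X.orb S v = X.cell S {b}) ∧
  (∀ b ∈ S, ∀ c ∈ S, (X.cell S {b}).card = (X.cell S {c}).card)

/-- All patterns are complements of single points, empty or everything; those cells are orbits of
weight one and of equal size. -/
def Cosingles (S : Finset α) : Prop :=
  (∀ v, v ∉ X.cl S → (X.pat S v).card + 1 = S.card ∨ X.pat S v = ∅ ∨ X.pat S v = S) ∧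
  (∀ b ∈ S, ∀ F ∈ X.flats, S ⊆ F → wt (X.cell S (S.erase b)) F = 1) ∧
  (∀ b ∈ S, ∃ v ∈ X.cell S (S.erase b), X.orb S v = X.cell S (S.erase b)) ∧
  (∀ b ∈ S, ∀ c ∈ S, (X.cell S (S.erase b)).card = (X.cell S (S.erase c)).card)

theorem own_image {g : Perm α} (hg : g ∈ X.G) (S : Finset α) (b : α) :
    X.own (S.image g) (g b) = (X.own S b).image g := by
  simp only [own, Finset.image_erase g.injective, X.orb_image hg]

theorem pat_image {g : Perm α} (hg : g ∈ X.G) (S : Finset α) (v : α) :
    X.pat (S.image g) (g v) = (X.pat S v).image g := by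
  ext y
  simp only [pat, Finset.mem_filter, Finset.mem_image]
  constructor
  · rintro ⟨⟨b, hb, rfl⟩, h⟩
    rw [X.own_image hg] at h
    exact ⟨b, ⟨hb, by simpa using h⟩, rfl⟩
  · rintro ⟨b, ⟨hb, h⟩, rfl⟩
    exact ⟨⟨b, hb, rfl⟩, by rw [X.own_image hg]; exact Finset.mem_image_of_mem g h⟩

theorem cell_image {g : Perm α} (hg : g ∈ X.G) (S P : Finset α) :
    X.cell (S.image g) (P.image g) = (X.cell S P).image g := by
  ext y
  simp only [cell, Finset.mem_filter, Finset.mem_image, Finset.mem_sdiff, Finset.mem_univ,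
    true_and, X.cl_image hg]
  constructor
  · rintro ⟨h1, h2⟩
    refine ⟨(g⁻¹ : Perm α) y, ⟨fun h => h1 ⟨_, h, by simp⟩, ?_⟩, by simp⟩
    have h3 := X.pat_image hg S ((g⁻¹ : Perm α) y)
    rw [Equiv.Perm.coe_inv, Equiv.apply_symm_apply, h2] at h3
    exact (Finset.image_injective g.injective h3.symm)
  · rintro ⟨v, ⟨h1, h2⟩, rfl⟩
    exact ⟨fun ⟨a, ha, hav⟩ => h1 (g.injective hav ▸ ha), by rw [X.pat_image hg, h2]⟩

namespace Level

variable {X} {m : ℕ} (h : X.Level m)

include h

theorem cl_eq {B : Finset α} (hB : B.card = m) : X.cl B = B :=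
  h.closed m (by have := h.two_le; omega) le_rfl B hB

theorem covered_succ {S : Finset α} (hS : S.card = m + 1) : X.Covered S :=
  h.covered (m + 1) (by omega) le_rfl S hS

theorem covered_m {B : Finset α} (hB : B.card = m) : X.Covered B :=
  h.covered m (by have := h.two_le; omega) (by omega) B hB

theorem nonempty {B : Finset α} (hB : B.card = m) : B.Nonempty := by
  rw [← Finset.card_pos, hB]; have := h.two_le; omega

theorem card_orbits_le {B : Finset α} (hB : B.card = m) : (X.orbits B).card ≤ m := by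
  obtain ⟨F, hF, hBF⟩ := h.covered_m hB
  have := X.card_orbits_le (h.nonempty hB) hF hBF
  rwa [h.cl_eq hB, hB] at this

/-- Every set of `m` points has two orbits. -/
theorem exists_other_orbit {B : Finset α} (hB : B.card = m) (x : α) :
    ∃ y, y ∉ B ∧ y ∉ X.orb B x := by
  by_contra hc
  push Not at hc
  apply h.not_orbit
  intro B' hB' y z hy hz
  obtain ⟨g, hg, rfl⟩ := X.exists_image_eq h.trans hB hB'
  have key : ∀ v, v ∉ B.image g → X.orb (B.image g) v = (X.orb B x).image g := fun v hv => by
    have h1 : (g⁻¹ : Perm α) v ∉ B := fun hh =>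
      hv (Finset.mem_image.mpr ⟨_, hh, by simp⟩)
    rw [← X.orb_eq_of_mem (hc _ h1), X.orb_image hg]
    simp
  have hzmem : z ∈ X.orb (B.image g) y := by
    rw [key y hy, ← key z hz]; exact X.self_mem_orb _ z
  exact X.mem_orb.mp hzmem

end Level

/-- The permutations of `S` induced by `G`. -/
def setGroup (S : Finset α) : Subgroup (Perm ↥S) where
  carrier := {σ | ∃ g ∈ X.G, ∀ z : ↥S, g z = σ z}
  one_mem' := ⟨1, one_mem _, fun _ => rfl⟩
  mul_mem' := by
    rintro σ τ ⟨g, hg, hσ⟩ ⟨k, hk, hτ⟩
    exact ⟨g * k, mul_mem hg hk, fun z => by simp [hτ, hσ]⟩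
  inv_mem' := by
    rintro σ ⟨g, hg, hσ⟩
    refine ⟨g⁻¹, inv_mem hg, fun z => ?_⟩
    have := hσ (σ⁻¹ z)
    simp at this
    rw [← this]; simp

theorem mem_setGroup {S : Finset α} {σ : Perm ↥S} :
    σ ∈ X.setGroup S ↔ ∃ g ∈ X.G, ∀ z : ↥S, g z = σ z := Iff.rfl

/-- The index of the induced group is at most the number of orbits of any set of `m` points whose
size is the size of some own orbit of `S`. -/
theorem index_setGroup_le {m : ℕ} (htr : X.MultiTrans m) {S B : Finset α} (hS : S.card = m + 1)
    (hB : B.card = m) (hclB : X.cl B = B) :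
    (X.setGroup S).index ≤ ((X.orbits B).filter
      fun O => ∃ b ∈ S, O.card = (X.orb (S.erase b) b).card).card := by
  let e : Fin (m + 1) ≃ ↥S := (Finset.equivFinOfCardEq hS).symm
  let u : Fin m ↪ α := (Finset.equivFinOfCardEq hB).symm.toEmbedding.trans
    (Function.Embedding.subtype _)
  have hu : Finset.univ.image u = B := by
    refine Finset.eq_of_subset_of_card_le ?_ ?_
    · intro y hy
      obtain ⟨i, -, rfl⟩ := Finset.mem_image.mp hy
      simp [u]
    · rw [Finset.card_image_of_injective _ u.injective, hB]; simp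
  have hex : ∀ σ : Perm ↥S, ∃ g ∈ X.G, ∀ i : Fin m, g (u i) = (σ (e i.castSucc) : α) := fun σ =>
    htr u (((Fin.castSuccEmb.trans e.toEmbedding).trans σ.toEmbedding).trans
      (Function.Embedding.subtype _))
  choose g hg hgu using hex
  let x : Perm ↥S → α := fun σ => ((g σ)⁻¹ : Perm α) (σ (e (Fin.last m)) : α)
  let O : Perm ↥S → Finset α := fun σ => X.orb B (x σ)
  have himg : ∀ σ, B.image (g σ) = S.erase (σ (e (Fin.last m)) : α) := by
    intro σ
    refine Finset.eq_of_subset_of_card_le ?_ ?_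
    · intro y hy
      rw [← hu, Finset.image_image] at hy
      obtain ⟨i, -, rfl⟩ := Finset.mem_image.mp hy
      simp only [Function.comp, hgu]
      refine Finset.mem_erase.mpr ⟨fun hh => ?_, Finset.coe_mem _⟩
      exact absurd (e.injective (σ.injective (Subtype.ext hh))) (Fin.castSucc_lt_last i).ne
    · rw [Finset.card_image_of_injective _ (g σ).injective, hB,
        Finset.card_erase_of_mem (Finset.coe_mem _), hS]
      omega
  have hx : ∀ σ, x σ ∉ B := fun σ hh => by
    have := Finset.mem_image_of_mem (g σ) hh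
    rw [himg] at this
    simp [x] at this
  have hmem : ∀ σ, O σ ∈ (X.orbits B).filter
      fun O' => ∃ b ∈ S, O'.card = (X.orb (S.erase b) b).card := by
    intro σ
    refine Finset.mem_filter.mpr
      ⟨X.orb_mem_orbits (by rw [hclB]; exact hx σ), _, Finset.coe_mem (σ (e (Fin.last m))), ?_⟩
    have h1 := X.orb_image (hg σ) B (x σ)
    rw [himg] at h1
    simp only [x, Equiv.Perm.coe_inv, Equiv.apply_symm_apply] at h1
    simp only [O, x, Equiv.Perm.coe_inv]
    rw [← h1, Finset.card_image_of_injective _ (g σ).injective]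
  have hkey : ∀ σ τ, O σ = O τ → τ * σ⁻¹ ∈ X.setGroup S := by
    intro σ τ hO
    have h1 : x τ ∈ X.orb B (x σ) := by
      show x τ ∈ O σ
      rw [hO]; exact X.self_mem_orb B (x τ)
    obtain ⟨j, hj, hjx⟩ := X.mem_orb.mp h1
    refine X.mem_setGroup.mpr ⟨g τ * j * (g σ)⁻¹,
      mul_mem (mul_mem (hg τ) (X.J_le B hj)) (inv_mem (hg σ)), fun z => ?_⟩
    obtain ⟨i, rfl⟩ := (e.trans σ).surjective z
    refine Fin.lastCases ?_ (fun i => ?_) i
    · simp only [x, Equiv.Perm.coe_inv] at hjx
      simp [hjx]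
    · have h2 : j (u i) = u i := X.J_fix hj (by
        rw [hclB, ← hu]; exact Finset.mem_image.mpr ⟨i, Finset.mem_univ _, rfl⟩)
      have h3 : ((g σ)⁻¹ : Perm α) (σ (e i.castSucc) : α) = u i := by rw [← hgu σ i]; simp
      simp only [Equiv.trans_apply, Equiv.Perm.mul_apply, h3, h2, hgu τ i]
      simp
  let φ : Perm ↥S ⧸ X.setGroup S → Finset α := fun q => O q.out⁻¹
  have hinj : Function.Injective φ := by
    intro p q hpq
    have := hkey _ _ hpq
    rw [inv_inv] at this
    rw [← Quotient.out_eq p, ← Quotient.out_eq q]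
    exact (QuotientGroup.eq.mpr this).symm
  have := Fintype.ofFinite (Perm ↥S ⧸ X.setGroup S)
  rw [Subgroup.index, Nat.card_eq_fintype_card, ← Finset.card_univ]
  exact Finset.card_le_card_of_injOn φ (fun q _ => hmem _) (fun p _ q _ h => hinj h)

theorem Level.index_setGroup_lt {m : ℕ} (h : X.Level m) {S : Finset α} (hS : S.card = m + 1) :
    (X.setGroup S).index < Fintype.card ↥S := by
  obtain ⟨B, hBS, hB⟩ := Finset.exists_subset_card_eq (s := S) (n := m) (by omega)
  have h1 := X.index_setGroup_le h.trans hS hB (h.cl_eq hB)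
  have h2 := Finset.card_filter_le (X.orbits B)
    (fun O => ∃ b ∈ S, O.card = (X.orb (S.erase b) b).card)
  have h3 := h.card_orbits_le hB
  simp only [Fintype.card_coe, hS]; omega

end CfsgLib.Pronormal.Geom

namespace CfsgLib.Pronormal.Geom

variable {α : Type*} [Fintype α] [DecidableEq α] (X : Geom α)

/-- All subsets of `cl S` of the size of `S` have the closure of `S`. -/
def Exch (S : Finset α) : Prop :=
  ∀ A, A ⊆ X.cl S → A.card = S.card → X.cl A = X.cl S

/-- No set of `m + 1` points is closed. -/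
def NoClosed (m : ℕ) : Prop := ∀ S : Finset α, S.card = m + 1 → X.cl S ≠ S

end CfsgLib.Pronormal.Geom
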