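/-
The lines lemma: below a level where some set of `m` points has two orbits, no proper set off a set
`D` of `m - 1` points is preserved by all `J (insert p D)`, `p` in it; so own orbits differ.
-/
import Cfsg.Agent.Lib.Pronormal.Setup

set_option autoImplicit false
set_option linter.unusedSectionVars false

open Equiv Finset

namespace CfsgLib.Pronormal.Geom

variable {α : Type*} [Fintype α] [DecidableEq α] {X : Geom α} {m : ℕ}

/-- No proper set off `D` is preserved by all conjugates through `D` and one of its points. -/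
theorem Level.false_of_invariant (h : X.Level m) {D E : Finset α} (hD : D.card + 1 = m)
    (hdis : Disjoint E D) (h2 : 2 ≤ E.card) (hne : E ≠ Finset.univ \ D)
    (hinv : ∀ p ∈ E, ∀ j ∈ X.J (insert p D), E.image j = E) : False := by
  classical
  have hm2 := h.two_le
  have hclD : X.cl D = D := h.closed (m - 1) (by omega) (by omega) D (by omega)
  have hDne : D.Nonempty := Finset.card_pos.mp (by omega)
  -- the sets with the property, and one of least size
  let Good : Finset α → Prop := fun T => Disjoint T D ∧ 2 ≤ T.card ∧ T ≠ Finset.univ \ D ∧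
    ∀ p ∈ T, ∀ j ∈ X.J (insert p D), T.image j = T
  obtain ⟨T, hT, hmin⟩ : ∃ T, Good T ∧ ∀ T', Good T' → T.card ≤ T'.card := by
    obtain ⟨T, hT, hmin⟩ := Finset.exists_min_image (univ.filter Good) Finset.card
      ⟨E, Finset.mem_filter.mpr ⟨Finset.mem_univ _, hdis, h2, hne, hinv⟩⟩
    exact ⟨T, (Finset.mem_filter.mp hT).2,
      fun T' hT' => hmin T' (Finset.mem_filter.mpr ⟨Finset.mem_univ _, hT'⟩)⟩
  -- translates under `J D`
  have hfixD : ∀ g ∈ X.J D, ∀ d ∈ D, g d = d := fun g hg d hd => X.J_fix hg (X.subset_cl D hd)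
  have hDimg : ∀ g ∈ X.J D, D.image g = D := fun g hg => by
    conv_rhs => rw [← Finset.image_id (s := D)]
    exact Finset.image_congr fun d hd => hfixD g hg d hd
  have hsub : ∀ U : Finset α, Disjoint U D → U ⊆ univ \ D := fun U hU x hx =>
    Finset.mem_sdiff.mpr ⟨Finset.mem_univ _, Finset.disjoint_left.mp hU hx⟩
  have hgood : ∀ g ∈ X.J D, Good (T.image g) := by
    intro g hg
    have hdisj : Disjoint (T.image g) D := by
      rw [← hDimg g hg]; exact (Finset.disjoint_image g.injective).mpr hT.1
    refine ⟨hdisj, by rw [Finset.card_image_of_injective _ g.injective]; exact hT.2.1, ?_, ?_⟩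
    · intro he
      have hc : T.card = (univ \ D).card := by
        rw [← he, Finset.card_image_of_injective _ g.injective]
      exact hT.2.2.1 (Finset.eq_of_subset_of_card_le (hsub T hT.1) hc.ge)
    · intro p hp j hj
      obtain ⟨q, hq, rfl⟩ := Finset.mem_image.mp hp
      have hc := X.J_conj_mem (inv_mem (X.J_le D hg)) hj
      rw [inv_inv, Finset.image_insert, hDimg _ (inv_mem hg)] at hc
      simp only [Equiv.Perm.coe_inv, Equiv.symm_apply_apply] at hc
      have h1 := congrArg (Finset.image g) (hT.2.2.2 q hq _ hc)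
      rw [Finset.image_image] at h1
      rw [Finset.image_image]
      refine Eq.trans (Finset.image_congr fun x _ => ?_) h1
      simp
  -- the lines
  let lines : Finset (Finset α) := univ.filter fun L => ∃ g ∈ X.J D, T.image g = L
  have hline : ∀ L, L ∈ lines ↔ ∃ g ∈ X.J D, T.image g = L := fun L => by simp [lines]
  have hTline : T ∈ lines := (hline T).mpr ⟨1, one_mem _, by simp⟩
  have hLgood : ∀ L ∈ lines, Good L ∧ L.card = T.card := by
    intro L hL
    obtain ⟨g, hg, rfl⟩ := (hline L).mp hL
    exact ⟨hgood g hg, Finset.card_image_of_injective _ g.injective⟩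
  have hmeet : ∀ L ∈ lines, ∀ L' ∈ lines, 2 ≤ (L ∩ L').card → L = L' := by
    intro L hL L' hL' h22
    obtain ⟨⟨hd, -, hp, hi⟩, hc⟩ := hLgood L hL
    obtain ⟨⟨-, -, -, hi'⟩, hc'⟩ := hLgood L' hL'
    have hG : Good (L ∩ L') := by
      refine ⟨Finset.disjoint_of_subset_left Finset.inter_subset_left hd, h22, fun he => hp ?_, ?_⟩
      · exact Finset.Subset.antisymm (hsub L hd) (he ▸ Finset.inter_subset_left)
      · intro p hp j hj
        rw [Finset.image_inter _ _ j.injective, hi p (Finset.mem_inter.mp hp).1 j hj,
          hi' p (Finset.mem_inter.mp hp).2 j hj]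
    have hle := hmin _ hG
    have e1 : L ∩ L' = L := Finset.eq_of_subset_of_card_le Finset.inter_subset_left (by omega)
    have e2 : L ∩ L' = L' := Finset.eq_of_subset_of_card_le Finset.inter_subset_right (by omega)
    exact e1.symm.trans e2
  -- the number of lines through a point
  let through : α → Finset (Finset α) := fun y => lines.filter fun L => y ∈ L
  obtain ⟨p₀, hp₀⟩ : T.Nonempty := Finset.card_pos.mp (by have := hT.2.1; omega)
  have hp₀D : p₀ ∉ D := Finset.disjoint_left.mp hT.1 hp₀
  have hle : ∀ y z, y ∉ D → z ∉ D → (through y).card ≤ (through z).card := by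
    intro y z hy hz
    obtain ⟨g, hg, rfl⟩ := h.orbit D (by omega) y z hy hz
    refine Finset.card_le_card_of_injOn (fun L => L.image g) (fun L hL => ?_)
      (fun a _ b _ hab => Finset.image_injective g.injective hab)
    obtain ⟨hL1, hL2⟩ := Finset.mem_filter.mp hL
    obtain ⟨k, hk, rfl⟩ := (hline L).mp hL1
    refine Finset.mem_filter.mpr ⟨(hline _).mpr ⟨g * k, mul_mem hg hk, ?_⟩,
      Finset.mem_image_of_mem g hL2⟩
    show _ = Finset.image g (Finset.image k T)
    rw [Finset.image_image]
    exact Finset.image_congr fun x _ => by simp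
  set τ := (through p₀).card with hτ
  have hτeq : ∀ y, y ∉ D → (through y).card = τ := fun y hy =>
    le_antisymm (hle y p₀ hy hp₀D) (hle p₀ y hp₀D hy)
  have hτ1 : 1 ≤ τ := Finset.card_pos.mpr ⟨T, Finset.mem_filter.mpr ⟨hTline, hp₀⟩⟩
  -- every flat through `D` preserves every line
  have hflat : ∀ F ∈ X.flats, D ⊆ F → ∀ L ∈ lines, ∀ k ∈ X.P F, L.image k = L := by
    intro F hF hDF
    let M := lines.filter fun L => ¬ Disjoint L F
    have hM : ∀ L ∈ M, ∀ k ∈ X.P F, L.image k = L := by
      intro L hL k hk
      obtain ⟨hL1, hL2⟩ := Finset.mem_filter.mp hL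
      obtain ⟨p, hp, hpF⟩ := Finset.not_disjoint_iff.mp hL2
      exact (hLgood L hL1).1.2.2.2 p hp k (X.P_le_J hF (Finset.insert_subset hpF hDF) hk)
    have hbig : ∀ L ∈ M, X.r ≤ (L \ F).card ∧ (L ∩ F).card ≤ (L \ F).card := by
      intro L hL
      obtain ⟨hL1, hL2⟩ := Finset.mem_filter.mp hL
      obtain ⟨p, hp, hpF⟩ := Finset.not_disjoint_iff.mp hL2
      obtain ⟨⟨hd, h2', -, hi⟩, -⟩ := hLgood L hL1
      have hA : (insert p D).card = m := by
        rw [Finset.card_insert_of_notMem (Finset.disjoint_left.mp hd hp)]; exact hD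
      have hcl := h.cl_eq hA
      have hdis' : Disjoint (L.erase p) (X.cl (insert p D)) := by
        rw [hcl, Finset.disjoint_left]
        intro x hx hx'
        obtain ⟨hxp, hxL⟩ := Finset.mem_erase.mp hx
        rcases Finset.mem_insert.mp hx' with e | e
        · exact hxp e
        · exact Finset.disjoint_left.mp hd hxL e
      have hTinv : ∀ j ∈ X.J (insert p D), (L.erase p).image j = L.erase p := by
        intro j hj
        rw [Finset.image_erase j.injective, hi p hp j hj,
          X.J_fix hj (X.subset_cl _ (Finset.mem_insert_self p D))]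
      obtain ⟨y, hy⟩ : (L.erase p).Nonempty := by
        rw [← Finset.card_pos, Finset.card_erase_of_mem hp]; omega
      have hycl : y ∉ X.cl (insert p D) := Finset.disjoint_left.mp hdis' hy
      have hAF : insert p D ⊆ F := Finset.insert_subset hpF hDF
      have horb : X.orb (insert p D) y ⊆ L.erase p := fun z hz => by
        obtain ⟨j, hj, rfl⟩ := X.mem_orb.mp hz
        rw [← hTinv j hj]; exact Finset.mem_image_of_mem _ hy
      constructor
      · exact (X.r_le_card_sdiff (Finset.insert_nonempty _ _) hF hAF hycl).trans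
          (Finset.card_le_card (Finset.sdiff_subset_sdiff (horb.trans (Finset.erase_subset _ _))
            (subset_refl F)))
      · have hpos : 1 ≤ wt (L.erase p) F := by
          rw [X.wt_eq_sum hdis' hTinv]
          refine le_trans (X.one_le_wt_orb (Finset.insert_nonempty _ _) hF hAF hycl)
            (Finset.single_le_sum (f := fun O => wt O F) (fun O hO => ?_)
              (Finset.mem_filter.mpr ⟨X.orb_mem_orbits hycl, horb⟩))
          obtain ⟨x, hx, rfl⟩ := X.mem_orbits.mp (Finset.mem_filter.mp hO).1
          exact le_trans (by norm_num) (X.one_le_wt_orb (Finset.insert_nonempty _ _) hF hAF hx)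
        have e1 : (L.erase p ∩ F).card + 1 = (L ∩ F).card := by
          rw [Finset.erase_inter, Finset.card_erase_add_one (Finset.mem_inter.mpr ⟨hp, hpF⟩)]
        have e2 : (L.erase p).card + 1 = L.card := Finset.card_erase_add_one hp
        have e3 := Finset.card_sdiff_add_card_inter L F
        simp only [wt] at hpos
        omega
    have hdisj : (↑M : Set (Finset α)).PairwiseDisjoint (fun L => L \ F) := by
      intro L hL L' hL' hne
      refine Finset.disjoint_left.mpr fun a ha ha' => hne ?_
      obtain ⟨haL, haF⟩ := Finset.mem_sdiff.mp ha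
      obtain ⟨k, hk, hka⟩ := X.P_moves F hF a haF
      have hmem : ∀ {L'' : Finset α}, L'' ∈ M → a ∈ L'' → k a ∈ L'' := fun {L''} hL'' h' => by
        rw [← hM L'' hL'' k hk]; exact Finset.mem_image_of_mem k h'
      refine hmeet L (Finset.mem_filter.mp hL).1 L' (Finset.mem_filter.mp hL').1
        (le_trans ?_ (Finset.card_le_card (s := {a, k a}) ?_))
      · rw [Finset.card_pair (Ne.symm hka)]
      · intro z hz
        rcases Finset.mem_insert.mp hz with rfl | hz
        · exact Finset.mem_inter.mpr ⟨haL, (Finset.mem_sdiff.mp ha').1⟩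
        · rw [Finset.mem_singleton.mp hz]
          exact Finset.mem_inter.mpr ⟨hmem hL haL, hmem hL' (Finset.mem_sdiff.mp ha').1⟩
    have hout : (univ \ F).card = X.f := by
      rw [Finset.card_univ_sdiff, X.card_univ_eq, X.flat_card F hF]; omega
    have hoff : ∑ L ∈ M, (L \ F).card ≤ X.f := by
      rw [← Finset.card_biUnion hdisj, ← hout]
      exact Finset.card_le_card fun x hx => by
        obtain ⟨L, -, hxL⟩ := Finset.mem_biUnion.mp hx
        exact Finset.mem_sdiff.mpr ⟨Finset.mem_univ _, (Finset.mem_sdiff.mp hxL).2⟩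
    have hon : ∑ L ∈ M, (L ∩ F).card = τ * (X.f - D.card) := by
      have e : ∀ L ∈ M, (L ∩ F).card = (Finset.bipartiteAbove (fun L x => x ∈ L) (F \ D) L).card := by
        intro L hL
        congr 1
        ext x
        simp only [Finset.mem_inter, Finset.mem_bipartiteAbove, Finset.mem_sdiff]
        exact ⟨fun ⟨a, b⟩ => ⟨⟨b, Finset.disjoint_left.mp
          (hLgood L (Finset.mem_filter.mp hL).1).1.1 a⟩, a⟩, fun ⟨⟨a, _⟩, b⟩ => ⟨b, a⟩⟩
      rw [Finset.sum_congr rfl e, Finset.sum_card_bipartiteAbove_eq_sum_card_bipartiteBelow]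
      have e' : ∀ x ∈ F \ D, (Finset.bipartiteBelow (fun L x => x ∈ L) M x).card = τ := by
        intro x hx
        obtain ⟨hxF, hxD⟩ := Finset.mem_sdiff.mp hx
        rw [← hτeq x hxD]
        congr 1
        ext L
        simp only [Finset.mem_bipartiteBelow, M, through, Finset.mem_filter]
        exact ⟨fun ⟨⟨a, _⟩, c⟩ => ⟨a, c⟩,
          fun ⟨a, c⟩ => ⟨⟨a, Finset.not_disjoint_iff.mpr ⟨x, c, hxF⟩⟩, c⟩⟩
      rw [Finset.sum_congr rfl e', Finset.sum_const, smul_eq_mul, mul_comm,
        Finset.card_sdiff_of_subset hDF, X.flat_card F hF]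
    -- there are many points
    have hm : ∃ x ∈ univ \ D, x ∈ F := by
      have hlt : D.card < F.card := by
        obtain ⟨F', hF', O, hOc, hOd, -⟩ := X.r_attained
        have hO : O.card ≤ (univ \ F').card := Finset.card_le_card fun z hz =>
          Finset.mem_sdiff.mpr ⟨Finset.mem_univ _, Finset.disjoint_left.mp hOd hz⟩
        rw [Finset.card_univ_sdiff, X.card_univ_eq, X.flat_card F' hF', hOc] at hO
        rw [X.flat_card F hF]
        have := h.lt_r
        omega
      obtain ⟨x, hxF, hxD⟩ := Finset.exists_mem_notMem_of_card_lt_card hlt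
      exact ⟨x, Finset.mem_sdiff.mpr ⟨Finset.mem_univ _, hxD⟩, hxF⟩
    obtain ⟨x, hx, hxF⟩ := hm
    have hxD := (Finset.mem_sdiff.mp hx).2
    have hB : (insert x D).card = m := by rw [Finset.card_insert_of_notMem hxD]; exact hD
    have hBF : insert x D ⊆ F := Finset.insert_subset hxF hDF
    have hf2 : 2 * X.r ≤ X.f := by
      obtain ⟨y, hy, -⟩ := h.exists_other_orbit hB x
      obtain ⟨z, hz, hzy⟩ := h.exists_other_orbit hB y
      have hycl : y ∉ X.cl (insert x D) := by rw [h.cl_eq hB]; exact hy
      have hzcl : z ∉ X.cl (insert x D) := by rw [h.cl_eq hB]; exact hz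
      have h1 := X.r_le_card_sdiff (Finset.insert_nonempty _ _) hF hBF hycl
      have h2 := X.r_le_card_sdiff (Finset.insert_nonempty _ _) hF hBF hzcl
      have hd2 : Disjoint (X.orb (insert x D) y \ F) (X.orb (insert x D) z \ F) := by
        refine Finset.disjoint_left.mpr fun v hv hv' => hzy ?_
        rw [← X.orb_eq_of_mem (Finset.mem_sdiff.mp hv).1,
          X.orb_eq_of_mem (Finset.mem_sdiff.mp hv').1]
        exact X.self_mem_orb _ z
      have h3 := Finset.card_le_card (Finset.union_subset
        (Finset.sdiff_subset_sdiff (Finset.subset_univ (X.orb (insert x D) y)) (subset_refl F))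
        (Finset.sdiff_subset_sdiff (Finset.subset_univ (X.orb (insert x D) z)) (subset_refl F)))
      rw [Finset.card_union_of_disjoint hd2, hout] at h3
      omega
    have hle2 : ∑ L ∈ M, (L ∩ F).card ≤ ∑ L ∈ M, (L \ F).card :=
      Finset.sum_le_sum fun L hL => (hbig L hL).2
    rw [hon] at hle2
    have hlt := h.lt_r
    have hτ' : τ = 1 := by
      by_contra hne1
      have h2τ : 2 * (X.f - D.card) ≤ τ * (X.f - D.card) := Nat.mul_le_mul_right _ (by omega)
      omega
    rw [hτ', one_mul] at hle2
    intro L hL
    by_cases hLF : Disjoint L F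
    · exfalso
      obtain ⟨L₁, hL₁, hx1⟩ : ∃ L₁ ∈ M, x ∈ L₁ := by
        have : 0 < (through x).card := by rw [hτeq x hxD]; omega
        obtain ⟨L₁, hL₁⟩ := Finset.card_pos.mp this
        obtain ⟨a, b⟩ := Finset.mem_filter.mp hL₁
        exact ⟨L₁, Finset.mem_filter.mpr ⟨a, Finset.not_disjoint_iff.mpr ⟨x, b, hxF⟩⟩, b⟩
      have hcard : X.r ≤ L.card := by
        rw [(hLgood L hL).2, ← (hLgood L₁ (Finset.mem_filter.mp hL₁).1).2]
        exact (hbig L₁ hL₁).1.trans (Finset.card_le_card Finset.sdiff_subset)
      have hLd : ∀ L' ∈ M, Disjoint L (L' \ F) := by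
        intro L' hL'
        refine Finset.disjoint_left.mpr fun v hv hv' => ?_
        have hvD : v ∉ D := Finset.disjoint_left.mp (hLgood L hL).1.1 hv
        have e : L = L' := Finset.card_le_one.mp (by rw [hτeq v hvD, hτ'])
          L (Finset.mem_filter.mpr ⟨hL, hv⟩) L'
          (Finset.mem_filter.mpr ⟨(Finset.mem_filter.mp hL').1, (Finset.mem_sdiff.mp hv').1⟩)
        exact (Finset.mem_filter.mp hL').2 (e ▸ hLF)
      have hsum : L.card + ∑ L' ∈ M, (L' \ F).card ≤ X.f := by
        rw [← Finset.card_biUnion hdisj, ← Finset.card_union_of_disjoint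
          ((Finset.disjoint_biUnion_right _ _ _).mpr hLd), ← hout]
        refine Finset.card_le_card (Finset.union_subset (fun v hv => ?_) ?_)
        · exact Finset.mem_sdiff.mpr ⟨Finset.mem_univ _, Finset.disjoint_left.mp hLF hv⟩
        · exact fun v hv => by
            obtain ⟨L', -, hvL⟩ := Finset.mem_biUnion.mp hv
            exact Finset.mem_sdiff.mpr ⟨Finset.mem_univ _, (Finset.mem_sdiff.mp hvL).2⟩
      omega
    · exact hM L (Finset.mem_filter.mpr ⟨hL, hLF⟩)
  -- so `J D` preserves `T`, which is then everything off `D`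
  let St : Subgroup (Perm α) :=
    { carrier := {g | T.image g = T}
      one_mem' := by simp
      mul_mem' := fun {a b} ha hb => by
        show T.image ⇑(a * b) = T
        rw [Equiv.Perm.coe_mul, ← Finset.image_image, hb, ha]
      inv_mem' := fun {a} ha => by
        show T.image ⇑(a⁻¹) = T
        conv_lhs => rw [← ha]
        exact image_inv_image a T }
  have hSt : X.J D ≤ St := X.J_le_iff.mpr fun F hF hDF k hk => hflat F hF hDF T hTline k hk
  refine hT.2.2.1 (Finset.Subset.antisymm (hsub T hT.1) fun y hy => ?_)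
  obtain ⟨g, hg, rfl⟩ := h.orbit D (by omega) p₀ y hp₀D (Finset.mem_sdiff.mp hy).2
  have e : T.image g = T := hSt hg
  rw [← e]
  exact Finset.mem_image_of_mem g hp₀

/-- Different points of a set of `m + 1` points have different own orbits. -/
theorem Level.false_of_own_eq (h : X.Level m) {S : Finset α} (hS : S.card = m + 1) {b c : α}
    (hb : b ∈ S) (hc : c ∈ S) (hbc : b ≠ c) (he : X.own S b = X.own S c) : False := by
  have hm2 := h.two_le
  set B := S.erase c with hBdef
  have hB : B.card = m := by rw [hBdef, Finset.card_erase_of_mem hc, hS]; omega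
  have hbB : b ∈ B := Finset.mem_erase.mpr ⟨hbc, hb⟩
  set D := B.erase b with hDdef
  have hD : D.card + 1 = m := by rw [hDdef, Finset.card_erase_add_one hbB, hB]
  have hclB := h.cl_eq hB
  have hcB : c ∉ X.cl B := by rw [hclB]; exact Finset.notMem_erase c S
  set O := X.orb B c with hO
  have hOB : Disjoint O B := by
    have := X.disjoint_orb_cl hcB
    rwa [hclB] at this
  have hbO : b ∉ O := fun hbO => Finset.disjoint_left.mp hOB hbO hbB
  have hins : insert b D = B := Finset.insert_erase hbB
  have hSb : S.erase b = insert c D := by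
    rw [hDdef, hBdef, Finset.erase_right_comm, Finset.insert_erase
      (Finset.mem_erase.mpr ⟨Ne.symm hbc, hc⟩)]
  refine h.false_of_invariant (D := D) (E := insert b O) hD ?_ ?_ ?_ ?_
  · refine Finset.disjoint_insert_left.mpr ⟨Finset.notMem_erase b B, ?_⟩
    exact Finset.disjoint_of_subset_right (Finset.erase_subset _ _) hOB
  · rw [Finset.card_insert_of_notMem hbO]
    have : 0 < O.card := Finset.card_pos.mpr ⟨c, X.self_mem_orb B c⟩
    omega
  · intro e
    obtain ⟨y, hy, hyO⟩ := h.exists_other_orbit hB c
    have hmem : y ∈ insert b O := by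
      rw [e]
      exact Finset.mem_sdiff.mpr ⟨Finset.mem_univ _, fun hyD => hy (Finset.mem_of_mem_erase hyD)⟩
    rcases Finset.mem_insert.mp hmem with rfl | hmem
    · exact hy hbB
    · exact hyO hmem
  · intro p hp j hj
    rcases Finset.mem_insert.mp hp with rfl | hp
    · rw [hins] at hj
      rw [Finset.image_insert, X.J_fix hj (X.subset_cl B hbB), hO, X.image_orb hj]
    · obtain ⟨g, hg, rfl⟩ := X.mem_orb.mp hp
      have hgfix : ∀ d ∈ B, g d = d := fun d hd => X.J_fix hg (X.subset_cl B hd)
      have hgD : D.image g = D := by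
        conv_rhs => rw [← Finset.image_id (s := D)]
        exact Finset.image_congr fun d hd => hgfix d (Finset.mem_of_mem_erase hd)
      have h1 : (X.own S b).image g = (X.own S c).image g := by rw [he]
      simp only [own, ← hBdef, ← hO, hSb, Finset.image_erase g.injective,
        X.orb_image (X.J_le B hg), Finset.image_insert, hgD, hgfix b hbB] at h1
      rw [show O.image g = O from X.image_orb hg] at h1
      -- `h1 : (orb (insert (g c) D) b).erase b = O.erase (g c)`
      have hEeq : insert b O = insert (g c) (X.orb (insert (g c) D) b) := by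
        ext v
        have h2 := Finset.ext_iff.mp h1 v
        simp only [Finset.mem_erase] at h2
        simp only [Finset.mem_insert]
        have hgcO : g c ∈ O := hp
        have hbo : b ∈ X.orb (insert (g c) D) b := X.self_mem_orb _ _
        constructor
        · rintro (rfl | hv)
          · exact Or.inr hbo
          · by_cases hvy : v = g c
            · exact Or.inl hvy
            · exact Or.inr (h2.mpr ⟨hvy, hv⟩).2
        · rintro (rfl | hv)
          · exact Or.inr hgcO
          · by_cases hvb : v = b
            · exact Or.inl hvb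
            · exact Or.inr (h2.mp ⟨hvb, hv⟩).2
      rw [hEeq, Finset.image_insert, X.image_orb hj,
        X.J_fix hj (X.subset_cl _ (Finset.mem_insert_self (g c) D))]

end CfsgLib.Pronormal.Geom
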