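import Mathlib

/-!
Subgroups of small index in symmetric groups, lifts of alternating groups and small invariant
families of subsets.
-/

set_option autoImplicit false
set_option linter.unusedSectionVars false

namespace CfsgLib.Pronormal

open Equiv

variable {β : Type*} [Fintype β] [DecidableEq β]

/-- A subgroup of index less than the degree is transitive. -/
theorem transitive_of_index_lt (H : Subgroup (Equiv.Perm β)) (h : H.index < Fintype.card β) :
    ∀ a b : β, ∃ g ∈ H, g a = b := by
  classical
  intro a b
  by_contra hab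
  push Not at hab
  set O : Finset β := Finset.univ.filter fun x => ∃ g ∈ H, g a = x with hO
  have haO : a ∈ O := by simpa [hO] using ⟨1, H.one_mem, rfl⟩
  have hbO : b ∉ O := by simpa [hO] using hab
  have hinv : ∀ g ∈ H, O.image g = O := fun g hg => Finset.eq_of_subset_of_card_le (by
      intro x hx
      obtain ⟨y, hy, rfl⟩ := Finset.mem_image.1 hx
      simp only [hO, Finset.mem_filter, Finset.mem_univ, true_and] at hy ⊢
      obtain ⟨k, hk, rfl⟩ := hy
      exact ⟨g * k, H.mul_mem hg hk, rfl⟩)
    (by rw [Finset.card_image_of_injective _ g.injective])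
  let w : β → Equiv.Perm β := fun c =>
    if c = a then 1 else if c ∈ O then Equiv.swap b c else Equiv.swap a c
  have himg : ∀ c, ∀ x, x ∈ O.image (w c) ↔ (w c)⁻¹ x ∈ O := fun c x => by
    constructor
    · intro hx
      obtain ⟨y, hy, rfl⟩ := Finset.mem_image.1 hx
      simpa using hy
    · exact fun hx => Finset.mem_image.2 ⟨_, hx, by simp⟩
  have hinj : Function.Injective fun c => (QuotientGroup.mk (w c) : Equiv.Perm β ⧸ H) := by
    intro c d hcd
    have hm := QuotientGroup.eq.1 hcd
    have he : O.image (w c) = O.image (w d) := by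
      conv_lhs => rw [← hinv _ hm, Finset.image_image]
      simp [Function.comp_def]
    have key : ∀ c d : β, O.image (w c) = O.image (w d) → c ≠ a → c = d := by
      intro c d he hc
      by_contra hne
      have h1 := himg c c
      have h2 := himg d c
      rw [he] at h1
      have h3 := h1.symm.trans h2
      by_cases hcO : c ∈ O
      · have hl : (w c)⁻¹ c ∉ O := by simp [w, hc, hcO, hbO]
        refine hl (h3.2 ?_)
        by_cases hd : d = a
        · simp [w, hd, hcO]
        · by_cases hdO : d ∈ O
          · rcases eq_or_ne c b with rfl | hcb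
            · exact absurd hcO hbO
            · simp [w, hd, hdO, Equiv.swap_apply_of_ne_of_ne hcb hne, hcO]
          · simp [w, hd, hdO, Equiv.swap_apply_of_ne_of_ne hc hne, hcO]
      · have hl : (w c)⁻¹ c ∈ O := by simp [w, hc, hcO, haO]
        refine absurd (h3.1 hl) ?_
        by_cases hd : d = a
        · simp [w, hd, hcO]
        · by_cases hdO : d ∈ O
          · rcases eq_or_ne c b with rfl | hcb
            · -- both reach the moved point: look at `a`
              intro _
              have h4 := himg c a
              have h5 := himg d a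
              rw [he] at h4
              have h6 := h4.symm.trans h5
              have hda : a ≠ d := Ne.symm hd
              have hab' : a ≠ c := fun e => hcO (e ▸ haO)
              simp [w, hd, hdO, hc, hcO, Equiv.swap_apply_of_ne_of_ne hab' hda, haO] at h6
            · simp [w, hd, hdO, Equiv.swap_apply_of_ne_of_ne hcb hne, hcO]
          · simp [w, hd, hdO, Equiv.swap_apply_of_ne_of_ne hc hne, hcO]
    by_cases hc : c = a
    · by_cases hd : d = a
      · exact hc.trans hd.symm
      · exact (key d c he.symm hd).symm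
    · exact key c d he hc
  have := Nat.card_le_card_of_injective _ hinj
  rw [Nat.card_eq_fintype_card, ← Subgroup.index_eq_card] at this
  omega

/-- A subgroup of index less than the degree contains the alternating group. -/
theorem alternating_le_of_index_lt (H : Subgroup (Equiv.Perm β)) (h5 : 5 ≤ Fintype.card β)
    (h : H.index < Fintype.card β) : alternatingGroup β ≤ H := by
  classical
  refine le_trans ?_ H.normalCore_le
  refine Equiv.Perm.alternatingGroup_le_of_normal (by rwa [Nat.card_eq_fintype_card]) ?_
  rw [Subgroup.nontrivial_iff_ne_bot]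
  intro hbot
  have h1 : H.normalCore.index ∣ H.index.factorial := by
    rw [Subgroup.normalCore_eq_ker, Subgroup.index_ker, Subgroup.index_eq_card, ← Nat.card_perm]
    exact Subgroup.card_subgroup_dvd_card _
  rw [hbot, Subgroup.index_bot, Nat.card_perm, Nat.card_eq_fintype_card] at h1
  have h2 := Nat.le_of_dvd (Nat.factorial_pos _) h1
  have h3 : H.index ≠ 0 := Subgroup.index_ne_zero_of_finite
  exact absurd h2 (not_le.2 ((Nat.factorial_lt (Nat.pos_of_ne_zero h3)).2 h))

/-- The alternating group lifts to the first factor. -/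
theorem alternating_lift {ε : Type*} [Fintype ε] [DecidableEq ε]
    (H : Subgroup (Equiv.Perm β × Equiv.Perm ε)) (h5 : 5 ≤ Fintype.card β)
    (he : Fintype.card ε + 2 ≤ Fintype.card β)
    (hp : alternatingGroup β ≤ H.map (MonoidHom.fst _ _)) :
    ∀ σ ∈ alternatingGroup β, (σ, (1 : Equiv.Perm ε)) ∈ H := by
  classical
  let ι : ↥(alternatingGroup β) →* Equiv.Perm β × Equiv.Perm ε :=
    (MonoidHom.inl _ _).comp (alternatingGroup β).subtype
  set N := H.comap ι with hN
  have : N.Normal := ⟨fun n hn g => by
    obtain ⟨⟨τ, ρ⟩, hm, hτ⟩ := hp g.2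
    simp only [MonoidHom.coe_fst] at hτ
    subst hτ
    have h1 := H.mul_mem (H.mul_mem hm hn) (H.inv_mem hm)
    simpa [hN, ι, Prod.ext_iff] using h1⟩
  have := alternatingGroup.isSimpleGroup (α := β) (by rwa [Nat.card_eq_fintype_card])
  rcases IsSimpleGroup.eq_bot_or_eq_top_of_normal N inferInstance with hb | ht
  · exfalso
    choose g hg hgfst using fun σ : ↥(alternatingGroup β) => hp σ.2
    simp only [MonoidHom.coe_fst] at hgfst
    have hinj : Function.Injective fun σ => (g σ).2 := by
      intro σ τ e
      have h1 : σ * τ⁻¹ ∈ N := by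
        have h2 := H.mul_mem (hg σ) (H.inv_mem (hg τ))
        have h3 : g σ * (g τ)⁻¹ = ι (σ * τ⁻¹) := by
          have e' : (g σ).2 = (g τ).2 := e
          ext1 <;> simp [ι, hgfst, e']
        rw [h3] at h2
        exact h2
      rw [hb, Subgroup.mem_bot, mul_inv_eq_one] at h1
      exact h1
    have h1 := Nat.card_le_card_of_injective _ hinj
    rw [Nat.card_perm, Nat.card_eq_fintype_card] at h1
    have : Nontrivial β := Fintype.one_lt_card_iff_nontrivial.1 (by omega)
    have h2 := two_mul_card_alternatingGroup (α := β)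
    rw [Fintype.card_perm] at h2
    rw [Nat.card_eq_fintype_card] at h1
    obtain ⟨k, hk⟩ : ∃ k, Fintype.card β = k + 2 := ⟨_, (Nat.sub_add_cancel (by omega)).symm⟩
    have h3 : (Fintype.card ε).factorial ≤ k.factorial := Nat.factorial_le (by omega)
    rw [hk, Nat.factorial_succ, Nat.factorial_succ] at h2
    have h4 : 0 < k.factorial := Nat.factorial_pos k
    have h5' : 3 ≤ k := by omega
    have h6 : 20 * k.factorial ≤ (k + 1 + 1) * ((k + 1) * k.factorial) := by
      rw [← mul_assoc]
      exact Nat.mul_le_mul_right _ (by nlinarith)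
    omega
  · intro σ hσ
    have : (⟨σ, hσ⟩ : ↥(alternatingGroup β)) ∈ N := ht ▸ Subgroup.mem_top _
    exact this

/-- A map of the points commuting with the alternating group is the identity. -/
theorem equivariant_eq_id (h4 : 4 ≤ Fintype.card β) (φ : β → β)
    (hφ : ∀ σ ∈ alternatingGroup β, ∀ b, φ (σ b) = σ (φ b)) : ∀ b, φ b = b := by
  classical
  intro b
  by_contra hc
  set c := φ b with hcdef
  obtain ⟨d, hd⟩ : (Finset.univ \ {b, c}).Nonempty := by
    rw [← Finset.card_pos, Finset.card_sdiff_of_subset (Finset.subset_univ _), Finset.card_univ]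
    have := Finset.card_le_two (a := b) (b := c)
    omega
  obtain ⟨e, he⟩ : (Finset.univ \ {b, c, d}).Nonempty := by
    rw [← Finset.card_pos, Finset.card_sdiff_of_subset (Finset.subset_univ _), Finset.card_univ]
    have := Finset.card_le_three (a := b) (b := c) (c := d)
    omega
  simp only [Finset.mem_sdiff, Finset.mem_univ, true_and, Finset.mem_insert,
    Finset.mem_singleton, not_or] at hd he
  have hσ : Equiv.swap c e * Equiv.swap c d ∈ alternatingGroup β := by
    rw [Equiv.Perm.mem_alternatingGroup, map_mul, Equiv.Perm.sign_swap (Ne.symm he.2.1),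
      Equiv.Perm.sign_swap (Ne.symm hd.2), Int.units_mul_self]
  have h := hφ _ hσ b
  have e1 : (Equiv.swap c e * Equiv.swap c d) b = b := by
    rw [Equiv.Perm.mul_apply, Equiv.swap_apply_of_ne_of_ne (Ne.symm hc) (Ne.symm hd.1),
      Equiv.swap_apply_of_ne_of_ne (Ne.symm hc) (Ne.symm he.1)]
  have e2 : (Equiv.swap c e * Equiv.swap c d) c = d := by
    rw [Equiv.Perm.mul_apply, Equiv.swap_apply_left,
      Equiv.swap_apply_of_ne_of_ne hd.2 (Ne.symm he.2.2)]
  rw [e1, ← hcdef, e2] at h
  exact hd.2 h.symm

/-- Two subsets of the same size differ by an even permutation. -/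
theorem exists_alternating_image (h3 : 3 ≤ Fintype.card β) (p q : Finset β)
    (h : p.card = q.card) : ∃ σ ∈ alternatingGroup β, p.image σ = q := by
  classical
  let e : {x // x ∈ p} ≃ {x // x ∈ q} := Fintype.equivOfCardEq (by simpa using h)
  set σ : Equiv.Perm β := e.extendSubtype
  have hσ : p.image σ = q := Finset.eq_of_subset_of_card_le
    (fun x hx => by
      obtain ⟨y, hy, rfl⟩ := Finset.mem_image.1 hx
      exact Equiv.extendSubtype_mem e y hy)
    (by rw [Finset.card_image_of_injective _ σ.injective, h])
  rcases Int.units_eq_one_or (Equiv.Perm.sign σ) with hs | hs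
  · exact ⟨σ, Equiv.Perm.mem_alternatingGroup.2 hs, hσ⟩
  obtain ⟨x, y, hxy, hsame⟩ : ∃ x y : β, x ≠ y ∧ (x ∈ p ↔ y ∈ p) := by
    obtain ⟨x, -, y, -, hxy, e⟩ := Finset.exists_ne_map_eq_of_card_lt_of_maps_to
      (s := (Finset.univ : Finset β)) (t := (Finset.univ : Finset Bool))
      (f := fun x => decide (x ∈ p)) (by simp; omega) (fun _ _ => Finset.mem_univ _)
    exact ⟨x, y, hxy, by simpa using e⟩
  refine ⟨σ * Equiv.swap x y, Equiv.Perm.mem_alternatingGroup.2
    (by rw [map_mul, hs, Equiv.Perm.sign_swap hxy, Int.units_mul_self]), ?_⟩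
  have hsw : p.image (Equiv.swap x y) = p := Finset.eq_of_subset_of_card_le
    (fun z hz => by
      obtain ⟨u, hu, rfl⟩ := Finset.mem_image.1 hz
      rw [Equiv.swap_apply_def]
      split_ifs with h1 h2
      · subst h1; exact hsame.1 hu
      · subst h2; exact hsame.2 hu
      · exact hu)
    (by rw [Finset.card_image_of_injective _ (Equiv.swap x y).injective])
  rw [Equiv.Perm.coe_mul, ← Finset.image_image, hsw, hσ]

/-- A binomial coefficient away from the ends is large. -/
theorem two_mul_le_choose : ∀ n, 5 ≤ n → ∀ k, 2 ≤ k → k + 2 ≤ n → 2 * n ≤ n.choose k + 1 := by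
  intro n hn
  induction n, hn using Nat.le_induction with
  | base =>
    intro k h1 h2
    have h3 : k ≤ 3 := by omega
    interval_cases k <;> decide
  | succ n hn ih =>
    intro k h1 h2
    obtain ⟨j, rfl⟩ : ∃ j, k = j + 1 := ⟨k - 1, by omega⟩
    rw [Nat.choose_succ_succ']
    have hp : 1 ≤ n.choose j := Nat.choose_pos (by omega)
    have hp' : 1 ≤ n.choose (j + 1) := Nat.choose_pos (by omega)
    rcases eq_or_lt_of_le h1 with h | h
    · obtain rfl : j = 1 := by omega
      have := ih 2 le_rfl (by omega)
      simp only [show 1 + 1 = 2 from rfl, Nat.choose_one_right] at *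
      omega
    · by_cases h' : j + 1 + 2 ≤ n
      · have := ih (j + 1) h1 h'
        have := ih j (by omega) (by omega)
        omega
      · obtain rfl : n = j + 2 := by omega
        have := ih j (by omega) le_rfl
        rw [Nat.choose_succ_self_right]
        omega

/-- A small invariant separating family consists of singletons or of their complements. -/
theorem patterns_cases (P : Finset (Finset β)) (h5 : 5 ≤ Fintype.card β)
    (hinv : ∀ σ ∈ alternatingGroup β, ∀ p ∈ P, p.image σ ∈ P)
    (hsep : ∀ a b : β, a ≠ b → ∃ p ∈ P, ¬ (a ∈ p ↔ b ∈ p))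
    (hcard : P.card + 2 ≤ 2 * Fintype.card β) :
    ((∀ a, {a} ∈ P) ∧ ∀ p ∈ P, p.card = 1 ∨ p = ∅ ∨ p = Finset.univ) ∨
      ((∀ a, Finset.univ.erase a ∈ P) ∧
        ∀ p ∈ P, p.card + 1 = Fintype.card β ∨ p = ∅ ∨ p = Finset.univ) := by
  classical
  have hsub : ∀ p ∈ P, Finset.univ.powersetCard p.card ⊆ P := fun p hp q hq => by
    obtain ⟨σ, hσ, rfl⟩ := exists_alternating_image (by omega) p q
      (Finset.mem_powersetCard.1 hq).2.symm
    exact hinv σ hσ p hp
  have hshape : ∀ p ∈ P, p.card = 1 ∨ p.card + 1 = Fintype.card β ∨ p = ∅ ∨ p = Finset.univ := by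
    intro p hp
    by_contra hne
    simp only [not_or] at hne
    have h0 : p.card ≠ 0 := fun h => hne.2.2.1 (Finset.card_eq_zero.1 h)
    have hn : p.card ≠ Fintype.card β := fun h => hne.2.2.2 ((Finset.card_eq_iff_eq_univ p).1 h)
    have hle := Finset.card_le_univ p
    have h1 := Finset.card_le_card (hsub p hp)
    rw [Finset.card_powersetCard, Finset.card_univ] at h1
    have := two_mul_le_choose (Fintype.card β) h5 p.card (by omega) (by omega)
    omega
  have : Nontrivial β := Fintype.one_lt_card_iff_nontrivial.1 (by omega)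
  obtain ⟨a, b, hab⟩ := exists_pair_ne β
  obtain ⟨p, hp, hpab⟩ := hsep a b hab
  have hsingle : ∀ q ∈ P, q.card = 1 → ∀ x, {x} ∈ P := fun q hq h1 x =>
    hsub q hq (Finset.mem_powersetCard.2 ⟨Finset.subset_univ _, by simp [h1]⟩)
  have hco : ∀ q ∈ P, q.card + 1 = Fintype.card β → ∀ x, Finset.univ.erase x ∈ P :=
    fun q hq h1 x => hsub q hq (Finset.mem_powersetCard.2 ⟨Finset.subset_univ _, by
      rw [Finset.card_erase_of_mem (Finset.mem_univ _), Finset.card_univ]; omega⟩)
  have hnot : ∀ q ∈ P, ∀ r ∈ P, q.card = 1 → r.card + 1 = Fintype.card β → False := by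
    intro q hq r hr h1 h2
    have h := Finset.card_le_card (Finset.union_subset (hsub q hq) (hsub r hr))
    rw [Finset.card_union_of_disjoint, Finset.card_powersetCard, Finset.card_powersetCard,
      Finset.card_univ, h1, Nat.choose_one_right, ← h2, Nat.choose_succ_self_right] at h
    · omega
    · rw [Finset.disjoint_left]
      intro x hx hy
      have := (Finset.mem_powersetCard.1 hx).2
      have := (Finset.mem_powersetCard.1 hy).2
      omega
  rcases hshape p hp with h | h | h | h
  · refine Or.inl ⟨hsingle p hp h, fun q hq => ?_⟩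
    rcases hshape q hq with h' | h' | h'
    · exact Or.inl h'
    · exact (hnot p hp q hq h h').elim
    · exact Or.inr h'
  · refine Or.inr ⟨hco p hp h, fun q hq => ?_⟩
    rcases hshape q hq with h' | h' | h'
    · exact (hnot q hq p hp h' h).elim
    · exact Or.inl h'
    · exact Or.inr h'
  · simp [h] at hpab
  · simp [h] at hpab

end CfsgLib.Pronormal
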