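/-
Patterns at the transitivity step: three-cycles lift through a small closure, and the patterns of
the points off the closure are the single points or their complements.
-/
import Cfsg.Agent.Lib.Pronormal.Setup
import Cfsg.Agent.Lib.Pronormal.PermFacts
import Cfsg.Agent.Lib.Pronormal.Lines

set_option autoImplicit false
set_option linter.unusedSectionVars false

open Equiv Finset

namespace CfsgLib.Pronormal.Geom

variable {α : Type*} [Fintype α] [DecidableEq α] {X : Geom α} {m : ℕ}

theorem pat_subset (S : Finset α) (v : α) : X.pat S v ⊆ S := Finset.filter_subset _ _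

theorem image_eq_self_of_J {S P : Finset α} (hP : P ⊆ X.cl S) {j : Perm α} (hj : j ∈ X.J S) :
    P.image j = P := by
  rw [Finset.image_congr (f := j) (g := id) (s := P) (fun a ha => X.J_fix hj (hP ha)),
    Finset.image_id]

theorem pat_eq_of_mem_orb {S : Finset α} {u v : α} (hu : u ∈ X.orb S v) :
    X.pat S u = X.pat S v := by
  obtain ⟨j, hj, rfl⟩ := X.mem_orb.mp hu
  have h := X.pat_image (X.J_le S hj) S v
  rw [image_eq_self_of_J (X.subset_cl S) hj,
    image_eq_self_of_J ((pat_subset S v).trans (X.subset_cl S)) hj] at h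
  exact h

theorem cell_invariant {S P : Finset α} (hP : P ⊆ S) {j : Perm α} (hj : j ∈ X.J S) :
    (X.cell S P).image j = X.cell S P := by
  rw [← X.cell_image (X.J_le S hj) S P, image_eq_self_of_J (X.subset_cl S) hj,
    image_eq_self_of_J (hP.trans (X.subset_cl S)) hj]

theorem notMem_own {S : Finset α} {b v : α} (hv : v ∈ S) : v ∉ X.own S b := by
  intro h
  simp only [own, Finset.mem_erase] at h
  obtain ⟨hne, hmem⟩ := h
  obtain ⟨j, hj, rfl⟩ := X.mem_orb.mp hmem
  have hfix : j (j b) = j b := X.J_fix hj (X.subset_cl _ (Finset.mem_erase.mpr ⟨hne, hv⟩))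
  exact hne (j.injective hfix)

/-- An element of `G` stabilizing `S` and moving one of its points to another. -/
theorem Level.exists_move (h : X.Level m) {S : Finset α} (hS : S.card = m + 1) {b c : α}
    (hb : b ∈ S) (hc : c ∈ S) : ∃ g ∈ X.G, g b = c ∧ S.image g = S := by
  obtain ⟨σ, hσ, hσb⟩ := transitive_of_index_lt (X.setGroup S)
    (Level.index_setGroup_lt X h hS) ⟨b, hb⟩ ⟨c, hc⟩
  obtain ⟨g, hg, hgz⟩ := X.mem_setGroup.mp hσ
  refine ⟨g, hg, by have := hgz ⟨b, hb⟩; rw [hσb] at this; exact this, ?_⟩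
  refine Finset.eq_of_subset_of_card_le (fun x hx => ?_)
    (by rw [Finset.card_image_of_injective _ g.injective])
  obtain ⟨y, hy, rfl⟩ := Finset.mem_image.mp hx
  rw [hgz ⟨y, hy⟩]
  exact Finset.coe_mem _

/-- The even permutations of `S` lift to elements of `G` fixing the rest of a small closure. -/
theorem Level.lift (h : X.Level m) (h4 : 4 ≤ m) {S : Finset α} (hS : S.card = m + 1)
    (hlt : (X.cl S).card ≤ 2 * m) :
    ∀ σ ∈ alternatingGroup ↥S, ∃ g ∈ X.G, S.image g = S ∧ (∀ z : ↥S, g z = σ z) ∧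
      ∀ v ∈ X.cl S, v ∉ S → g v = v := by
  let H : Subgroup (Perm ↥S × Perm ↥(X.cl S \ S)) :=
    { carrier := {p | ∃ g ∈ X.G, (∀ z : ↥S, g z = p.1 z) ∧
        ∀ z : ↥(X.cl S \ S), g z = p.2 z}
      one_mem' := ⟨1, one_mem _, fun _ => rfl, fun _ => rfl⟩
      mul_mem' := by
        rintro p q ⟨g, hg, h1, h2⟩ ⟨k, hk, h3, h4⟩
        exact ⟨g * k, mul_mem hg hk, fun z => by simp [h3, h1], fun z => by simp [h4, h2]⟩
      inv_mem' := by
        rintro p ⟨g, hg, h1, h2⟩
        refine ⟨g⁻¹, inv_mem hg, fun z => ?_, fun z => ?_⟩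
        · have := h1 (p.1⁻¹ z)
          simp at this
          simp [← this]
        · have := h2 (p.2⁻¹ z)
          simp at this
          simp [← this] }
  have himage : ∀ (g : Perm α) (σ : Perm ↥S), (∀ z : ↥S, g z = σ z) → S.image g = S := by
    intro g σ hgz
    refine Finset.eq_of_subset_of_card_le (fun x hx => ?_)
      (by rw [Finset.card_image_of_injective _ g.injective])
    obtain ⟨y, hy, rfl⟩ := Finset.mem_image.mp hx
    rw [hgz ⟨y, hy⟩]
    exact Finset.coe_mem _
  have hp : alternatingGroup ↥S ≤ H.map (MonoidHom.fst _ _) := by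
    refine le_trans (alternating_le_of_index_lt (X.setGroup S)
      (by simp [hS]; omega) (Level.index_setGroup_lt X h hS)) ?_
    intro σ hσ
    obtain ⟨g, hg, hgz⟩ := X.mem_setGroup.mp hσ
    have hgS := himage g σ hgz
    have hgT : (X.cl S \ S).image g = X.cl S \ S := by
      rw [Finset.image_sdiff _ _ g.injective, ← X.cl_image hg, hgS]
    have hmem : ∀ x, g x ∈ X.cl S \ S ↔ x ∈ X.cl S \ S := fun x => by
      constructor
      · intro hx
        rw [← hgT] at hx
        obtain ⟨y, hy, e⟩ := Finset.mem_image.mp hx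
        rwa [← g.injective e]
      · intro hx
        rw [← hgT]
        exact Finset.mem_image_of_mem g hx
    exact ⟨(σ, g.subtypePerm hmem), ⟨g, hg, hgz, fun z => rfl⟩, rfl⟩
  intro σ hσ
  have hsub := Finset.card_sdiff_of_subset (X.subset_cl S)
  obtain ⟨g, hg, h1, h2⟩ := alternating_lift H (by simp [hS]; omega)
    (by simp only [Fintype.card_coe]; omega) hp σ hσ
  exact ⟨g, hg, himage g σ h1, h1, fun v hv hvS => h2 ⟨v, Finset.mem_sdiff.mpr ⟨hv, hvS⟩⟩⟩

/-- Three-cycles on `S` lift through a small closure. -/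
theorem Level.hasLifts (h : X.Level m) (h4 : 4 ≤ m) {S : Finset α} (hS : S.card = m + 1)
    (hlt : (X.cl S).card ≤ 2 * m) : X.HasLifts S (X.cl S) := by
  intro a ha b hb c hc hab hbc hca
  let a' : ↥S := ⟨a, ha⟩
  let b' : ↥S := ⟨b, hb⟩
  let c' : ↥S := ⟨c, hc⟩
  have hab' : a' ≠ b' := fun e => hab (congrArg Subtype.val e)
  have hbc' : b' ≠ c' := fun e => hbc (congrArg Subtype.val e)
  have hca' : c' ≠ a' := fun e => hca (congrArg Subtype.val e)
  have hσ : Equiv.swap a' c' * Equiv.swap a' b' ∈ alternatingGroup ↥S := by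
    rw [Equiv.Perm.mem_alternatingGroup, map_mul, Equiv.Perm.sign_swap hca'.symm,
      Equiv.Perm.sign_swap hab', Int.units_mul_self]
  obtain ⟨g, hg, -, hgz, hgv⟩ := h.lift h4 hS hlt _ hσ
  refine ⟨g, hg, ?_, ?_, ?_, fun v hv hva hvb hvc => ?_⟩
  · have e := hgz a'
    rw [Equiv.Perm.mul_apply, Equiv.swap_apply_left,
      Equiv.swap_apply_of_ne_of_ne hab'.symm hbc'] at e
    exact e
  · have e := hgz b'
    rw [Equiv.Perm.mul_apply, Equiv.swap_apply_right, Equiv.swap_apply_left] at e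
    exact e
  · have e := hgz c'
    rw [Equiv.Perm.mul_apply, Equiv.swap_apply_of_ne_of_ne hca' hbc'.symm,
      Equiv.swap_apply_right] at e
    exact e
  · by_cases hvS : v ∈ S
    · have hva' : (⟨v, hvS⟩ : ↥S) ≠ a' := fun e => hva (congrArg Subtype.val e)
      have hvb' : (⟨v, hvS⟩ : ↥S) ≠ b' := fun e => hvb (congrArg Subtype.val e)
      have hvc' : (⟨v, hvS⟩ : ↥S) ≠ c' := fun e => hvc (congrArg Subtype.val e)
      have e := hgz ⟨v, hvS⟩
      rw [Equiv.Perm.mul_apply, Equiv.swap_apply_of_ne_of_ne hva' hvb',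
        Equiv.swap_apply_of_ne_of_ne hva' hvc'] at e
      exact e
    · exact hgv v hv hvS

/-- The other points of a small closure have pattern empty or everything. -/
theorem Level.pat_extra (h : X.Level m) (h4 : 4 ≤ m) {S : Finset α} (hS : S.card = m + 1)
    (hlt : (X.cl S).card ≤ 2 * m) {v : α} (hv : v ∈ X.cl S) (hvS : v ∉ S) :
    X.pat S v = ∅ ∨ X.pat S v = S := by
  rcases (X.pat S v).eq_empty_or_nonempty with he | ⟨b, hb⟩
  · exact Or.inl he
  refine Or.inr (Finset.Subset.antisymm (pat_subset S v) fun c hc => ?_)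
  by_cases hbc : b = c
  · exact hbc ▸ hb
  have hbS := pat_subset S v hb
  obtain ⟨σ, hσ, hσb⟩ := exists_alternating_image (β := ↥S) (by simp [hS]; omega)
    {⟨b, hbS⟩} {⟨c, hc⟩} (by simp)
  obtain ⟨g, hg, hgS, hgz, hgv⟩ := h.lift h4 hS hlt σ hσ
  have e := X.pat_image hg S v
  rw [hgS, hgv v hv hvS] at e
  rw [e]
  refine Finset.mem_image.mpr ⟨b, hb, ?_⟩
  simp only [Finset.image_singleton, Finset.singleton_inj] at hσb
  have e1 := hgz ⟨b, hbS⟩
  rw [hσb] at e1
  exact e1

/-- The patterns of the points off the closure separate the points of `S`. -/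
theorem Level.exists_separating (h : X.Level m) (h4 : 4 ≤ m) {S : Finset α} (hS : S.card = m + 1)
    (hlt : (X.cl S).card ≤ 2 * m) {b c : α} (hb : b ∈ S) (hc : c ∈ S) (hbc : b ≠ c) :
    ∃ v, v ∉ X.cl S ∧ ¬(b ∈ X.pat S v ↔ c ∈ X.pat S v) := by
  by_contra hne
  push Not at hne
  refine h.false_of_own_eq hS hb hc hbc (Finset.ext fun v => ?_)
  have key : ∀ x ∈ S, (x ∈ X.pat S v ↔ v ∈ X.own S x) := fun x hx => by
    simp [pat, hx]
  by_cases hvS : v ∈ S
  · simp [notMem_own hvS]
  rw [← key b hb, ← key c hc]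
  by_cases hv : v ∈ X.cl S
  · rcases h.pat_extra h4 hS hlt hv hvS with he | he <;> simp [he, hb, hc]
  · exact hne v hv

/-- If every point of `S` owns a cell, the cells are orbits of weight one and of equal size. -/
theorem Level.cells_aux (h : X.Level m) {S : Finset α} (hS : S.card = m + 1)
    (hlt : (X.cl S).card ≤ 2 * m) (Q : α → Finset α) (hQS : ∀ b ∈ S, Q b ⊆ S)
    (hQinj : ∀ b ∈ S, ∀ c ∈ S, Q b = Q c → b = c)
    (hQimg : ∀ g : Perm α, S.image g = S → ∀ b, (Q b).image g = Q (g b))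
    (hne : ∀ b ∈ S, (X.cell S (Q b)).Nonempty) :
    (∀ b ∈ S, ∀ F ∈ X.flats, S ⊆ F → wt (X.cell S (Q b)) F = 1) ∧
    (∀ b ∈ S, ∃ v ∈ X.cell S (Q b), X.orb S v = X.cell S (Q b)) ∧
    (∀ b ∈ S, ∀ c ∈ S, (X.cell S (Q b)).card = (X.cell S (Q c)).card) := by
  have hSne : S.Nonempty := by rw [← Finset.card_pos, hS]; omega
  have hmove : ∀ b ∈ S, ∀ c ∈ S, ∃ g ∈ X.G, S.image g = S ∧
      (X.cell S (Q b)).image g = X.cell S (Q c) := fun b hb c hc => by
    obtain ⟨g, hg, hgb, hgS⟩ := h.exists_move hS hb hc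
    refine ⟨g, hg, hgS, ?_⟩
    rw [← X.cell_image hg, hgS, hQimg g hgS, hgb]
  have hweq : ∀ F ∈ X.flats, S ⊆ F → ∀ b ∈ S, ∀ c ∈ S,
      wt (X.cell S (Q c)) F = wt (X.cell S (Q b)) F := by
    intro F hF hSF b hb c hc
    obtain ⟨g, hg, hgS, hcell⟩ := hmove b hb c hc
    rw [X.wt_eq hF hSF (X.flat_image g hg F hF) (by rw [← hgS]; exact Finset.image_subset_image hSF)
      (fun j hj => cell_invariant (hQS c hc) hj), ← hcell]
    simp [wt, ← Finset.image_inter _ _ g.injective, Finset.card_image_of_injective _ g.injective]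
  have hdisj : ∀ P, Disjoint (X.cell S P) (X.cl S) := fun P =>
    Finset.disjoint_left.mpr fun v hv => by
      simp only [cell, Finset.mem_filter, Finset.mem_sdiff] at hv
      exact hv.1.2
  have hone : ∀ F ∈ X.flats, S ⊆ F → ∀ O ∈ X.orbits S, 1 ≤ wt O F := by
    intro F hF hSF O hO
    obtain ⟨x, hx, rfl⟩ := X.mem_orbits.mp hO
    exact X.one_le_wt_orb hSne hF hSF hx
  have hsubcell : ∀ b ∈ S, ∀ v ∈ X.cell S (Q b), X.orb S v ⊆ X.cell S (Q b) := by
    intro b hb v hv u hu
    obtain ⟨j, hj, rfl⟩ := X.mem_orb.mp hu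
    rw [← cell_invariant (hQS b hb) hj]
    exact Finset.mem_image_of_mem j hv
  have hwt : ∀ b ∈ S, ∀ F ∈ X.flats, S ⊆ F → wt (X.cell S (Q b)) F =
      ∑ O ∈ (X.orbits S).filter (· ⊆ X.cell S (Q b)), wt O F := fun b hb F _ _ =>
    X.wt_eq_sum (hdisj _) fun j hj => cell_invariant (hQS b hb) hj
  have hfil : ∀ b ∈ S, ∀ v ∈ X.cell S (Q b),
      X.orb S v ∈ (X.orbits S).filter (· ⊆ X.cell S (Q b)) := fun b hb v hv =>
    Finset.mem_filter.mpr ⟨X.orb_mem_orbits (Finset.disjoint_left.mp (hdisj _) hv),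
      hsubcell b hb v hv⟩
  have hcount : ∀ b ∈ S, ∀ F ∈ X.flats, S ⊆ F →
      (((X.orbits S).filter (· ⊆ X.cell S (Q b))).card : ℤ) ≤ wt (X.cell S (Q b)) F := by
    intro b hb F hF hSF
    rw [hwt b hb F hF hSF]
    have := Finset.card_nsmul_le_sum ((X.orbits S).filter (· ⊆ X.cell S (Q b)))
      (fun O => wt O F) 1 fun O hO => hone F hF hSF O (Finset.mem_filter.mp hO).1
    simpa using this
  have hw : ∀ b ∈ S, ∀ F ∈ X.flats, S ⊆ F → wt (X.cell S (Q b)) F = 1 := by
    intro b hb F hF hSF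
    obtain ⟨v, hv⟩ := hne b hb
    have h1 : (1 : ℤ) ≤ wt (X.cell S (Q b)) F :=
      le_trans (by exact_mod_cast Finset.card_pos.mpr ⟨_, hfil b hb v hv⟩) (hcount b hb F hF hSF)
    have h2 : ∑ c ∈ S, wt (X.cell S (Q c)) F ≤ ((X.cl S).card : ℤ) := by
      rw [← X.sum_wt hF hSF, Finset.sum_congr rfl fun c hc => hwt c hc F hF hSF,
        ← Finset.sum_biUnion]
      · refine Finset.sum_le_sum_of_subset_of_nonneg ?_ fun O hO _ =>
          le_trans zero_le_one (hone F hF hSF O hO)
        exact Finset.biUnion_subset.mpr fun c _ => Finset.filter_subset _ _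
      · intro c hc d hd hcd
        refine Finset.disjoint_left.mpr fun O hO hO' => hcd ?_
        obtain ⟨x, -, rfl⟩ := X.mem_orbits.mp (Finset.mem_filter.mp hO).1
        have e1 := (Finset.mem_filter.mp ((Finset.mem_filter.mp hO).2 (X.self_mem_orb S x))).2
        have e2 := (Finset.mem_filter.mp ((Finset.mem_filter.mp hO').2 (X.self_mem_orb S x))).2
        exact hQinj c hc d hd (e1.symm.trans e2)
    rw [Finset.sum_congr rfl fun c hc => hweq F hF hSF b hb c hc, Finset.sum_const, hS,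
      nsmul_eq_mul] at h2
    by_contra hne1
    have h3 : 2 ≤ wt (X.cell S (Q b)) F := by omega
    have h4 : ((m + 1 : ℕ) : ℤ) * 2 ≤ ((m + 1 : ℕ) : ℤ) * wt (X.cell S (Q b)) F :=
      mul_le_mul_of_nonneg_left h3 (by positivity)
    push_cast at h2 h4
    omega
  refine ⟨hw, fun b hb => ?_, fun b hb c hc => ?_⟩
  · obtain ⟨F, hF, hSF⟩ := h.covered_succ hS
    obtain ⟨v, hv⟩ := hne b hb
    refine ⟨v, hv, Finset.Subset.antisymm (hsubcell b hb v hv) fun u hu => ?_⟩
    have h1 := hcount b hb F hF hSF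
    rw [hw b hb F hF hSF] at h1
    have e := Finset.card_le_one.mp (by exact_mod_cast h1) _ (hfil b hb v hv) _ (hfil b hb u hu)
    rw [e]
    exact X.self_mem_orb S u
  · obtain ⟨g, -, -, hcell⟩ := hmove b hb c hc
    rw [← hcell, Finset.card_image_of_injective _ g.injective]

/-- The patterns are the single points or their complements. -/
theorem Level.singles_or_cosingles (h : X.Level m) (h4 : 4 ≤ m) {S : Finset α}
    (hS : S.card = m + 1) (hlt : (X.cl S).card ≤ 2 * m) : X.Singles S ∨ X.Cosingles S := by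
  let p' : α → Finset ↥S := fun v => (X.pat S v).subtype (· ∈ S)
  let P : Finset (Finset ↥S) := (univ \ X.cl S).image p'
  have hval : ∀ v, (p' v).map (Function.Embedding.subtype _) = X.pat S v := fun v =>
    Finset.subtype_map_of_mem (pat_subset S v)
  have hcardp : ∀ v, (p' v).card = (X.pat S v).card := fun v => by
    rw [← hval v, Finset.card_map]
  have hSne : S.Nonempty := by rw [← Finset.card_pos, hS]; omega
  have hinv : ∀ σ ∈ alternatingGroup ↥S, ∀ p ∈ P, p.image σ ∈ P := by
    intro σ hσ p hp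
    obtain ⟨v, hv, rfl⟩ := Finset.mem_image.mp hp
    obtain ⟨g, hg, hgS, hgz, -⟩ := h.lift h4 hS hlt σ hσ
    refine Finset.mem_image.mpr ⟨g v, ?_, ?_⟩
    · simp only [Finset.mem_sdiff, Finset.mem_univ, true_and] at hv ⊢
      intro hgv
      rw [← hgS, X.cl_image hg] at hgv
      obtain ⟨y, hy, e⟩ := Finset.mem_image.mp hgv
      exact hv (g.injective e ▸ hy)
    · have e := X.pat_image hg S v
      rw [hgS] at e
      ext z
      simp only [p', Finset.mem_subtype, e, Finset.mem_image]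
      constructor
      · rintro ⟨y, hy, hyz⟩
        refine ⟨⟨y, pat_subset S v hy⟩, hy, Subtype.ext ?_⟩
        rw [← hgz]; exact hyz
      · rintro ⟨y, hy, rfl⟩
        exact ⟨y, hy, hgz y⟩
  have hsep : ∀ a b : ↥S, a ≠ b → ∃ p ∈ P, ¬(a ∈ p ↔ b ∈ p) := fun a b hab => by
    obtain ⟨v, hv, hvab⟩ := h.exists_separating h4 hS hlt a.2 b.2
      (fun e => hab (Subtype.ext e))
    exact ⟨p' v, Finset.mem_image.mpr ⟨v, by simpa using hv, rfl⟩, by simpa [p'] using hvab⟩
  have hcard : P.card + 2 ≤ 2 * Fintype.card ↥S := by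
    obtain ⟨F, hF, hSF⟩ := h.covered_succ hS
    have h1 := X.card_orbits_le hSne hF hSF
    let f : Finset α → Finset ↥S := fun O => univ.filter fun b => ∃ u ∈ O, (b : α) ∈ X.pat S u
    have h2 : P ⊆ (X.orbits S).image f := by
      intro p hp
      obtain ⟨v, hv, rfl⟩ := Finset.mem_image.mp hp
      refine Finset.mem_image.mpr ⟨X.orb S v, X.orb_mem_orbits (by simpa using hv), ?_⟩
      ext z
      simp only [f, p', Finset.mem_filter, Finset.mem_univ, true_and, Finset.mem_subtype]
      constructor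
      · rintro ⟨u, hu, hz⟩
        rwa [pat_eq_of_mem_orb hu] at hz
      · exact fun hz => ⟨v, X.self_mem_orb S v, hz⟩
    have h3 := (Finset.card_le_card h2).trans Finset.card_image_le
    simp only [Fintype.card_coe, hS]
    omega
  have hcell : ∀ p ∈ P, (X.cell S (p.map (Function.Embedding.subtype _))).Nonempty := by
    intro p hp
    obtain ⟨v, hv, rfl⟩ := Finset.mem_image.mp hp
    exact ⟨v, Finset.mem_filter.mpr ⟨hv, (hval v).symm⟩⟩
  have hof : ∀ v, v ∉ X.cl S → ∀ n, (p' v).card = n ∨ p' v = ∅ ∨ p' v = univ →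
      (X.pat S v).card = n ∨ X.pat S v = ∅ ∨ X.pat S v = S := by
    intro v _ n hc
    rcases hc with e | e | e
    · exact Or.inl (by rw [← hcardp, e])
    · refine Or.inr (Or.inl ?_)
      rw [← hval v, e, Finset.map_empty]
    · refine Or.inr (Or.inr ?_)
      rw [← hval v, e]
      ext x; simp
  rcases patterns_cases P (by simp [hS]; omega) hinv hsep hcard with ⟨hall, hshape⟩ | ⟨hall, hshape⟩
  · refine Or.inl ⟨fun v hv => hof v hv 1 (hshape _
      (Finset.mem_image.mpr ⟨v, by simpa using hv, rfl⟩)), ?_⟩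
    refine h.cells_aux hS hlt (fun b => {b}) (fun b hb => by simpa using hb)
      (fun b _ c _ e => Finset.singleton_inj.mp e) (fun g _ b => Finset.image_singleton g b)
      fun b hb => ?_
    have := hcell _ (hall ⟨b, hb⟩)
    simpa using this
  · refine Or.inr ⟨fun v hv => ?_, ?_⟩
    · have h1 := hshape _ (Finset.mem_image.mpr ⟨v, by simpa using hv, rfl⟩)
      rcases h1 with e | e | e
      · left; rw [← hcardp, e, Fintype.card_coe]
      · exact Or.inr (Or.inl (by rw [← hval v, e, Finset.map_empty]))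
      · exact Or.inr (Or.inr (by rw [← hval v, e]; ext x; simp))
    refine h.cells_aux hS hlt (fun b => S.erase b) (fun b _ => Finset.erase_subset b S)
      (fun b hb c hc e => ?_) (fun g hgS b => by rw [Finset.image_erase g.injective, hgS])
      fun b hb => ?_
    · by_contra hbc
      have : b ∈ S.erase c := Finset.mem_erase.mpr ⟨hbc, hb⟩
      rw [← e] at this
      exact absurd this (Finset.notMem_erase b S)
    · have := hcell _ (hall ⟨b, hb⟩)
      rw [show (univ.erase (⟨b, hb⟩ : ↥S)).map (Function.Embedding.subtype _) = S.erase b by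
        ext x; simp [and_comm]] at this
      exact this

end CfsgLib.Pronormal.Geom
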