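/-
The block step: at a non-closed top set `S` of `m + 1` points the extra points of its closure `C` lie
in the orbit of each point of `S`, and the rest of that base consists of one small orbit for each of
them.
-/
import Cfsg.Agent.Lib.Pronormal.Patterns

set_option autoImplicit false
set_option linter.unusedSectionVars false
set_option maxHeartbeats 1000000

open Equiv Finset

namespace CfsgLib.Pronormal.Geom

variable {α : Type*} [Fintype α] [DecidableEq α] {X : Geom α}

namespace Block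

/-- Invariance under the conjugates fixing `A`. -/
def Inv (X : Geom α) (A T : Finset α) : Prop := ∀ j ∈ X.J A, ∀ v ∈ T, j v ∈ T

theorem Inv.image {A T : Finset α} (h : Inv X A T) : ∀ j ∈ X.J A, T.image j = T := fun j hj =>
  Finset.eq_of_subset_of_card_le (Finset.image_subset_iff.mpr (h j hj))
    (Finset.card_image_of_injective _ j.injective).ge

theorem wt_union {A B F : Finset α} (hd : Disjoint A B) : wt (A ∪ B) F = wt A F + wt B F := by
  simp only [wt, Finset.union_inter_distrib_right, Finset.card_union_of_disjoint hd,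
    Finset.card_union_of_disjoint (hd.mono Finset.inter_subset_left Finset.inter_subset_left)]
  push_cast
  ring

theorem wt_sdiff {A B F : Finset α} (h : B ⊆ A) : wt A F = wt (A \ B) F + wt B F := by
  rw [← wt_union Finset.sdiff_disjoint, Finset.sdiff_union_of_subset h]

theorem wt_biUnion {ι : Type*} [DecidableEq ι] (I : Finset ι) (f : ι → Finset α) (F : Finset α)
    (hd : ∀ i ∈ I, ∀ j ∈ I, i ≠ j → Disjoint (f i) (f j)) :
    wt (I.biUnion f) F = ∑ i ∈ I, wt (f i) F := by
  induction I using Finset.induction_on with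
  | empty => simp [wt]
  | insert a s ha ih =>
    rw [Finset.biUnion_insert, wt_union, Finset.sum_insert ha, ih]
    · exact fun i hi j hj => hd i (Finset.mem_insert_of_mem hi) j (Finset.mem_insert_of_mem hj)
    · refine Finset.disjoint_left.mpr fun x hx hx' => ?_
      obtain ⟨i, hi, hxi⟩ := Finset.mem_biUnion.mp hx'
      exact Finset.disjoint_left.mp (hd a (Finset.mem_insert_self a s) i
        (Finset.mem_insert_of_mem hi) (fun e => ha (e ▸ hi))) hx hxi

theorem wt_of_subset {T F : Finset α} (h : T ⊆ F) : wt T F = -(T.card : ℤ) := by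
  simp only [wt, Finset.inter_eq_left.mpr h]; ring

theorem Inv.sdiff {A S T : Finset α} (hS : Inv X A S) (hT : Inv X A T) : Inv X A (S \ T) := by
  intro j hj v hv
  obtain ⟨h1, h2⟩ := Finset.mem_sdiff.mp hv
  refine Finset.mem_sdiff.mpr ⟨hS j hj v h1, fun h => h2 ?_⟩
  simpa using hT j⁻¹ (inv_mem hj) _ h

theorem Inv.union {A S T : Finset α} (hS : Inv X A S) (hT : Inv X A T) : Inv X A (S ∪ T) :=
  fun j hj _ hv => (Finset.mem_union.mp hv).elim (fun h => Finset.mem_union_left _ (hS j hj _ h))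
    (fun h => Finset.mem_union_right _ (hT j hj _ h))

theorem Inv.biUnion {ι : Type*} {A : Finset α} {I : Finset ι} {f : ι → Finset α}
    (h : ∀ i ∈ I, Inv X A (f i)) : Inv X A (I.biUnion f) := by
  intro j hj v hv
  obtain ⟨i, hi, hvi⟩ := Finset.mem_biUnion.mp hv
  exact Finset.mem_biUnion.mpr ⟨i, hi, h i hi j hj v hvi⟩

/-- An invariant set off the closure weighs at least one unless it is empty. -/
theorem one_le_wt {A T F : Finset α} (hne : A.Nonempty) (hF : F ∈ X.flats) (hA : A ⊆ F)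
    (hd : Disjoint T (X.cl A)) (hT : Inv X A T) (hTne : T.Nonempty) : 1 ≤ wt T F := by
  obtain ⟨x, hx⟩ := hTne
  have hxc : x ∉ X.cl A := Finset.disjoint_left.mp hd hx
  have hsub : X.orb A x ⊆ T := fun y hy => by
    obtain ⟨j, hj, rfl⟩ := X.mem_orb.mp hy
    exact hT j hj x hx
  rw [X.wt_eq_sum hd hT.image]
  refine le_trans (X.one_le_wt_orb hne hF hA hxc) (Finset.single_le_sum (f := fun O => wt O F)
    (fun O hO => ?_) (Finset.mem_filter.mpr ⟨X.orb_mem_orbits hxc, hsub⟩))
  obtain ⟨y, hy, rfl⟩ := X.mem_orbits.mp (Finset.mem_filter.mp hO).1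
  exact le_trans (by norm_num) (X.one_le_wt_orb hne hF hA hy)

theorem wt_nonneg {A T F : Finset α} (hne : A.Nonempty) (hF : F ∈ X.flats) (hA : A ⊆ F)
    (hd : Disjoint T (X.cl A)) (hT : Inv X A T) : 0 ≤ wt T F := by
  rcases T.eq_empty_or_nonempty with rfl | hTne
  · simp [wt]
  · linarith [one_le_wt hne hF hA hd hT hTne]

/-- The closure `C` of a top set of `m + 1` points. -/
structure Ctx (X : Geom α) (m : ℕ) (C : Finset α) : Prop where
  level : X.Level m
  h4 : 4 ≤ m
  lb : m + 2 ≤ C.card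
  ub : C.card ≤ 2 * m
  exch : ∀ A, A ⊆ C → A.card = m + 1 → X.cl A = C

/-- The points off `C` whose pattern at `T` holds `y`. -/
noncomputable def outer (X : Geom α) (C T : Finset α) (y : α) : Finset α :=
  (univ \ C).filter fun v => y ∈ X.pat T v

namespace Ctx

variable {m : ℕ} {C : Finset α} (K : Ctx X m C)

include K

theorem exists_base : ∃ T, T ⊆ C ∧ T.card = m + 1 :=
  Finset.exists_subset_card_eq (by have := K.lb; omega)

theorem cl_C : X.cl C = C := by
  obtain ⟨T, hT, hc⟩ := K.exists_base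
  rw [← K.exch T hT hc, X.cl_cl]

theorem nonempty : C.Nonempty := Finset.card_pos.mp (by have := K.lb; omega)

theorem J_eq {T : Finset α} (hT : T ⊆ C) (hc : T.card = m + 1) : X.J T = X.J C := by
  rw [← X.J_cl T, K.exch T hT hc]

theorem fix {j : Perm α} (hj : j ∈ X.J C) {a : α} (ha : a ∈ C) : j a = a :=
  X.J_fix hj (X.subset_cl C ha)

theorem notMem {j : Perm α} (hj : j ∈ X.J C) {v : α} (hv : v ∉ C) : j v ∉ C := by
  intro h
  exact hv (j.injective (K.fix hj h) ▸ h)

theorem exists_flat : ∃ F ∈ X.flats, C ⊆ F := by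
  obtain ⟨T, hT, hc⟩ := K.exists_base
  obtain ⟨F, hF, hTF⟩ := K.level.covered_succ hc
  exact ⟨F, hF, K.exch T hT hc ▸ X.cl_subset hF hTF⟩

theorem lifts {a b c : α} (ha : a ∈ C) (hb : b ∈ C) (hc : c ∈ C) (hab : a ≠ b) (hbc : b ≠ c)
    (hca : c ≠ a) : ∃ g ∈ X.G, g a = b ∧ g b = c ∧ g c = a ∧
      (∀ v ∈ C, v ≠ a → v ≠ b → v ≠ c → g v = v) ∧ ∀ v ∈ C, g v ∈ C := by
  have h3 : ({a, b, c} : Finset α).card ≤ 3 := Finset.card_le_three
  obtain ⟨T, h1, h2, hT⟩ := Finset.exists_subsuperset_card_eq (n := m + 1)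
    (s := ({a, b, c} : Finset α)) (t := C)
    (Finset.insert_subset ha (Finset.insert_subset hb (Finset.singleton_subset_iff.mpr hc)))
    (by have := K.h4; omega) (by have := K.lb; omega)
  have hl := K.level.hasLifts K.h4 hT (by rw [K.exch T h2 hT]; exact K.ub)
  rw [K.exch T h2 hT] at hl
  obtain ⟨g, hg, e1, e2, e3, e4⟩ :=
    hl a (h1 (by simp)) b (h1 (by simp)) c (h1 (by simp)) hab hbc hca
  refine ⟨g, hg, e1, e2, e3, e4, fun v hv => ?_⟩
  by_cases h1 : v = a
  · rw [h1, e1]; exact hb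
  by_cases h2 : v = b
  · rw [h2, e2]; exact hc
  by_cases h3 : v = c
  · rw [h3, e3]; exact ha
  rw [e4 v hv h1 h2 h3]; exact hv

theorem swap2 {a b c d : α} (ha : a ∈ C) (hb : b ∈ C) (hc : c ∈ C) (hd : d ∈ C) (hab : a ≠ b)
    (hac : a ≠ c) (had : a ≠ d) (hbc : b ≠ c) (hbd : b ≠ d) (hcd : c ≠ d) :
    ∃ g ∈ X.G, g a = b ∧ g b = a ∧ g c = d ∧ g d = c ∧
      (∀ v ∈ C, v ≠ a → v ≠ b → v ≠ c → v ≠ d → g v = v) ∧ ∀ v ∈ C, g v ∈ C := by
  obtain ⟨g, hg, g1, g2, g3, g4, g5⟩ := K.lifts ha hb hc hab hbc hac.symm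
  obtain ⟨k, hk, k1, k2, k3, k4, k5⟩ := K.lifts hb hc hd hbc hcd hbd.symm
  refine ⟨g * k, mul_mem hg hk, ?_, ?_, ?_, ?_, fun v hv h1 h2 h3 h4 => ?_, fun v hv => ?_⟩
  · simp [k4 a ha hab hac had, g1]
  · simp [k1, g3]
  · simp [k2, g4 d hd had.symm hbd.symm hcd.symm]
  · simp [k3, g2]
  · simp [k4 v hv h2 h3 h4, g4 v hv h1 h2 h3]
  · simpa using g5 _ (k5 v hv)

theorem inv_compl : Inv X C (univ \ C) := fun j hj v hv => by
  simp only [Finset.mem_sdiff, Finset.mem_univ, true_and] at hv ⊢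
  exact K.notMem hj hv

theorem disjoint_cl {T : Finset α} (h : T ⊆ univ \ C) : Disjoint T (X.cl C) := by
  rw [K.cl_C]
  exact Finset.disjoint_left.mpr fun v hv => (Finset.mem_sdiff.mp (h hv)).2

theorem wt_nonneg' {F T : Finset α} (hF : F ∈ X.flats) (hCF : C ⊆ F) (hT : Inv X C T)
    (hsub : T ⊆ univ \ C) : 0 ≤ wt T F :=
  wt_nonneg K.nonempty hF hCF (K.disjoint_cl hsub) hT

theorem eq_empty {F T : Finset α} (hF : F ∈ X.flats) (hCF : C ⊆ F) (hT : Inv X C T)
    (hsub : T ⊆ univ \ C) (h : wt T F ≤ 0) : T = ∅ := by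
  by_contra hne
  linarith [one_le_wt K.nonempty hF hCF (K.disjoint_cl hsub) hT
    (Finset.nonempty_iff_ne_empty.mpr hne)]

theorem wt_compl {F : Finset α} (hF : F ∈ X.flats) (hCF : C ⊆ F) :
    wt (univ \ C) F = C.card := by
  have h1 : (univ \ C) ∩ F = F \ C := by ext; simp [and_comm]
  have h2 := Finset.card_sdiff_of_subset hCF
  have h3 := Finset.card_le_card hCF
  have h4 := Finset.card_le_univ C
  simp only [wt, h1, h2, Finset.card_univ_sdiff, X.card_univ_eq, X.flat_card F hF] at *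
  omega

theorem image_self {T : Finset α} (hT : T ⊆ C) {j : Perm α} (hj : j ∈ X.J C) :
    T.image j = T := by
  conv_rhs => rw [← Finset.image_id (s := T)]
  exact Finset.image_congr fun a ha => K.fix hj (hT ha)

theorem pat_apply {T : Finset α} (hT : T ⊆ C) {j : Perm α} (hj : j ∈ X.J C) (v : α) :
    X.pat T (j v) = X.pat T v := by
  have hjG := X.J_le C hj
  have h := X.pat_image hjG T v
  rw [K.image_self hT hj] at h
  rw [h]
  exact K.image_self ((Finset.filter_subset _ _).trans hT : X.pat T v ⊆ C) hj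

theorem mem_cell {T : Finset α} (hT : T ⊆ C) (hc : T.card = m + 1) {P : Finset α} {v : α} :
    v ∈ X.cell T P ↔ v ∉ C ∧ X.pat T v = P := by
  simp [cell, K.exch T hT hc]

theorem inv_cell {T : Finset α} (hT : T ⊆ C) (hc : T.card = m + 1) (P : Finset α) :
    Inv X C (X.cell T P) := fun j hj v hv => by
  rw [K.mem_cell hT hc] at hv ⊢
  exact ⟨K.notMem hj hv.1, by rw [K.pat_apply hT hj]; exact hv.2⟩

theorem cell_sub {T : Finset α} (hT : T ⊆ C) (hc : T.card = m + 1) (P : Finset α) :
    X.cell T P ⊆ univ \ C := fun v hv => by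
  simpa using ((K.mem_cell hT hc).mp hv).1

theorem mem_pat {T : Finset α} {y v : α} (hy : y ∈ T) (hne : v ≠ y) :
    y ∈ X.pat T v ↔ v ∈ X.orb (T.erase y) y := by
  simp [pat, own, hy, hne]

theorem inv_outer {T : Finset α} (hT : T ⊆ C) (y : α) : Inv X C (outer X C T y) := by
  intro j hj v hv
  simp only [outer, Finset.mem_filter, Finset.mem_sdiff, Finset.mem_univ, true_and] at hv ⊢
  exact ⟨K.notMem hj hv.1, by rw [K.pat_apply hT hj]; exact hv.2⟩

theorem card_erase {T : Finset α} (hc : T.card = m + 1) {y : α} (hy : y ∈ T) :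
    (T.erase y).card = m := by
  rw [Finset.card_erase_of_mem hy, hc]; rfl

theorem notMem_cl_erase {T : Finset α} (hc : T.card = m + 1) {y : α} (hy : y ∈ T) :
    y ∉ X.cl (T.erase y) := by
  rw [K.level.cl_eq (K.card_erase hc hy)]; simp

theorem one_le_orb {T F : Finset α} (hc : T.card = m + 1) {y : α} (hy : y ∈ T)
    (hF : F ∈ X.flats) (hTF : T ⊆ F) : 1 ≤ wt (X.orb (T.erase y) y) F :=
  X.one_le_wt_orb (K.level.nonempty (K.card_erase hc hy)) hF
    ((Finset.erase_subset _ _).trans hTF) (K.notMem_cl_erase hc hy)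

theorem orb_split {T : Finset α} (hT : T ⊆ C) {y : α} (hy : y ∈ T) :
    X.orb (T.erase y) y = (X.orb (T.erase y) y ∩ C) ∪ outer X C T y := by
  ext v
  simp only [outer, Finset.mem_union, Finset.mem_inter, Finset.mem_filter, Finset.mem_sdiff,
    Finset.mem_univ, true_and]
  constructor
  · intro hv
    by_cases hvC : v ∈ C
    · exact Or.inl ⟨hv, hvC⟩
    · exact Or.inr ⟨hvC, (K.mem_pat (v := v) hy fun e => hvC (e ▸ hT hy)).mpr hv⟩
  · rintro (⟨h, -⟩ | ⟨hvC, h⟩)
    · exact h
    · exact (K.mem_pat (v := v) hy fun e => hvC (e ▸ hT hy)).mp h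

theorem wt_orb {T F : Finset α} (hT : T ⊆ C) {y : α} (hy : y ∈ T) (hCF : C ⊆ F) :
    wt (X.orb (T.erase y) y) F =
      wt (outer X C T y) F - ((X.orb (T.erase y) y ∩ C).card : ℤ) := by
  conv_lhs => rw [K.orb_split hT hy]
  rw [wt_union (Finset.disjoint_left.mpr fun v hv hv' => ?_),
    wt_of_subset (Finset.inter_subset_right.trans hCF)]
  · ring
  · simp only [outer, Finset.mem_filter, Finset.mem_sdiff] at hv'
    exact hv'.1.2 (Finset.mem_inter.mp hv).2

theorem orb_C {T : Finset α} (hT : T ⊆ C) (hc : T.card = m + 1) (v : α) :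
    X.orb T v = X.orb C v := by
  ext w; simp [mem_orb, K.J_eq hT hc]

/-- The sets of cells of `T`, with the remaining two, fill the points off `C`. -/
theorem total {T F : Finset α} (hT : T ⊆ C) (hc : T.card = m + 1) (hF : F ∈ X.flats)
    (hCF : C ⊆ F) (q : α → Finset α) (hqi : ∀ b ∈ T, ∀ c ∈ T, q b = q c → b = c)
    (hqE : ∀ b ∈ T, q b ≠ ∅) (hqT : ∀ b ∈ T, q b ≠ T)
    (hall : ∀ v, v ∉ C → (∃ b ∈ T, X.pat T v = q b) ∨ X.pat T v = ∅ ∨ X.pat T v = T)
    (hw : ∀ b ∈ T, wt (X.cell T (q b)) F = 1) :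
    wt (X.cell T T) F + wt (X.cell T ∅) F + ((m + 1 : ℕ) : ℤ) = C.card := by
  have hTE : T ≠ ∅ := fun e => by simp [e] at hc
  have hU : univ \ C = T.biUnion (fun b => X.cell T (q b)) ∪ (X.cell T T ∪ X.cell T ∅) := by
    ext v
    simp only [Finset.mem_union, Finset.mem_biUnion, K.mem_cell hT hc, Finset.mem_sdiff,
      Finset.mem_univ, true_and]
    constructor
    · intro hv
      rcases hall v hv with ⟨b, hb, h⟩ | h | h
      · exact Or.inl ⟨b, hb, hv, h⟩
      · exact Or.inr (Or.inr ⟨hv, h⟩)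
      · exact Or.inr (Or.inl ⟨hv, h⟩)
    · rintro (⟨-, -, h, -⟩ | ⟨h, -⟩ | ⟨h, -⟩) <;> exact h
  rw [← K.wt_compl hF hCF, hU, wt_union, wt_union, wt_biUnion, Finset.sum_congr rfl hw,
    Finset.sum_const, hc]
  · simp; ring
  · refine fun b hb c hcT hbc => Finset.disjoint_left.mpr fun v h1 h2 => hbc (hqi b hb c hcT ?_)
    rw [← ((K.mem_cell hT hc).mp h1).2, ((K.mem_cell hT hc).mp h2).2]
  · refine Finset.disjoint_left.mpr fun v h1 h2 => hTE ?_
    rw [← ((K.mem_cell hT hc).mp h1).2, ((K.mem_cell hT hc).mp h2).2]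
  · refine Finset.disjoint_left.mpr fun v h1 h2 => ?_
    obtain ⟨b, hb, hv⟩ := Finset.mem_biUnion.mp h1
    rw [K.mem_cell hT hc] at hv
    rcases Finset.mem_union.mp h2 with h3 | h3 <;> rw [K.mem_cell hT hc] at h3
    · exact hqT b hb (hv.2.symm.trans h3.2)
    · exact hqE b hb (hv.2.symm.trans h3.2)

theorem two_le {T : Finset α} (hc : T.card = m + 1) (b : α) : (T.erase b).Nonempty := by
  rw [← Finset.card_pos]
  have := Finset.pred_card_le_card_erase (a := b) (s := T)
  have := K.h4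
  omega

theorem total_singles {T F : Finset α} (hT : T ⊆ C) (hc : T.card = m + 1) (hF : F ∈ X.flats)
    (hCF : C ⊆ F) (hs : X.Singles T) :
    wt (X.cell T T) F + wt (X.cell T ∅) F + ((m + 1 : ℕ) : ℤ) = C.card := by
  refine K.total hT hc hF hCF (fun b => {b}) (fun b _ c _ h => Finset.singleton_injective h)
    (fun b _ => Finset.singleton_ne_empty b) (fun b _ h => ?_) (fun v hv => ?_)
    (fun b hb => hs.2.1 b hb F hF (hT.trans hCF))
  · have := congrArg Finset.card h
    simp [hc] at this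
    have := K.h4; omega
  · rcases hs.1 v (by rwa [K.exch T hT hc]) with h | h | h
    · obtain ⟨b, hb⟩ := Finset.card_eq_one.mp h
      refine Or.inl ⟨b, ?_, hb⟩
      have : b ∈ X.pat T v := by rw [hb]; simp
      exact (Finset.mem_filter.mp this).1
    · exact Or.inr (Or.inl h)
    · exact Or.inr (Or.inr h)

theorem exists_erase_of_cosingle {T : Finset α} {v : α} (hc : T.card = m + 1)
    (h : (X.pat T v).card + 1 = T.card) : ∃ b ∈ T, X.pat T v = T.erase b := by
  have hsub : X.pat T v ⊆ T := Finset.filter_subset _ _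
  obtain ⟨b, hb⟩ : (T \ X.pat T v).Nonempty := by
    rw [← Finset.card_pos, Finset.card_sdiff_of_subset hsub]; omega
  rw [Finset.mem_sdiff] at hb
  exact ⟨b, hb.1, Finset.eq_of_subset_of_card_le
    (fun w hw => Finset.mem_erase.mpr ⟨fun e => hb.2 (e ▸ hw), hsub hw⟩)
    (by rw [K.card_erase hc hb.1]; omega)⟩

theorem total_cosingles {T F : Finset α} (hT : T ⊆ C) (hc : T.card = m + 1) (hF : F ∈ X.flats)
    (hCF : C ⊆ F) (hs : X.Cosingles T) :
    wt (X.cell T T) F + wt (X.cell T ∅) F + ((m + 1 : ℕ) : ℤ) = C.card := by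
  refine K.total hT hc hF hCF (fun b => T.erase b)
    (fun b hb c _ h => by by_contra hne; simpa [hne, hb] using (Finset.ext_iff.mp h b))
    (fun b _ => (K.two_le hc b).ne_empty)
    (fun b hb h => by simpa [hb] using (Finset.ext_iff.mp h b)) (fun v hv => ?_)
    (fun b hb => hs.2.1 b hb F hF (hT.trans hCF))
  rcases hs.1 v (by rwa [K.exch T hT hc]) with h | h | h
  · exact Or.inl (K.exists_erase_of_cosingle hc h)
  · exact Or.inr (Or.inl h)
  · exact Or.inr (Or.inr h)

theorem outer_singles {T : Finset α} (hT : T ⊆ C) (hc : T.card = m + 1) (hs : X.Singles T)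
    {y : α} (hy : y ∈ T) : outer X C T y = X.cell T {y} ∪ X.cell T T := by
  ext v
  simp only [outer, Finset.mem_filter, Finset.mem_sdiff, Finset.mem_univ, true_and,
    Finset.mem_union, K.mem_cell hT hc]
  constructor
  · rintro ⟨hv, hp⟩
    rcases hs.1 v (by rwa [K.exch T hT hc]) with h | h | h
    · obtain ⟨b, hb⟩ := Finset.card_eq_one.mp h
      rw [hb, Finset.mem_singleton] at hp
      exact Or.inl ⟨hv, hp ▸ hb⟩
    · simp [h] at hp
    · exact Or.inr ⟨hv, h⟩
  · rintro (⟨hv, h⟩ | ⟨hv, h⟩) <;> exact ⟨hv, by simp [h, hy]⟩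

theorem outer_cosingles {T : Finset α} (hT : T ⊆ C) (hc : T.card = m + 1) (hs : X.Cosingles T)
    {y : α} (hy : y ∈ T) : outer X C T y =
      (T.erase y).biUnion (fun b => X.cell T (T.erase b)) ∪ X.cell T T := by
  ext v
  simp only [outer, Finset.mem_filter, Finset.mem_sdiff, Finset.mem_univ, true_and,
    Finset.mem_union, Finset.mem_biUnion, K.mem_cell hT hc]
  constructor
  · rintro ⟨hv, hp⟩
    rcases hs.1 v (by rwa [K.exch T hT hc]) with h | h | h
    · obtain ⟨b, hb, hpb⟩ := K.exists_erase_of_cosingle hc h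
      rw [hpb, Finset.mem_erase] at hp
      exact Or.inl ⟨b, Finset.mem_erase.mpr ⟨hp.1.symm, hb⟩, hv, hpb⟩
    · simp [h] at hp
    · exact Or.inr ⟨hv, h⟩
  · rintro (⟨b, hb, hv, h⟩ | ⟨hv, h⟩) <;> refine ⟨hv, ?_⟩
    · rw [h, Finset.mem_erase]; exact ⟨(Finset.mem_erase.mp hb).1.symm, hy⟩
    · rw [h]; exact hy

theorem wt_outer_singles {T F : Finset α} (hT : T ⊆ C) (hc : T.card = m + 1) (hs : X.Singles T)
    {y : α} (hy : y ∈ T) (hF : F ∈ X.flats) (hCF : C ⊆ F) :
    wt (outer X C T y) F = 1 + wt (X.cell T T) F := by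
  rw [K.outer_singles hT hc hs hy, wt_union, hs.2.1 y hy F hF (hT.trans hCF)]
  refine Finset.disjoint_left.mpr fun v h1 h2 => ?_
  have := congrArg Finset.card
    (((K.mem_cell hT hc).mp h1).2.symm.trans ((K.mem_cell hT hc).mp h2).2)
  simp [hc] at this
  have := K.h4; omega

theorem disjoint_cells {T : Finset α} (hT : T ⊆ C) (hc : T.card = m + 1) {b c : α} (hb : b ∈ T)
    (hbc : b ≠ c) : Disjoint (X.cell T (T.erase b)) (X.cell T (T.erase c)) := by
  refine Finset.disjoint_left.mpr fun v h1 h2 => ?_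
  have := ((K.mem_cell hT hc).mp h1).2.symm.trans ((K.mem_cell hT hc).mp h2).2
  simpa [hb, hbc] using Finset.ext_iff.mp this b

theorem disjoint_cells_full {T : Finset α} (hT : T ⊆ C) (hc : T.card = m + 1) (y : α) :
    Disjoint ((T.erase y).biUnion (fun b => X.cell T (T.erase b))) (X.cell T T) := by
  refine Finset.disjoint_left.mpr fun v h1 h2 => ?_
  obtain ⟨b, hb, hv⟩ := Finset.mem_biUnion.mp h1
  have := ((K.mem_cell hT hc).mp hv).2.symm.trans ((K.mem_cell hT hc).mp h2).2
  simpa [Finset.mem_of_mem_erase hb] using Finset.ext_iff.mp this b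

theorem wt_outer_cosingles {T F : Finset α} (hT : T ⊆ C) (hc : T.card = m + 1)
    (hs : X.Cosingles T) {y : α} (hy : y ∈ T) (hF : F ∈ X.flats) (hCF : C ⊆ F) :
    wt (outer X C T y) F = (m : ℤ) + wt (X.cell T T) F := by
  rw [K.outer_cosingles hT hc hs hy, wt_union (K.disjoint_cells_full hT hc y), wt_biUnion,
    Finset.sum_congr rfl fun b hb => hs.2.1 b (Finset.mem_of_mem_erase hb) F hF (hT.trans hCF),
    Finset.sum_const, K.card_erase hc hy]
  · simp
  · exact fun b hb c _ hbc => K.disjoint_cells hT hc (Finset.mem_of_mem_erase hb) hbc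

/-- The full case: every extra point lies in every own orbit. -/
def Full (_ : Ctx X m C) (T : Finset α) : Prop := ∀ v ∈ C, v ∉ T → X.pat T v = T

theorem orb_inter_full {T : Finset α} (_hT : T ⊆ C) (hc : T.card = m + 1) (hfull : K.Full T)
    {y : α} (hy : y ∈ T) : X.orb (T.erase y) y ∩ C = C \ T.erase y := by
  ext v
  simp only [Finset.mem_inter, Finset.mem_sdiff]
  constructor
  · rintro ⟨hv, hvC⟩
    refine ⟨hvC, fun h => ?_⟩
    exact Finset.disjoint_left.mp (X.disjoint_orb_cl (K.notMem_cl_erase hc hy)) hv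
      (X.subset_cl _ h)
  · rintro ⟨hvC, hv⟩
    refine ⟨?_, hvC⟩
    by_cases e : v = y
    · subst e; exact X.self_mem_orb _ _
    · have hvT : v ∉ T := fun h => hv (Finset.mem_erase.mpr ⟨e, h⟩)
      exact (K.mem_pat hy e).mp (by rw [hfull v hvC hvT]; exact hy)

theorem cosingles {T : Finset α} (hT : T ⊆ C) (hc : T.card = m + 1) (hfull : K.Full T) :
    X.Cosingles T := by
  refine (K.level.singles_or_cosingles K.h4 hc (by rw [K.exch T hT hc]; exact K.ub)).resolve_left
    fun hs => ?_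
  obtain ⟨F, hF, hCF⟩ := K.exists_flat
  obtain ⟨y, hy⟩ : T.Nonempty := Finset.card_pos.mp (by omega)
  have h1 := K.one_le_orb hc hy hF (hT.trans hCF)
  have h2 := K.wt_orb hT hy hCF
  rw [K.orb_inter_full hT hc hfull hy, Finset.card_sdiff_of_subset
    ((Finset.erase_subset _ _).trans hT), K.card_erase hc hy,
    K.wt_outer_singles hT hc hs hy hF hCF] at h2
  have h3 := K.total_singles hT hc hF hCF hs
  have h4 := K.wt_nonneg' hF hCF (K.inv_cell hT hc ∅) (K.cell_sub hT hc ∅)
  have := K.lb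
  omega

theorem card_insert_erase {S : Finset α} (hc : S.card = m + 1) {x z : α} (hx : x ∈ S)
    (hz : z ∉ S) : (insert z (S.erase x)).card = m + 1 := by
  rw [Finset.card_insert_of_notMem (fun h => hz (Finset.mem_of_mem_erase h)), K.card_erase hc hx]

theorem sub_insert_erase {S : Finset α} (hS : S ⊆ C) {x z : α} (hz : z ∈ C) :
    insert z (S.erase x) ⊆ C :=
  Finset.insert_subset hz ((Finset.erase_subset _ _).trans hS)

/-- A full set gives full sets by exchange of one point. -/
theorem full_insert {S : Finset α} (hS : S ⊆ C) (hc : S.card = m + 1) (hfull : K.Full S)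
    {x z : α} (hx : x ∈ S) (hz : z ∈ C) (hzS : z ∉ S) : K.Full (insert z (S.erase x)) := by
  intro v hvC hvT
  set T := insert z (S.erase x) with hTdef
  have hTC := K.sub_insert_erase (x := x) hS hz
  have hTc := K.card_insert_erase hc hx hzS
  refine (K.level.pat_extra K.h4 hTc (by rw [K.exch T hTC hTc]; exact K.ub)
    (by rw [K.exch T hTC hTc]; exact hvC) hvT).resolve_left fun he => ?_
  have hzB : z ∉ S.erase x := fun h => hzS (Finset.mem_of_mem_erase h)
  have hTe : T.erase z = S.erase x := Finset.erase_insert hzB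
  have hzmem : z ∈ X.orb (S.erase x) x :=
    (K.mem_pat (v := z) hx fun e => hzS (e ▸ hx)).mp (by rw [hfull z hz hzS]; exact hx)
  have hvmem : v ∈ X.orb (S.erase x) x := by
    by_cases e : v = x
    · subst e; exact X.self_mem_orb _ _
    · have hvS : v ∉ S := fun h => hvT (Finset.mem_insert_of_mem (Finset.mem_erase.mpr ⟨e, h⟩))
      exact (K.mem_pat hx e).mp (by rw [hfull v hvC hvS]; exact hx)
  have hmem : z ∈ X.pat T v := by
    rw [K.mem_pat (v := v) (y := z) (T := T) (Finset.mem_insert_self _ _)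
      fun e => hvT (e ▸ Finset.mem_insert_self _ _), hTe, X.orb_eq_of_mem hzmem]
    exact hvmem
  rw [he] at hmem
  exact absurd hmem (Finset.notMem_empty z)

theorem cell_eq_orb {T : Finset α} (hT : T ⊆ C) (hc : T.card = m + 1) (hs : X.Cosingles T)
    {y w : α} (hy : y ∈ T) (hw : w ∈ X.cell T (T.erase y)) :
    X.cell T (T.erase y) = X.orb C w := by
  obtain ⟨v, -, hv⟩ := hs.2.2.1 y hy
  rw [← hv, K.orb_C hT hc] at hw ⊢
  exact (X.orb_eq_of_mem hw).symm

theorem cell_nonempty {T : Finset α} (hs : X.Cosingles T) {y : α} (hy : y ∈ T) :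
    (X.cell T (T.erase y)).Nonempty :=
  let ⟨v, hv, _⟩ := hs.2.2.1 y hy
  ⟨v, hv⟩

theorem inv_orb {w : α} : Inv X C (X.orb C w) := fun j hj v hv => by
  obtain ⟨i, hi, rfl⟩ := X.mem_orb.mp hv
  exact X.mem_orb.mpr ⟨j * i, mul_mem hj hi, by simp⟩

/-- Equal colours at one pair give equal colours everywhere. -/
theorem colours_eq {S : Finset α} (hS : S ⊆ C) (hc : S.card = m + 1) (hfull : K.Full S) {x z : α}
    (hx : x ∈ S) (hz : z ∈ C) (hzS : z ∉ S)
    (he : X.cell (insert z (S.erase x)) (S.erase x) = X.cell S (S.erase x)) :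
    ∀ b ∈ S.erase x, X.cell (insert z (S.erase x)) ((insert z (S.erase x)).erase b) =
      X.cell S (S.erase b) := by
  classical
  set B := S.erase x with hBdef
  set T := insert z B with hTdef
  have hTC : T ⊆ C := K.sub_insert_erase hS hz
  have hTc : T.card = m + 1 := K.card_insert_erase hc hx hzS
  have hcS := K.cosingles hS hc hfull
  have hcT := K.cosingles hTC hTc (K.full_insert hS hc hfull hx hz hzS)
  have hzB : z ∉ B := fun h => hzS (Finset.mem_of_mem_erase h)
  have hTz : T.erase z = B := Finset.erase_insert hzB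
  have hBT : B ⊆ T := Finset.subset_insert _ _
  have hBS : B ⊆ S := Finset.erase_subset _ _
  obtain ⟨F, hF, hCF⟩ := K.exists_flat
  have hBcard : B.card = m := K.card_erase hc hx
  -- three-cycles on `B` transport the colours
  have transport : ∀ a ∈ B, ∀ b ∈ B, ∀ c ∈ B, a ≠ b → b ≠ c → c ≠ a → ∀ p ∈ B, ∀ g ∈ X.G,
      g a = b → g b = c → g c = a → (∀ v ∈ C, v ≠ a → v ≠ b → v ≠ c → g v = v) →
      S.image g = S ∧ (X.cell T (T.erase p)).image g = X.cell T (T.erase (g p)) := by
    intro a ha b hb c hcc hab hbc hca p hp g hg g1 g2 g3 g4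
    have hgC : ∀ U : Finset α, U ⊆ C → a ∈ U → b ∈ U → c ∈ U → U.image g = U := by
      intro U hU hUa hUb hUc
      refine Finset.eq_of_subset_of_card_le (Finset.image_subset_iff.mpr fun v hv => ?_)
        (Finset.card_image_of_injective _ g.injective).ge
      by_cases h1 : v = a
      · rw [h1, g1]; exact hUb
      by_cases h2 : v = b
      · rw [h2, g2]; exact hUc
      by_cases h3 : v = c
      · rw [h3, g3]; exact hUa
      rw [g4 v (hU hv) h1 h2 h3]; exact hv
    refine ⟨hgC S hS (hBS ha) (hBS hb) (hBS hcc), ?_⟩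
    rw [← X.cell_image hg, Finset.image_erase g.injective, hgC T hTC (hBT ha) (hBT hb) (hBT hcc)]
  choose! w hw using fun b (hb : b ∈ B) => K.cell_nonempty hcT (hBT hb)
  have same : ∀ b ∈ B, ∀ v ∈ X.cell T (T.erase b), X.pat S v = X.pat S (w b) := by
    intro b hb v hv
    rw [K.cell_eq_orb hTC hTc hcT (hBT hb) (hw b hb)] at hv
    obtain ⟨j, hj, rfl⟩ := X.mem_orb.mp hv
    exact K.pat_apply hS hj _
  have equiv : ∀ a ∈ B, ∀ b ∈ B, ∀ c ∈ B, a ≠ b → b ≠ c → c ≠ a → ∃ g ∈ X.G,
      g a = b ∧ g b = c ∧ g c = a ∧ (∀ v ∈ C, v ≠ a → v ≠ b → v ≠ c → g v = v) ∧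
      S.image g = S ∧ ∀ p ∈ B, g p ∈ B → X.pat S (w (g p)) = (X.pat S (w p)).image g := by
    intro a ha b hb c hcc hab hbc hca
    obtain ⟨g, hg, g1, g2, g3, g4, -⟩ :=
      K.lifts (hS (hBS ha)) (hS (hBS hb)) (hS (hBS hcc)) hab hbc hca
    have ht := fun p hp => transport a ha b hb c hcc hab hbc hca p hp g hg g1 g2 g3 g4
    refine ⟨g, hg, g1, g2, g3, g4, (ht a ha).1, fun p hp hgp => ?_⟩
    have hmem : g (w p) ∈ X.cell T (T.erase (g p)) := by
      rw [← (ht p hp).2]; exact Finset.mem_image_of_mem _ (hw p hp)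
    rw [← same (g p) hgp _ hmem, ← X.pat_image hg S (w p), (ht a ha).1]
  -- a third point
  have third : ∀ a b : α, ∃ c ∈ B, c ≠ a ∧ c ≠ b := by
    intro a b
    obtain ⟨c, hc', hn⟩ := Finset.exists_mem_notMem_of_card_lt_card
      (s := ({a, b} : Finset α)) (t := B) (by
        have := (Finset.card_le_two : ({a, b} : Finset α).card ≤ 2)
        have := K.h4; omega)
    simp only [Finset.mem_insert, Finset.mem_singleton, not_or] at hn
    exact ⟨c, hc', hn⟩
  have hwC : ∀ b ∈ B, w b ∉ C := fun b hb => ((K.mem_cell hTC hTc).mp (hw b hb)).1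
  have hcl : ∀ v, v ∉ C → v ∉ X.cl S := fun v hv => by rwa [K.exch S hS hc]
  by_cases hbad : ∃ b ∈ B, X.pat S (w b) = ∅ ∨ X.pat S (w b) = S
  · exfalso
    obtain ⟨b₀, hb₀, hb₀p⟩ := hbad
    have hallU : ∀ b ∈ B, X.cell T (T.erase b) ⊆ X.cell S S ∪ X.cell S ∅ := by
      intro b hb v hv
      have hv' := ((K.mem_cell hTC hTc).mp hv).1
      rw [Finset.mem_union, K.mem_cell hS hc, K.mem_cell hS hc, same b hb v hv]
      suffices X.pat S (w b) = ∅ ∨ X.pat S (w b) = S from
        this.elim (fun h => Or.inr ⟨hv', h⟩) (fun h => Or.inl ⟨hv', h⟩)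
      by_cases e : b = b₀
      · rw [e]; exact hb₀p
      obtain ⟨c, hcB, hc1, hc2⟩ := third b₀ b
      obtain ⟨g, -, g1, -, -, -, g5, g6⟩ := equiv b₀ hb₀ b hb c hcB (Ne.symm e) hc2.symm hc1
      have h6 := g6 b₀ hb₀ (by rw [g1]; exact hb)
      rw [g1] at h6
      rcases hb₀p with h | h <;> rw [h] at h6
      · exact Or.inl (by simpa using h6)
      · exact Or.inr (h6.trans g5)
    have hdis : ∀ b ∈ B, ∀ c ∈ B, b ≠ c →
        Disjoint (X.cell T (T.erase b)) (X.cell T (T.erase c)) :=
      fun b hb c _ hbc => K.disjoint_cells hTC hTc (hBT hb) hbc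
    have hle : B.biUnion (fun b => X.cell T (T.erase b)) ⊆ X.cell S S ∪ X.cell S ∅ :=
      Finset.biUnion_subset.mpr hallU
    have hU : Inv X C (X.cell S S ∪ X.cell S ∅) := (K.inv_cell hS hc S).union (K.inv_cell hS hc ∅)
    have hV : Inv X C (B.biUnion fun b => X.cell T (T.erase b)) :=
      Inv.biUnion fun b _ => K.inv_cell hTC hTc _
    have h1 := wt_sdiff (F := F) hle
    have h2 := K.wt_nonneg' hF hCF (hU.sdiff hV) (Finset.sdiff_subset.trans
      (Finset.union_subset (K.cell_sub hS hc S) (K.cell_sub hS hc ∅)))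
    rw [wt_biUnion B _ F hdis, Finset.sum_congr rfl
      (fun b hb => hcT.2.1 b (hBT hb) F hF (hTC.trans hCF)), Finset.sum_const, hBcard,
      wt_union] at h1
    · have h3 := K.total_cosingles hS hc hF hCF hcS
      have := K.ub
      simp at h1
      omega
    · refine Finset.disjoint_left.mpr fun v h1 h2 => ?_
      have := congrArg Finset.card
        (((K.mem_cell hS hc).mp h1).2.symm.trans ((K.mem_cell hS hc).mp h2).2)
      simp [hc] at this
  push Not at hbad
  have hφ : ∀ b ∈ B, ∃ c ∈ B, X.pat S (w b) = S.erase c := by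
    intro b hb
    obtain ⟨h1, h2⟩ := hbad b hb
    rcases hcS.1 _ (hcl _ (hwC b hb)) with h | h | h
    · obtain ⟨c, hcS', hp⟩ := K.exists_erase_of_cosingle hc h
      refine ⟨c, Finset.mem_erase.mpr ⟨fun e => ?_, hcS'⟩, hp⟩
      subst e
      have hmem : w b ∈ X.cell S (S.erase c) := (K.mem_cell hS hc).mpr ⟨hwC b hb, hp⟩
      rw [← hBdef, ← he, K.mem_cell hTC hTc,
        ((K.mem_cell hTC hTc).mp (hw b hb)).2] at hmem
      have h3 := hmem.2
      rw [← hTz] at h3
      exact hzB ((by simpa [hBT hb] using Finset.ext_iff.mp h3 b : b = z) ▸ hb)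
    · exact absurd h h1.ne_empty
    · exact absurd h h2
  choose! φ hφB hφ using hφ
  have hid : ∀ b ∈ B, φ b = b := by
    intro b hb
    by_contra hne
    have hcB := hφB b hb
    have erase_inj : ∀ p ∈ B, ∀ q, S.erase p = S.erase q → p = q := fun p hp q h => by
      by_contra hpq
      simpa [hBS hp, hpq] using Finset.ext_iff.mp h p
    have eqv : ∀ a ∈ B, ∀ c ∈ B, ∀ d ∈ B, a ≠ c → c ≠ d → d ≠ a → ∃ g : Perm α,
        g a = c ∧ g c = d ∧ g d = a ∧ (∀ v ∈ C, v ≠ a → v ≠ c → v ≠ d → g v = v) ∧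
        ∀ p ∈ B, g p ∈ B → φ (g p) = g (φ p) := by
      intro a ha c hc' d hd h1 h2 h3
      obtain ⟨g, -, g1, g2, g3, g4, g5, g6⟩ := equiv a ha c hc' d hd h1 h2 h3
      refine ⟨g, g1, g2, g3, g4, fun p hp hgp => ?_⟩
      have h6 := g6 p hp hgp
      rw [hφ p hp, hφ (g p) hgp, Finset.image_erase g.injective, g5] at h6
      exact erase_inj _ (hφB _ hgp) _ h6
    -- `b ↦ φ b` commutes with the three-cycles `(b φb d)`
    have key : ∀ d ∈ B, d ≠ b → d ≠ φ b → φ (φ b) = d := by
      intro d hd hdb hdc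
      obtain ⟨g, g1, g2, -, -, g5⟩ := eqv b hb (φ b) hcB d hd (Ne.symm hne) hdc.symm hdb
      have := g5 b hb (by rw [g1]; exact hcB)
      rw [g1, g2] at this
      exact this
    obtain ⟨d, hd, hd1, hd2⟩ := third b (φ b)
    obtain ⟨e, he', hne'⟩ := Finset.exists_mem_notMem_of_card_lt_card
      (s := ({b, φ b, d} : Finset α)) (t := B) (by
        have := (Finset.card_le_three : ({b, φ b, d} : Finset α).card ≤ 3)
        have := K.h4; omega)
    simp only [Finset.mem_insert, Finset.mem_singleton, not_or] at hne'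
    exact hne'.2.2 ((key e he' hne'.1 hne'.2.1).symm.trans (key d hd hd1 hd2))
  intro b hb
  have hmem : w b ∈ X.cell S (S.erase b) :=
    (K.mem_cell hS hc).mpr ⟨hwC b hb, by rw [hφ b hb, hid b hb]⟩
  rw [K.cell_eq_orb hTC hTc hcT (hBT hb) (hw b hb), K.cell_eq_orb hS hc hcS (hBS hb) hmem]

/-- Two points of a base have different colours. -/
theorem colours_ne {S : Finset α} (hS : S ⊆ C) (hc : S.card = m + 1) (hfull : K.Full S) {x z : α}
    (hx : x ∈ S) (hz : z ∈ C) (hzS : z ∉ S) :
    X.cell (insert z (S.erase x)) (S.erase x) ≠ X.cell S (S.erase x) := by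
  intro he
  have hzB : z ∉ S.erase x := fun h => hzS (Finset.mem_of_mem_erase h)
  have hTC := K.sub_insert_erase (x := x) hS hz
  have hTc := K.card_insert_erase hc hx hzS
  have hcT := K.cosingles hTC hTc (K.full_insert hS hc hfull hx hz hzS)
  obtain ⟨b, hb⟩ : (S.erase x).Nonempty := K.two_le hc x
  obtain ⟨c, hcB, hcb⟩ : ∃ c ∈ S.erase x, c ≠ b := by
    obtain ⟨c, hc', hn⟩ := Finset.exists_mem_notMem_of_card_lt_card
      (s := ({b} : Finset α)) (t := S.erase x) (by
        rw [K.card_erase hc hx, Finset.card_singleton]; have := K.h4; omega)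
    exact ⟨c, hc', by simpa using hn⟩
  obtain ⟨hbx, hbS⟩ := Finset.mem_erase.mp hb
  obtain ⟨hcx, hcS⟩ := Finset.mem_erase.mp hcB
  obtain ⟨g, hg, g1, g2, g3, g4, -⟩ := K.lifts (hS hx) (hS hbS) (hS hcS) hbx.symm hcb.symm hcx
  have hgz : g z = z := g4 z hz (fun e => hzS (e ▸ hx)) (fun e => hzS (e ▸ hbS))
    (fun e => hzS (e ▸ hcS))
  have hgS : S.image g = S := by
    refine Finset.eq_of_subset_of_card_le (Finset.image_subset_iff.mpr fun v hv => ?_)
      (Finset.card_image_of_injective _ g.injective).ge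
    by_cases h1 : v = x
    · rw [h1, g1]; exact hbS
    by_cases h2 : v = b
    · rw [h2, g2]; exact hcS
    by_cases h3 : v = c
    · rw [h3, g3]; exact hx
    rw [g4 v (hS hv) h1 h2 h3]; exact hv
  have hgB : (S.erase x).image g = S.erase b := by
    rw [Finset.image_erase g.injective, hgS, g1]
  have he' : X.cell (insert z (S.erase b)) (S.erase b) = X.cell S (S.erase b) := by
    have := congrArg (Finset.image g) he
    rwa [← X.cell_image hg, ← X.cell_image hg, Finset.image_insert, hgB, hgz, hgS] at this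
  set T := insert z (S.erase x) with hTdef
  set T' := insert z (S.erase b) with hT'def
  have hT'C : T' ⊆ C := K.sub_insert_erase hS hz
  have hT'c : T'.card = m + 1 := K.card_insert_erase hc hbS hzS
  have key : X.cell T' (T'.erase x) = X.cell T (T.erase z) := by
    rw [K.colours_eq hS hc hfull hbS hz hzS he' x (Finset.mem_erase.mpr ⟨hbx.symm, hx⟩), ← he,
      hTdef, Finset.erase_insert hzB]
  have hzT : z ∈ T := Finset.mem_insert_self z (S.erase x)
  obtain ⟨v, hv⟩ := K.cell_nonempty (y := z) hcT hzT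
  have hv' : v ∈ X.cell T' (T'.erase x) := by rw [key]; exact hv
  rw [K.mem_cell hTC hTc] at hv
  rw [K.mem_cell hT'C hT'c] at hv'
  have hbT : b ∈ T := Finset.mem_insert_of_mem hb
  have hxT' : x ∈ T' := Finset.mem_insert_of_mem (Finset.mem_erase.mpr ⟨hbx.symm, hx⟩)
  have h1 : v ∈ X.orb (T.erase b) b := by
    refine (K.mem_pat (v := v) hbT fun e => hv.1 (e ▸ hS hbS)).mp ?_
    rw [hv.2]
    exact Finset.mem_erase.mpr ⟨fun e => hzS (e ▸ hbS), hbT⟩
  have hA : T.erase b = T'.erase x := by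
    ext a
    simp only [hTdef, hT'def, Finset.mem_erase, Finset.mem_insert]
    constructor
    · rintro ⟨hab, rfl | ⟨hax, haS⟩⟩
      · exact ⟨fun e => hzS (e ▸ hx), Or.inl rfl⟩
      · exact ⟨hax, Or.inr ⟨hab, haS⟩⟩
    · rintro ⟨hax, rfl | ⟨hab, haS⟩⟩
      · exact ⟨fun e => hzS (e ▸ hbS), Or.inl rfl⟩
      · exact ⟨hab, Or.inr ⟨hax, haS⟩⟩
  have h2 : x ∈ X.orb (T.erase b) b := by
    refine (K.mem_pat hbT hbx.symm).mp ?_
    rw [K.full_insert hS hc hfull hx hz hzS x (hS hx) (by
      simp only [Finset.mem_insert, Finset.mem_erase, not_or]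
      exact ⟨fun e => hzS (e ▸ hx), fun h => h.1 rfl⟩)]
    exact hbT
  rw [← X.orb_eq_of_mem h2, hA] at h1
  have h3 := (K.mem_pat (v := v) hxT' fun e => hv'.1 (e ▸ hS hx)).mpr h1
  rw [hv'.2] at h3
  simp at h3

/-- The extra points lie in the orbit of each point. -/
theorem full {S : Finset α} (hS : S ⊆ C) (hc : S.card = m + 1) : K.Full S := by
  classical
  by_contra hnf
  simp only [Full, not_forall] at hnf
  obtain ⟨v₀, hv₀, hv₀S, hne⟩ := hnf
  obtain ⟨x, hx⟩ : S.Nonempty := Finset.card_pos.mp (by omega)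
  set B := S.erase x with hBdef
  have hBcard : B.card = m := K.card_erase hc hx
  have hlt : ∀ T, T ⊆ C → T.card = m + 1 → (X.cl T).card ≤ 2 * m := fun T hT hTc => by
    rw [K.exch T hT hTc]; exact K.ub
  obtain ⟨b₀, hb₀, c₀, hc₀, hbc₀⟩ := Finset.one_lt_card.mp
    (show 1 < B.card by rw [hBcard]; have := K.h4; omega)
  obtain ⟨F, hF, hCF⟩ := K.exists_flat
  have hBC : B ⊆ C := (Finset.erase_subset _ _).trans hS
  have hxB : x ∉ B := Finset.notMem_erase _ _
  -- a product of two transpositions carrying `x` to `z` and keeping `B`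
  have move : ∀ z ∈ C, z ∉ S → ∃ g ∈ X.G, g x = z ∧ g z = x ∧ B.image g = B ∧
      (∀ v ∈ C, g v ∈ C) ∧ ∀ v ∈ C, v ∉ B → v ≠ x → v ≠ z → g v = v := by
    intro z hz hzS
    obtain ⟨hb0, hb0S⟩ := Finset.mem_erase.mp hb₀
    obtain ⟨hc0, hc0S⟩ := Finset.mem_erase.mp hc₀
    obtain ⟨g, hg, g1, g2, g3, g4, g5, g6⟩ := K.swap2 (hS hx) hz (hS hb0S) (hS hc0S)
      (fun e => hzS (e ▸ hx)) hb0.symm hc0.symm (fun e => hzS (e ▸ hb0S))
      (fun e => hzS (e ▸ hc0S)) hbc₀
    refine ⟨g, hg, g1, g2, ?_, g6, fun v hv hvB h1 h2 =>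
      g5 v hv h1 h2 (fun e => hvB (e ▸ hb₀)) (fun e => hvB (e ▸ hc₀))⟩
    refine Finset.eq_of_subset_of_card_le (Finset.image_subset_iff.mpr fun v hv => ?_)
      (Finset.card_image_of_injective _ g.injective).ge
    by_cases h3 : v = b₀
    · rw [h3, g3]; exact hc₀
    by_cases h4 : v = c₀
    · rw [h4, g4]; exact hb₀
    rw [g5 v (hBC hv) (fun e => hxB (e ▸ hv))
      (fun e => hzS (e ▸ Finset.mem_of_mem_erase hv)) h3 h4]
    exact hv
  -- no extra point is in the orbit of `x`
  have out : ∀ z ∈ C, z ∉ S → z ∉ X.orb B x := by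
    intro z hz hzS hzO
    have hzfull : X.pat S z = S :=
      ((K.level.pat_extra K.h4 hc (hlt S hS hc) (by rw [K.exch S hS hc]; exact hz) hzS).resolve_left
        fun he => by
          have := (K.mem_pat (v := z) hx (fun e => hzS (e ▸ hx))).mpr hzO
          simp [he] at this)
    apply hne
    by_cases e : v₀ = z
    · rw [e]; exact hzfull
    refine (K.level.pat_extra K.h4 hc (hlt S hS hc) (by rw [K.exch S hS hc]; exact hv₀)
      hv₀S).resolve_left fun he => ?_
    -- three points: carry `z` to `v₀` fixing `x`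
    obtain ⟨hb0, hb0S⟩ := Finset.mem_erase.mp hb₀
    obtain ⟨hc0, hc0S⟩ := Finset.mem_erase.mp hc₀
    obtain ⟨g, hg, g1, g2, g3, g4, g5, -⟩ := K.swap2 hz hv₀ (hS hb0S) (hS hc0S) (Ne.symm e)
      (fun e' => hzS (e' ▸ hb0S)) (fun e' => hzS (e' ▸ hc0S)) (fun e' => hv₀S (e' ▸ hb0S))
      (fun e' => hv₀S (e' ▸ hc0S)) hbc₀
    have hgx : g x = x := g5 x (hS hx) (fun e' => hzS (e' ▸ hx)) (fun e' => hv₀S (e' ▸ hx))
      hb0.symm hc0.symm
    have hgS : S.image g = S := by
      refine Finset.eq_of_subset_of_card_le (Finset.image_subset_iff.mpr fun v hv => ?_)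
        (Finset.card_image_of_injective _ g.injective).ge
      by_cases h3 : v = b₀
      · rw [h3, g3]; exact hc0S
      by_cases h4 : v = c₀
      · rw [h4, g4]; exact hb0S
      rw [g5 v (hS hv) (fun e' => hzS (e' ▸ hv)) (fun e' => hv₀S (e' ▸ hv)) h3 h4]
      exact hv
    have h6 := X.pat_image hg S z
    rw [hgS, g1, hzfull, hgS, he] at h6
    simp [← h6] at hc
  -- own orbits of the points of the line
  have hOC : X.orb B x ∩ C = {x} := by
    ext v
    simp only [Finset.mem_inter, Finset.mem_singleton]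
    refine ⟨fun hv => ?_, fun e => by subst e; exact ⟨X.self_mem_orb _ _, hS hx⟩⟩
    by_contra hne'
    by_cases hvS : v ∈ S
    · exact Finset.disjoint_left.mp (X.disjoint_orb_cl (K.notMem_cl_erase hc hx)) hv.1
        (X.subset_cl _ (Finset.mem_erase.mpr ⟨hne', hvS⟩))
    · exact out v hv.2 hvS hv.1
  have h1 := K.one_le_orb hc hx hF (hS.trans hCF)
  have h2 := K.wt_orb hS hx hCF
  rw [← hBdef, hOC, Finset.card_singleton] at h2
  rw [← hBdef] at h1
  -- all the lines' orbits have the same weight, and are disjoint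
  have hBF : B ⊆ F := hBC.trans hCF
  have heq : ∀ z ∈ C, z ∉ S →
      wt (X.orb B z) F = wt (X.orb B x) F ∧ X.orb B z ∩ C = {z} := by
    intro z hz hzS
    obtain ⟨g, hg, g1, g2, gB, gC, -⟩ := move z hz hzS
    have himg : (X.orb B x).image g = X.orb B z := by rw [X.orb_image hg, gB, g1]
    constructor
    · have hinv : ∀ j ∈ X.J B, (X.orb B x).image j = X.orb B x := fun j hj => X.image_orb hj
      have hF' : F.image (g⁻¹ : Perm α) ∈ X.flats := X.flat_image _ (inv_mem hg) F hF
      have hB' : B ⊆ F.image (g⁻¹ : Perm α) :=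
        (Geom.subset_image_iff_inv g B F).mp (gB.symm ▸ hBF)
      rw [X.wt_eq hF hBF hF' hB' hinv, ← himg]
      have : (X.orb B x).image g ∩ F = ((X.orb B x) ∩ F.image (g⁻¹ : Perm α)).image g := by
        rw [Finset.image_inter _ _ g.injective, Geom.image_inv_image']
      simp only [wt, this, Finset.card_image_of_injective _ g.injective]
    · have hCC : C.image g = C := Finset.eq_of_subset_of_card_le
        (Finset.image_subset_iff.mpr gC) (Finset.card_image_of_injective _ g.injective).ge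
      have := congrArg (Finset.image g) hOC
      rwa [Finset.image_inter _ _ g.injective, himg, hCC, Finset.image_singleton, g1] at this
  rcases K.level.singles_or_cosingles K.h4 hc (hlt S hS hc) with hs | hs
  swap
  · -- cosingles: two orbits weigh too much
    rw [K.wt_outer_cosingles hS hc hs hx hF hCF] at h2
    obtain ⟨hw, -⟩ := heq v₀ hv₀ hv₀S
    have hsum := X.sum_wt hF hBF
    rw [K.level.cl_eq hBcard, hBcard] at hsum
    have hzB : v₀ ∉ X.cl B := by
      rw [K.level.cl_eq hBcard]; exact fun h => hv₀S (Finset.mem_of_mem_erase h)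
    have hpair : wt (X.orb B x) F + wt (X.orb B v₀) F ≤ ∑ O ∈ X.orbits B, wt O F := by
      have hne2 : X.orb B x ≠ X.orb B v₀ := fun e =>
        out v₀ hv₀ hv₀S (e ▸ X.self_mem_orb B v₀)
      rw [← Finset.sum_pair (f := fun O => wt O F) hne2]
      refine Finset.sum_le_sum_of_subset_of_nonneg (Finset.insert_subset
        (X.orb_mem_orbits (K.notMem_cl_erase hc hx))
        (Finset.singleton_subset_iff.mpr (X.orb_mem_orbits hzB))) fun O hO _ => ?_
      obtain ⟨y, hy, rfl⟩ := X.mem_orbits.mp hO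
      exact le_trans (by norm_num) (X.one_le_wt_orb (K.level.nonempty hBcard) hF hBF hy)
    have := K.wt_nonneg' hF hCF (K.inv_cell hS hc S) (K.cell_sub hS hc S)
    have := K.h4
    omega
  rw [K.wt_outer_singles hS hc hs hx hF hCF] at h2
  have htot := K.total_singles hS hc hF hCF hs
  set u := wt (X.cell S S) F with hu
  -- the outer parts of the other lines lie in the empty cell
  let P : α → Finset α := fun z => X.orb B z \ C
  have hL : ∀ z ∈ C \ S, Inv X C (P z) ∧ P z ⊆ univ \ C ∧ wt (P z) F = u + 1 := by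
    intro z hz
    obtain ⟨hzC, hzS⟩ := Finset.mem_sdiff.mp hz
    refine ⟨fun j hj v hv => ?_, Finset.sdiff_subset_sdiff (Finset.subset_univ _) le_rfl, ?_⟩
    · obtain ⟨hv1, hv2⟩ := Finset.mem_sdiff.mp hv
      refine Finset.mem_sdiff.mpr ⟨?_, K.notMem hj hv2⟩
      have := X.image_orb (A := B) (x := z) (X.J_mono hBC hj)
      rw [← this]; exact Finset.mem_image_of_mem _ hv1
    · obtain ⟨hw, hC'⟩ := heq z hzC hzS
      have h5 := wt_sdiff (F := F) (Finset.inter_subset_left : X.orb B z ∩ C ⊆ X.orb B z)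
      rw [Finset.sdiff_inter_self_left, hC', hw,
        wt_of_subset (Finset.singleton_subset_iff.mpr (hCF hzC)), Finset.card_singleton] at h5
      simp only [P]
      omega
  have hPsub : ∀ z ∈ C \ S, ∀ v ∈ P z, X.pat S v = ∅ := by
    intro z hz v hv
    obtain ⟨hzC, hzS⟩ := Finset.mem_sdiff.mp hz
    obtain ⟨hv1, hv2⟩ := Finset.mem_sdiff.mp hv
    have hxp : x ∉ X.pat S v := fun h => by
      have h' := (K.mem_pat (v := v) hx fun e => hv2 (e ▸ hS hx)).mp h
      rw [← hBdef] at h'
      exact out z hzC hzS (X.orb_eq_of_mem h' ▸ (X.orb_eq_of_mem hv1).symm ▸ X.self_mem_orb B z)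
    rcases hs.1 v (by rwa [K.exch S hS hc]) with h | h | h
    · exfalso
      obtain ⟨b, hb⟩ := Finset.card_eq_one.mp h
      have hbS : b ∈ S := by
        have : b ∈ X.pat S v := by rw [hb]; simp
        exact (Finset.mem_filter.mp this).1
      have hbx : b ≠ x := fun e => hxp (by rw [hb, e]; simp)
      -- every single cell of a point of `B` is inside
      have hall : ∀ c ∈ B, X.cell S {c} ⊆ P z := by
        intro c hcB w hw
        obtain ⟨hcx, hcS⟩ := Finset.mem_erase.mp hcB
        obtain ⟨g, hg, gS, gB, gb, gz, gC⟩ : ∃ g ∈ X.G, S.image g = S ∧ B.image g = B ∧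
            g b = c ∧ g z = z ∧ ∀ v ∈ C, g v ∈ C := by
          by_cases e : c = b
          · exact ⟨1, one_mem _, by simp, by simp, by simp [e], by simp, by simp⟩
          obtain ⟨d, hd, hdn⟩ := Finset.exists_mem_notMem_of_card_lt_card
            (s := ({b, c} : Finset α)) (t := B) (by
              have := (Finset.card_le_two : ({b, c} : Finset α).card ≤ 2)
              have := K.h4; omega)
          simp only [Finset.mem_insert, Finset.mem_singleton, not_or] at hdn
          obtain ⟨hdx, hdS⟩ := Finset.mem_erase.mp hd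
          obtain ⟨g, hg, g1, g2, g3, g4, g5⟩ :=
            K.lifts (hS hbS) (hS hcS) (hS hdS) (Ne.symm e) (Ne.symm hdn.2) hdn.1
          have himg : ∀ U : Finset α, U ⊆ C → b ∈ U → c ∈ U → d ∈ U → U.image g = U := by
            intro U hU hUb hUc hUd
            refine Finset.eq_of_subset_of_card_le (Finset.image_subset_iff.mpr fun v hv => ?_)
              (Finset.card_image_of_injective _ g.injective).ge
            by_cases h1 : v = b
            · rw [h1, g1]; exact hUc
            by_cases h2 : v = c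
            · rw [h2, g2]; exact hUd
            by_cases h3 : v = d
            · rw [h3, g3]; exact hUb
            rw [g4 v (hU hv) h1 h2 h3]; exact hv
          exact ⟨g, hg, himg S hS hbS hcS hdS,
            himg B hBC (Finset.mem_erase.mpr ⟨hbx, hbS⟩) hcB hd, g1,
            g4 z hzC (fun e => hzS (e ▸ hbS)) (fun e => hzS (e ▸ hcS)) (fun e => hzS (e ▸ hdS)),
            g5⟩
        have hgv : g v ∈ X.cell S {c} := by
          have := Finset.mem_image_of_mem g
            ((K.mem_cell hS hc).mpr ⟨hv2, hb⟩ : v ∈ X.cell S {b})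
          rwa [← X.cell_image hg, gS, Finset.image_singleton, gb] at this
        have hgvP : g v ∈ P z := by
          refine Finset.mem_sdiff.mpr ⟨?_, ((K.mem_cell hS hc).mp hgv).1⟩
          have := Finset.mem_image_of_mem g hv1
          rwa [X.orb_image hg, gB, gz] at this
        obtain ⟨v', -, hv'⟩ := hs.2.2.1 c hcS
        rw [← hv', K.orb_C hS hc] at hw hgv
        rw [← X.orb_eq_of_mem hgv] at hw
        obtain ⟨j, hj, rfl⟩ := X.mem_orb.mp hw
        exact (hL z hz).1 j hj _ hgvP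
      have hdis : ∀ c ∈ B, ∀ d ∈ B, c ≠ d → Disjoint (X.cell S {c}) (X.cell S {d}) :=
        fun c _ d _ hcd => Finset.disjoint_left.mpr fun w h1 h2 => hcd (Finset.singleton_injective
          (((K.mem_cell hS hc).mp h1).2.symm.trans ((K.mem_cell hS hc).mp h2).2))
      have hle : B.biUnion (fun c => X.cell S {c}) ⊆ P z := Finset.biUnion_subset.mpr hall
      have h5 := wt_sdiff (F := F) hle
      have h6 := K.wt_nonneg' hF hCF ((hL z hz).1.sdiff
        (Inv.biUnion (I := B) (f := fun c => X.cell S {c}) fun c _ => K.inv_cell hS hc _)) (Finset.sdiff_subset.trans (hL z hz).2.1)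
      rw [wt_biUnion B _ F hdis, Finset.sum_congr rfl (fun c hc' =>
        hs.2.1 c (Finset.mem_of_mem_erase hc') F hF (hS.trans hCF)), Finset.sum_const, hBcard,
        (hL z hz).2.2] at h5
      simp at h5
      obtain ⟨hw', -⟩ := heq z hzC hzS
      have hsum := X.sum_wt hF hBF
      rw [K.level.cl_eq hBcard, hBcard] at hsum
      have hzB : z ∉ X.cl B := by
        rw [K.level.cl_eq hBcard]; exact fun h => hzS (Finset.mem_of_mem_erase h)
      have hne2 : X.orb B x ≠ X.orb B z := fun e => out z hzC hzS (e ▸ X.self_mem_orb B z)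
      have hpair : wt (X.orb B x) F + wt (X.orb B z) F ≤ ∑ O ∈ X.orbits B, wt O F := by
        rw [← Finset.sum_pair (f := fun O => wt O F) hne2]
        refine Finset.sum_le_sum_of_subset_of_nonneg (Finset.insert_subset
          (X.orb_mem_orbits (K.notMem_cl_erase hc hx))
          (Finset.singleton_subset_iff.mpr (X.orb_mem_orbits hzB))) fun O hO _ => ?_
        obtain ⟨y, hy, rfl⟩ := X.mem_orbits.mp hO
        exact le_trans (by norm_num) (X.one_le_wt_orb (K.level.nonempty hBcard) hF hBF hy)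
      have := K.h4
      omega
    · exact h
    · exact absurd (by rw [h]; exact hx) hxp
  have hdis : ∀ z ∈ C \ S, ∀ z' ∈ C \ S, z ≠ z' → Disjoint (P z) (P z') := by
    intro z hz z' hz' hne'
    refine Finset.disjoint_left.mpr fun v h1 h2 => hne' ?_
    have h5 : X.orb B z = X.orb B z' := by
      rw [← X.orb_eq_of_mem (Finset.mem_sdiff.mp h1).1,
        ← X.orb_eq_of_mem (Finset.mem_sdiff.mp h2).1]
    have h6 := (heq z (Finset.mem_sdiff.mp hz).1 (Finset.mem_sdiff.mp hz).2).2
    rw [h5, (heq z' (Finset.mem_sdiff.mp hz').1 (Finset.mem_sdiff.mp hz').2).2] at h6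
    exact (Finset.singleton_injective h6).symm
  have hle : (C \ S).biUnion P ⊆ X.cell S ∅ := Finset.biUnion_subset.mpr fun z hz v hv =>
    (K.mem_cell hS hc).mpr ⟨(Finset.mem_sdiff.mp hv).2, hPsub z hz v hv⟩
  have h5 := wt_sdiff (F := F) hle
  have h6 := K.wt_nonneg' hF hCF ((K.inv_cell hS hc ∅).sdiff (Inv.biUnion fun z hz => (hL z hz).1))
    (Finset.sdiff_subset.trans (K.cell_sub hS hc ∅))
  rw [wt_biUnion _ _ F hdis, Finset.sum_congr rfl (fun z hz => (hL z hz).2.2), Finset.sum_const,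
    Finset.card_sdiff_of_subset hS, hc] at h5
  have := K.lb
  have h7 : u + 1 + (((C.card - (m + 1) : ℕ) : ℤ) - 1) ≤
      (u + 1) * ((C.card - (m + 1) : ℕ) : ℤ) := by
    nlinarith [mul_nonneg (show (0 : ℤ) ≤ u by omega)
      (show (0 : ℤ) ≤ ((C.card - (m + 1) : ℕ) : ℤ) - 1 by omega)]
  simp only [nsmul_eq_mul] at h5
  rw [mul_comm] at h5
  omega

end Ctx

end Block

open Block in
/-- The shape of the base of a non-closed top set. -/
theorem Level.block {m : ℕ} (h : X.Level m) (h4 : 4 ≤ m) (hnc : X.NoClosed m) {S : Finset α}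
    (hS : S.card = m + 1) (hlt : (X.cl S).card ≤ 2 * m) (hex : X.Exch S) {x : α} (hx : x ∈ S) :
    X.cl S \ S.erase x ⊆ X.orb (S.erase x) x ∧
    (∃ z : ℕ, 0 < z ∧ (X.orb (S.erase x) x).card = m * z + ((X.cl S).card - m) ∧
      (Finset.univ \ (S.erase x ∪ X.orb (S.erase x) x)).card = ((X.cl S).card - m) * z) ∧
    (∀ F ∈ X.flats, S.erase x ⊆ F → wt (Finset.univ \ (S.erase x ∪ X.orb (S.erase x) x)) F =
      (((X.cl S).card - m : ℕ) : ℤ)) ∧
    (∀ v, v ∉ S.erase x → v ∉ X.orb (S.erase x) x →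
      Disjoint (X.cl (insert v (S.erase x))) (X.orb (S.erase x) x)) := by
  classical
  have hSC : S ⊆ X.cl S := X.subset_cl S
  have hlb : m + 2 ≤ (X.cl S).card := by
    have h1 := Finset.card_le_card hSC
    by_contra hcon
    exact hnc S hS (Finset.eq_of_subset_of_card_le hSC (by omega)).symm
  set C := X.cl S with hCdef
  have K : Ctx X m C := ⟨h, h4, hlb, hlt, fun A hA hAc => hex A hA (hAc.trans hS.symm)⟩
  have hfull : K.Full S := K.full hSC hS
  set B := S.erase x with hBdef
  set O := X.orb B x with hOdef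
  set R := Finset.univ \ (B ∪ O) with hRdef
  have hBcard : B.card = m := K.card_erase hS hx
  have hBC : B ⊆ C := (Finset.erase_subset _ _).trans hSC
  have hOC : O ∩ C = C \ B := K.orb_inter_full hSC hS hfull hx
  have hcS := K.cosingles hSC hS hfull
  obtain ⟨F, hF, hCF⟩ := K.exists_flat
  have hclB : X.cl B = B := h.cl_eq hBcard
  have hxB : x ∉ B := Finset.notMem_erase _ _
  -- one colour for each extra point
  let L := C \ B
  let Z : α → Finset α := fun l => X.cell (insert l B) B
  have hZS : ∀ l ∈ L, insert l B ⊆ C ∧ (insert l B).card = m + 1 ∧ K.Full (insert l B) ∧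
      (insert l B).erase l = B := by
    intro l hl
    obtain ⟨hlC, hlB⟩ := Finset.mem_sdiff.mp hl
    refine ⟨Finset.insert_subset hlC hBC, by rw [Finset.card_insert_of_notMem hlB, hBcard],
      K.full (Finset.insert_subset hlC hBC) (by rw [Finset.card_insert_of_notMem hlB, hBcard]),
      Finset.erase_insert hlB⟩
  have hZw : ∀ l ∈ L, wt (Z l) F = 1 := by
    intro l hl
    obtain ⟨h1, h2, h3, h5⟩ := hZS l hl
    have := (K.cosingles h1 h2 h3).2.1 l (Finset.mem_insert_self _ _) F hF (h1.trans hCF)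
    rwa [h5] at this
  have hLO : ∀ l ∈ L, l ∈ O := fun l hl => (Finset.mem_inter.mp (hOC.symm ▸ hl : l ∈ O ∩ C)).1
  have hR_eq : R = (Finset.univ \ C).filter (fun v => x ∉ X.pat S v) := by
    ext v
    simp only [R, Finset.mem_sdiff, Finset.mem_univ, true_and, Finset.mem_union,
      Finset.mem_filter, not_or]
    constructor
    · rintro ⟨hvB, hvO⟩
      have hvC : v ∉ C := fun hvC => hvO (hLO v (Finset.mem_sdiff.mpr ⟨hvC, hvB⟩))
      exact ⟨hvC, fun hp => hvO ((K.mem_pat (v := v) hx fun e => hvC (e ▸ hSC hx)).mp hp)⟩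
    · rintro ⟨hvC, hp⟩
      exact ⟨fun hvB => hvC (hBC hvB),
        fun hvO => hp ((K.mem_pat (v := v) hx fun e => hvC (e ▸ hSC hx)).mpr hvO)⟩
  have hR_split : R = X.cell S B ∪ X.cell S ∅ := by
    ext v
    simp only [hR_eq, Finset.mem_filter, Finset.mem_sdiff, Finset.mem_univ, true_and,
      Finset.mem_union, K.mem_cell hSC hS]
    constructor
    · rintro ⟨hvC, hp⟩
      rcases hcS.1 v (by rwa [← hCdef]) with h1 | h1 | h1
      · obtain ⟨b, hb, hpb⟩ := K.exists_erase_of_cosingle hS h1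
        have : x = b := by
          by_contra hne
          exact hp (hpb ▸ Finset.mem_erase.mpr ⟨hne, hx⟩)
        exact Or.inl ⟨hvC, by rw [hpb, ← this]⟩
      · exact Or.inr ⟨hvC, h1⟩
      · exact absurd (by rw [h1]; exact hx) hp
    · rintro (⟨hvC, h1⟩ | ⟨hvC, h1⟩) <;> exact ⟨hvC, by simp [h1, hBdef]⟩
  have hRinv : Inv X C R := by
    rw [hR_split]; exact (K.inv_cell hSC hS B).union (K.inv_cell hSC hS ∅)
  have hRsub : R ⊆ Finset.univ \ C := hR_eq ▸ Finset.filter_subset _ _
  have hZR : ∀ l ∈ L, Z l ⊆ R := by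
    intro l hl v hv
    obtain ⟨h1, h2, h3, h5⟩ := hZS l hl
    rw [K.mem_cell h1 h2] at hv
    have hnp : v ∉ X.orb ((insert l B).erase l) l := fun hh => by
      have := (K.mem_pat (v := v) (Finset.mem_insert_self l B) fun e =>
        hv.1 (e ▸ h1 (Finset.mem_insert_self l B))).mpr hh
      rw [hv.2] at this
      exact (Finset.mem_sdiff.mp hl).2 this
    rw [h5, X.orb_eq_of_mem (hLO l hl)] at hnp
    simp only [R, Finset.mem_sdiff, Finset.mem_univ, true_and, Finset.mem_union, not_or]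
    exact ⟨fun hh => hv.1 (hBC hh), hnp⟩
  have hZinj : ∀ l ∈ L, ∀ l' ∈ L, l ≠ l' → Disjoint (Z l) (Z l') := by
    intro l hl l' hl' hne
    refine Finset.disjoint_left.mpr fun v h1 h2 => ?_
    obtain ⟨a1, a2, a3, a4⟩ := hZS l hl
    obtain ⟨b1, b2, b3, b4⟩ := hZS l' hl'
    have e1 := K.cell_eq_orb a1 a2 (K.cosingles a1 a2 a3) (Finset.mem_insert_self l B)
      (w := v) (by rw [a4]; exact h1)
    have e2 := K.cell_eq_orb b1 b2 (K.cosingles b1 b2 b3) (Finset.mem_insert_self l' B)
      (w := v) (by rw [b4]; exact h2)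
    rw [a4] at e1
    rw [b4] at e2
    have := K.colours_ne a1 a2 a3 (Finset.mem_insert_self l B) (Finset.mem_sdiff.mp hl').1
      (by simp [Ne.symm hne, (Finset.mem_sdiff.mp hl').2])
    rw [a4] at this
    exact this (e2.trans e1.symm)
  have hRw : wt R F = 1 + wt (X.cell S ∅) F := by
    rw [hR_split, wt_union, hBdef, hcS.2.1 x hx F hF (hSC.trans hCF)]
    refine Finset.disjoint_left.mpr fun v h1 h2 => ?_
    exact (K.two_le hS x).ne_empty
      (((K.mem_cell hSC hS).mp h1).2.symm.trans ((K.mem_cell hSC hS).mp h2).2)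
  have hLcard : L.card = C.card - m := by
    rw [Finset.card_sdiff_of_subset hBC, hBcard]
  have hsub : L.biUnion Z ⊆ R := Finset.biUnion_subset.mpr hZR
  have hVinv : Inv X C (L.biUnion Z) := Inv.biUnion fun l hl => by
    obtain ⟨h1, h2, -, -⟩ := hZS l hl
    exact K.inv_cell h1 h2 _
  have hrest := K.wt_nonneg' hF hCF (hRinv.sdiff hVinv) (Finset.sdiff_subset.trans hRsub)
  have hsum := wt_sdiff (F := F) hsub
  rw [wt_biUnion L Z F hZinj, Finset.sum_congr rfl hZw, Finset.sum_const, hLcard, hRw] at hsum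
  simp only [nsmul_eq_mul, mul_one] at hsum
  have htot := K.total_cosingles hSC hS hF hCF hcS
  have hu0 := K.wt_nonneg' hF hCF (K.inv_cell hSC hS S) (K.cell_sub hSC hS S)
  have hUS : X.cell S S = ∅ :=
    K.eq_empty hF hCF (K.inv_cell hSC hS S) (K.cell_sub hSC hS S) (by omega)
  have hRU : R = L.biUnion Z := by
    have h0 := K.eq_empty hF hCF (hRinv.sdiff hVinv) (Finset.sdiff_subset.trans hRsub) (by omega)
    exact Finset.Subset.antisymm (Finset.sdiff_eq_empty_iff_subset.mp h0) hsub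
  have hRF : wt R F = ((C.card - m : ℕ) : ℤ) := by omega
  have hxL : x ∈ L := Finset.mem_sdiff.mpr ⟨hSC hx, hxB⟩
  have hxins : insert x B = S := Finset.insert_erase hx
  have hmove : ∀ l ∈ L, ∀ l' ∈ L, l ≠ l' → ∃ g ∈ X.G, g l = l' ∧ B.image g = B ∧
      C.image g = C := by
    intro l hl l' hl' hne
    obtain ⟨hlC, hlB⟩ := Finset.mem_sdiff.mp hl
    obtain ⟨hlC', hlB'⟩ := Finset.mem_sdiff.mp hl'
    obtain ⟨b, hb, c, hc, hbc⟩ := Finset.one_lt_card.mp (show 1 < B.card by omega)
    obtain ⟨g, hg, g1, g2, g3, g4, g5, g6⟩ := K.swap2 hlC hlC' (hBC hb) (hBC hc) hne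
      (fun e => hlB (e ▸ hb)) (fun e => hlB (e ▸ hc)) (fun e => hlB' (e ▸ hb))
      (fun e => hlB' (e ▸ hc)) hbc
    refine ⟨g, hg, g1, ?_, Finset.eq_of_subset_of_card_le (Finset.image_subset_iff.mpr g6)
      (Finset.card_image_of_injective _ g.injective).ge⟩
    refine Finset.eq_of_subset_of_card_le (Finset.image_subset_iff.mpr fun v hv => ?_)
      (Finset.card_image_of_injective _ g.injective).ge
    by_cases h3 : v = b
    · rw [h3, g3]; exact hc
    by_cases h4 : v = c
    · rw [h4, g4]; exact hb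
    rw [g5 v (hBC hv) (fun e => hlB (e ▸ hv)) (fun e => hlB' (e ▸ hv)) h3 h4]
    exact hv
  refine ⟨fun l hl => hLO l hl, ⟨(X.cell S B).card, ?_, ?_, ?_⟩, fun F' hF' hBF' => ?_, ?_⟩
  · exact Finset.card_pos.mpr (K.cell_nonempty hcS hx)
  · have hsplit : O = (O ∩ C) ∪ outer X C S x := K.orb_split hSC hx
    have hdisj : Disjoint (O ∩ C) (outer X C S x) := Finset.disjoint_left.mpr fun v hv hv' => by
      simp only [outer, Finset.mem_filter, Finset.mem_sdiff] at hv'
      exact hv'.1.2 (Finset.mem_inter.mp hv).2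
    rw [hsplit, Finset.card_union_of_disjoint hdisj, hOC, Finset.card_sdiff_of_subset hBC,
      hBcard, K.outer_cosingles hSC hS hcS hx, hUS, Finset.union_empty, Finset.card_biUnion,
      Finset.sum_congr rfl fun b hb => hcS.2.2.2 b (Finset.mem_of_mem_erase hb) x hx,
      Finset.sum_const, ← hBdef, hBcard, smul_eq_mul]
    · ring
    · exact fun b hb c _ hbc => K.disjoint_cells hSC hS (Finset.mem_of_mem_erase hb) hbc
  · rw [hRU, Finset.card_biUnion hZinj, Finset.sum_congr rfl fun l hl => ?_,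
      Finset.sum_const, hLcard, smul_eq_mul]
    by_cases e : x = l
    · subst e; simp only [Z, hxins]
    obtain ⟨g, hg, g1, g2, -⟩ := hmove x hxL l hl e
    have : Z l = (X.cell S B).image g := by
      rw [← X.cell_image hg, g2]
      conv_rhs => rw [← hxins, Finset.image_insert, g1, g2]
    rw [this, Finset.card_image_of_injective _ g.injective]
  · rw [X.wt_eq hF' hBF' hF (hBC.trans hCF) fun j hj => ?_, hRF]
    have hU : (Finset.univ : Finset α).image j = Finset.univ :=
      Finset.image_univ_of_surjective j.surjective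
    have hBj : B.image j = B := by
      conv_rhs => rw [← Finset.image_id (s := B)]
      exact Finset.image_congr fun a ha => X.J_fix hj (X.subset_cl B ha)
    rw [Finset.image_sdiff _ _ j.injective, Finset.image_union, hU, hBj, X.image_orb hj]
  · intro v hvB hvO
    rw [Finset.disjoint_left]
    intro y hy hyO
    have hvR : v ∈ R := by
      simp only [R, Finset.mem_sdiff, Finset.mem_univ, true_and, Finset.mem_union, not_or]
      exact ⟨hvB, hvO⟩
    -- move along `J B`
    have hRJ : ∀ j ∈ X.J B, ∀ w ∈ R, j w ∈ R := by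
      intro j hj w hw
      simp only [R, Finset.mem_sdiff, Finset.mem_univ, true_and, Finset.mem_union, not_or] at hw ⊢
      refine ⟨fun hjw => hw.1 ?_, fun hjw => hw.2 ?_⟩
      · have := j.injective (X.J_fix hj (X.subset_cl B hjw))
        rwa [this] at hjw
      · rw [hOdef, ← X.image_orb hj] at hjw
        obtain ⟨u, hu, he⟩ := Finset.mem_image.mp hjw
        rwa [← j.injective he]
    have hJcl : ∀ j ∈ X.J B, ∀ w a : α, a ∈ X.cl (insert w B) → j a ∈ X.cl (insert (j w) B) := by
      intro j hj w a ha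
      have hBj : B.image j = B := by
        conv_rhs => rw [← Finset.image_id (s := B)]
        exact Finset.image_congr fun a ha => X.J_fix hj (X.subset_cl B ha)
      have := Finset.mem_image_of_mem j ha
      rwa [← X.cl_image (X.J_le B hj), Finset.image_insert, hBj] at this
    have good : ∀ w ∈ R, C ⊆ X.cl (insert w B) := by
      obtain ⟨j, hj, hjy⟩ := X.mem_orb.mp hyO
      have hx1 : x ∈ X.cl (insert ((j⁻¹ : Perm α) v) B) := by
        have := hJcl j⁻¹ (inv_mem hj) v y hy
        rwa [← hjy, Equiv.Perm.coe_inv, Equiv.symm_apply_apply] at this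
      set v' := (j⁻¹ : Perm α) v with hv'
      have hv'R : v' ∈ R := hRJ _ (inv_mem hj) v hvR
      have hC1 : C ⊆ X.cl (insert v' B) := by
        have : S ⊆ X.cl (insert v' B) := by
          rw [← hxins]
          exact Finset.insert_subset hx1
            ((Finset.subset_insert _ _).trans (X.subset_cl _))
        have := X.cl_mono this
        rwa [X.cl_cl] at this
      rw [hRU, Finset.mem_biUnion] at hv'R
      obtain ⟨l₀, hl₀, hv0⟩ := hv'R
      have step : ∀ w ∈ Z l₀, C ⊆ X.cl (insert w B) := by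
        intro w hw
        obtain ⟨a1, a2, a3, a4⟩ := hZS l₀ hl₀
        have e1 := K.cell_eq_orb a1 a2 (K.cosingles a1 a2 a3) (Finset.mem_insert_self l₀ B)
          (w := v') (by rw [a4]; exact hv0)
        rw [a4] at e1
        have hw' : w ∈ X.orb C v' := e1 ▸ hw
        obtain ⟨i, hi, rfl⟩ := X.mem_orb.mp hw'
        intro c hcC
        have := hJcl i (X.J_mono hBC hi) v' c (hC1 hcC)
        rwa [K.fix hi hcC] at this
      intro w hw
      rw [hRU, Finset.mem_biUnion] at hw
      obtain ⟨l, hl, hwl⟩ := hw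
      by_cases e : l₀ = l
      · subst e; exact step w hwl
      obtain ⟨g, hg, g1, g2, g3⟩ := hmove l₀ hl₀ l hl e
      have : Z l = (Z l₀).image g := by
        simp only [Z]
        rw [← X.cell_image hg, Finset.image_insert, g1, g2]
      rw [this] at hwl
      obtain ⟨u, hu, rfl⟩ := Finset.mem_image.mp hwl
      have h9 := Finset.image_subset_image (f := g) (step u hu)
      rwa [g3, ← X.cl_image hg, Finset.image_insert, g2] at h9
    -- every point of `O` then lies in one flat
    have hOcl : O ⊆ X.cl (insert v B) := by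
      intro a ha
      obtain ⟨i, hi, rfl⟩ := X.mem_orb.mp ha
      have := hJcl i hi _ x (good _ (hRJ _ (inv_mem hi) v hvR) (hSC hx))
      rwa [Equiv.Perm.coe_inv, Equiv.apply_symm_apply] at this
    obtain ⟨F', hF', hvF⟩ := h.covered_succ
      (show (insert v B).card = m + 1 by rw [Finset.card_insert_of_notMem hvB, hBcard])
    have h1 := X.one_le_wt_orb (h.nonempty hBcard) hF'
      ((Finset.subset_insert _ _).trans hvF) (x := x) (by rw [hclB]; exact hxB)
    rw [← hOdef, wt_of_subset (hOcl.trans (X.cl_subset hF' hvF))] at h1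
    omega

end CfsgLib.Pronormal.Geom
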