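/-
No set of `m + 1` points is closed at a level.
-/
import Cfsg.Agent.Lib.Pronormal.Setup
import Cfsg.Agent.Lib.Pronormal.PermFacts
import Cfsg.Agent.Lib.Pronormal.Lines

set_option autoImplicit false
set_option linter.unusedSectionVars false

open Equiv Finset

namespace CfsgLib.Pronormal.Geom

variable {α : Type*} [Fintype α] [DecidableEq α]

/-- The points outside `S` and outside the own orbit of `b`. -/
noncomputable def rest (X : Geom α) (S : Finset α) (b : α) : Finset α :=
  univ \ (S ∪ X.own S b)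

/-- The points off a set `B` whose addition does not give a closed set. -/
noncomputable def openExt (X : Geom α) (B : Finset α) : Finset α :=
  open Classical in univ.filter fun y => y ∉ B ∧ X.cl (insert y B) ≠ insert y B

variable (X : Geom α)

theorem rest_image {g : Perm α} (hg : g ∈ X.G) (S : Finset α) (b : α) :
    X.rest (S.image g) (g b) = (X.rest S b).image g := by
  simp only [rest, Finset.image_sdiff _ _ g.injective,
    Finset.image_univ_of_surjective g.surjective, Finset.image_union, X.own_image hg]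

namespace Level

variable {X} {m : ℕ} (h : X.Level m)

include h

/-- A closed set of `m + 1` points is moved transitively by its setwise stabiliser. -/
theorem exists_move_closed {S : Finset α} (hS : S.card = m + 1) {b c : α} (hb : b ∈ S) (hc : c ∈ S) :
    ∃ g ∈ X.G, g b = c ∧ S.image g = S := by
  obtain ⟨σ, ⟨g, hg, hgσ⟩, hσ⟩ := transitive_of_index_lt (X.setGroup S) (Level.index_setGroup_lt X h hS)
    ⟨b, hb⟩ ⟨c, hc⟩
  refine ⟨g, hg, by rw [hgσ ⟨b, hb⟩, hσ], Finset.eq_of_subset_of_card_le (fun y hy => ?_)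
    (Finset.card_image_of_injective _ g.injective).ge⟩
  obtain ⟨z, hz, rfl⟩ := Finset.mem_image.mp hy
  rw [hgσ ⟨z, hz⟩]
  exact Finset.coe_mem _

theorem card_erase_closed {S : Finset α} (hS : S.card = m + 1) {b : α} (hb : b ∈ S) :
    (S.erase b).card = m := by
  rw [Finset.card_erase_of_mem hb, hS]; omega

theorem notMem_cl_erase {S : Finset α} (hS : S.card = m + 1) {b : α} (hb : b ∈ S) :
    b ∉ X.cl (S.erase b) := by
  rw [h.cl_eq (h.card_erase_closed hS hb)]; exact Finset.notMem_erase b S

theorem disjoint_own_closed {S : Finset α} (hS : S.card = m + 1) {b : α} (hb : b ∈ S) :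
    Disjoint (X.own S b) S := by
  refine Finset.disjoint_left.mpr fun z hz hzS => ?_
  rw [own, Finset.mem_erase] at hz
  exact X.notMem_cl_of_mem_orb hz.2 (h.notMem_cl_erase hS hb)
    (X.subset_cl _ (Finset.mem_erase.mpr ⟨hz.1, hzS⟩))

theorem image_own_J {S : Finset α} {b : α} (hb : b ∈ S) {j : Perm α} (hj : j ∈ X.J S) :
    (X.own S b).image j = X.own S b := by
  rw [own, Finset.image_erase j.injective, X.image_orb (X.J_mono (Finset.erase_subset b S) hj),
    X.J_fix hj (X.subset_cl S hb)]

theorem orb_subset_own {S : Finset α} {b v : α} (hb : b ∈ S) (hv : v ∈ X.own S b) :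
    X.orb S v ⊆ X.own S b := fun y hy => by
  obtain ⟨j, hj, rfl⟩ := X.mem_orb.mp hy
  rw [← h.image_own_J hb hj]
  exact Finset.mem_image_of_mem _ hv

/-- The weight of an own orbit is the sum of the weights of its orbits. -/
theorem wt_own_eq_sum {S : Finset α} (hS : S.card = m + 1) (hcl : X.cl S = S) {b : α} (hb : b ∈ S)
    (F : Finset α) :
    wt (X.own S b) F = ∑ O ∈ (X.orbits S).filter (· ⊆ X.own S b), wt O F :=
  X.wt_eq_sum (by rw [hcl]; exact h.disjoint_own_closed hS hb) fun _ hj => h.image_own_J hb hj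

theorem wt_own {S F : Finset α} {b : α} (hb : b ∈ S) (hSF : S ⊆ F) :
    wt (X.own S b) F = wt (X.orb (S.erase b) b) F + 1 := by
  have h1 := Finset.card_erase_add_one (X.self_mem_orb (S.erase b) b)
  have h2 := Finset.card_erase_add_one
    (Finset.mem_inter.mpr ⟨X.self_mem_orb (S.erase b) b, hSF hb⟩)
  simp only [wt, own, Finset.erase_inter]
  omega

theorem two_le_wt_own {S F : Finset α} (hS : S.card = m + 1) (hF : F ∈ X.flats) {b : α}
    (hb : b ∈ S) (hSF : S ⊆ F) : 2 ≤ wt (X.own S b) F := by
  have := X.one_le_wt_orb (h.nonempty (h.card_erase_closed hS hb)) hF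
    ((Finset.erase_subset b S).trans hSF) (h.notMem_cl_erase hS hb)
  rw [h.wt_own hb hSF]; omega

theorem wt_own_le {S F : Finset α} (hS : S.card = m + 1) (hF : F ∈ X.flats) {b : α}
    (hb : b ∈ S) (hSF : S ⊆ F) : wt (X.own S b) F ≤ (m : ℤ) := by
  have hB := h.card_erase_closed hS hb
  have hBF := (Finset.erase_subset b S).trans hSF
  obtain ⟨y, hy, hy'⟩ := h.exists_other_orbit hB b
  have hyc : y ∉ X.cl (S.erase b) := by rw [h.cl_eq hB]; exact hy
  have hne : X.orb (S.erase b) b ≠ X.orb (S.erase b) y := fun e =>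
    hy' (e ▸ X.self_mem_orb _ y)
  have hle : ∑ O ∈ ({X.orb (S.erase b) b, X.orb (S.erase b) y} : Finset (Finset α)), wt O F ≤
      ∑ O ∈ X.orbits (S.erase b), wt O F := by
    refine Finset.sum_le_sum_of_subset_of_nonneg ?_ fun O hO _ => ?_
    · exact Finset.insert_subset (X.orb_mem_orbits (h.notMem_cl_erase hS hb))
        (Finset.singleton_subset_iff.mpr (X.orb_mem_orbits hyc))
    · obtain ⟨x, hx, rfl⟩ := X.mem_orbits.mp hO
      have := X.one_le_wt_orb (h.nonempty hB) hF hBF hx
      omega
  rw [Finset.sum_pair hne, X.sum_wt hF hBF, h.cl_eq hB, hB] at hle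
  have := X.one_le_wt_orb (h.nonempty hB) hF hBF hyc
  rw [h.wt_own hb hSF]
  omega

/-- Patterns stable under the alternating group leave own orbits of weight `m`. -/
theorem wt_own_of_alternating {S F : Finset α} (hS : S.card = m + 1) (hcl : X.cl S = S)
    (h3 : 3 ≤ m) (halt : alternatingGroup ↥S ≤ X.setGroup S) (hF : F ∈ X.flats) (hSF : S ⊆ F)
    {b : α} (hb : b ∈ S) : wt (X.own S b) F = (m : ℤ) := by
  classical
  obtain ⟨φ, hφ⟩ : ∃ φ : Finset α → Finset α,
      φ = fun T => S.filter fun a => T ⊆ X.own S a := ⟨_, rfl⟩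
  have hpat : ∀ v, φ (X.orb S v) = X.pat S v := fun v => by
    ext a
    simp only [hφ, pat, Finset.mem_filter]
    exact ⟨fun ⟨ha, hs⟩ => ⟨ha, hs (X.self_mem_orb S v)⟩,
      fun ⟨ha, hs⟩ => ⟨ha, h.orb_subset_own ha hs⟩⟩
  obtain ⟨P, hP⟩ : ∃ P, P = (X.orbits S).image φ := ⟨_, rfl⟩
  have hmemP : ∀ p, p ∈ P ↔ ∃ v, v ∉ S ∧ X.pat S v = p := fun p => by
    rw [hP, Finset.mem_image]
    constructor
    · rintro ⟨O, hO, rfl⟩
      obtain ⟨v, hv, rfl⟩ := X.mem_orbits.mp hO
      exact ⟨v, hcl ▸ hv, (hpat v).symm⟩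
    · rintro ⟨v, hv, rfl⟩
      exact ⟨_, X.orb_mem_orbits (by rwa [hcl]), hpat v⟩
  have hSne : S.Nonempty := ⟨b, hb⟩
  have horbs : (X.orbits S).card ≤ m + 1 := by
    have := X.card_orbits_le hSne hF hSF
    rwa [hcl, hS] at this
  have hPle : P.card ≤ (X.orbits S).card := hP ▸ Finset.card_image_le
  -- patterns of the same size
  have hsame : ∀ p ∈ P, ∀ q, q ⊆ S → q.card = p.card → q ∈ P := by
    intro p hp q hq hqc
    obtain ⟨v, hv, rfl⟩ := (hmemP p).mp hp
    have hpS : X.pat S v ⊆ S := Finset.filter_subset _ _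
    obtain ⟨σ, hσ, hσimg⟩ := exists_alternating_image (β := ↥S)
      (by rw [Fintype.card_coe]; omega) ((X.pat S v).subtype (· ∈ S)) (q.subtype (· ∈ S))
      (by rw [Finset.card_subtype, Finset.card_subtype, Finset.filter_true_of_mem (fun x hx => hpS hx),
        Finset.filter_true_of_mem (fun x hx => hq hx), hqc])
    obtain ⟨g, hg, hgσ⟩ := halt hσ
    have hgS : S.image g = S := Finset.eq_of_subset_of_card_le (fun y hy => by
      obtain ⟨z, hz, rfl⟩ := Finset.mem_image.mp hy
      rw [hgσ ⟨z, hz⟩]; exact Finset.coe_mem _) (Finset.card_image_of_injective _ g.injective).ge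
    refine (hmemP q).mpr ⟨g v, fun hgv => hv ?_, ?_⟩
    · rw [← hgS, Finset.mem_image] at hgv
      obtain ⟨z, hz, e⟩ := hgv
      exact g.injective e ▸ hz
    · have e := X.pat_image hg S v
      rw [hgS] at e
      rw [e]
      refine Finset.eq_of_subset_of_card_le (fun y hy => ?_)
        (by rw [Finset.card_image_of_injective _ g.injective, hqc])
      obtain ⟨z, hz, rfl⟩ := Finset.mem_image.mp hy
      have : σ ⟨z, hpS hz⟩ ∈ q.subtype (· ∈ S) :=
        hσimg ▸ Finset.mem_image_of_mem σ (Finset.mem_subtype.mpr hz)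
      rw [hgσ ⟨z, hpS hz⟩]
      exact Finset.mem_subtype.mp this
  -- a separating pattern
  obtain ⟨a₁, ha₁, a₂, ha₂, ha12⟩ := Finset.one_lt_card.mp
    (show 1 < S.card by omega)
  obtain ⟨p, hp, hpne⟩ : ∃ p ∈ P, ¬ (a₁ ∈ p ↔ a₂ ∈ p) := by
    by_contra hno
    push Not at hno
    refine h.false_of_own_eq hS ha₁ ha₂ ha12 (Finset.ext fun v => ?_)
    by_cases hv : v ∈ S
    · simp [Finset.disjoint_right.mp (h.disjoint_own_closed hS ha₁) hv,
        Finset.disjoint_right.mp (h.disjoint_own_closed hS ha₂) hv]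
    · have := hno _ ((hmemP _).mpr ⟨v, hv, rfl⟩)
      simpa [pat, ha₁, ha₂] using this
  have hpS : p ⊆ S := by
    obtain ⟨v, -, rfl⟩ := (hmemP p).mp hp
    exact Finset.filter_subset _ _
  have hpow : S.powersetCard p.card ⊆ P := fun q hq =>
    hsame p hp q (Finset.mem_powersetCard.mp hq).1 (Finset.mem_powersetCard.mp hq).2
  have hch : (m + 1).choose p.card ≤ P.card := by
    have := Finset.card_le_card hpow
    rwa [Finset.card_powersetCard, hS] at this
  have hpc : p.card = 1 ∨ p.card = m := by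
    have hle := Finset.card_le_card hpS
    have h0 : p.card ≠ 0 := fun e => hpne (by simp [Finset.card_eq_zero.mp e])
    have hs : p.card ≠ m + 1 := fun e => hpne (by
      simp [Finset.eq_of_subset_of_card_le hpS (by omega), ha₁, ha₂])
    by_contra hne
    rcases eq_or_lt_of_le h3 with hm | hm
    · have : p.card = 2 := by omega
      rw [this, ← hm] at hch
      simp [Nat.choose] at hch
      omega
    · have := two_mul_le_choose (m + 1) (by omega) p.card (by omega) (by omega)
      omega
  have hchm : (m + 1).choose p.card = m + 1 := by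
    rcases hpc with e | e <;> rw [e]
    · exact Nat.choose_one_right _
    · exact Nat.choose_succ_self_right m
  have hPeq : S.powersetCard p.card = P :=
    Finset.eq_of_subset_of_card_le hpow (by rw [Finset.card_powersetCard, hS]; omega)
  have hinj : Set.InjOn φ (X.orbits S : Set (Finset α)) :=
    Finset.card_image_iff.mp (by rw [← hP]; omega)
  have hone : ∀ O ∈ X.orbits S, wt O F = 1 := by
    have hge : ∀ O ∈ X.orbits S, (1 : ℤ) ≤ wt O F := fun O hO => by
      obtain ⟨x, hx, rfl⟩ := X.mem_orbits.mp hO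
      exact X.one_le_wt_orb hSne hF hSF hx
    have hsum : ∑ O ∈ X.orbits S, (1 : ℤ) = ∑ O ∈ X.orbits S, wt O F := by
      rw [X.sum_wt hF hSF, hcl, hS, Finset.sum_const, nsmul_one]
      push_cast; omega
    exact fun O hO => ((Finset.sum_eq_sum_iff_of_le hge).mp hsum O hO).symm
  have hcount : wt (X.own S b) F = ((P.filter (b ∈ ·)).card : ℤ) := by
    rw [h.wt_own_eq_sum hS hcl hb, Finset.sum_congr rfl (fun O hO => hone O (Finset.mem_filter.mp hO).1),
      Finset.sum_const, nsmul_one, hP, Finset.filter_image,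
      Finset.card_image_of_injOn (hinj.mono (Finset.coe_subset.mpr (Finset.filter_subset _ _)))]
    congr 3
    funext O
    simp [hφ, hb]
  rcases hpc with e | e
  · exfalso
    have h1 : P.filter (b ∈ ·) = {{b}} := by
      ext q
      simp only [← hPeq, e, Finset.mem_filter, Finset.mem_powersetCard, Finset.mem_singleton,
        Finset.card_eq_one]
      constructor
      · rintro ⟨⟨-, y, rfl⟩, hy⟩; simp at hy; rw [hy]
      · rintro rfl; exact ⟨⟨Finset.singleton_subset_iff.mpr hb, b, rfl⟩, Finset.mem_singleton_self b⟩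
    have := h.two_le_wt_own hS hF hb hSF
    rw [hcount, h1, Finset.card_singleton] at this
    omega
  · have h1 : P.filter (b ∈ ·) = P.erase (S.erase b) := by
      ext q
      simp only [← hPeq, e, Finset.mem_filter, Finset.mem_erase, Finset.mem_powersetCard]
      constructor
      · rintro ⟨hq, hbq⟩
        exact ⟨fun hh => Finset.notMem_erase b S (hh ▸ hbq), hq⟩
      · rintro ⟨hne, hq⟩
        refine ⟨hq, by_contra fun hbq => hne (Finset.eq_of_subset_of_card_le ?_ ?_)⟩
        · exact Finset.subset_erase.mpr ⟨hq.1, hbq⟩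
        · rw [h.card_erase_closed hS hb, hq.2]
    rw [hcount, h1, Finset.card_erase_of_mem, ← hPeq, Finset.card_powersetCard, hS, hchm]
    · simp
    · rw [← hPeq, e]
      exact Finset.mem_powersetCard.mpr ⟨Finset.erase_subset _ _, h.card_erase_closed hS hb⟩

/-- Every own orbit of a closed set has weight `m`. -/
theorem wt_own_eq {S F : Finset α} (hS : S.card = m + 1) (hcl : X.cl S = S) (hF : F ∈ X.flats)
    (hSF : S ⊆ F) {b : α} (hb : b ∈ S) : wt (X.own S b) F = (m : ℤ) := by
  classical
  have hlt := Level.index_setGroup_lt X h hS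
  rw [Fintype.card_coe, hS] at hlt
  rcases lt_or_ge m 3 with hm | hm
  · have := h.two_le_wt_own hS hF hb hSF
    have := h.wt_own_le hS hF hb hSF
    have := h.two_le
    omega
  refine (Decidable.em (alternatingGroup ↥S ≤ X.setGroup S)).elim
    (fun halt => h.wt_own_of_alternating hS hcl hm halt hF hSF hb) fun halt => ?_
  exfalso
  have hm3 : m = 3 := by
    by_contra hne
    exact halt (alternating_le_of_index_lt _ (by rw [Fintype.card_coe]; omega)
      (by rw [Fintype.card_coe]; omega))
  subst hm3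
  have hidx : (X.setGroup S).index = 3 := by
    have h0 : (X.setGroup S).index ≠ 0 := Subgroup.index_ne_zero_of_finite
    have : Nontrivial ↥S := Fintype.one_lt_card_iff_nontrivial.1 (by rw [Fintype.card_coe]; omega)
    have h1 : (X.setGroup S).index ≠ 1 := fun e => halt (by rw [Subgroup.index_eq_one.mp e]; exact le_top)
    have h2 : (X.setGroup S).index ≠ 2 := fun e =>
      halt (Equiv.Perm.eq_alternatingGroup_of_index_eq_two e).ge
    omega
  obtain ⟨A, hA⟩ : ∃ A, A = (X.orb (S.erase b) b).card := ⟨_, rfl⟩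
  have hsize : ∀ c ∈ S, (X.orb (S.erase c) c).card = A := by
    intro c hc
    obtain ⟨g, hg, rfl, hgS⟩ := h.exists_move_closed hS hb hc
    have := X.orb_image hg (S.erase b) b
    rw [Finset.image_erase g.injective, hgS] at this
    rw [hA, ← this, Finset.card_image_of_injective _ g.injective]
  have key : ∀ c ∈ S, X.own S c = (univ \ S).filter fun v => (X.orb S v).card < A := by
    intro c hc
    have hB := h.card_erase_closed hS hc
    have hBF := (Finset.erase_subset c S).trans hSF
    have hle := X.index_setGroup_le h.trans hS hB (h.cl_eq hB)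
    have hfl := Finset.card_filter_le (X.orbits (S.erase c))
      (fun O => ∃ a ∈ S, O.card = (X.orb (S.erase a) a).card)
    have horbs := h.card_orbits_le hB
    have hall : ∀ O ∈ X.orbits (S.erase c), O.card = A := by
      intro O hO
      have he := Finset.eq_of_subset_of_card_le
        (Finset.filter_subset (fun O => ∃ a ∈ S, O.card = (X.orb (S.erase a) a).card)
          (X.orbits (S.erase c))) (by omega)
      rw [← he] at hO
      obtain ⟨-, a, ha, e⟩ := Finset.mem_filter.mp hO
      rw [e, hsize a ha]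
    have hge : ∀ O ∈ X.orbits (S.erase c), (1 : ℤ) ≤ wt O F := fun O hO => by
      obtain ⟨x, hx, rfl⟩ := X.mem_orbits.mp hO
      exact X.one_le_wt_orb (h.nonempty hB) hF hBF hx
    have hsum : ∑ O ∈ X.orbits (S.erase c), (1 : ℤ) = ∑ O ∈ X.orbits (S.erase c), wt O F := by
      rw [X.sum_wt hF hBF, h.cl_eq hB, hB, Finset.sum_const, nsmul_one]
      push_cast; omega
    have hone := (Finset.sum_eq_sum_iff_of_le hge).mp hsum
    ext v
    simp only [Finset.mem_filter, Finset.mem_sdiff, Finset.mem_univ, true_and]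
    constructor
    · intro hv
      refine ⟨Finset.disjoint_left.mp (h.disjoint_own_closed hS hc) hv, ?_⟩
      have h1 := Finset.card_le_card (h.orb_subset_own hc hv)
      have h2 : (X.own S c).card + 1 = (X.orb (S.erase c) c).card :=
        Finset.card_erase_add_one (X.self_mem_orb _ _)
      rw [hsize c hc] at h2
      omega
    · rintro ⟨hvS, hlt'⟩
      by_contra hv
      have hvc : v ∉ X.cl (S.erase c) := by
        rw [h.cl_eq hB]; exact fun e => hvS (Finset.mem_of_mem_erase e)
      have hcv : c ∉ X.orb (S.erase c) v := fun e => hv (Finset.mem_erase.mpr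
        ⟨fun e' => hvS (e' ▸ hc), by rw [X.orb_eq_of_mem e]; exact X.self_mem_orb _ v⟩)
      have hd : Disjoint (X.orb (S.erase c) v) (X.cl S) := by
        rw [hcl]
        refine Finset.disjoint_left.mpr fun z hz hzS => ?_
        exact X.notMem_cl_of_mem_orb hz hvc
          (X.subset_cl _ (Finset.mem_erase.mpr ⟨fun e => hcv (e ▸ hz), hzS⟩))
      have hT : ∀ j ∈ X.J S, (X.orb (S.erase c) v).image j = X.orb (S.erase c) v :=
        fun j hj => X.image_orb (X.J_mono (Finset.erase_subset c S) hj)
      have hw := X.wt_eq_sum (F := F) hd hT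
      rw [← hone _ (X.orb_mem_orbits hvc)] at hw
      have hge' : ∀ O ∈ (X.orbits S).filter (· ⊆ X.orb (S.erase c) v), (1 : ℤ) ≤ wt O F := by
        intro O hO
        obtain ⟨x, hx, rfl⟩ := X.mem_orbits.mp (Finset.mem_filter.mp hO).1
        exact X.one_le_wt_orb ⟨c, hc⟩ hF hSF hx
      have hcard1 : ((X.orbits S).filter (· ⊆ X.orb (S.erase c) v)).card ≤ 1 := by
        have := Finset.card_nsmul_le_sum _ (fun O => wt O F) 1 hge'
        rw [← hw, nsmul_one] at this
        exact_mod_cast this
      have hsub : X.orb (S.erase c) v ⊆ X.orb S v := by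
        intro z hz
        have hmem : ∀ y ∈ X.orb (S.erase c) v,
            X.orb S y ∈ (X.orbits S).filter (· ⊆ X.orb (S.erase c) v) := fun y hy => by
          refine Finset.mem_filter.mpr ⟨X.orb_mem_orbits (Finset.disjoint_left.mp hd hy), ?_⟩
          intro x hx
          obtain ⟨j, hj, rfl⟩ := X.mem_orb.mp hx
          rw [← hT j hj]
          exact Finset.mem_image_of_mem _ hy
        rw [← Finset.card_le_one.mp hcard1 _ (hmem z hz) _ (hmem v (X.self_mem_orb _ _))]
        exact X.self_mem_orb S z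
      have := Finset.card_le_card hsub
      rw [hall _ (X.orb_mem_orbits hvc)] at this
      omega
  obtain ⟨c, hc, hcb⟩ : ∃ c ∈ S, c ≠ b := Finset.exists_mem_ne (by omega) b
  exact h.false_of_own_eq hS hc hb hcb (by rw [key c hc, key b hb])

theorem mem_rest {S : Finset α} {b v : α} : v ∈ X.rest S b ↔ v ∉ S ∧ v ∉ X.own S b := by
  simp [rest]

/-- The points off an own orbit form one orbit. -/
theorem rest_spec {S : Finset α} (hS : S.card = m + 1) (hcl : X.cl S = S) {b : α} (hb : b ∈ S) :
    ∃ v, v ∉ S ∧ v ∉ X.own S b ∧ X.orb S v = X.rest S b ∧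
      X.orb (S.erase b) v = X.rest S b := by
  classical
  obtain ⟨F, hF, hSF⟩ := h.covered_succ hS
  have hw := h.wt_own_eq hS hcl hF hSF hb
  rw [h.wt_own_eq_sum hS hcl hb] at hw
  have htot := X.sum_wt hF hSF
  rw [hcl, hS, ← Finset.sum_filter_add_sum_filter_not (X.orbits S) (· ⊆ X.own S b), hw] at htot
  have hge : ∀ O ∈ (X.orbits S).filter (fun O => ¬ O ⊆ X.own S b), (1 : ℤ) ≤ wt O F := by
    intro O hO
    obtain ⟨x, hx, rfl⟩ := X.mem_orbits.mp (Finset.mem_filter.mp hO).1
    exact X.one_le_wt_orb ⟨b, hb⟩ hF hSF hx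
  have hcard := Finset.card_nsmul_le_sum _ (fun O => wt O F) 1 hge
  have hne : ((X.orbits S).filter (fun O => ¬ O ⊆ X.own S b)).Nonempty := by
    rw [Finset.nonempty_iff_ne_empty]
    intro e
    rw [e, Finset.sum_empty] at htot
    push_cast at htot; omega
  obtain ⟨C, hC⟩ := hne
  obtain ⟨hCo, hCn⟩ := Finset.mem_filter.mp hC
  obtain ⟨v, hv, rfl⟩ := X.mem_orbits.mp hCo
  rw [hcl] at hv
  have hvo : v ∉ X.own S b := fun e => hCn (h.orb_subset_own hb e)
  have hone : ((X.orbits S).filter (fun O => ¬ O ⊆ X.own S b)).card ≤ 1 := by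
    rw [nsmul_one] at hcard
    push_cast at htot hcard; omega
  have hmem : ∀ y, y ∉ S → y ∉ X.own S b →
      X.orb S y ∈ (X.orbits S).filter (fun O => ¬ O ⊆ X.own S b) := fun y hy hy' =>
    Finset.mem_filter.mpr ⟨X.orb_mem_orbits (by rwa [hcl]), fun e => hy' (e (X.self_mem_orb S y))⟩
  have e1 : X.orb S v = X.rest S b := by
    ext y
    rw [h.mem_rest]
    constructor
    · intro hy
      refine ⟨fun e => ?_, fun e => hvo ?_⟩
      · exact X.notMem_cl_of_mem_orb hy (by rwa [hcl]) (X.subset_cl S e)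
      · have := h.orb_subset_own hb e
        rw [X.orb_eq_of_mem hy] at this
        exact this (X.self_mem_orb S v)
    · rintro ⟨hy, hy'⟩
      rw [← Finset.card_le_one.mp hone _ (hmem y hy hy') _ (hmem v hv hvo)]
      exact X.self_mem_orb S y
  refine ⟨v, hv, hvo, e1, Finset.Subset.antisymm (fun y hy => ?_) (fun y hy => ?_)⟩
  · have hvc : v ∉ X.cl (S.erase b) := by
      rw [h.cl_eq (h.card_erase_closed hS hb)]; exact fun e => hv (Finset.mem_of_mem_erase e)
    have hb' : b ∉ X.orb (S.erase b) v := fun e => hvo (Finset.mem_erase.mpr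
      ⟨fun e' => hv (e' ▸ hb), by rw [X.orb_eq_of_mem e]; exact X.self_mem_orb _ v⟩)
    rw [h.mem_rest]
    refine ⟨fun e => X.notMem_cl_of_mem_orb hy hvc
      (X.subset_cl _ (Finset.mem_erase.mpr ⟨fun e' => hb' (e' ▸ hy), e⟩)), fun e => hb' ?_⟩
    rw [← X.orb_eq_of_mem hy, X.orb_eq_of_mem (Finset.mem_erase.mp e).2]
    exact X.self_mem_orb _ b
  · rw [← e1] at hy
    obtain ⟨j, hj, rfl⟩ := X.mem_orb.mp hy
    exact X.mem_orb.mpr ⟨j, X.J_mono (Finset.erase_subset b S) hj, rfl⟩

theorem rest_disjoint {S : Finset α} (hS : S.card = m + 1) (hcl : X.cl S = S) {b c : α}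
    (hb : b ∈ S) (hc : c ∈ S) (hbc : b ≠ c) : Disjoint (X.rest S b) (X.rest S c) := by
  obtain ⟨v, hv, hvo, ev, -⟩ := h.rest_spec hS hcl hb
  obtain ⟨w, hw, hwo, ew, -⟩ := h.rest_spec hS hcl hc
  refine Finset.disjoint_left.mpr fun z hz hz' => h.false_of_own_eq hS hb hc hbc ?_
  have e : X.rest S b = X.rest S c := by
    rw [← ev] at hz; rw [← ew] at hz'
    rw [← ev, ← ew, ← X.orb_eq_of_mem hz, ← X.orb_eq_of_mem hz']
  ext y
  by_cases hy : y ∈ S
  · simp [Finset.disjoint_right.mp (h.disjoint_own_closed hS hb) hy,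
      Finset.disjoint_right.mp (h.disjoint_own_closed hS hc) hy]
  · have := congrArg (y ∈ ·) e
    simp [h.mem_rest, hy] at this
    exact not_iff_not.mp this

theorem card_rest_lt {S : Finset α} (hS : S.card = m + 1) (hcl : X.cl S = S) {b : α} (hb : b ∈ S) :
    (X.rest S b).card < (X.orb (S.erase b) b).card := by
  obtain ⟨c, hc, hcb⟩ : ∃ c ∈ S, c ≠ b := Finset.exists_mem_ne (by have := h.two_le; omega) b
  obtain ⟨g, hg, hgb, hgS⟩ := h.exists_move_closed hS hb hc
  have e := X.rest_image hg S b
  rw [hgS, hgb] at e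
  have hd := h.rest_disjoint hS hcl hc hb hcb
  have hsub : X.rest S c ⊆ X.own S b := fun y hy => by
    by_contra hno
    exact Finset.disjoint_left.mp hd hy (h.mem_rest.mpr ⟨(h.mem_rest.mp hy).1, hno⟩)
  have h1 := Finset.card_le_card hsub
  rw [e, Finset.card_image_of_injective _ g.injective] at h1
  have h2 : (X.own S b).card + 1 = (X.orb (S.erase b) b).card :=
    Finset.card_erase_add_one (X.self_mem_orb _ _)
  omega

/-- If `B + x` is closed, the other points with this property form the orbit of `x`. -/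
theorem openExt_eq_rest {S : Finset α} (hS : S.card = m + 1) (hcl : X.cl S = S) {b : α}
    (hb : b ∈ S) : X.openExt (S.erase b) = X.rest S b := by
  have hB := h.card_erase_closed hS hb
  obtain ⟨v, hv, hvo, -, ev⟩ := h.rest_spec hS hcl hb
  have hsz := h.card_rest_lt hS hcl hb
  ext y
  simp only [openExt, Finset.mem_filter, Finset.mem_univ, true_and, h.mem_rest]
  constructor
  · rintro ⟨hyB, hno⟩
    have hyO : y ∉ X.orb (S.erase b) b := fun hy => by
      obtain ⟨j, hj, rfl⟩ := X.mem_orb.mp hy
      have himg : S.image j = insert (j b) (S.erase b) := by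
        conv_lhs => rw [← Finset.insert_erase hb]
        rw [Finset.image_insert]
        congr 1
        conv_rhs => rw [← Finset.image_id (s := S.erase b)]
        exact Finset.image_congr fun a ha => X.J_fix hj (X.subset_cl _ ha)
      apply hno
      rw [← himg, X.cl_image (X.J_le _ hj), hcl]
    have hyb : y ≠ b := fun e => hyO (e ▸ X.self_mem_orb _ _)
    exact ⟨fun e => hyB (Finset.mem_erase.mpr ⟨hyb, e⟩), fun e => hyO (Finset.mem_of_mem_erase e)⟩
  · rintro ⟨hy, hy'⟩
    have hyB : y ∉ S.erase b := fun e => hy (Finset.mem_of_mem_erase e)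
    refine ⟨hyB, fun hcl' => ?_⟩
    have hS' : (insert y (S.erase b)).card = m + 1 := by
      rw [Finset.card_insert_of_notMem hyB, hB]
    have h2 := h.card_rest_lt hS' hcl' (Finset.mem_insert_self y _)
    rw [Finset.erase_insert hyB] at h2
    have hyr : y ∈ X.orb (S.erase b) v := by rw [ev]; exact h.mem_rest.mpr ⟨hy, hy'⟩
    rw [X.orb_eq_of_mem hyr, ev] at h2
    have hsub : X.orb (S.erase b) b ⊆ X.rest (insert y (S.erase b)) y := fun z hz => by
      have hzc := X.notMem_cl_of_mem_orb hz (h.notMem_cl_erase hS hb)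
      have hzne : X.orb (S.erase b) z ≠ X.orb (S.erase b) y := fun e => by
        rw [X.orb_eq_of_mem hz, X.orb_eq_of_mem hyr, ev] at e
        have := e ▸ X.self_mem_orb (S.erase b) b
        exact (h.mem_rest.mp this).1 hb
      rw [h.mem_rest]
      refine ⟨fun e => ?_, fun e => ?_⟩
      · rcases Finset.mem_insert.mp e with e | e
        · exact hzne (by rw [e])
        · exact hzc (X.subset_cl _ e)
      · rw [own, Finset.erase_insert hyB] at e
        exact hzne (X.orb_eq_of_mem (Finset.mem_erase.mp e).2)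
    have := Finset.card_le_card hsub
    omega

/-- No set of `m + 1` points is closed. -/
theorem noClosed : X.NoClosed m := by
  intro S₀ hS₀ hcl₀
  -- every set of `m` points extends to a closed set
  obtain ⟨b₀, hb₀⟩ : S₀.Nonempty := by rw [← Finset.card_pos]; omega
  have hext : ∀ B : Finset α, B.card = m → ∃ x, x ∉ B ∧ X.cl (insert x B) = insert x B := by
    intro B hB
    obtain ⟨g, hg, e⟩ := X.exists_image_eq h.trans (h.card_erase_closed hS₀ hb₀) hB
    have e' : insert (g b₀) B = S₀.image g := by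
      conv_rhs => rw [← Finset.insert_erase hb₀]
      rw [Finset.image_insert, e]
    refine ⟨g b₀, ?_, by rw [e', X.cl_image hg, hcl₀]⟩
    rw [← e]
    simp
  have hopen : ∀ B : Finset α, B.card = m → ∃ v, v ∉ B ∧ X.openExt B = X.orb B v := by
    intro B hB
    obtain ⟨x, hx, hx'⟩ := hext B hB
    have hS : (insert x B).card = m + 1 := by rw [Finset.card_insert_of_notMem hx, hB]
    have e := h.openExt_eq_rest hS hx' (Finset.mem_insert_self x B)
    obtain ⟨v, hv, -, -, ev⟩ := h.rest_spec hS hx' (Finset.mem_insert_self x B)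
    rw [Finset.erase_insert hx] at e ev
    exact ⟨v, fun hh => hv (Finset.mem_insert_of_mem hh), e.trans ev.symm⟩
  -- adjacency over `D`
  obtain ⟨B, -, hB⟩ := Finset.exists_subset_card_eq (s := S₀) (n := m) (by omega)
  obtain ⟨b, hbB⟩ := h.nonempty hB
  obtain ⟨D, hD⟩ : ∃ D, D = B.erase b := ⟨_, rfl⟩
  have hDc : D.card + 1 = m := by rw [hD, Finset.card_erase_add_one hbB, hB]
  have hmem : ∀ p y, y ∈ X.openExt (insert p D) ↔
      y ∉ insert p D ∧ X.cl (insert y (insert p D)) ≠ insert y (insert p D) := fun p y => by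
    simp [openExt]
  have hins : ∀ p, p ∉ D → (insert p D).card = m := fun p hp => by
    rw [Finset.card_insert_of_notMem hp, hDc]
  have hsymm : ∀ p q, q ∉ D → p ∉ D → q ∈ X.openExt (insert p D) → p ∈ X.openExt (insert q D) := by
    intro p q hq hp hmq
    obtain ⟨h1, h2⟩ := (hmem p q).mp hmq
    refine (hmem q p).mpr ⟨fun e => ?_, by rwa [Finset.insert_comm]⟩
    rcases Finset.mem_insert.mp e with e | e
    · exact h1 (e ▸ Finset.mem_insert_self _ _)
    · exact hp e
  have htrans : ∀ p q r, p ∉ D → q ∈ X.openExt (insert p D) → r ∈ X.openExt (insert p D) →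
      q ≠ r → r ∈ X.openExt (insert q D) := by
    intro p q r hp hq hr hqr
    obtain ⟨hq1, -⟩ := (hmem p q).mp hq
    obtain ⟨hr1, -⟩ := (hmem p r).mp hr
    simp only [Finset.mem_insert, not_or] at hq1 hr1
    by_contra hno
    have hrq : r ∉ insert q D := by simp [hr1.2, Ne.symm hqr]
    have hcl : X.cl (insert r (insert q D)) = insert r (insert q D) := by
      by_contra hne
      exact hno ((hmem q r).mpr ⟨hrq, hne⟩)
    have hS : (insert r (insert q D)).card = m + 1 := by
      rw [Finset.card_insert_of_notMem hrq, hins q hq1.2]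
    have hqm : q ∈ insert r (insert q D) := by simp
    have e1 := h.openExt_eq_rest hS hcl hqm
    have e2 := h.openExt_eq_rest hS hcl (Finset.mem_insert_self r _)
    rw [Finset.erase_insert_of_ne (Ne.symm hqr), Finset.erase_insert hq1.2] at e1
    rw [Finset.erase_insert hrq] at e2
    have hd := h.rest_disjoint hS hcl hqm (Finset.mem_insert_self r _) hqr
    rw [← e1, ← e2] at hd
    exact Finset.disjoint_left.mp hd (hsymm p r hr1.2 hp hr) (hsymm p q hq1.2 hp hq)
  have hbD : b ∉ D := by rw [hD]; exact Finset.notMem_erase b B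
  have eB : insert b D = B := by rw [hD, Finset.insert_erase hbB]
  obtain ⟨v, hv, ev⟩ := hopen B hB
  have hvN : v ∈ X.openExt (insert b D) := by rw [eB, ev]; exact X.self_mem_orb B v
  obtain ⟨hv1, -⟩ := (hmem b v).mp hvN
  simp only [Finset.mem_insert, not_or] at hv1
  have hbN := hsymm b v hv1.2 hbD hvN
  obtain ⟨w, -, ew⟩ := hopen _ (hins v hv1.2)
  have eown : ∀ z, z ≠ b ∧ z ∈ X.openExt (insert v D) ↔ z ≠ v ∧ z ∈ X.openExt (insert b D) := by
    intro z
    constructor
    · rintro ⟨hzb, hz⟩
      refine ⟨fun e => ((hmem v z).mp hz).1 (e ▸ Finset.mem_insert_self v D), ?_⟩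
      exact htrans v b z hv1.2 hbN hz (Ne.symm hzb)
    · rintro ⟨hzv, hz⟩
      refine ⟨fun e => ((hmem b z).mp hz).1 (e ▸ Finset.mem_insert_self b D), ?_⟩
      exact htrans b v z hbD hvN hz (Ne.symm hzv)
  have hS : (insert v B).card = m + 1 := by rw [Finset.card_insert_of_notMem hv, hB]
  refine h.false_of_own_eq hS (Finset.mem_insert_of_mem hbB) (Finset.mem_insert_self v B)
    (Ne.symm hv1.1) ?_
  have e1 : (insert v B).erase b = insert v D := by
    rw [Finset.erase_insert_of_ne hv1.1, hD]
  rw [own, own, e1, Finset.erase_insert hv]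
  have eo : X.orb (insert v D) b = X.openExt (insert v D) := by
    rw [ew] at hbN ⊢
    rw [X.orb_eq_of_mem hbN]
  ext z
  simp only [Finset.mem_erase, eo, ← ev]
  rw [← eB]
  exact eown z

end Level

end CfsgLib.Pronormal.Geom
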