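/-
A minimal counterexample to the bound for the fixed points of a pronormal subgroup yields a flat geometry.
-/
import Cfsg.Agent.Lib.Pronormal.Defs

set_option autoImplicit false
set_option linter.unusedSectionVars false

open Equiv

namespace CfsgLib.Pronormal

/-- The pronormality condition in a group. -/
def Pro {H : Type*} [Group H] (K : Subgroup H) : Prop :=
  ∀ x : H, ∃ w ∈ K ⊔ K.map (MulAut.conj x).toMonoidHom,
    K.map (MulAut.conj w).toMonoidHom = K.map (MulAut.conj x).toMonoidHom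

/-- The bound for all degrees below `n`. -/
def Small (n : ℕ) : Prop :=
  ∀ (m : ℕ) (G' K' : Subgroup (Equiv.Perm (Fin m))), m < n → (∀ a b, ∃ g ∈ G', g a = b) → K' ≤ G' →
    K' ≠ ⊥ → (∀ g ∈ G', ∃ w ∈ K' ⊔ K'.map (MulAut.conj g).toMonoidHom,
      K'.map (MulAut.conj w).toMonoidHom = K'.map (MulAut.conj g).toMonoidHom) →
    2 * Nat.card {a : Fin m // ∀ k ∈ K', k a = a} + 1 ≤ m

theorem map_conj_comm {H M : Type*} [Group H] [Group M] (φ : H →* M) (x : H) (K : Subgroup H) :
    (K.map (MulAut.conj x).toMonoidHom).map φ = (K.map φ).map (MulAut.conj (φ x)).toMonoidHom := by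
  rw [Subgroup.map_map, Subgroup.map_map]
  congr 1
  ext y
  simp

/-- A transitive action of small degree. -/
theorem hom_small {n : ℕ} (hsm : Small n) {H β : Type*} [Group H] [Fintype β] (φ : H →* Perm β)
    (hlt : Fintype.card β < n) (htr : ∀ a b : β, ∃ x, φ x a = b) (K₁ : Subgroup H)
    (hne : ∃ k ∈ K₁, φ k ≠ 1) (hpr : Pro K₁) :
    2 * Nat.card {b : β // ∀ k ∈ K₁, φ k b = b} + 1 ≤ Fintype.card β := by
  classical
  obtain ⟨e⟩ : Nonempty (β ≃ Fin (Fintype.card β)) := ⟨Fintype.equivFin β⟩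
  obtain ⟨ψ, hψ⟩ : ∃ ψ : H →* Perm (Fin (Fintype.card β)), ∀ x i, ψ x i = e (φ x (e.symm i)) :=
    ⟨(e.permCongrHom).toMonoidHom.comp φ, fun x i => rfl⟩
  have h := hsm (Fintype.card β) ψ.range (K₁.map ψ) hlt (fun a b => by
      obtain ⟨x, hx⟩ := htr (e.symm a) (e.symm b)
      exact ⟨ψ x, ⟨x, rfl⟩, by rw [hψ, hx, e.apply_symm_apply]⟩)
    (by rintro _ ⟨x, -, rfl⟩; exact ⟨x, rfl⟩) (fun hbot => by
      obtain ⟨k, hk, hk1⟩ := hne
      have : ψ k = 1 := by
        rw [← Subgroup.mem_bot, ← hbot]; exact ⟨k, hk, rfl⟩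
      refine hk1 (Equiv.ext fun b => e.injective ?_)
      have h1 := congrArg (fun p : Perm (Fin (Fintype.card β)) => p (e b)) this
      simpa [hψ] using h1)
    (by
      rintro _ ⟨x, rfl⟩
      obtain ⟨w, hw, hw2⟩ := hpr x
      refine ⟨ψ w, ?_, ?_⟩
      · rw [← map_conj_comm, ← Subgroup.map_sup]
        exact ⟨w, hw, rfl⟩
      · rw [← map_conj_comm, hw2, map_conj_comm])
  have heq : Nat.card {b : β // ∀ k ∈ K₁, φ k b = b} =
      Nat.card {a : Fin (Fintype.card β) // ∀ k ∈ K₁.map ψ, k a = a} := by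
    refine Nat.card_congr (e.subtypeEquiv fun b => ⟨?_, fun hb k hk => e.injective ?_⟩)
    · rintro hb _ ⟨k, hk, rfl⟩
      rw [hψ, e.symm_apply_apply, hb k hk]
    · have := hb (ψ k) ⟨k, hk, rfl⟩
      rwa [hψ, e.symm_apply_apply] at this
  rw [heq]; exact h

namespace Core

variable {α : Type*} [Fintype α] [DecidableEq α]

/-- The fixed point set. -/
noncomputable def fixF (H : Subgroup (Perm α)) : Finset α :=
  open Classical in Finset.univ.filter fun a => ∀ k ∈ H, k a = a

theorem mem_fixF {H : Subgroup (Perm α)} {a : α} : a ∈ fixF H ↔ ∀ k ∈ H, k a = a := by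
  simp [fixF]

/-- The orbit as a finite set. -/
noncomputable def orbF (H : Subgroup (Perm α)) (x : α) : Finset α :=
  open Classical in Finset.univ.filter fun y => ∃ j ∈ H, j x = y

theorem mem_orbF {H : Subgroup (Perm α)} {x y : α} : y ∈ orbF H x ↔ ∃ j ∈ H, j x = y := by
  simp [orbF]

theorem self_mem_orbF (H : Subgroup (Perm α)) (x : α) : x ∈ orbF H x :=
  mem_orbF.2 ⟨1, one_mem _, rfl⟩

theorem orbF_inv {H : Subgroup (Perm α)} {x y : α} {j : Perm α} (hj : j ∈ H) (hy : y ∈ orbF H x) :
    j y ∈ orbF H x := by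
  obtain ⟨i, hi, rfl⟩ := mem_orbF.1 hy
  exact mem_orbF.2 ⟨j * i, mul_mem hj hi, rfl⟩

theorem orbF_eq {H : Subgroup (Perm α)} {x y : α} (hy : y ∈ orbF H x) : orbF H y = orbF H x := by
  obtain ⟨i, hi, rfl⟩ := mem_orbF.1 hy
  ext z
  simp only [mem_orbF]
  constructor
  · rintro ⟨j, hj, rfl⟩; exact ⟨j * i, mul_mem hj hi, rfl⟩
  · rintro ⟨j, hj, rfl⟩; exact ⟨j * i⁻¹, mul_mem hj (inv_mem hi), by simp [Perm.mul_apply]⟩

theorem orbF_image {H : Subgroup (Perm α)} {x : α} {j : Perm α} (hj : j ∈ H) :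
    (orbF H x).image j = orbF H x := by
  refine Finset.eq_of_subset_of_card_le ?_ (by rw [Finset.card_image_of_injective _ j.injective])
  intro y hy
  obtain ⟨z, hz, rfl⟩ := Finset.mem_image.1 hy
  exact orbF_inv hj hz

/-- Summing the bounds over the orbits on an invariant set. -/
theorem sum_lt (H : Subgroup (Perm α)) {S F : Finset α} (hS : S.Nonempty)
    (hinv : ∀ y ∈ S, orbF H y ⊆ S)
    (hlt : ∀ y ∈ S, 2 * (orbF H y ∩ F).card < (orbF H y).card) : 2 * (S ∩ F).card < S.card := by
  classical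
  have hfib : ∀ O ∈ S.image (orbF H), ∀ T : Finset α,
      (S ∩ T).filter (fun y => orbF H y = O) = O ∩ T := by
    intro O hO T
    obtain ⟨y, hy, rfl⟩ := Finset.mem_image.1 hO
    ext z
    simp only [Finset.mem_filter, Finset.mem_inter]
    exact ⟨fun hz => ⟨hz.2 ▸ self_mem_orbF H z, hz.1.2⟩,
      fun hz => ⟨⟨hinv y hy hz.1, hz.2⟩, orbF_eq hz.1⟩⟩
  have h1 : S.card = ∑ O ∈ S.image (orbF H), O.card := by
    rw [Finset.card_eq_sum_card_image (orbF H) S]
    refine Finset.sum_congr rfl fun O hO => ?_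
    have := hfib O hO Finset.univ
    rw [Finset.inter_univ, Finset.inter_univ] at this
    rw [this]
  have h2 : (S ∩ F).card = ∑ O ∈ S.image (orbF H), (O ∩ F).card := by
    rw [Finset.card_eq_sum_card_fiberwise (f := orbF H) (t := S.image (orbF H))
      (fun y hy => Finset.mem_image_of_mem _ (Finset.mem_inter.1 hy).1)]
    exact Finset.sum_congr rfl fun O hO => by rw [hfib O hO F]
  rw [h1, h2, Finset.mul_sum]
  refine Finset.sum_lt_sum_of_nonempty (hS.image _) fun O hO => ?_
  obtain ⟨y, hy, rfl⟩ := Finset.mem_image.1 hO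
  exact hlt y hy

variable (G K : Subgroup (Perm α))

/-- A conjugate of the pronormal subgroup. -/
def cj (g : Perm α) : Subgroup (Perm α) := K.map (MulAut.conj g).toMonoidHom

variable {G K}

theorem mem_cj {g x : Perm α} : x ∈ cj K g ↔ ∃ k ∈ K, g * k * g⁻¹ = x := Iff.rfl

theorem cj_map (g h : Perm α) : (cj K h).map (MulAut.conj g).toMonoidHom = cj K (g * h) := by
  rw [cj, cj, Subgroup.map_map]
  congr 1

theorem cj_one : cj K 1 = K := by
  ext x; simp [mem_cj]

theorem fixF_map (H : Subgroup (Perm α)) (g : Perm α) :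
    fixF (H.map (MulAut.conj g).toMonoidHom) = (fixF H).image g := by
  ext a
  simp only [mem_fixF, Finset.mem_image]
  constructor
  · intro ha
    refine ⟨g⁻¹ a, fun k hk => g.injective ?_, by simp⟩
    have := ha _ ⟨k, hk, rfl⟩
    simpa [MulAut.conj_apply, Perm.mul_apply] using this
  · rintro ⟨b, hb, rfl⟩ _ ⟨k, hk, rfl⟩
    simp [MulAut.conj_apply, Perm.mul_apply, hb k hk]

theorem fixF_cj (g : Perm α) : fixF (cj K g) = (fixF K).image g := fixF_map K g

theorem image_image_perm (S : Finset α) (g h : Perm α) : (S.image h).image g = S.image (g * h : Perm α) := by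
  rw [Finset.image_image]; rfl

theorem image_one_perm (S : Finset α) : S.image (1 : Perm α) = S := by
  ext; simp

variable (hle : K ≤ G)
  (hpro : ∀ g ∈ G, ∃ w ∈ K ⊔ K.map (MulAut.conj g).toMonoidHom,
    K.map (MulAut.conj w).toMonoidHom = K.map (MulAut.conj g).toMonoidHom)

include hle in
theorem cj_le {g : Perm α} (hg : g ∈ G) : cj K g ≤ G := by
  rintro _ ⟨k, hk, rfl⟩
  exact mul_mem (mul_mem hg (hle hk)) (inv_mem hg)

include hpro in
/-- Two conjugates are conjugate in the subgroup they generate. -/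
theorem exists_conj {g h : Perm α} (hg : g ∈ G) (hh : h ∈ G) :
    ∃ w ∈ cj K g ⊔ cj K h, (cj K g).map (MulAut.conj w).toMonoidHom = cj K h := by
  obtain ⟨w, hw, hw2⟩ := hpro (g⁻¹ * h) (mul_mem (inv_mem hg) hh)
  refine ⟨g * w * g⁻¹, ?_, ?_⟩
  · have := Subgroup.mem_map_of_mem (MulAut.conj g).toMonoidHom hw
    rw [Subgroup.map_sup] at this
    have e : (K.map (MulAut.conj (g⁻¹ * h)).toMonoidHom).map (MulAut.conj g).toMonoidHom = cj K h := by
      rw [show K.map (MulAut.conj (g⁻¹ * h)).toMonoidHom = cj K (g⁻¹ * h) from rfl, cj_map,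
        mul_inv_cancel_left]
    rw [e] at this
    simpa [cj, MulAut.conj_apply] using this
  · rw [cj_map, show g * w * g⁻¹ * g = g * w by group, ← cj_map g w]
    rw [show cj K w = cj K (g⁻¹ * h) from hw2, cj_map, mul_inv_cancel_left]

include hpro in
/-- Pronormality inside an intermediate group. -/
theorem pro_subgroupOf {H : Subgroup (Perm α)} (hH : H ≤ G) {g : Perm α} (hg : g ∈ G) (hgH : cj K g ≤ H) :
    Pro ((cj K g).subgroupOf H) := by
  intro x
  obtain ⟨w, hw, hw2⟩ := exists_conj hpro hg (mul_mem (hH x.2) hg)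
  have hx : cj K ((x : Perm α) * g) ≤ H := by
    rw [← cj_map]
    rintro _ ⟨k, hk, rfl⟩
    exact mul_mem (mul_mem x.2 (hgH hk)) (inv_mem x.2)
  have hwH : w ∈ H := (sup_le hgH hx) hw
  have key : ∀ y : H, ((cj K g).subgroupOf H).map (MulAut.conj y).toMonoidHom =
      ((cj K g).map (MulAut.conj (y : Perm α)).toMonoidHom).subgroupOf H := by
    intro y
    have hy : (cj K g).map (MulAut.conj (y : Perm α)).toMonoidHom ≤ H := by
      rintro _ ⟨k, hk, rfl⟩
      exact mul_mem (mul_mem y.2 (hgH hk)) (inv_mem y.2)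
    refine Subgroup.map_injective H.subtype_injective ?_
    rw [map_conj_comm, Subgroup.map_subgroupOf_eq_of_le hgH, Subgroup.map_subgroupOf_eq_of_le hy]
    rfl
  refine ⟨⟨w, hwH⟩, ?_, ?_⟩
  · rw [key, cj_map, ← Subgroup.subgroupOf_sup hgH hx]
    exact hw
  · rw [key, key]
    show ((cj K g).map (MulAut.conj w).toMonoidHom).subgroupOf H = _
    rw [hw2, ← cj_map]

include hpro in
/-- The bound on an orbit of an intermediate group. -/
theorem orbit_small {n : ℕ} (hsm : Small n) {H : Subgroup (Perm α)} (hH : H ≤ G) {g : Perm α} (hg : g ∈ G)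
    (hgH : cj K g ≤ H) {x : α} (hlt : (orbF H x).card < n)
    (hne : ¬ orbF H x ⊆ fixF (cj K g)) :
    2 * (orbF H x ∩ fixF (cj K g)).card < (orbF H x).card := by
  classical
  obtain ⟨O, hO⟩ : ∃ O, O = orbF H x := ⟨_, rfl⟩
  have hinv : ∀ j ∈ H, ∀ y, j y ∈ O ↔ y ∈ O := by
    intro j hj y
    rw [hO]
    refine ⟨fun hy => ?_, orbF_inv hj⟩
    have := orbF_inv (inv_mem hj) hy
    simpa using this
  let φ : H →* Perm {y // y ∈ O} :=
    { toFun := fun j => (j : Perm α).subtypePerm (hinv j j.2)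
      map_one' := by ext; rfl
      map_mul' := fun a b => by ext; rfl }
  have htr : ∀ a b : {y // y ∈ O}, ∃ j, φ j a = b := by
    intro a b
    have ha : (a : α) ∈ orbF H x := by rw [← hO]; exact a.2
    have hb : (b : α) ∈ orbF H x := by rw [← hO]; exact b.2
    obtain ⟨i, hi, ei⟩ := mem_orbF.1 ha
    obtain ⟨j, hj, ej⟩ := mem_orbF.1 hb
    refine ⟨⟨j * i⁻¹, mul_mem hj (inv_mem hi)⟩, Subtype.ext ?_⟩
    show (j * i⁻¹) (a : α) = b
    rw [← ei, ← ej]; simp [Perm.mul_apply]
  obtain ⟨y, hy, hy'⟩ := Finset.not_subset.1 hne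
  rw [mem_fixF] at hy'
  push Not at hy'
  obtain ⟨k, hk, hky⟩ := hy'
  have := hom_small hsm φ (by simpa [hO] using hlt) htr ((cj K g).subgroupOf H)
    ⟨⟨k, hgH hk⟩, hk, fun e => hky (by
      have := congrArg (fun p : Perm {y // y ∈ O} => (p ⟨y, hO ▸ hy⟩ : α)) e
      exact this)⟩
    (pro_subgroupOf hpro hH hg hgH)
  have hcard : Nat.card {b : {y // y ∈ O} // ∀ k ∈ (cj K g).subgroupOf H, φ k b = b} =
      (O ∩ fixF (cj K g)).card := by
    rw [← Nat.card_eq_finsetCard]
    refine Nat.card_congr ⟨fun b => ⟨b.1.1, Finset.mem_inter.2 ⟨b.1.2, mem_fixF.2 fun k hk => ?_⟩⟩,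
      fun z => ⟨⟨z.1, (Finset.mem_inter.1 z.2).1⟩, fun k hk => Subtype.ext
        (mem_fixF.1 (Finset.mem_inter.1 z.2).2 k hk)⟩, fun _ => rfl, fun _ => rfl⟩
    exact congrArg Subtype.val (b.2 ⟨k, hgH hk⟩ hk)
  rw [hcard, Fintype.card_coe, hO] at this
  omega

include hpro in
/-- If a conjugate is trivial on a set invariant under two conjugates, so is the other. -/
theorem trivial_transfer {g h : Perm α} (hg : g ∈ G) (hh : h ∈ G) {S : Subgroup (Perm α)}
    (hgS : cj K g ≤ S) (hhS : cj K h ≤ S) {O : Finset α} (hinv : ∀ j ∈ S, ∀ y ∈ O, j y ∈ O)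
    (hfix : O ⊆ fixF (cj K g)) : O ⊆ fixF (cj K h) := by
  obtain ⟨w, hw, e⟩ := exists_conj hpro hg hh
  rw [← e, fixF_map]
  intro y hy
  exact Finset.mem_image.2 ⟨w⁻¹ y, hfix (hinv _ (inv_mem ((sup_le hgS hhS) hw)) y hy), by simp⟩

variable (G K)

/-- The flats. -/
noncomputable def flats : Finset (Finset α) :=
  open Classical in (Finset.univ.filter fun g : Perm α => g ∈ G).image fun g : Perm α => (fixF K).image g

/-- The group generated by the conjugates with a given fixed point set. -/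
def conjGroup (F : Finset α) : Subgroup (Perm α) :=
  ⨆ (g : Perm α) (_ : g ∈ G) (_ : (fixF K).image g = F), cj K g

variable {G K}

theorem mem_flats {F : Finset α} : F ∈ flats G K ↔ ∃ g ∈ G, (fixF K).image g = F := by
  simp [flats]

theorem cj_le_conjGroup {g : Perm α} (hg : g ∈ G) {F : Finset α} (e : (fixF K).image g = F) :
    cj K g ≤ conjGroup G K F :=
  le_iSup_of_le g (le_iSup_of_le hg (le_iSup_of_le e le_rfl))

theorem conjGroup_le_iff {F : Finset α} {H : Subgroup (Perm α)} :
    conjGroup G K F ≤ H ↔ ∀ g ∈ G, (fixF K).image g = F → cj K g ≤ H := by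
  simp only [conjGroup, iSup_le_iff]

theorem conjGroup_fix {F : Finset α} {k : Perm α} (hk : k ∈ conjGroup G K F) {a : α} (ha : a ∈ F) :
    k a = a := by
  have h : conjGroup G K F ≤ MulAction.stabilizer (Perm α) a :=
    conjGroup_le_iff.2 fun g _ e j hj => mem_fixF.1 (by rw [fixF_cj, e]; exact ha) j hj
  exact h hk

theorem conjGroup_conj {g : Perm α} (hg : g ∈ G) (F : Finset α) :
    (conjGroup G K F).map (MulAut.conj g).toMonoidHom ≤ conjGroup G K (F.image g) := by
  rw [Subgroup.map_le_iff_le_comap, conjGroup_le_iff]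
  intro h hh e
  rw [← Subgroup.map_le_iff_le_comap, cj_map]
  exact cj_le_conjGroup (mul_mem hg hh) (by rw [← image_image_perm, e])

end Core

open CfsgLib.Pronormal.Core

/-- **The geometry of a minimal counterexample.** -/
theorem exists_geom {α : Type*} [Fintype α] [DecidableEq α] (G K : Subgroup (Equiv.Perm α)) (hle : K ≤ G)
    (hne : K ≠ ⊥) (htrans : ∀ a b : α, ∃ g ∈ G, g a = b)
    (hpro : ∀ g ∈ G, ∃ w ∈ K ⊔ K.map (MulAut.conj g).toMonoidHom,
      K.map (MulAut.conj w).toMonoidHom = K.map (MulAut.conj g).toMonoidHom)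
    (hbig : Fintype.card α ≤ 2 * Nat.card {a : α // ∀ k ∈ K, k a = a})
    (hsmall : ∀ (m : ℕ) (G' K' : Subgroup (Equiv.Perm (Fin m))), m < Fintype.card α →
      (∀ a b, ∃ g ∈ G', g a = b) → K' ≤ G' → K' ≠ ⊥ →
      (∀ g ∈ G', ∃ w ∈ K' ⊔ K'.map (MulAut.conj g).toMonoidHom,
        K'.map (MulAut.conj w).toMonoidHom = K'.map (MulAut.conj g).toMonoidHom) →
      2 * Nat.card {a : Fin m // ∀ k ∈ K', k a = a} + 1 ≤ m) :
    Nonempty (Geom α) := by
  classical
  have hsm : Small (Fintype.card α) := hsmall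
  have hf : Nat.card {a : α // ∀ k ∈ K, k a = a} = (fixF K).card := by
    rw [← Nat.card_eq_finsetCard]
    exact Nat.card_congr (Equiv.subtypeEquivRight fun a => mem_fixF.symm)
  rw [hf] at hbig
  have hex : ∃ a, a ∉ fixF K := by
    by_contra hall
    push Not at hall
    exact hne ((Subgroup.eq_bot_iff_forall _).2 fun k hk => Equiv.ext fun a => mem_fixF.1 (hall a) k hk)
  obtain ⟨a₁, ha₁⟩ := hex
  have hpos : (fixF K).Nonempty := by
    rw [← Finset.card_pos]
    have := Fintype.card_pos_iff.2 ⟨a₁⟩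
    omega
  obtain ⟨a₀, ha₀⟩ := hpos
  have h0flat : fixF K ∈ flats G K := mem_flats.2 ⟨1, one_mem _, image_one_perm _⟩
  have hK0 : K ≤ conjGroup G K (fixF K) := by
    have := cj_le_conjGroup (K := K) (one_mem G) (image_one_perm (fixF K))
    rwa [cj_one] at this
  have hfc : ∀ F ∈ flats G K, F.card = (fixF K).card := by
    intro F hF
    obtain ⟨g, -, rfl⟩ := mem_flats.1 hF
    exact Finset.card_image_of_injective _ g.injective
  have himg : ∀ g ∈ G, ∀ F ∈ flats G K, F.image g ∈ flats G K := by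
    intro g hg F hF
    obtain ⟨h, hh, rfl⟩ := mem_flats.1 hF
    exact mem_flats.2 ⟨g * h, mul_mem hg hh, (image_image_perm _ _ _).symm⟩
  have hmoves : ∀ F ∈ flats G K, ∀ a ∉ F, ∃ k ∈ conjGroup G K F, k a ≠ a := by
    intro F hF a ha
    obtain ⟨g, hg, rfl⟩ := mem_flats.1 hF
    rw [← fixF_cj, mem_fixF] at ha
    push Not at ha
    obtain ⟨k, hk, hka⟩ := ha
    exact ⟨k, cj_le_conjGroup hg rfl hk, hka⟩
  have hPG : ∀ F ∈ flats G K, conjGroup G K F ≤ G := fun F _ =>
    conjGroup_le_iff.2 fun g hg _ => cj_le hle hg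
  -- deficits on the orbits
  have hdef : ∀ A : Finset α, A.Nonempty → ∀ F ∈ flats G K, A ⊆ F → ∀ x : α,
      (∃ F' ∈ flats G K, A ⊆ F' ∧ x ∉ F') →
      2 * (orbF (⨆ (F' : Finset α) (_ : F' ∈ flats G K) (_ : A ⊆ F'), conjGroup G K F') x ∩ F).card <
        (orbF (⨆ (F' : Finset α) (_ : F' ∈ flats G K) (_ : A ⊆ F'), conjGroup G K F') x).card := by
    intro A hA F hF hAF x hx
    obtain ⟨J, hJ⟩ : ∃ J, J = ⨆ (F' : Finset α) (_ : F' ∈ flats G K) (_ : A ⊆ F'), conjGroup G K F' :=
      ⟨_, rfl⟩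
    rw [← hJ]
    have hJle : ∀ F' ∈ flats G K, A ⊆ F' → conjGroup G K F' ≤ J := fun F' h1 h2 =>
      hJ ▸ le_iSup_of_le F' (le_iSup_of_le h1 (le_iSup_of_le h2 le_rfl))
    have hJG : J ≤ G := by
      rw [hJ]; exact iSup_le fun F' => iSup_le fun h1 => iSup_le fun _ => hPG F' h1
    obtain ⟨g, hg, rfl⟩ := mem_flats.1 hF
    obtain ⟨F', hF', hAF', hxF'⟩ := hx
    obtain ⟨h, hh, rfl⟩ := mem_flats.1 hF'
    obtain ⟨a, ha⟩ := hA
    have hfixa : J ≤ MulAction.stabilizer (Perm α) a := by
      rw [hJ]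
      exact iSup_le fun F' => iSup_le fun _ => iSup_le fun h2 => fun k hk => conjGroup_fix hk (h2 ha)
    have hlt : (orbF J x).card < Fintype.card α := by
      refine Finset.card_lt_univ_of_notMem (x := a) fun hao => hxF' ?_
      obtain ⟨j, hj, hja⟩ := mem_orbF.1 hao
      have : j a = a := hfixa hj
      rw [j.injective (hja.trans this.symm)]
      exact hAF' ha
    rw [← fixF_cj]
    refine orbit_small hpro hsm hJG hg ((cj_le_conjGroup hg rfl).trans (hJle _ hF hAF)) hlt fun hsub => hxF' ?_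
    have := trivial_transfer hpro hg hh ((cj_le_conjGroup hg rfl).trans (hJle _ hF hAF))
      ((cj_le_conjGroup hh rfl).trans (hJle _ hF' hAF')) (fun j hj y hy => orbF_inv hj hy) hsub
    rw [← fixF_cj]
    exact this (self_mem_orbF J x)
  -- singletons are closed
  have hclosed : ∀ a x : α, (∀ F ∈ flats G K, a ∈ F → x ∈ F) → x = a := by
    intro a x hax
    by_contra hxa
    obtain ⟨cnt, hcnt⟩ : ∃ cnt : α → ℕ, cnt = fun y => ((flats G K).filter fun F => y ∈ F).card := ⟨_, rfl⟩
    have hmem : ∀ (g : Perm α) (F : Finset α) (y : α), g y ∈ F.image g ↔ y ∈ F := fun g F y => by simp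
    have hinvim : ∀ (g : Perm α) (F : Finset α), (F.image (g⁻¹ : Perm α)).image g = F := fun g F => by
      rw [image_image_perm, mul_inv_cancel, image_one_perm]
    have hle' : ∀ g ∈ G, ∀ y, cnt y ≤ cnt (g y) := by
      intro g hg y
      rw [hcnt]
      refine Finset.card_le_card_of_injOn (fun F => F.image g) (fun F hF => ?_)
        fun F _ F' _ e => Finset.image_injective g.injective e
      simp only [Finset.coe_filter, Set.mem_ofPred_eq] at hF ⊢
      exact ⟨himg g hg F hF.1, (hmem g F y).2 hF.2⟩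
    have heq : ∀ y z, cnt y = cnt z := fun y z => by
      obtain ⟨g, hg, rfl⟩ := htrans y z
      refine le_antisymm (hle' g hg y) ?_
      have := hle' g⁻¹ (inv_mem hg) (g y)
      simpa using this
    have hiff : ∀ F ∈ flats G K, a ∈ F ↔ x ∈ F := by
      have hs : ((flats G K).filter fun F => a ∈ F) = (flats G K).filter fun F => x ∈ F := by
        refine Finset.eq_of_subset_of_card_le (fun F hF => ?_) ?_
        · simp only [Finset.mem_filter] at hF ⊢
          exact ⟨hF.1, hax F hF.1 hF.2⟩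
        · have := heq x a
          rw [hcnt] at this
          exact this.le
      intro F hF
      have := congrArg (fun S : Finset (Finset α) => F ∈ S) hs
      simpa [hF] using this
    -- the block system
    let st : Setoid α := ⟨fun y z => ∀ F ∈ flats G K, y ∈ F ↔ z ∈ F,
      fun _ _ _ => Iff.rfl, fun h F hF => (h F hF).symm, fun h h' F hF => (h F hF).trans (h' F hF)⟩
    have hst : ∀ g ∈ G, ∀ y z, st.r y z → st.r (g y) (g z) := by
      intro g hg y z hyz F hF
      have h1 := hyz _ (himg g⁻¹ (inv_mem hg) F hF)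
      rw [← hmem g (F.image (g⁻¹ : Perm α)) y, ← hmem g (F.image (g⁻¹ : Perm α)) z, hinvim] at h1
      exact h1
    let act : G → Quotient st → Quotient st := fun g => Quotient.map (g : Perm α) (fun y z h => hst _ g.2 y z h)
    have hact : ∀ g y, act g (Quotient.mk st y) = Quotient.mk st ((g : Perm α) y) := fun g y => rfl
    have hmul : ∀ (g g' : G) q, act (g * g') q = act g (act g' q) := fun g g' q =>
      Quotient.inductionOn q fun y => rfl
    have hone : ∀ q, act 1 q = q := fun q => Quotient.inductionOn q fun y => rfl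
    let φ : G →* Perm (Quotient st) :=
      { toFun := fun g => ⟨act g, act g⁻¹, fun q => by rw [← hmul, inv_mul_cancel, hone],
          fun q => by rw [← hmul, mul_inv_cancel, hone]⟩
        map_one' := Equiv.ext hone
        map_mul' := fun g g' => Equiv.ext (hmul g g') }
    have hφ : ∀ g y, φ g (Quotient.mk st y) = Quotient.mk st ((g : Perm α) y) := fun g y => rfl
    have hqlt : Fintype.card (Quotient st) < Fintype.card α := by
      refine Fintype.card_lt_of_surjective_not_injective _ Quotient.mk_surjective fun hinj => hxa ?_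
      exact (hinj (Quotient.sound (hiff : st.r a x))).symm
    by_cases htriv : ∀ g : G, (g : Perm α) ∈ K → φ g = 1
    · obtain ⟨N, hN⟩ : ∃ N, N = ⨆ (g : Perm α) (_ : g ∈ G), cj K g := ⟨_, rfl⟩
      have hNle : ∀ g ∈ G, cj K g ≤ N := fun g hg => hN ▸ le_iSup_of_le g (le_iSup_of_le hg le_rfl)
      have hNG : N ≤ G := by rw [hN]; exact iSup_le fun g => iSup_le fun hg => cj_le hle hg
      let B : Subgroup (Perm α) := (φ.ker).map G.subtype
      have hNB : N ≤ B := by
        rw [hN]
        refine iSup_le fun g => iSup_le fun hg => ?_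
        rintro _ ⟨k, hk, rfl⟩
        refine ⟨⟨g, hg⟩ * ⟨k, hle hk⟩ * ⟨g, hg⟩⁻¹, ?_, rfl⟩
        rw [SetLike.mem_coe, MonoidHom.mem_ker, map_mul, map_mul, htriv ⟨k, hle hk⟩ hk, mul_one, map_inv,
          mul_inv_cancel]
      have hsum : 2 * (Finset.univ ∩ fixF K).card < (Finset.univ : Finset α).card := by
        refine sum_lt N ⟨a, Finset.mem_univ _⟩ (fun y _ => Finset.subset_univ _) fun y _ => ?_
        have hKN : cj K 1 ≤ N := hNle 1 (one_mem _)
        have hlt : (orbF N y).card < Fintype.card α := by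
          by_contra hge
          have hu : orbF N y = Finset.univ := Finset.eq_univ_of_card _
            (le_antisymm (Finset.card_le_univ _) (not_lt.1 hge))
          have hsame : ∀ z, Quotient.mk st z = Quotient.mk st y := fun z => by
            obtain ⟨j, hj, rfl⟩ := mem_orbF.1 (hu ▸ Finset.mem_univ z : z ∈ orbF N y)
            obtain ⟨g, hgk, rfl⟩ := hNB hj
            exact (hφ g y).symm.trans (by rw [MonoidHom.mem_ker.1 hgk]; rfl)
          exact ha₁ (((Quotient.exact ((hsame a₁).trans (hsame a₀).symm)) _ h0flat).2 ha₀)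
        have := orbit_small hpro hsm hNG (one_mem G) hKN (x := y) hlt fun hsub => by
          obtain ⟨g, hg, hgy⟩ := htrans a₁ y
          have h1 := trivial_transfer hpro (one_mem G) hg hKN (hNle g hg)
            (fun j hj z hz => orbF_inv hj hz) hsub (self_mem_orbF N y)
          rw [fixF_cj, ← hgy, hmem] at h1
          exact ha₁ h1
        rwa [cj_one] at this
      rw [Finset.univ_inter, Finset.card_univ] at hsum
      omega
    · push Not at htriv
      obtain ⟨k, hk, hk1⟩ := htriv
      have hK1 : cj K 1 ≤ G := by rw [cj_one]; exact hle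
      have hpr := pro_subgroupOf hpro le_rfl (one_mem G) hK1
      have hsm' := hom_small hsm φ hqlt (fun p q => Quotient.inductionOn₂ p q fun y z => by
          obtain ⟨g, hg, rfl⟩ := htrans y z
          exact ⟨⟨g, hg⟩, rfl⟩)
        ((cj K 1).subgroupOf G) ⟨k, (by rw [Subgroup.mem_subgroupOf, cj_one]; exact hk), hk1⟩ hpr
      obtain ⟨c, hc⟩ : ∃ c, c = (Finset.univ.filter fun y => Quotient.mk st y = Quotient.mk st a).card :=
        ⟨_, rfl⟩
      have hcpos : 0 < c := hc ▸ Finset.card_pos.2 ⟨a, by simp⟩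
      have hfib : ∀ q : Quotient st, (Finset.univ.filter fun y => Quotient.mk st y = q).card = c := by
        intro q
        refine Quotient.inductionOn q fun z => ?_
        obtain ⟨g, hg, rfl⟩ := htrans a z
        rw [hc]
        refine (Finset.card_bij (fun y _ => g y) (fun y hy => ?_) (fun y _ z _ e => g.injective e)
          fun y hy => ⟨g⁻¹ y, ?_, by simp⟩).symm
        · simp only [Finset.mem_filter, Finset.mem_univ, true_and] at hy ⊢
          exact (hφ ⟨g, hg⟩ y).symm.trans (by rw [hy]; rfl)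
        · simp only [Finset.mem_filter, Finset.mem_univ, true_and] at hy ⊢
          have h1 := hφ ⟨g⁻¹, inv_mem hg⟩ y
          rw [hy] at h1
          rw [← h1]
          show Quotient.mk st (g⁻¹ (g a)) = _
          simp
      have hn : Fintype.card α = c * Fintype.card (Quotient st) := by
        rw [← Finset.card_univ, Finset.card_eq_sum_card_fiberwise (f := Quotient.mk st) (t := Finset.univ)
          (fun y _ => Finset.mem_univ _), Finset.sum_congr rfl (fun q _ => hfib q), Finset.sum_const,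
          Finset.card_univ, smul_eq_mul, mul_comm]
      have hfle : (fixF K).card ≤ c * Nat.card {b : Quotient st //
          ∀ k ∈ (cj K 1).subgroupOf G, φ k b = b} := by
        rw [Nat.card_eq_fintype_card, Fintype.card_subtype]
        refine (Finset.card_le_mul_card_image (f := Quotient.mk st) (fixF K) c (fun q _ => ?_)).trans ?_
        · rw [← hfib q]
          exact Finset.card_le_card (Finset.filter_subset_filter _ (Finset.subset_univ _))
        · refine Nat.mul_le_mul_left _ (Finset.card_le_card fun q hq => ?_)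
          obtain ⟨y, hy, rfl⟩ := Finset.mem_image.1 hq
          simp only [Finset.mem_filter, Finset.mem_univ, true_and]
          intro j hj
          rw [hφ]
          rw [Subgroup.mem_subgroupOf, cj_one] at hj
          rw [mem_fixF.1 hy _ hj]
      have := Nat.mul_le_mul_left c hsm'
      rw [Nat.mul_add, ← mul_assoc, mul_comm c 2, mul_assoc] at this
      omega
  -- the number of points
  have h2f : Fintype.card α = 2 * (fixF K).card := by
    obtain ⟨J, hJ⟩ : ∃ J, J = ⨆ (F' : Finset α) (_ : F' ∈ flats G K) (_ : {a₀} ⊆ F'), conjGroup G K F' :=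
      ⟨_, rfl⟩
    have hfixa : J ≤ MulAction.stabilizer (Perm α) a₀ := by
      rw [hJ]
      exact iSup_le fun F' => iSup_le fun _ => iSup_le fun h2 => fun k hk =>
        conjGroup_fix hk (h2 (Finset.mem_singleton_self _))
    have hne10 : a₁ ≠ a₀ := fun e => ha₁ (e ▸ ha₀)
    have := sum_lt J (S := Finset.univ.erase a₀) (F := fixF K) ⟨a₁, by simp [hne10]⟩
      (fun y hy z hz => by
        obtain ⟨j, hj, rfl⟩ := mem_orbF.1 hz
        refine Finset.mem_erase.2 ⟨fun e => ?_, Finset.mem_univ _⟩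
        have : j a₀ = a₀ := hfixa hj
        exact (Finset.mem_erase.1 hy).1 (j.injective (e.trans this.symm)))
      (fun y hy => by
        rw [hJ]
        refine hdef {a₀} (Finset.singleton_nonempty _) _ h0flat (by simpa using ha₀) y ?_
        by_contra hno
        push Not at hno
        exact (Finset.mem_erase.1 hy).1 (hclosed a₀ y fun F hF haF => hno F hF (by simpa using haF)))
    rw [Finset.erase_inter, Finset.univ_inter, Finset.card_erase_of_mem ha₀,
      Finset.card_erase_of_mem (Finset.mem_univ _), Finset.card_univ] at this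
    omega
  -- the least orbit
  obtain ⟨r, hr⟩ : ∃ r, r = ((Finset.univ \ fixF K).image fun x => (orbF (conjGroup G K (fixF K)) x).card) :=
    ⟨_, rfl⟩
  have hrne : r.Nonempty := hr ▸ (Finset.Nonempty.image ⟨a₁, by simp [ha₁]⟩ _)
  obtain ⟨x₀, hx₀, hx₀r⟩ := Finset.mem_image.1
    ((congrArg (fun S : Finset ℕ => r.min' hrne ∈ S) hr).mp (Finset.min'_mem r hrne))
  have hoff : ∀ F ∈ flats G K, ∀ x ∉ F, Disjoint (orbF (conjGroup G K F) x) F := by
    intro F hF x hx
    refine Finset.disjoint_left.2 fun y hy hyF => ?_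
    obtain ⟨j, hj, rfl⟩ := mem_orbF.1 hy
    have := conjGroup_fix (inv_mem hj) hyF
    simp only [Perm.coe_inv, Equiv.symm_apply_apply] at this
    exact hx (this ▸ hyF)
  refine ⟨{
    G := G, flats := flats G K, P := conjGroup G K, f := (fixF K).card, r := r.min' hrne
    two_le_r := ?_, card_univ_eq := h2f, flat_card := hfc, flats_nonempty := ⟨_, h0flat⟩
    flat_image := himg, transitive := htrans, P_le := hPG
    P_fix := fun F _ k hk a ha => conjGroup_fix hk ha
    P_moves := hmoves
    P_conj := fun g hg F _ k hk => conjGroup_conj hg F ⟨k, hk, rfl⟩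
    flat_conj := ?_, r_le_of_invariant := ?_, r_attained := ?_, invariant_not_subset_flat := ?_
    singleton_closed := hclosed
    deficit := ?_ }⟩
  · rw [← hx₀r]
    obtain ⟨k, hk, hkx⟩ := hmoves _ h0flat x₀ (Finset.mem_sdiff.1 hx₀).2
    calc 2 = ({x₀, k x₀} : Finset α).card := (Finset.card_pair hkx.symm).symm
      _ ≤ _ := Finset.card_le_card (Finset.insert_subset_iff.2 ⟨self_mem_orbF _ _,
          Finset.singleton_subset_iff.2 (mem_orbF.2 ⟨k, hk, rfl⟩)⟩)
  · intro F hF F' hF'
    obtain ⟨g, hg, rfl⟩ := mem_flats.1 hF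
    obtain ⟨h, hh, rfl⟩ := mem_flats.1 hF'
    obtain ⟨w, hw, e⟩ := exists_conj hpro hg hh
    exact ⟨w, sup_le_sup (cj_le_conjGroup hg rfl) (cj_le_conjGroup hh rfl) hw,
      by rw [← fixF_cj g, ← fixF_cj h, ← e, fixF_map]⟩
  · intro F hF O hO hdisj hinv
    obtain ⟨g, hg, rfl⟩ := mem_flats.1 hF
    obtain ⟨y, hy⟩ := hO
    have hy0 : g⁻¹ y ∉ fixF K := fun h0 => Finset.disjoint_left.1 hdisj hy
      (Finset.mem_image.2 ⟨_, h0, by simp⟩)
    refine (Finset.min'_le r ((orbF (conjGroup G K (fixF K)) (g⁻¹ y)).card)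
      (by rw [hr]; exact Finset.mem_image.2 ⟨g⁻¹ y, Finset.mem_sdiff.2 ⟨Finset.mem_univ _, hy0⟩, rfl⟩)).trans ?_
    refine Finset.card_le_card_of_injOn g (fun z hz => ?_) g.injective.injOn
    obtain ⟨j, hj, rfl⟩ := mem_orbF.1 (Finset.mem_coe.1 hz)
    have hmem : g * j * g⁻¹ ∈ conjGroup G K ((fixF K).image g) := conjGroup_conj hg _ ⟨j, hj, rfl⟩
    rw [Finset.mem_coe, ← hinv _ hmem]
    exact Finset.mem_image.2 ⟨y, hy, by simp [Perm.mul_apply]⟩
  · exact ⟨_, h0flat, _, hx₀r, hoff _ h0flat _ (Finset.mem_sdiff.1 hx₀).2, fun k hk => orbF_image hk⟩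
  · intro F hF O hO hdisj hinv F' hF' hsub
    obtain ⟨g, hg, rfl⟩ := mem_flats.1 hF
    obtain ⟨h, hh, rfl⟩ := mem_flats.1 hF'
    obtain ⟨y, hy⟩ := hO
    let S : Subgroup (Perm α) :=
      { carrier := {j | O.image j = O}
        one_mem' := image_one_perm O
        mul_mem' := fun {a b} (ha : O.image a = O) (hb : O.image b = O) => by
          show O.image (a * b : Perm α) = O
          rw [← image_image_perm, hb, ha]
        inv_mem' := fun {a} (ha : O.image a = O) => by
          show O.image (a⁻¹ : Perm α) = O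
          conv_lhs => rw [← ha]
          rw [image_image_perm, inv_mul_cancel, image_one_perm] }
    have hgS : cj K g ≤ S := (cj_le_conjGroup hg rfl).trans fun k hk => hinv k hk
    have hhS : cj K h ≤ S := fun k hk => by
      show O.image k = O
      refine (Finset.image_congr fun z hz => ?_).trans Finset.image_id
      exact mem_fixF.1 (by rw [fixF_cj]; exact hsub hz) k hk
    have := trivial_transfer hpro hh hg hhS hgS (fun j (hj : O.image j = O) z hz => by
      rw [← hj]; exact Finset.mem_image_of_mem _ hz) (by rw [fixF_cj]; exact hsub) hy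
    rw [fixF_cj] at this
    exact Finset.disjoint_left.1 hdisj hy this
  · intro A hA F hF hAF O x _ hx hmem
    have : O = orbF (⨆ (F' : Finset α) (_ : F' ∈ flats G K) (_ : A ⊆ F'), conjGroup G K F') x :=
      Finset.ext fun y => by rw [hmem, mem_orbF]
    rw [this]
    exact hdef A hA F hF hAF x hx

end CfsgLib.Pronormal
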