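import Cfsg.Agent.Lib.Pronormal.Setup

/-!
Closures that are larger than their generating sets form Steiner systems on all points and on every
flat; counting inside and across a flat rules these systems out.
-/

set_option autoImplicit false

open Equiv

namespace CfsgLib.Pronormal

namespace Leak

variable {α : Type*} [DecidableEq α]

/-- A Steiner system on `V`: every `s` points lie in a unique block of `s + δ` points. -/
def Sys (c : Finset α → Finset α) (V : Finset α) (s δ : ℕ) : Prop :=
  ∀ A ⊆ V, A.card = s → A ⊆ c A ∧ c A ⊆ V ∧ (c A).card = s + δ ∧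
    ∀ A' ⊆ c A, A'.card = s → c A' = c A

variable {c : Finset α → Finset α} {V : Finset α} {s δ : ℕ}

theorem Sys.eq_of_inter (h : Sys c V s δ) {A A' U : Finset α} (hA : A ⊆ V) (hAc : A.card = s)
    (hA' : A' ⊆ V) (hA'c : A'.card = s) (hU : U ⊆ c A) (hU' : U ⊆ c A') (hc : U.card = s) :
    c A = c A' :=
  ((h A hA hAc).2.2.2 U hU hc).symm.trans ((h A' hA' hA'c).2.2.2 U hU' hc)

/-- Members of a set covered by pieces of a fixed size. -/
theorem dvd_card_of_pieces {β γ : Type*} [DecidableEq β] [DecidableEq γ] (k : ℕ) (S : Finset β)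
    (p : β → γ) (h : ∀ x ∈ S, (S.filter fun y => p y = p x).card = k) : k ∣ S.card := by
  rw [Finset.card_eq_sum_card_image p S]
  refine Finset.dvd_sum fun z hz => ?_
  obtain ⟨x, hx, rfl⟩ := Finset.mem_image.1 hz
  rw [h x hx]

/-- Tits' bound. -/
theorem Sys.card_ge (h : Sys c V s δ) {A : Finset α} (hA : A ⊆ V) (hAc : A.card = s) {z : α}
    (hz : z ∈ V) (hzA : z ∉ c A) : (s + 1) * (δ + 1) ≤ V.card := by
  set T := insert z A
  have hzA' : z ∉ A := fun e => hzA ((h A hA hAc).1 e)
  have hT : T.card = s + 1 := by rw [Finset.card_insert_of_notMem hzA', hAc]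
  have hTV : T ⊆ V := Finset.insert_subset hz hA
  have herase : ∀ i ∈ T, T.erase i ⊆ V ∧ (T.erase i).card = s := fun i hi =>
    ⟨(Finset.erase_subset i T).trans hTV, by rw [Finset.card_erase_of_mem hi, hT]; omega⟩
  have notT : ∀ i ∈ T, i ∉ c (T.erase i) := by
    intro i hi hin
    have hTc : T ⊆ c (T.erase i) := by
      intro x hx
      by_cases e : x = i
      · exact e ▸ hin
      · exact (h _ (herase i hi).1 (herase i hi).2).1 (Finset.mem_erase.2 ⟨e, hx⟩)
    have hAT : A ⊆ c (T.erase i) := (Finset.subset_insert z A).trans hTc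
    rw [← (h _ (herase i hi).1 (herase i hi).2).2.2.2 A hAT hAc] at hTc
    exact hzA (hTc (Finset.mem_insert_self z A))
  let E : α → Finset α := fun i => c (T.erase i) \ T
  have hE : ∀ i ∈ T, (E i).card = δ := by
    intro i hi
    obtain ⟨h1, -, h3, -⟩ := h _ (herase i hi).1 (herase i hi).2
    have e : c (T.erase i) ∩ T = T.erase i := by
      ext x
      simp only [Finset.mem_inter, Finset.mem_erase]
      constructor
      · rintro ⟨hx1, hx2⟩
        exact ⟨fun e => notT i hi (e ▸ hx1), hx2⟩
      · rintro ⟨hx1, hx2⟩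
        exact ⟨h1 (Finset.mem_erase.2 ⟨hx1, hx2⟩), hx2⟩
    have := Finset.card_sdiff_add_card_inter (c (T.erase i)) T
    rw [e, (herase i hi).2, h3] at this
    show (c (T.erase i) \ T).card = δ
    omega
  have hdis : (T : Set α).PairwiseDisjoint E := by
    intro i hi j hj hij
    refine Finset.disjoint_left.2 fun x hx1 hx2 => ?_
    obtain ⟨hxi, hxT⟩ := Finset.mem_sdiff.1 hx1
    obtain ⟨hxj, -⟩ := Finset.mem_sdiff.1 hx2
    set U := insert x ((T.erase i).erase j)
    have hxne : x ∉ (T.erase i).erase j := fun e => hxT (Finset.mem_of_mem_erase (Finset.mem_of_mem_erase e))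
    have hUc : U.card = s := by
      rw [Finset.card_insert_of_notMem hxne,
        Finset.card_erase_of_mem (Finset.mem_erase.2 ⟨Ne.symm hij, hj⟩), (herase i hi).2]
      have : 0 < s := by
        rw [← (herase i hi).2]; exact Finset.card_pos.2 ⟨j, Finset.mem_erase.2 ⟨Ne.symm hij, hj⟩⟩
      omega
    have e := h.eq_of_inter (herase i hi).1 (herase i hi).2 (herase j hj).1 (herase j hj).2
      (U := U) (Finset.insert_subset hxi ((Finset.erase_subset _ _).trans (h _ (herase i hi).1 (herase i hi).2).1))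
      (Finset.insert_subset hxj ((Finset.erase_right_comm.subset.trans (Finset.erase_subset _ _)).trans
        (h _ (herase j hj).1 (herase j hj).2).1)) hUc
    exact notT i hi (e ▸ (h _ (herase j hj).1 (herase j hj).2).1 (Finset.mem_erase.2 ⟨hij, hi⟩))
  have hU : T.biUnion E ⊆ V \ T := by
    intro x hx
    obtain ⟨i, hi, hx⟩ := Finset.mem_biUnion.1 hx
    obtain ⟨hx1, hx2⟩ := Finset.mem_sdiff.1 hx
    exact Finset.mem_sdiff.2 ⟨(h _ (herase i hi).1 (herase i hi).2).2.1 hx1, hx2⟩
  have hle := Finset.card_le_card hU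
  rw [Finset.card_biUnion hdis, Finset.sum_congr rfl hE, Finset.sum_const, hT, smul_eq_mul,
    Finset.card_sdiff_of_subset hTV, hT] at hle
  have hVT := Finset.card_le_card hTV
  rw [hT] at hVT
  rw [Nat.mul_add, Nat.mul_one]
  omega

/-- The derived triple system has an admissible number of points. -/
theorem Sys.sub_mod_three {t : ℕ} (h : Sys c V t 1) (ht : 2 ≤ t) (htV : t ≤ V.card) :
    (V.card - t) % 3 ≠ 0 := by
  obtain ⟨R, hRV, hR⟩ := Finset.exists_subset_card_eq (s := V) (n := t - 2) (by omega)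
  set W := V \ R
  let p : Finset α → Finset α := fun P => c (P ∪ R) \ R
  have key : ∀ P ∈ W.powersetCard 2, P ⊆ p P ∧ p P ⊆ W ∧ (p P).card = 3 ∧
      ∀ Q ⊆ p P, Q.card = 2 → p Q = p P := by
    intro P hP
    obtain ⟨hPW, hPc⟩ := Finset.mem_powersetCard.1 hP
    have hdisj : ∀ Q : Finset α, Q ⊆ W → Q.card = 2 → (Q ∪ R).card = t := by
      intro Q hQ hQc
      rw [Finset.card_union_of_disjoint (Finset.disjoint_left.2 fun x hx hxR =>
        (Finset.mem_sdiff.1 (hQ hx)).2 hxR), hQc, hR]
      omega
    have hPR : P ∪ R ⊆ V := Finset.union_subset (hPW.trans Finset.sdiff_subset) hRV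
    obtain ⟨h1, h2, h3, h4⟩ := h _ hPR (hdisj P hPW hPc)
    refine ⟨fun x hx => Finset.mem_sdiff.2 ⟨h1 (Finset.mem_union_left R hx), (Finset.mem_sdiff.1 (hPW hx)).2⟩,
      Finset.sdiff_subset_sdiff h2 subset_rfl, ?_, ?_⟩
    · show (c (P ∪ R) \ R).card = 3
      rw [Finset.card_sdiff_of_subset (Finset.subset_union_right.trans h1), h3, hR]
      omega
    · intro Q hQ hQc
      have hQW : Q ⊆ W := hQ.trans (Finset.sdiff_subset_sdiff h2 subset_rfl)
      show c (Q ∪ R) \ R = c (P ∪ R) \ R
      rw [h4 _ (Finset.union_subset (hQ.trans Finset.sdiff_subset) (Finset.subset_union_right.trans h1))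
        (hdisj Q hQW hQc)]
  have hd : 3 ∣ (W.powersetCard 2).card := by
    refine dvd_card_of_pieces 3 _ p fun P hP => ?_
    obtain ⟨h1, h2, h3, h4⟩ := key P hP
    have e : (W.powersetCard 2).filter (fun Q => p Q = p P) = (p P).powersetCard 2 := by
      ext Q
      simp only [Finset.mem_filter, Finset.mem_powersetCard]
      constructor
      · rintro ⟨⟨hQ, hQc⟩, e⟩
        exact ⟨e ▸ (key Q (Finset.mem_powersetCard.2 ⟨hQ, hQc⟩)).1, hQc⟩
      · rintro ⟨hQ, hQc⟩
        exact ⟨⟨hQ.trans h2, hQc⟩, h4 Q hQ hQc⟩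
    rw [e, Finset.card_powersetCard, h3]
    rfl
  rw [Finset.card_powersetCard, Nat.choose_two_right] at hd
  have hW : W.card = V.card - (t - 2) := by rw [Finset.card_sdiff_of_subset hRV, hR]
  intro h0
  have hm : W.card % 3 = 2 := by omega
  have heven : 2 * (W.card * (W.card - 1) / 2) = W.card * (W.card - 1) :=
    Nat.mul_div_cancel' (Nat.two_dvd_mul_sub_one W.card)
  have h3 : 3 ∣ W.card * (W.card - 1) := heven ▸ Dvd.dvd.mul_left hd 2
  have hd' : W.card * (W.card - 1) % 3 = 0 := Nat.mod_eq_zero_of_dvd h3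
  rw [Nat.mul_mod, hm, show (W.card - 1) % 3 = 1 by omega] at hd'
  omega

end Leak

namespace Geom

variable {α : Type*} [Fintype α] [DecidableEq α] (X : Geom α)

open Leak

theorem leak_cl_le {A B : Finset α} (h : A ⊆ X.cl B) : X.cl A ⊆ X.cl B :=
  fun _ hx => X.mem_cl.2 fun F hF hB => X.mem_cl.1 hx F hF fun _ ha => X.mem_cl.1 (h ha) F hF hB

theorem leak_cl_image {g : Perm α} (hg : g ∈ X.G) (A : Finset α) :
    X.cl (A.image g) = (X.cl A).image g := by
  have key : ∀ (g : Perm α) (A : Finset α), g ∈ X.G → (X.cl A).image g ⊆ X.cl (A.image g) := by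
    intro g A hg y hy
    obtain ⟨x, hx, rfl⟩ := Finset.mem_image.1 hy
    refine X.mem_cl.2 fun F hF hAF => ?_
    have h1 : x ∈ F.image ⇑g⁻¹ := by
      refine X.mem_cl.1 hx _ (X.flat_image g⁻¹ (inv_mem hg) F hF) fun a ha => ?_
      exact Finset.mem_image.2 ⟨g a, hAF (Finset.mem_image_of_mem g ha), by simp⟩
    obtain ⟨b, hb, rfl⟩ := Finset.mem_image.1 h1
    simpa using hb
  refine le_antisymm (fun y hy => ?_) (key g A hg)
  have h := key g⁻¹ (A.image g) (inv_mem hg) (Finset.mem_image_of_mem _ hy)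
  rw [Finset.image_image, show (⇑g⁻¹ ∘ ⇑g) = id from funext fun a => by simp, Finset.image_id] at h
  exact Finset.mem_image.2 ⟨_, h, by simp⟩

theorem leak_not_mem_flat {F : Finset α} (hF : F ∈ X.flats) {k : Perm α} (hk : k ∈ X.P F) {a : α}
    (ha : a ∉ F) : k a ∉ F := fun h =>
  ha (by rwa [← k.injective (X.P_fix F hF k hk _ h)])

theorem leak_compl_invariant {F : Finset α} (hF : F ∈ X.flats) {k : Perm α} (hk : k ∈ X.P F) :
    Fᶜ.image k = Fᶜ :=
  Finset.eq_of_subset_of_card_le
    (fun y hy => by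
      obtain ⟨x, hx, rfl⟩ := Finset.mem_image.1 hy
      exact Finset.mem_compl.2 (X.leak_not_mem_flat hF hk (Finset.mem_compl.1 hx)))
    (Finset.card_image_of_injective _ k.injective).ge

theorem leak_card_compl {F : Finset α} (hF : F ∈ X.flats) : Fᶜ.card = X.f := by
  rw [Finset.card_compl, X.card_univ_eq, X.flat_card F hF]; omega

theorem leak_r_le_f : X.r ≤ X.f := by
  obtain ⟨F, hF, O, hO, hd, -⟩ := X.r_attained
  rw [← hO, ← X.leak_card_compl hF]
  exact Finset.card_le_card fun x hx => Finset.mem_compl.2 (Finset.disjoint_left.1 hd hx)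

section Steiner

variable {X}
variable {s δ : ℕ} (hS : Sys X.cl Finset.univ s δ)
include hS

theorem leak_flat_sys {F : Finset α} (hF : F ∈ X.flats) : Sys X.cl F s δ := fun A hA hAc =>
  ⟨(hS A (Finset.subset_univ A) hAc).1, X.cl_subset hF hA, (hS A (Finset.subset_univ A) hAc).2.2⟩

theorem leak_block_eq {A U : Finset α} (hAc : A.card = s) (hU : U ⊆ X.cl A) (hc : U.card = s) :
    X.cl U = X.cl A :=
  (hS A (Finset.subset_univ A) hAc).2.2.2 U hU hc

theorem leak_block_inside {F A U : Finset α} (hF : F ∈ X.flats) (hAc : A.card = s)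
    (hU : U ⊆ X.cl A) (hUF : U ⊆ F) (hc : U.card = s) : X.cl A ⊆ F :=
  leak_block_eq hS hAc hU hc ▸ X.cl_subset hF hUF

variable {F B : Finset α} (hs : 2 ≤ s) (hF : F ∈ X.flats) (hB : B ⊆ F) (hBc : B.card = s - 2)
  {a : α} (ha : a ∉ F)
include hs hF hB hBc ha

theorem leak_base_card : (insert a B).card = s - 1 := by
  rw [Finset.card_insert_of_notMem fun e => ha (hB e), hBc]; omega

theorem leak_extended_card {d : α} (hd : d ∈ F \ B) : (insert d (insert a B)).card = s := by
  obtain ⟨hd1, hd2⟩ := Finset.mem_sdiff.1 hd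
  rw [Finset.card_insert_of_notMem (by
    rw [Finset.mem_insert]; rintro (e | e); exacts [ha (e ▸ hd1), hd2 e]),
    leak_base_card hS hs hF hB hBc ha]
  omega

/-- A block through `a` and all but two of the `s` points meets the flat only there. -/
theorem leak_block_inter {d x : α} (hd : d ∈ F \ B)
    (hx : x ∈ X.cl (insert d (insert a B))) (hxF : x ∈ F) : x ∈ insert d B := by
  by_contra hne
  obtain ⟨hd1, hd2⟩ := Finset.mem_sdiff.1 hd
  set A := insert d (insert a B)
  have hA := leak_extended_card hS hs hF hB hBc ha hd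
  have hAsub := X.subset_cl A
  have hU : insert x (insert d B) ⊆ X.cl A := Finset.insert_subset hx
    ((Finset.insert_subset_insert d (Finset.subset_insert a B)).trans hAsub)
  have hUF : insert x (insert d B) ⊆ F := Finset.insert_subset hxF (Finset.insert_subset hd1 hB)
  have hc : (insert x (insert d B)).card = s := by
    rw [Finset.card_insert_of_notMem hne, Finset.card_insert_of_notMem hd2, hBc]; omega
  exact ha (leak_block_inside hS hF hA hU hUF hc
    (hAsub (Finset.mem_insert_of_mem (Finset.mem_insert_self a B))))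

/-- The extra points of the blocks through `insert a B` and one further point of the flat. -/
theorem leak_extra : ((F \ B).biUnion fun d => X.cl (insert d (insert a B)) \ insert d (insert a B)) ⊆
      Fᶜ.erase a ∧
    ((F \ B).biUnion fun d => X.cl (insert d (insert a B)) \ insert d (insert a B)).card =
      (X.f - (s - 2)) * δ := by
  set E := fun d => X.cl (insert d (insert a B)) \ insert d (insert a B)
  constructor
  · intro x hx
    obtain ⟨d, hd, hx⟩ := Finset.mem_biUnion.1 hx
    obtain ⟨hx1, hx2⟩ := Finset.mem_sdiff.1 hx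
    simp only [Finset.mem_erase, Finset.mem_compl]
    refine ⟨fun e => hx2 (by simp [e]), fun hxF => hx2 ?_⟩
    exact Finset.insert_subset_insert d (Finset.subset_insert a B)
      (leak_block_inter hS hs hF hB hBc ha hd hx1 hxF)
  · have hE : ∀ d ∈ F \ B, (E d).card = δ := by
      intro d hd
      have hA := leak_extended_card hS hs hF hB hBc ha hd
      show (X.cl _ \ _).card = δ
      rw [Finset.card_sdiff_of_subset (X.subset_cl _), (hS _ (Finset.subset_univ _) hA).2.2.1, hA]
      omega
    have hdis : ((F \ B : Finset α) : Set α).PairwiseDisjoint E := by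
      intro d hd d' hd' hne
      refine Finset.disjoint_left.2 fun x hx hx' => hne ?_
      obtain ⟨hx1, hx2⟩ := Finset.mem_sdiff.1 hx
      obtain ⟨hx1', -⟩ := Finset.mem_sdiff.1 hx'
      have hA := leak_extended_card hS hs hF hB hBc ha hd
      have hA' := leak_extended_card hS hs hF hB hBc ha hd'
      have hc : (insert x (insert a B)).card = s := by
        rw [Finset.card_insert_of_notMem fun e => hx2 (Finset.mem_insert_of_mem e),
          leak_base_card hS hs hF hB hBc ha]
        omega
      have e : X.cl (insert d (insert a B)) = X.cl (insert d' (insert a B)) :=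
        (leak_block_eq hS hA (U := insert x (insert a B))
          (Finset.insert_subset hx1 ((Finset.subset_insert d _).trans (X.subset_cl _))) hc).symm.trans
        (leak_block_eq hS hA' (Finset.insert_subset hx1'
          ((Finset.subset_insert d' _).trans (X.subset_cl _))) hc)
      have hin := leak_block_inter hS hs hF hB hBc ha hd'
        (e ▸ X.subset_cl _ (Finset.mem_insert_self d _)) (Finset.mem_sdiff.1 hd).1
      rcases Finset.mem_insert.1 hin with e | e
      · exact e
      · exact absurd e (Finset.mem_sdiff.1 hd).2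
    rw [Finset.card_biUnion hdis, Finset.sum_congr rfl hE, Finset.sum_const, smul_eq_mul,
      Finset.card_sdiff_of_subset hB, X.flat_card F hF, hBc]

theorem leak_count : (X.f - (s - 2)) * δ ≤ X.f - 1 := by
  obtain ⟨h1, h2⟩ := leak_extra hS hs hF hB hBc ha
  have h3 := Finset.card_le_card h1
  rw [h2, Finset.card_erase_of_mem (Finset.mem_compl.2 ha), X.leak_card_compl hF] at h3
  exact h3

end Steiner

section One

variable {X}
variable {s : ℕ} (hS : Sys X.cl Finset.univ s 1)
include hS

theorem leak_block_card {A : Finset α} (hA : A.card = s) : (X.cl A).card = s + 1 :=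
  (hS A (Finset.subset_univ A) hA).2.2.1

/-- The last point of a block. -/
theorem leak_last {A : Finset α} (hA : A.card = s) :
    ∃ z, z ∉ A ∧ X.cl A = insert z A := by
  have h : (X.cl A \ A).card = 1 := by
    rw [Finset.card_sdiff_of_subset (X.subset_cl A), leak_block_card hS hA, hA]; omega
  obtain ⟨z, hz⟩ := Finset.card_eq_one.1 h
  refine ⟨z, (Finset.mem_sdiff.1 (hz ▸ Finset.mem_singleton_self z)).2, ?_⟩
  rw [← Finset.union_sdiff_of_subset (X.subset_cl A), hz, Finset.union_comm, Finset.singleton_union]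

/-- A permutation in `G` fixing all but one point of a block fixes the last point. -/
theorem leak_fix_last {g : Perm α} (hg : g ∈ X.G) {A : Finset α} (hA : A.card = s)
    (hfix : A.image g = A) {z : α} (hz : z ∉ A) (hzc : X.cl A = insert z A) : g z = z := by
  have h : g z ∈ X.cl A := by
    rw [← congrArg X.cl hfix, X.leak_cl_image hg]
    exact Finset.mem_image_of_mem g (hzc ▸ Finset.mem_insert_self z A)
  rw [hzc, Finset.mem_insert] at h
  refine h.resolve_right fun e => ?_
  rw [← hfix] at e
  obtain ⟨b, hb, hbe⟩ := Finset.mem_image.1 e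
  exact hz (g.injective hbe ▸ hb)

theorem leak_odd (hs : 3 ≤ s) (hsf : s ≤ X.f) : s % 2 = 1 := by
  obtain ⟨F, hF⟩ := X.flats_nonempty
  obtain ⟨a, ha⟩ : Fᶜ.Nonempty := Finset.card_pos.1 (by rw [X.leak_card_compl hF]; omega)
  rw [Finset.mem_compl] at ha
  obtain ⟨B, hB, hBc⟩ := Finset.exists_subset_card_eq (s := F) (n := s - 2)
    (by rw [X.flat_card F hF]; omega)
  obtain ⟨h1, h2⟩ := leak_extra hS (by omega) hF hB hBc ha
  set U := (F \ B).biUnion fun d => X.cl (insert d (insert a B)) \ insert d (insert a B)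
  set L := Fᶜ.erase a \ U
  have hL : L.card = s - 3 := by
    rw [Finset.card_sdiff_of_subset h1, h2, Finset.card_erase_of_mem (Finset.mem_compl.2 ha),
      X.leak_card_compl hF]
    omega
  let p : α → Finset α := fun y => X.cl (insert y (insert a B)) \ insert a B
  have hb := leak_base_card hS (by omega) hF hB hBc ha
  have hcard : ∀ y ∈ L, (insert y (insert a B)).card = s := by
    intro y hy
    obtain ⟨hy1, -⟩ := Finset.mem_sdiff.1 hy
    simp only [Finset.mem_erase, Finset.mem_compl] at hy1
    rw [Finset.card_insert_of_notMem (by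
      rw [Finset.mem_insert]; rintro (e | e); exacts [hy1.1 e, hy1.2 (hB e)]), hb]
    omega
  have key : ∀ y ∈ L, (p y).card = 2 ∧ ∀ z ∈ p y, z ∈ L ∧ p z = p y := by
    intro y hy
    have hA := hcard y hy
    refine ⟨?_, fun z hz => ?_⟩
    · show (X.cl _ \ _).card = 2
      rw [Finset.card_sdiff_of_subset ((Finset.subset_insert y _).trans (X.subset_cl _)),
        leak_block_card hS hA, hb]
      omega
    obtain ⟨hz1, hz2⟩ := Finset.mem_sdiff.1 hz
    have hzc : (insert z (insert a B)).card = s := by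
      rw [Finset.card_insert_of_notMem hz2, hb]; omega
    have e : X.cl (insert z (insert a B)) = X.cl (insert y (insert a B)) :=
      leak_block_eq hS hA (Finset.insert_subset hz1 ((Finset.subset_insert y _).trans (X.subset_cl _))) hzc
    refine ⟨Finset.mem_sdiff.2 ⟨?_, ?_⟩, by simp only [p, e]⟩
    · simp only [Finset.mem_erase, Finset.mem_compl]
      refine ⟨fun h => hz2 (by simp [h]), fun hzF => ?_⟩
      have hd : z ∈ F \ B := Finset.mem_sdiff.2 ⟨hzF, fun h => hz2 (Finset.mem_insert_of_mem h)⟩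
      refine (Finset.mem_sdiff.1 hy).2 (Finset.mem_biUnion.2 ⟨z, hd, Finset.mem_sdiff.2
        ⟨e ▸ X.subset_cl _ (Finset.mem_insert_self y _), ?_⟩⟩)
      obtain ⟨hy1, -⟩ := Finset.mem_sdiff.1 hy
      simp only [Finset.mem_erase, Finset.mem_compl] at hy1
      rw [Finset.mem_insert, Finset.mem_insert]
      rintro (h | h | h)
      exacts [hy1.2 (h ▸ hzF), hy1.1 h, hy1.2 (hB h)]
    · intro hzU
      obtain ⟨d, hd, hz3⟩ := Finset.mem_biUnion.1 hzU
      have hA' := leak_extended_card hS (by omega) hF hB hBc ha hd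
      have e' : X.cl (insert z (insert a B)) = X.cl (insert d (insert a B)) :=
        leak_block_eq hS hA' (Finset.insert_subset (Finset.mem_sdiff.1 hz3).1
          ((Finset.subset_insert d _).trans (X.subset_cl _))) hzc
      obtain ⟨hy1, hy2⟩ := Finset.mem_sdiff.1 hy
      simp only [Finset.mem_erase, Finset.mem_compl] at hy1
      refine hy2 (Finset.mem_biUnion.2 ⟨d, hd, Finset.mem_sdiff.2
        ⟨(e'.symm.trans e) ▸ X.subset_cl _ (Finset.mem_insert_self y _), ?_⟩⟩)
      rw [Finset.mem_insert, Finset.mem_insert]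
      rintro (h | h | h)
      exacts [hy1.2 (h ▸ (Finset.mem_sdiff.1 hd).1), hy1.1 h, hy1.2 (hB h)]
  have hdvd : 2 ∣ L.card := by
    refine dvd_card_of_pieces 2 L p fun y hy => ?_
    rw [show L.filter (fun z => p z = p y) = p y from ?_, (key y hy).1]
    ext z
    simp only [Finset.mem_filter]
    refine ⟨fun h => ?_, fun h => (key y hy).2 z h⟩
    rw [← h.2]
    refine Finset.mem_sdiff.2 ⟨X.subset_cl _ (Finset.mem_insert_self z _), ?_⟩
    have := (Finset.mem_sdiff.1 h.1).1
    simp only [Finset.mem_erase, Finset.mem_compl] at this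
    rw [Finset.mem_insert]
    rintro (h' | h')
    exacts [this.1 h', this.2 (hB h')]
  omega

end One

/-- The quadruple systems. -/
theorem leak_false_three (hS : Sys X.cl Finset.univ 3 1) (hf : 3 ≤ X.f) : False := by
  have meet : ∀ F ∈ X.flats, ∀ A : Finset α, A.card = 3 → (X.cl A ∩ F).card % 2 = 0 := by
    intro F hF A hA
    have h4 := leak_block_card hS hA
    have hle : (X.cl A ∩ F).card ≤ 4 :=
      (Finset.card_le_card Finset.inter_subset_left).trans_eq h4
    by_contra hne
    rcases (by omega : (X.cl A ∩ F).card = 1 ∨ (X.cl A ∩ F).card = 3) with hc | hc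
    · obtain ⟨b, hb⟩ := Finset.card_eq_one.1 hc
      have hbm := hb.symm ▸ Finset.mem_singleton_self b
      obtain ⟨hbA, hbF⟩ := Finset.mem_inter.1 hbm
      have honly : ∀ x ∈ X.cl A, x ∈ F → x = b := fun x hx hxF =>
        Finset.mem_singleton.1 (hb ▸ Finset.mem_inter.2 ⟨hx, hxF⟩)
      obtain ⟨a, y, hay, hsub⟩ : ∃ a y, a ≠ y ∧ ({a, y} : Finset α) ⊆ X.cl A \ F := by
        have : 2 ≤ (X.cl A \ F).card := by
          have := Finset.card_sdiff_add_card_inter (X.cl A) F
          omega
        obtain ⟨T, hT, hTc⟩ := Finset.exists_subset_card_eq (s := X.cl A \ F) this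
        obtain ⟨a, y, hay, rfl⟩ := Finset.card_eq_two.1 hTc
        exact ⟨a, y, hay, hT⟩
      obtain ⟨haA, haF⟩ := Finset.mem_sdiff.1 (hsub (Finset.mem_insert_self a _))
      obtain ⟨hyA, hyF⟩ := Finset.mem_sdiff.1 (hsub (by simp : y ∈ ({a, y} : Finset α)))
      have hBF : ({b} : Finset α) ⊆ F := Finset.singleton_subset_iff.2 hbF
      obtain ⟨h1, h2⟩ := leak_extra hS (by omega) hF hBF (by simp) haF
      have heq := Finset.eq_of_subset_of_card_le h1 (by
        rw [h2, Finset.card_erase_of_mem (Finset.mem_compl.2 haF), X.leak_card_compl hF]; omega)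
      have hy : y ∈ Fᶜ.erase a := Finset.mem_erase.2 ⟨hay.symm, Finset.mem_compl.2 hyF⟩
      rw [← heq] at hy
      obtain ⟨d, hd, hy⟩ := Finset.mem_biUnion.1 hy
      obtain ⟨hdF, hdb⟩ := Finset.mem_sdiff.1 hd
      have hU : ({a, b, y} : Finset α).card = 3 := by
        rw [Finset.card_eq_three]
        exact ⟨a, b, y, fun e => haF (e ▸ hbF), hay, fun e => hyF (e ▸ hbF), rfl⟩
      have hA' := leak_extended_card hS (by omega) hF hBF (by simp) haF hd
      have e1 := leak_block_eq hS hA (U := {a, b, y}) (by simp [Finset.insert_subset_iff, haA, hbA, hyA]) hU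
      have e2 := leak_block_eq hS hA' (U := {a, b, y}) (by
        have hsc := X.subset_cl (insert d (insert a ({b} : Finset α)))
        simp [Finset.insert_subset_iff, hsc (by simp : a ∈ insert d (insert a ({b} : Finset α))),
          hsc (by simp : b ∈ insert d (insert a ({b} : Finset α))), (Finset.mem_sdiff.1 hy).1]) hU
      have hdA : d ∈ X.cl A := (e2.symm.trans e1) ▸ X.subset_cl _ (Finset.mem_insert_self d _)
      exact hdb (Finset.mem_singleton.2 (honly d hdA hdF))
    · have hin := leak_block_inside hS hF hA (U := X.cl A ∩ F) Finset.inter_subset_left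
        Finset.inter_subset_right hc
      rw [Finset.inter_eq_left.2 hin] at hc
      omega
  -- sets meeting all blocks evenly
  have half : ∀ E : Finset α, E.Nonempty → E ≠ Finset.univ →
      (∀ A : Finset α, A.card = 3 → (X.cl A ∩ E).card % 2 = 0) → E.card = X.f := by
    intro E hne hun hev
    obtain ⟨x, hx⟩ := hne
    obtain ⟨y, hy⟩ : ∃ y, y ∉ E := by
      by_contra h
      exact hun (Finset.eq_univ_of_forall fun y => by_contra fun hy => h ⟨y, hy⟩)
    have hxy : x ≠ y := fun e => hy (e ▸ hx)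
    have hc : ∀ z, z ≠ x → z ≠ y → ({z, x, y} : Finset α).card = 3 := fun z h1 h2 => by
      rw [Finset.card_eq_three]; exact ⟨z, x, y, h1, h2, hxy, rfl⟩
    have step : ∀ z, z ≠ x → z ≠ y → ∃ w, w ≠ x ∧ w ≠ y ∧ X.cl {z, x, y} = insert w {z, x, y} ∧
        (w ∈ E ↔ z ∉ E) := by
      intro z h1 h2
      obtain ⟨w, hw, he⟩ := leak_last hS (hc z h1 h2)
      have h := hev _ (hc z h1 h2)
      rw [he] at h
      simp only [Finset.mem_insert, Finset.mem_singleton, not_or] at hw
      refine ⟨w, hw.2.1, hw.2.2, he, ?_⟩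
      by_cases hzE : z ∈ E <;> by_cases hwE : w ∈ E <;>
        simp [hzE, hwE, hx, hy, Finset.insert_inter_of_mem, Finset.insert_inter_of_notMem,
          Finset.singleton_inter_of_notMem, hw.1, hw.2.1, h1] at h ⊢
    choose w hw1 hw2 hw3 hw4 using step
    let p : α → α := fun z => if h : z ≠ x ∧ z ≠ y then w z h.1 h.2 else z
    have hp : ∀ z, z ≠ x → z ≠ y → p z ≠ x ∧ p z ≠ y ∧ X.cl {z, x, y} = insert (p z) {z, x, y} ∧
        (p z ∈ E ↔ z ∉ E) := fun z h1 h2 => by
      have : p z = w z h1 h2 := by simp [p, h1, h2]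
      rw [this]
      exact ⟨hw1 z h1 h2, hw2 z h1 h2, hw3 z h1 h2, hw4 z h1 h2⟩
    have inj : ∀ z z', z ≠ x → z ≠ y → z' ≠ x → z' ≠ y → (z ∈ E ↔ z' ∈ E) → p z = p z' → z = z' := by
      intro z z' h1 h2 h1' h2' hsame he
      obtain ⟨a1, a2, a3, a4⟩ := hp z h1 h2
      obtain ⟨-, -, b3, -⟩ := hp z' h1' h2'
      have hU : ({p z, x, y} : Finset α).card = 3 := hc _ a1 a2
      have e1 := leak_block_eq hS (hc z h1 h2) (U := {p z, x, y})
        (by rw [a3]; simp [Finset.insert_subset_iff]) hU
      have e2 := leak_block_eq hS (hc z' h1' h2') (U := {p z, x, y})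
        (by rw [b3, ← he]; simp [Finset.insert_subset_iff]) hU
      have hmem : z' ∈ X.cl {z, x, y} := (e2.symm.trans e1) ▸ X.subset_cl _ (Finset.mem_insert_self z' _)
      rw [a3] at hmem
      simp only [Finset.mem_insert, Finset.mem_singleton] at hmem
      rcases hmem with h | h | h | h
      · exfalso
        rw [← h] at a4
        tauto
      · exact h.symm
      · exact absurd h h1'
      · exact absurd h h2'
    have hmap1 : (E.erase x).card ≤ (Eᶜ.erase y).card := by
      refine Finset.card_le_card_of_injOn p (fun z hz => ?_) fun z hz z' hz' he => ?_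
      · obtain ⟨hz1, hz2⟩ := Finset.mem_erase.1 hz
        obtain ⟨a1, a2, -, a4⟩ := hp z hz1 fun e => hy (e ▸ hz2)
        exact Finset.mem_erase.2 ⟨a2, Finset.mem_compl.2 fun e => a4.1 e hz2⟩
      · obtain ⟨hz1, hz2⟩ := Finset.mem_erase.1 hz
        obtain ⟨hz1', hz2'⟩ := Finset.mem_erase.1 hz'
        exact inj z z' hz1 (fun e => hy (e ▸ hz2)) hz1' (fun e => hy (e ▸ hz2')) (by tauto) he
    have hmap2 : (Eᶜ.erase y).card ≤ (E.erase x).card := by
      refine Finset.card_le_card_of_injOn p (fun z hz => ?_) fun z hz z' hz' he => ?_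
      · obtain ⟨hz1, hz2⟩ := Finset.mem_erase.1 hz
        rw [Finset.mem_compl] at hz2
        obtain ⟨a1, -, -, a4⟩ := hp z (fun e => hz2 (e ▸ hx)) hz1
        exact Finset.mem_erase.2 ⟨a1, a4.2 hz2⟩
      · obtain ⟨hz1, hz2⟩ := Finset.mem_erase.1 hz
        obtain ⟨hz1', hz2'⟩ := Finset.mem_erase.1 hz'
        rw [Finset.mem_compl] at hz2 hz2'
        exact inj z z' (fun e => hz2 (e ▸ hx)) hz1 (fun e => hz2' (e ▸ hx)) hz1' (by tauto) he
    rw [Finset.card_erase_of_mem hx, Finset.card_erase_of_mem (Finset.mem_compl.2 hy)] at hmap1 hmap2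
    have hsum := Finset.card_add_card_compl E
    rw [X.card_univ_eq] at hsum
    have := Finset.card_pos.2 ⟨x, hx⟩
    have : 0 < Eᶜ.card := Finset.card_pos.2 ⟨y, Finset.mem_compl.2 hy⟩
    omega
  obtain ⟨F, hF⟩ := X.flats_nonempty
  have inter : ∀ F' ∈ X.flats, F' ≠ F → 2 * (F ∩ F').card = X.f := by
    intro F' hF' hne
    set E := (F \ F') ∪ (F' \ F) with hE
    have hne' : E.Nonempty := by
      by_contra h
      rw [Finset.not_nonempty_iff_eq_empty, hE, Finset.union_eq_empty, Finset.sdiff_eq_empty_iff_subset,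
        Finset.sdiff_eq_empty_iff_subset] at h
      exact hne (le_antisymm h.2 h.1)
    have hun : E ≠ Finset.univ := by
      intro h
      have hnon : Fᶜ.Nonempty := Finset.card_pos.1 (by rw [X.leak_card_compl hF]; omega)
      refine X.invariant_not_subset_flat F hF Fᶜ hnon disjoint_compl_left
        (fun k hk => X.leak_compl_invariant hF hk) F' hF' fun z hz => ?_
      have := h.symm ▸ Finset.mem_univ z
      simp only [hE, Finset.mem_union, Finset.mem_sdiff, Finset.mem_compl] at this hz
      tauto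
    have hdisj : Disjoint (F \ F') (F' \ F) := disjoint_sdiff_sdiff
    have hev : ∀ A : Finset α, A.card = 3 → (X.cl A ∩ E).card % 2 = 0 := by
      intro A hA
      have h1 := meet F hF A hA
      have h2 := meet F' hF' A hA
      have e1 := Finset.card_sdiff_add_card_inter (X.cl A ∩ F) F'
      have e2 := Finset.card_sdiff_add_card_inter (X.cl A ∩ F') F
      have e3 : (X.cl A ∩ F) ∩ F' = (X.cl A ∩ F') ∩ F := Finset.inter_right_comm _ _ _
      have e4 : X.cl A ∩ E = ((X.cl A ∩ F) \ F') ∪ ((X.cl A ∩ F') \ F) := by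
        rw [hE, Finset.inter_union_distrib_left, Finset.inter_sdiff_assoc, Finset.inter_sdiff_assoc]
      rw [e4, Finset.card_union_of_disjoint (hdisj.mono (Finset.sdiff_subset_sdiff Finset.inter_subset_right
        subset_rfl) (Finset.sdiff_subset_sdiff Finset.inter_subset_right subset_rfl))]
      rw [e3] at e1
      omega
    have hEc := half E hne' hun hev
    rw [hE, Finset.card_union_of_disjoint hdisj] at hEc
    have e1 := Finset.card_sdiff_add_card_inter F F'
    have e2 := Finset.card_sdiff_add_card_inter F' F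
    rw [X.flat_card F hF] at e1
    rw [X.flat_card F' hF', Finset.inter_comm] at e2
    omega
  have hN : ∀ a b : α, (X.flats.filter (a ∈ ·)).card ≤ (X.flats.filter (b ∈ ·)).card := by
    intro a b
    obtain ⟨g, hg, rfl⟩ := X.transitive a b
    refine Finset.card_le_card_of_injOn (fun F' => F'.image g) (fun F' h => ?_)
      fun F1 _ F2 _ e => Finset.image_injective g.injective e
    obtain ⟨h1, h2⟩ := Finset.mem_filter.1 h
    exact Finset.mem_filter.2 ⟨X.flat_image g hg F' h1, Finset.mem_image_of_mem g h2⟩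
  obtain ⟨a0, ha0⟩ : F.Nonempty := Finset.card_pos.1 (by rw [X.flat_card F hF]; omega)
  set N := (X.flats.filter (a0 ∈ ·)).card
  have count : ∀ S : Finset α, ∑ F' ∈ X.flats, (S ∩ F').card = S.card * N := by
    intro S
    have : ∀ F' : Finset α, (S ∩ F').card = ∑ a ∈ S, if a ∈ F' then 1 else 0 := fun F' => by
      rw [← Finset.card_filter, Finset.filter_mem_eq_inter]
    simp only [this]
    rw [Finset.sum_comm]
    rw [Finset.sum_congr rfl fun a _ => (Finset.card_filter (a ∈ ·) X.flats).symm,
      Finset.sum_congr rfl fun a _ => le_antisymm (hN a a0) (hN a0 a), Finset.sum_const, smul_eq_mul]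
  have h1 := count Finset.univ
  simp only [Finset.univ_inter] at h1
  rw [Finset.sum_congr rfl fun F' hF' => X.flat_card F' hF', Finset.sum_const, smul_eq_mul,
    Finset.card_univ, X.card_univ_eq] at h1
  have h2 : ∑ F' ∈ X.flats, 2 * (F ∩ F').card = 2 * (X.f * N) := by
    rw [← Finset.mul_sum, count F, X.flat_card F hF]
  rw [← Finset.add_sum_erase _ _ hF, Finset.inter_self, X.flat_card F hF,
    Finset.sum_congr rfl fun F' hF' => inter F' (Finset.mem_erase.1 hF').2 (Finset.mem_erase.1 hF').1,
    Finset.sum_const, smul_eq_mul, Finset.card_erase_of_mem hF] at h2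
  have hb : 0 < X.flats.card := Finset.card_pos.2 X.flats_nonempty
  obtain ⟨b, hb'⟩ := Nat.exists_eq_add_one_of_ne_zero hb.ne'
  rw [hb'] at h1 h2
  simp only [Nat.add_sub_cancel] at h2
  nlinarith

/-- Blocks with at least two extra points. -/
theorem leak_false_two {s δ : ℕ} (hS : Sys X.cl Finset.univ s δ) (hs : 2 ≤ s) (hsf : s ≤ X.f)
    (hδ : 2 ≤ δ) : False := by
  obtain ⟨F, hF⟩ := X.flats_nonempty
  obtain ⟨a, ha⟩ : Fᶜ.Nonempty := Finset.card_pos.1 (by rw [X.leak_card_compl hF]; omega)
  rw [Finset.mem_compl] at ha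
  obtain ⟨B, hB, hBc⟩ := Finset.exists_subset_card_eq (s := F) (n := s - 2)
    (by rw [X.flat_card F hF]; omega)
  have hcount := leak_count hS hs hF hB hBc ha
  have h2 : (X.f - (s - 2)) * 2 ≤ (X.f - (s - 2)) * δ := Nat.mul_le_mul_left _ hδ
  obtain ⟨A, hA, hAc⟩ := Finset.exists_subset_card_eq (s := F) (n := s) (by rw [X.flat_card F hF]; exact hsf)
  have hsub := X.cl_subset hF hA
  have hcard := (hS A (Finset.subset_univ A) hAc).2.2.1
  by_cases hlt : s + δ < X.f
  · obtain ⟨z, hz, hzA⟩ : ∃ z ∈ F, z ∉ X.cl A := by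
      by_contra h
      have := Finset.card_le_card (fun z hz => by_contra fun hzA => h ⟨z, hz, hzA⟩ : F ⊆ X.cl A)
      rw [X.flat_card F hF, hcard] at this
      omega
    have h := (leak_flat_sys hS hF).card_ge hA hAc hz hzA
    rw [X.flat_card F hF] at h
    have : (s + 1) * 3 ≤ (s + 1) * (δ + 1) := Nat.mul_le_mul_left _ (by omega)
    omega
  · have hle := Finset.card_le_card hsub
    rw [hcard, X.flat_card F hF] at hle
    have hza : a ∉ X.cl A := fun h => ha (hsub h)
    have h := hS.card_ge (Finset.subset_univ A) hAc (Finset.mem_univ a) hza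
    rw [Finset.card_univ, X.card_univ_eq] at h
    have : 3 * δ ≤ (s + 1) * δ := Nat.mul_le_mul_right _ (by omega)
    rw [Nat.mul_add, Nat.mul_one] at h
    have : (s + 1) * 2 ≤ (s + 1) * δ := Nat.mul_le_mul_left _ hδ
    nlinarith

/-- An embedding of finitely many points with one prescribed value. -/
theorem leak_map_set {s : ℕ} (htr : X.MultiTrans s) {S S' : Finset α} (hS : S.card = s) (hS' : S'.card = s)
    {p p' : α} (hp : p ∈ S) (hp' : p' ∈ S') : ∃ g ∈ X.G, S.image g = S' ∧ g p = p' := by
  let e := S.equivFinOfCardEq hS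
  let e0 := S'.equivFinOfCardEq hS'
  let e' := e0.trans (Equiv.swap (e0 ⟨p', hp'⟩) (e ⟨p, hp⟩))
  let u : Fin s ↪ α := e.symm.toEmbedding.trans (Function.Embedding.subtype _)
  let v : Fin s ↪ α := e'.symm.toEmbedding.trans (Function.Embedding.subtype _)
  obtain ⟨g, hg, hgv⟩ := htr u v
  have hmap : ∀ x (hx : x ∈ S), g x = ((e'.symm (e ⟨x, hx⟩) : S') : α) := fun x hx => by
    have h := hgv (e ⟨x, hx⟩)
    simpa [u, v] using h
  refine ⟨g, hg, Finset.eq_of_subset_of_card_le (fun y hy => ?_) ?_, ?_⟩
  · obtain ⟨x, hx, rfl⟩ := Finset.mem_image.1 hy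
    rw [hmap x hx]
    exact Subtype.coe_prop _
  · rw [Finset.card_image_of_injective _ g.injective, hS, hS']
  · rw [hmap p hp]
    simp [e']

/-- Blocks with one extra point, at least five points to generate them. -/
theorem leak_false_five {s : ℕ} (hS : Sys X.cl Finset.univ s 1) (hs : 5 ≤ s) (hsr : s < X.r)
    (htr : X.MultiTrans s) : False := by
  have hrf := X.leak_r_le_f
  have hodd := leak_odd hS (by omega) (by omega : s ≤ X.f)
  obtain ⟨F, hF⟩ := X.flats_nonempty
  have hFc := X.flat_card F hF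
  have hCc := X.leak_card_compl hF
  obtain ⟨B, hB, hBc⟩ := Finset.exists_subset_card_eq (s := F) (n := s - 2) (by omega)
  let U : α → Finset α := fun a => (F \ B).biUnion fun d => X.cl (insert d (insert a B)) \ insert d (insert a B)
  have hU : ∀ a, a ∉ F → U a ⊆ Fᶜ.erase a ∧ (U a).card = X.f - (s - 2) := fun a ha => by
    obtain ⟨h1, h2⟩ := leak_extra hS (by omega) hF hB hBc ha
    exact ⟨h1, by simpa using h2⟩
  -- an element of even order
  obtain ⟨a, ha⟩ : Fᶜ.Nonempty := Finset.card_pos.1 (by omega)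
  rw [Finset.mem_compl] at ha
  classical
  let O : Finset α := Finset.univ.filter fun y => ∃ k ∈ X.P F, k a = y
  have hOd : Disjoint O F := Finset.disjoint_left.2 fun y hy hyF => by
    obtain ⟨k, hk, rfl⟩ := (Finset.mem_filter.1 hy).2
    exact X.leak_not_mem_flat hF hk ha hyF
  have hOinv : ∀ k ∈ X.P F, O.image k = O := fun k hk =>
    Finset.eq_of_subset_of_card_le (fun y hy => by
      obtain ⟨x, hx, rfl⟩ := Finset.mem_image.1 hy
      obtain ⟨k', hk', rfl⟩ := (Finset.mem_filter.1 hx).2
      exact Finset.mem_filter.2 ⟨Finset.mem_univ _, k * k', mul_mem hk hk', rfl⟩)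
      (Finset.card_image_of_injective _ k.injective).ge
  have haO : a ∈ O := Finset.mem_filter.2 ⟨Finset.mem_univ a, 1, one_mem _, rfl⟩
  have hOr := X.r_le_of_invariant F hF O ⟨a, haO⟩ hOd hOinv
  obtain ⟨y, hyO, hyU⟩ : ∃ y ∈ O, y ∈ U a := by
    by_contra h
    have hsub : O.erase a ⊆ Fᶜ.erase a \ U a := fun y hy => by
      obtain ⟨h1, h2⟩ := Finset.mem_erase.1 hy
      exact Finset.mem_sdiff.2 ⟨Finset.mem_erase.2 ⟨h1, Finset.mem_compl.2 (Finset.disjoint_left.1 hOd h2)⟩,
        fun h3 => h ⟨y, h2, h3⟩⟩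
    have := Finset.card_le_card hsub
    rw [Finset.card_sdiff_of_subset (hU a ha).1, (hU a ha).2, Finset.card_erase_of_mem haO,
      Finset.card_erase_of_mem (Finset.mem_compl.2 ha), hCc] at this
    omega
  obtain ⟨k, hk, rfl⟩ := (Finset.mem_filter.1 hyO).2
  obtain ⟨d, hd, hy⟩ := Finset.mem_biUnion.1 hyU
  obtain ⟨hy1, hy2⟩ := Finset.mem_sdiff.1 hy
  set A := insert d (insert a B)
  have hAc : A.card = s := leak_extended_card hS (by omega) hF hB hBc ha hd
  obtain ⟨z, hz, hzc⟩ := leak_last hS hAc
  have hzk : z = k a := by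
    rw [hzc] at hy1
    exact ((Finset.mem_insert.1 hy1).resolve_right hy2).symm
  subst hzk
  have hkA : A.image k = insert d (insert (k a) B) := by
    simp only [A, Finset.image_insert]
    rw [X.P_fix F hF k hk d (Finset.mem_sdiff.1 hd).1,
      Finset.image_congr (g := id) (fun x hx => X.P_fix F hF k hk x (hB hx)), Finset.image_id]
  have hne : k a ≠ a := fun e => (Finset.mem_erase.1 ((hU a ha).1 hyU)).1 e
  have hkk : k (k a) = a := by
    have h1 : k (k a) ∈ X.cl A := by
      have hsub : A.image k ⊆ X.cl A := by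
        rw [hkA]
        refine Finset.insert_subset (X.subset_cl A (Finset.mem_insert_self d _))
          (Finset.insert_subset hy1 ?_)
        exact ((Finset.subset_insert a B).trans (Finset.subset_insert d _)).trans (X.subset_cl A)
      rw [← leak_block_eq hS hAc hsub (by rw [Finset.card_image_of_injective _ k.injective, hAc]),
        X.leak_cl_image (X.P_le F hF hk)]
      exact Finset.mem_image_of_mem k hy1
    rw [hzc] at h1
    simp only [A, Finset.mem_insert] at h1
    have hnF : k (k a) ∉ F := X.leak_not_mem_flat hF hk (X.leak_not_mem_flat hF hk ha)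
    rcases h1 with h | h | h | h
    · exact absurd (k.injective h) hne
    · exact absurd (h ▸ (Finset.mem_sdiff.1 hd).1) hnF
    · exact h
    · exact absurd (hB h) hnF
  obtain ⟨k0, hk0, hk2, hk1⟩ : ∃ k0 ∈ X.P F, k0 * k0 = 1 ∧ k0 ≠ 1 := by
    have hmod : ∀ m : ℕ, (k ^ m) a = if m % 2 = 0 then a else k a := by
      intro m
      induction m with
      | zero => simp
      | succ m ih =>
        rw [pow_succ', Perm.mul_apply, ih]
        rcases Nat.mod_two_eq_zero_or_one m with h | h
        · rw [if_pos h, if_neg (by omega)]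
        · rw [if_neg (by omega), if_pos (by omega), hkk]
    have hm := hmod (orderOf k)
    rw [pow_orderOf_eq_one, Perm.one_apply] at hm
    have heven : orderOf k % 2 = 0 := by
      by_contra h
      rw [if_neg h] at hm
      exact hne hm.symm
    have hpos := orderOf_pos k
    refine ⟨k ^ (orderOf k / 2), pow_mem hk _, ?_, fun e => ?_⟩
    · rw [← pow_add, show orderOf k / 2 + orderOf k / 2 = orderOf k by omega, pow_orderOf_eq_one]
    · exact pow_ne_one_of_lt_orderOf (by omega) (by omega) e
  have hk0G := X.P_le F hF hk0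
  -- its fixed points are the flat
  have hfix : ∀ x, x ∉ F → k0 x ≠ x := by
    intro x hx hkx
    set M := Finset.univ.filter fun z => k0 z ≠ z
    have hM : M ⊆ Fᶜ.erase x \ U x := by
      intro z hz'
      have hzm := (Finset.mem_filter.1 hz').2
      refine Finset.mem_sdiff.2 ⟨Finset.mem_erase.2 ⟨fun e => hzm (e ▸ hkx),
        Finset.mem_compl.2 fun h => hzm (X.P_fix F hF k0 hk0 z h)⟩, fun hzU => hzm ?_⟩
      obtain ⟨d, hd, hz1⟩ := Finset.mem_biUnion.1 hzU
      obtain ⟨hz2, hz3⟩ := Finset.mem_sdiff.1 hz1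
      have hA := leak_extended_card hS (by omega) hF hB hBc hx hd
      obtain ⟨w, hw, hwc⟩ := leak_last hS hA
      have hfA : (insert d (insert x B)).image k0 = insert d (insert x B) := by
        simp only [Finset.image_insert]
        rw [X.P_fix F hF k0 hk0 d (Finset.mem_sdiff.1 hd).1, hkx,
          Finset.image_congr (g := id) (fun b hb => X.P_fix F hF k0 hk0 b (hB hb)), Finset.image_id]
      have hzw : z = w := by
        rw [hwc] at hz2
        exact (Finset.mem_insert.1 hz2).resolve_right hz3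
      rw [hzw]
      exact leak_fix_last hS hk0G hA hfA hw hwc
    have hMc : M.card ≤ s - 3 := by
      have := Finset.card_le_card hM
      rw [Finset.card_sdiff_of_subset (hU x hx).1, (hU x hx).2,
        Finset.card_erase_of_mem (Finset.mem_compl.2 hx), hCc] at this
      omega
    obtain ⟨p, hp⟩ : M.Nonempty := by
      by_contra h
      apply hk1
      ext z
      by_contra hz'
      exact h ⟨z, Finset.mem_filter.2 ⟨Finset.mem_univ z, by simpa using hz'⟩⟩
    obtain ⟨A0, -, hA0⟩ := Finset.exists_subset_card_eq (s := F) (n := s) (by omega)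
    have hC := leak_block_card hS hA0
    obtain ⟨p', hp'⟩ : A0.Nonempty := Finset.card_pos.1 (by omega)
    obtain ⟨R, hR, hRc⟩ := Finset.exists_subset_card_eq (s := (X.cl A0)ᶜ) (n := s - 1)
      (by rw [Finset.card_compl, hC, X.card_univ_eq]; omega)
    obtain ⟨S, hMS, -, hSc⟩ := Finset.exists_subsuperset_card_eq (Finset.subset_univ M)
      (n := s) (by omega) (by rw [Finset.card_univ, X.card_univ_eq]; omega)
    have hp'R : p' ∉ R := fun h => Finset.mem_compl.1 (hR h) (X.subset_cl A0 hp')
    obtain ⟨g, hg, hgS, hgp⟩ := X.leak_map_set htr hSc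
      (S' := insert p' R) (by rw [Finset.card_insert_of_notMem hp'R, hRc]; omega) (hMS hp)
      (Finset.mem_insert_self p' R)
    -- the transported block has a single moved point
    set C := (X.cl A0).image ⇑g⁻¹ with hCdef
    have hpC : p ∈ C := Finset.mem_image.2 ⟨p', X.subset_cl A0 hp', by rw [← hgp]; simp⟩
    have honly : ∀ q ∈ C, k0 q ≠ q → q = p := by
      intro q hq hqm
      obtain ⟨b, hb, rfl⟩ := Finset.mem_image.1 hq
      have : g (g⁻¹ b) ∈ insert p' R :=
        hgS ▸ Finset.mem_image_of_mem g (hMS (Finset.mem_filter.2 ⟨Finset.mem_univ _, hqm⟩))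
      simp only [Perm.coe_inv, Equiv.apply_symm_apply, Finset.mem_insert] at this
      rcases this with h | h
      · rw [h, ← hgp]; simp
      · exact absurd hb (Finset.mem_compl.1 (hR h))
    have hCeq : X.cl (A0.image ⇑g⁻¹) = C := X.leak_cl_image (inv_mem hg) A0
    have hA0' : (A0.image ⇑g⁻¹).card = s := by rw [Finset.card_image_of_injective _ (g⁻¹ : Perm α).injective, hA0]
    have hCc' : C.card = s + 1 := by rw [hCdef, Finset.card_image_of_injective _ (g⁻¹ : Perm α).injective, hC]
    have hTc : (C.erase p).card = s := by rw [Finset.card_erase_of_mem hpC, hCc']; omega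
    have hT : X.cl (C.erase p) = C := by
      rw [← hCeq] at hTc ⊢
      exact leak_block_eq hS hA0' (Finset.erase_subset p _) hTc
    have himg : (C.erase p).image k0 = C.erase p := by
      rw [Finset.image_congr (g := id) (fun q hq => ?_), Finset.image_id]
      obtain ⟨h1, h2⟩ := Finset.mem_erase.1 hq
      by_contra h
      exact h1 (honly q h2 h)
    refine (Finset.mem_filter.1 hp).2 (leak_fix_last hS hk0G hTc himg (Finset.notMem_erase p C) ?_)
    rw [hT, Finset.insert_erase hpC]
  -- systems carried by the flat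
  have sys : ∀ D : Finset α, Disjoint D F → D.image k0 = D → D.card ≤ s →
      Sys (fun A => X.cl (A ∪ D) ∩ F) F (s - D.card) 1 := by
    intro D hDF hDk hDs A hA hAc
    have hdis : Disjoint A D := (hDF.mono_right hA).symm
    have hAD : (A ∪ D).card = s := by rw [Finset.card_union_of_disjoint hdis, hAc]; omega
    obtain ⟨z, hz, hzc⟩ := leak_last hS hAD
    have himg : (A ∪ D).image k0 = A ∪ D := by
      rw [Finset.image_union, hDk,
        Finset.image_congr (g := id) (fun b hb => X.P_fix F hF k0 hk0 b (hA hb)), Finset.image_id]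
    have hzF : z ∈ F := by_contra fun h => hfix z h (leak_fix_last hS hk0G hAD himg hz hzc)
    have hblock : X.cl (A ∪ D) ∩ F = insert z A := by
      rw [hzc]
      ext q
      simp only [Finset.mem_inter, Finset.mem_insert, Finset.mem_union]
      constructor
      · rintro ⟨h | h | h, hq⟩
        exacts [Or.inl h, Or.inr h, absurd hq (Finset.disjoint_left.1 hDF h)]
      · rintro (h | h)
        exacts [⟨Or.inl h, h ▸ hzF⟩, ⟨Or.inr (Or.inl h), hA h⟩]
    refine ⟨?_, Finset.inter_subset_right, ?_, ?_⟩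
    · show A ⊆ X.cl (A ∪ D) ∩ F
      rw [hblock]; exact Finset.subset_insert z A
    · show (X.cl (A ∪ D) ∩ F).card = _
      rw [hblock, Finset.card_insert_of_notMem fun h => hz (Finset.mem_union_left D h), hAc]
    · intro A' hA' hA'c
      have hA'F : A' ⊆ F := hA'.trans Finset.inter_subset_right
      have hd' : Disjoint A' D := (hDF.mono_right hA'F).symm
      show X.cl (A' ∪ D) ∩ F = X.cl (A ∪ D) ∩ F
      rw [leak_block_eq hS hAD (Finset.union_subset (hA'.trans Finset.inter_subset_left)
        (Finset.subset_union_right.trans (X.subset_cl _)))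
        (by rw [Finset.card_union_of_disjoint hd', hA'c]; omega)]
  have hinv : ∀ x, k0 (k0 x) = x := fun x => by rw [← Perm.mul_apply, hk2, Perm.one_apply]
  -- one pair and two pairs
  have hka : k0 a ∉ F := X.leak_not_mem_flat hF hk0 ha
  obtain ⟨b, hb⟩ : (Fᶜ \ {a, k0 a}).Nonempty := Finset.card_pos.1 (by
    have h2 : ({a, k0 a} : Finset α).card ≤ 2 := Finset.card_le_two
    have := Finset.le_card_sdiff ({a, k0 a} : Finset α) Fᶜ
    omega)
  obtain ⟨hbF, hb2⟩ := Finset.mem_sdiff.1 hb
  rw [Finset.mem_compl] at hbF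
  simp only [Finset.mem_insert, Finset.mem_singleton, not_or] at hb2
  set D1 : Finset α := {a, k0 a}
  set D2 : Finset α := D1 ∪ {b, k0 b}
  have hD1c : D1.card = 2 := Finset.card_pair (hfix a ha).symm
  have hD2c : D2.card = 4 := by
    rw [Finset.card_union_of_disjoint, hD1c, Finset.card_pair (hfix b hbF).symm]
    simp only [D1, Finset.disjoint_insert_left, Finset.disjoint_singleton_left, Finset.mem_insert,
      Finset.mem_singleton, not_or]
    refine ⟨⟨Ne.symm hb2.1, fun e => hb2.2 ?_⟩, Ne.symm hb2.2, fun e => hb2.1 (k0.injective e).symm⟩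
    rw [e, hinv]
  have hD1F : Disjoint D1 F := by simp [D1, ha, hka]
  have hD2F : Disjoint D2 F := by simp [D2, D1, ha, hka, hbF, X.leak_not_mem_flat hF hk0 hbF]
  have hD1k : D1.image k0 = D1 := by
    simp only [D1, Finset.image_insert, Finset.image_singleton, hinv]
    exact Finset.pair_comm _ _
  have hD2k : D2.image k0 = D2 := by
    simp only [D2, Finset.image_union, hD1k, Finset.image_insert, Finset.image_singleton, hinv]
    rw [Finset.pair_comm (k0 b) b]
  have m0 := (leak_flat_sys hS hF).sub_mod_three (by omega) (by omega)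
  have m1 := (sys D1 hD1F hD1k (by omega)).sub_mod_three (by omega) (by omega)
  have m3 := hS.sub_mod_three (by omega) (by rw [Finset.card_univ, X.card_univ_eq]; omega)
  rw [hFc] at m0
  rw [hFc, hD1c] at m1
  rw [Finset.card_univ, X.card_univ_eq] at m3
  by_cases h7 : 7 ≤ s
  · have m2 := (sys D2 hD2F hD2k (by omega)).sub_mod_three (by omega) (by omega)
    rw [hFc, hD2c] at m2
    have : (X.f - s) % 3 = 0 ∨ (X.f - s) % 3 = 1 ∨ (X.f - s) % 3 = 2 := by omega
    rw [show X.f - (s - 2) = (X.f - s) + 2 by omega] at m1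
    rw [show X.f - (s - 4) = (X.f - s) + 4 by omega] at m2
    rcases this with h | h | h
    · exact m0 h
    · exact m1 (by rw [Nat.add_mod, h])
    · exact m2 (by rw [Nat.add_mod, h])
  · obtain rfl : s = 5 := by omega
    have : (X.f - 5) % 3 = 0 ∨ (X.f - 5) % 3 = 1 ∨ (X.f - 5) % 3 = 2 := by omega
    rw [show X.f - (5 - 2) = (X.f - 5) + 2 by omega] at m1
    rw [show 2 * X.f - 5 = 2 * (X.f - 5) + 5 by omega] at m3
    rcases this with h | h | h
    · exact m0 h
    · exact m1 (by rw [Nat.add_mod, h])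
    · exact m3 (by rw [Nat.add_mod, Nat.mul_mod, h])

/-- Sets of `s` points are closed when those of smaller size are and `G` is `s`-fold transitive. -/
theorem closedAt_of_orbitAt (s : ℕ) (hs : 2 ≤ s) (hsr : s < X.r)
    (_hcov : ∀ m, 1 ≤ m → m ≤ s → X.CoveredAt m) (_hcl : ∀ m, 1 ≤ m → m < s → X.ClosedAt m)
    (_horb : ∀ m, 1 ≤ m → m < s → X.OrbitAt m) (htr : X.MultiTrans s) : X.ClosedAt s := by
  by_contra hcon
  obtain ⟨A0, hA0, hne⟩ : ∃ A : Finset α, A.card = s ∧ X.cl A ≠ A := by
    by_contra h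
    exact hcon fun A hA => by_contra fun h' => h ⟨A, hA, h'⟩
  have hconst : ∀ A : Finset α, A.card = s → (X.cl A).card = (X.cl A0).card := by
    intro A hA
    obtain ⟨p, hp⟩ : A0.Nonempty := Finset.card_pos.1 (by omega)
    obtain ⟨q, hq⟩ : A.Nonempty := Finset.card_pos.1 (by omega)
    obtain ⟨g, hg, hgA, -⟩ := X.leak_map_set htr hA0 hA hp hq
    rw [← hgA, X.leak_cl_image hg, Finset.card_image_of_injective _ g.injective]
  have hlt : s < (X.cl A0).card :=
    hA0 ▸ Finset.card_lt_card (ssubset_of_subset_of_ne (X.subset_cl A0) (Ne.symm hne))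
  obtain ⟨δ, hδ, hδ1⟩ : ∃ δ, (X.cl A0).card = s + δ ∧ 1 ≤ δ := ⟨(X.cl A0).card - s, by omega, by omega⟩
  have hS : Sys X.cl Finset.univ s δ := fun A _ hA =>
    ⟨X.subset_cl A, Finset.subset_univ _, (hconst A hA).trans hδ, fun A' hA' hA'c =>
      Finset.eq_of_subset_of_card_le (X.leak_cl_le hA') (by rw [hconst A hA, hconst A' hA'c])⟩
  have hrf := X.leak_r_le_f
  rcases Nat.eq_or_lt_of_le hδ1 with rfl | h2
  · rcases Nat.eq_or_lt_of_le hs with rfl | h3
    · obtain ⟨F, hF⟩ := X.flats_nonempty
      obtain ⟨a, ha⟩ : Fᶜ.Nonempty := Finset.card_pos.1 (by rw [X.leak_card_compl hF]; omega)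
      have := leak_count hS le_rfl hF (B := ∅) (Finset.empty_subset F) rfl (Finset.mem_compl.1 ha)
      omega
    · have := leak_odd hS h3 (by omega)
      rcases Nat.eq_or_lt_of_le h3 with h | h
      · obtain rfl : s = 3 := h.symm
        exact X.leak_false_three hS (by omega)
      · exact X.leak_false_five hS (by omega) hsr htr
  · exact X.leak_false_two hS hs (by omega) h2

/-- No quadruple closures. -/
theorem false_of_quadruples (h3 : 3 < X.r) (hex : ∀ A : Finset α, A.card = 3 →
    (X.cl A).card = 4 ∧ ∀ A' ⊆ X.cl A, A'.card = 3 → X.cl A' = X.cl A) : False :=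
  X.leak_false_three (fun A _ hA => ⟨X.subset_cl A, Finset.subset_univ _, hex A hA⟩)
    (by have := X.leak_r_le_f; omega)

/-- No sextuple closures. -/
theorem false_of_sextuples (h4 : 4 < X.r) (hex : ∀ A : Finset α, A.card = 4 →
    (X.cl A).card = 6 ∧ ∀ A' ⊆ X.cl A, A'.card = 4 → X.cl A' = X.cl A) : False :=
  X.leak_false_two (s := 4) (δ := 2) (fun A _ hA => ⟨X.subset_cl A, Finset.subset_univ _, hex A hA⟩)
    (by omega) (by have := X.leak_r_le_f; omega) le_rfl

end Geom

end CfsgLib.Pronormal
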