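/-
The top class of sets of `m + 1` points at a level, and the small levels.
-/
import Cfsg.Agent.Lib.Pronormal.Leak
import Cfsg.Agent.Lib.Pronormal.Setup

set_option autoImplicit false
set_option linter.unusedSectionVars false

open Equiv Finset

namespace CfsgLib.Pronormal.Geom

variable {α : Type*} [Fintype α] [DecidableEq α] (X : Geom α)

/-- The points `v` off `B` with `B + v` in the class given by the numbers `N₀` and `k`. -/
noncomputable def topSet (B : Finset α) (N₀ k : ℕ) : Finset α :=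
  (univ \ B).filter fun v => X.N (insert v B) = N₀ ∧ (X.cl (insert v B)).card = k

theorem mem_topSet {B : Finset α} {N₀ k : ℕ} {v : α} :
    v ∈ X.topSet B N₀ k ↔ v ∉ B ∧ X.N (insert v B) = N₀ ∧ (X.cl (insert v B)).card = k := by
  simp [topSet]

theorem image_insert_of_fix {B : Finset α} {j : Perm α} (hj : ∀ b ∈ B, j b = b) (v : α) :
    (insert v B).image j = insert (j v) B := by
  rw [Finset.image_insert, Finset.image_congr (g := id) (fun a ha => hj a ha), Finset.image_id]

theorem image_eq_of_iff {T : Finset α} {j : Perm α} (h : ∀ v ∈ T, j v ∈ T) : T.image j = T := by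
  refine Finset.eq_of_subset_of_card_le (fun y hy => ?_)
    (Finset.card_image_of_injective _ j.injective).ge
  obtain ⟨v, hv, rfl⟩ := Finset.mem_image.mp hy
  exact h v hv

theorem topSet_image {B : Finset α} {j : Perm α} (hj : j ∈ X.J B) (N₀ k : ℕ) :
    (X.topSet B N₀ k).image j = X.topSet B N₀ k := by
  have hfix : ∀ b ∈ B, j b = b := fun b hb => X.J_fix hj (X.subset_cl B hb)
  refine image_eq_of_iff fun v hv => ?_
  rw [mem_topSet] at hv ⊢
  obtain ⟨hv1, hv2, hv3⟩ := hv
  refine ⟨fun hh => hv1 ?_, ?_⟩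
  · have := hfix _ hh
    rwa [j.injective this] at hh
  · rw [← image_insert_of_fix hfix v, X.N_image (X.J_le B hj), X.cl_image (X.J_le B hj),
      Finset.card_image_of_injective _ j.injective]
    exact ⟨hv2, hv3⟩

namespace Level

variable {X} {m : ℕ} (h : X.Level m)

include h

/-- A nonempty invariant set off `B` has positive weight. -/
theorem wt_pos {B : Finset α} (hB : B.card = m) {T : Finset α} (hdis : Disjoint T B)
    (hinv : ∀ j ∈ X.J B, T.image j = T) (hne : T.Nonempty) {F : Finset α} (hF : F ∈ X.flats)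
    (hBF : B ⊆ F) : 1 ≤ wt T F := by
  have hd : Disjoint T (X.cl B) := by rw [h.cl_eq hB]; exact hdis
  rw [X.wt_eq_sum hd hinv]
  obtain ⟨v, hv⟩ := hne
  have hvcl : v ∉ X.cl B := Finset.disjoint_left.mp hd hv
  have hmem : X.orb B v ∈ (X.orbits B).filter (· ⊆ T) :=
    Finset.mem_filter.mpr ⟨X.orb_mem_orbits hvcl, fun y hy => by
      obtain ⟨j, hj, rfl⟩ := X.mem_orb.mp hy
      rw [← hinv j hj]; exact Finset.mem_image_of_mem _ hv⟩
  refine le_trans (X.one_le_wt_orb (h.nonempty hB) hF hBF hvcl)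
    (Finset.single_le_sum (f := fun O => wt O F) (fun O hO => ?_) hmem)
  obtain ⟨y, hy, rfl⟩ := X.mem_orbits.mp (Finset.mem_filter.mp hO).1
  exact le_trans (by norm_num) (X.one_le_wt_orb (h.nonempty hB) hF hBF hy)

/-- An invariant set off `B` and the rest have total weight `m`. -/
theorem wt_add_rest {B : Finset α} (hB : B.card = m) {T : Finset α} (hdis : Disjoint T B)
    {F : Finset α} (hF : F ∈ X.flats) (hBF : B ⊆ F) :
    wt T F + wt (univ \ (B ∪ T)) F = (m : ℤ) := by
  have h1 : (univ \ (B ∪ T)).card + (B ∪ T).card = Fintype.card α :=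
    Finset.card_sdiff_add_card_eq_card (Finset.subset_univ _)
  have h2 : (B ∪ T).card = B.card + T.card := Finset.card_union_of_disjoint hdis.symm
  have h3 : (univ \ (B ∪ T)) ∩ F = F \ (B ∪ T) := by ext; simp [and_comm]
  have h4 := Finset.card_sdiff_add_card_inter F (B ∪ T)
  have h5 : (F ∩ (B ∪ T)).card = B.card + (T ∩ F).card := by
    rw [Finset.inter_union_distrib_left, Finset.inter_eq_right.mpr hBF,
      Finset.card_union_of_disjoint ?_, Finset.inter_comm F T]
    exact Finset.disjoint_of_subset_right Finset.inter_subset_right hdis.symm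
  have h6 := X.flat_card F hF
  have h7 := X.card_univ_eq
  simp only [wt, h3]
  omega

theorem rest_image {B T : Finset α} (hinv : ∀ j ∈ X.J B, T.image j = T) {j : Perm α}
    (hj : j ∈ X.J B) : (univ \ (B ∪ T)).image j = univ \ (B ∪ T) := by
  rw [Finset.image_sdiff _ _ j.injective, Finset.image_univ_of_surjective j.surjective,
    Finset.image_union, hinv j hj,
    Finset.image_congr (f := j) (g := id) (s := B) (fun a ha => X.J_fix hj (X.subset_cl B ha)),
    Finset.image_id]

theorem wt_le {B : Finset α} (hB : B.card = m) {T : Finset α} (hdis : Disjoint T B)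
    (hinv : ∀ j ∈ X.J B, T.image j = T) {F : Finset α} (hF : F ∈ X.flats) (hBF : B ⊆ F) :
    wt T F ≤ (m : ℤ) := by
  have h1 := h.wt_add_rest hB hdis hF hBF
  rcases (univ \ (B ∪ T)).eq_empty_or_nonempty with he | hne
  · rw [he] at h1; simp only [wt, Finset.card_empty, Finset.empty_inter] at h1 ⊢; omega
  · have h2 := h.wt_pos hB (Finset.disjoint_left.mpr fun a ha hb =>
      (Finset.mem_sdiff.mp ha).2 (Finset.mem_union_left _ hb))
      (fun j hj => h.rest_image hinv hj) hne hF hBF
    omega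

/-- An invariant set made of lines of size `c` has weight a multiple of `c`, at least `c`. -/
theorem line_card_le {B : Finset α} (hB : B.card = m) {T : Finset α} (hdis : Disjoint T B)
    (hinv : ∀ j ∈ X.J B, T.image j = T) (hne : T.Nonempty) {c : ℕ}
    (hlines : ∀ v ∈ T, X.cl (insert v B) \ B ⊆ T ∧ (X.cl (insert v B) \ B).card = c ∧
      ∀ w ∈ X.cl (insert v B) \ B, X.cl (insert w B) = X.cl (insert v B))
    {F : Finset α} (hF : F ∈ X.flats) (hBF : B ⊆ F) :
    (c : ℤ) ≤ wt T F ∧ (c : ℤ) ∣ wt T F := by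
  let L : α → Finset α := fun v => X.cl (insert v B) \ B
  have hmemL : ∀ v ∈ T, v ∈ L v := fun v hv =>
    Finset.mem_sdiff.mpr ⟨X.subset_cl _ (Finset.mem_insert_self v B),
      Finset.disjoint_left.mp hdis hv⟩
  have key : ∀ U : Finset α, U ⊆ T → (∀ v ∈ U, L v ⊆ U) → c ∣ U.card := by
    intro U hUT hU
    rw [Finset.card_eq_sum_card_image L U]
    refine Finset.dvd_sum fun ℓ hℓ => ?_
    obtain ⟨v, hv, rfl⟩ := Finset.mem_image.mp hℓ
    have : U.filter (fun w => L w = L v) = L v := by
      ext w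
      simp only [Finset.mem_filter]
      constructor
      · rintro ⟨hw, heq⟩; rw [← heq]; exact hmemL w (hUT hw)
      · intro hw
        refine ⟨hU v hv hw, ?_⟩
        show X.cl (insert w B) \ B = X.cl (insert v B) \ B
        rw [(hlines v (hUT hv)).2.2 w hw]
    rw [this, (hlines v (hUT hv)).2.1]
  have h1 : c ∣ T.card := key T subset_rfl fun v hv => (hlines v hv).1
  have h2 : c ∣ (T ∩ F).card := key (T ∩ F) Finset.inter_subset_left fun v hv w hw =>
    Finset.mem_inter.mpr ⟨(hlines v (Finset.mem_inter.mp hv).1).1 hw,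
      X.cl_subset hF (Finset.insert_subset (Finset.mem_inter.mp hv).2 hBF)
        (Finset.mem_sdiff.mp hw).1⟩
  have h3 : (c : ℤ) ∣ wt T F :=
    dvd_sub (Int.natCast_dvd_natCast.mpr h1) (Dvd.dvd.mul_left (Int.natCast_dvd_natCast.mpr h2) 2)
  exact ⟨Int.le_of_dvd (by have := h.wt_pos hB hdis hinv hne hF hBF; omega) h3, h3⟩

/-- There is a class `(N₀, k)` of largest `N` among the sets of `m + 1` points. -/
theorem exists_class {B : Finset α} (hB : B.card = m) :
    ∃ N₀ k, (∀ S : Finset α, S.card = m + 1 → X.N S ≤ N₀) ∧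
      ∀ B' : Finset α, B'.card = m → (X.topSet B' N₀ k).Nonempty := by
  obtain ⟨y, hy, -⟩ : ∃ y, y ∉ B ∧ True := by
    obtain ⟨u, hu⟩ := h.nonempty hB
    obtain ⟨y, hy, -⟩ := h.exists_other_orbit hB u
    exact ⟨y, hy, trivial⟩
  obtain ⟨S₀, hS₀, hmax⟩ := Finset.exists_max_image ((univ : Finset α).powersetCard (m + 1)) X.N
    ⟨insert y B, Finset.mem_powersetCard_univ.mpr (by rw [Finset.card_insert_of_notMem hy, hB])⟩
  rw [Finset.mem_powersetCard_univ] at hS₀
  refine ⟨X.N S₀, (X.cl S₀).card, fun S hS => hmax S (Finset.mem_powersetCard_univ.mpr hS),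
    fun B' hB' => ?_⟩
  obtain ⟨B₀, hB₀S, hB₀⟩ := Finset.exists_subset_card_eq (s := S₀) (n := m) (by omega)
  obtain ⟨g, hg, rfl⟩ := X.exists_image_eq h.trans hB₀ hB'
  obtain ⟨x, hx⟩ : (S₀ \ B₀).Nonempty := by
    rw [← Finset.card_pos, Finset.card_sdiff_of_subset hB₀S]; omega
  rw [Finset.mem_sdiff] at hx
  have hins : insert x B₀ = S₀ := Finset.eq_of_subset_of_card_le (Finset.insert_subset hx.1 hB₀S)
    (by rw [Finset.card_insert_of_notMem hx.2]; omega)
  refine ⟨g x, X.mem_topSet.mpr ⟨?_, ?_⟩⟩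
  · simp [hx.2]
  · rw [← Finset.image_insert, hins, X.N_image hg, X.cl_image hg,
      Finset.card_image_of_injective _ g.injective]
    exact ⟨rfl, rfl⟩

theorem top_lines {N₀ k : ℕ} (hmax : ∀ S : Finset α, S.card = m + 1 → X.N S ≤ N₀)
    {B : Finset α} (hB : B.card = m) {v : α} (hv : v ∈ X.topSet B N₀ k) :
    X.cl (insert v B) \ B ⊆ X.topSet B N₀ k ∧ (X.cl (insert v B) \ B).card = k - m ∧
      (∀ w ∈ X.cl (insert v B) \ B, X.cl (insert w B) = X.cl (insert v B)) ∧
      X.Exch (insert v B) := by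
  obtain ⟨hvB, hN, hk⟩ := X.mem_topSet.mp hv
  have hsub : B ⊆ X.cl (insert v B) := (Finset.subset_insert v B).trans (X.subset_cl _)
  have hexch : X.Exch (insert v B) := fun A hA hcard =>
    X.cl_eq_of_N_le hA (by
      rw [hN]; exact hmax A (by rw [hcard, Finset.card_insert_of_notMem hvB, hB]))
  have heq : ∀ w ∈ X.cl (insert v B) \ B, X.cl (insert w B) = X.cl (insert v B) := fun w hw => by
    rw [Finset.mem_sdiff] at hw
    exact hexch _ (Finset.insert_subset hw.1 hsub)
      (by rw [Finset.card_insert_of_notMem hw.2, Finset.card_insert_of_notMem hvB])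
  refine ⟨fun w hw => X.mem_topSet.mpr ⟨(Finset.mem_sdiff.mp hw).2, ?_, ?_⟩, ?_, heq, hexch⟩
  · rw [X.N_eq_of_cl_eq (heq w hw), hN]
  · rw [heq w hw, hk]
  · rw [Finset.card_sdiff_of_subset hsub, hk, hB]

theorem topSet_disjoint {N₀ k : ℕ} (B : Finset α) : Disjoint (X.topSet B N₀ k) B :=
  Finset.disjoint_left.mpr fun _ ha => (X.mem_topSet.mp ha).1

/-- For every set of `m` points some extension is a top set with closure of size at most `2m`. -/
theorem exists_top {B : Finset α} (hB : B.card = m) :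
    ∃ x, x ∉ B ∧ X.Exch (insert x B) ∧ (X.cl (insert x B)).card ≤ 2 * m ∧
      ∀ S : Finset α, S.card = m + 1 → X.N S ≤ X.N (insert x B) := by
  obtain ⟨N₀, k, hmax, hne⟩ := h.exists_class hB
  obtain ⟨x, hx⟩ := hne B hB
  obtain ⟨hxB, hN, hk⟩ := X.mem_topSet.mp hx
  obtain ⟨F, hF, hBF⟩ := h.covered_m hB
  have h1 := (h.line_card_le hB (h.topSet_disjoint B) (fun j hj => X.topSet_image hj N₀ k) (hne B hB)
    (fun v hv => ⟨(h.top_lines hmax hB hv).1, (h.top_lines hmax hB hv).2.1,
      (h.top_lines hmax hB hv).2.2.1⟩) hF hBF).1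
  have h2 := h.wt_le hB (h.topSet_disjoint B) (fun j hj => X.topSet_image hj N₀ k) hF hBF
  exact ⟨x, hxB, (h.top_lines hmax hB hx).2.2.2, by omega, fun S hS => hN ▸ hmax S hS⟩

/-- With no closed set of `m + 1` points the level is at least four. -/
theorem four_le (hnc : X.NoClosed m) : 4 ≤ m := by
  by_contra hlt
  have h2 := h.two_le
  have hr := h.lt_r
  obtain ⟨A₀, -, hA₀⟩ := Finset.exists_subset_card_eq (s := (univ : Finset α)) (n := m) (by
    obtain ⟨F, hF⟩ := X.flats_nonempty
    have := X.r_attained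
    obtain ⟨F', hF', O, hO, hd, -⟩ := this
    have := Finset.card_le_univ O
    rw [Finset.card_univ]; omega)
  obtain ⟨N₀, k, hmax, hne⟩ := h.exists_class hA₀
  have hk : m + 2 ≤ k := by
    obtain ⟨v, hv⟩ := hne A₀ hA₀
    obtain ⟨hvB, -, hk⟩ := X.mem_topSet.mp hv
    have hc : (insert v A₀).card = m + 1 := by rw [Finset.card_insert_of_notMem hvB, hA₀]
    have := Finset.card_lt_card
      (Finset.ssubset_iff_subset_ne.mpr ⟨X.subset_cl (insert v A₀), (hnc _ hc).symm⟩)
    omega
  -- data for every set of `m` points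
  have hdata : ∀ B : Finset α, B.card = m → ∀ F ∈ X.flats, B ⊆ F →
      ((k - m : ℕ) : ℤ) ≤ wt (X.topSet B N₀ k) F ∧ ((k - m : ℕ) : ℤ) ∣ wt (X.topSet B N₀ k) F ∧
        wt (X.topSet B N₀ k) F ≤ (m : ℤ) := fun B hB F hF hBF => by
    have h1 := h.line_card_le hB (h.topSet_disjoint B) (fun j hj => X.topSet_image hj N₀ k)
      (hne B hB) (fun v hv => ⟨(h.top_lines hmax hB hv).1, (h.top_lines hmax hB hv).2.1,
        (h.top_lines hmax hB hv).2.2.1⟩) hF hBF
    exact ⟨h1.1, h1.2, h.wt_le hB (h.topSet_disjoint B) (fun j hj => X.topSet_image hj N₀ k) hF hBF⟩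
  have hrest : ∀ B : Finset α, B.card = m → ∀ F ∈ X.flats, B ⊆ F →
      wt (X.topSet B N₀ k) F = (m : ℤ) → ∀ v, v ∉ B → v ∈ X.topSet B N₀ k := by
    intro B hB F hF hBF hw v hv
    by_contra hvT
    have h1 := h.wt_add_rest hB (h.topSet_disjoint (N₀ := N₀) (k := k) B) hF hBF
    have h3 := h.wt_pos hB (T := univ \ (B ∪ X.topSet B N₀ k))
      (Finset.disjoint_left.mpr fun a ha hb => (Finset.mem_sdiff.mp ha).2
        (Finset.mem_union_left _ hb))
      (fun j hj => h.rest_image (fun i hi => X.topSet_image hi N₀ k) hj)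
      ⟨v, by simp [hv, hvT]⟩ hF hBF
    omega
  -- if every extension is top, every set has an exchangeable closure of size `k`
  have hall : (∀ B : Finset α, B.card = m → ∀ v, v ∉ B → v ∈ X.topSet B N₀ k) →
      ∀ A : Finset α, A.card = m + 1 → (X.cl A).card = k ∧
        ∀ A' ⊆ X.cl A, A'.card = m + 1 → X.cl A' = X.cl A := by
    intro hT A hA
    obtain ⟨v, hv⟩ : A.Nonempty := Finset.card_pos.mp (by omega)
    have hB : (A.erase v).card = m := by rw [Finset.card_erase_of_mem hv]; omega
    have hm := hT _ hB v (Finset.notMem_erase v A)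
    have hins := Finset.insert_erase hv
    have h1 := (X.mem_topSet.mp hm).2.2
    have h2 := (h.top_lines hmax hB hm).2.2.2
    rw [hins] at h1 h2
    exact ⟨h1, fun A' hA' hc => h2 A' hA' (by rw [hc, hA])⟩
  obtain ⟨F₀, hF₀, hBF₀⟩ := h.covered_m hA₀
  obtain ⟨ha, hb, hc⟩ := hdata A₀ hA₀ F₀ hF₀ hBF₀
  by_cases hkm : k - m = m
  · have hT : ∀ B : Finset α, B.card = m → ∀ v, v ∉ B → v ∈ X.topSet B N₀ k := fun B hB => by
      obtain ⟨F, hF, hBF⟩ := h.covered_m hB
      obtain ⟨ha', -, hc'⟩ := hdata B hB F hF hBF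
      exact hrest B hB F hF hBF (by omega)
    have hA := hall hT
    rcases (by omega : m = 2 ∨ m = 3) with rfl | rfl
    · exact X.false_of_quadruples hr fun A hA' => ⟨by have := (hA A hA').1; omega, (hA A hA').2⟩
    · exact X.false_of_sextuples hr fun A hA' => ⟨by have := (hA A hA').1; omega, (hA A hA').2⟩
  -- the remaining case: lines of size two in a part of weight two, at level three
  have hm3 : m = 3 := by omega
  subst hm3
  have hk2 : k - 3 = 2 := by omega
  have hwT : wt (X.topSet A₀ N₀ k) F₀ = 2 := by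
    obtain ⟨q, hq⟩ := hb
    rw [hk2] at hq ha
    push_cast at hq ha
    omega
  set T := X.topSet A₀ N₀ k with hTdef
  have hTinv : ∀ j ∈ X.J A₀, T.image j = T := fun j hj => X.topSet_image hj N₀ k
  have hTd : Disjoint T A₀ := h.topSet_disjoint A₀
  set R := univ \ (A₀ ∪ T) with hRdef
  have hRinv : ∀ j ∈ X.J A₀, R.image j = R := fun j hj => h.rest_image hTinv hj
  have hRd : Disjoint R A₀ := Finset.disjoint_left.mpr fun a ha hb =>
    (Finset.mem_sdiff.mp ha).2 (Finset.mem_union_left _ hb)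
  have hwR : wt R F₀ = 1 := by
    have := h.wt_add_rest hA₀ hTd hF₀ hBF₀
    rw [← hRdef, hwT] at this; push_cast at this; omega
  have hRne : R.Nonempty := by
    by_contra hh
    rw [Finset.not_nonempty_iff_eq_empty] at hh
    rw [hh] at hwR
    simp [wt] at hwR
  have hmemT : ∀ v, v ∉ A₀ → v ∉ R → v ∈ T := fun v h1 h3 => by
    simp [hRdef, h1] at h3; exact h3
  have hnotR : ∀ v, v ∈ T → v ∉ R := fun v hv => by simp [hRdef, hv]
  have hwR' : ∀ F ∈ X.flats, A₀ ⊆ F → wt R F = 1 := fun F hF hA =>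
    (X.wt_eq hF₀ hBF₀ hF hA hRinv).symm.trans hwR ▸ rfl
  let L : α → Finset α := fun v => X.cl (insert v A₀) \ A₀
  -- the image of a line under an element fixing the base
  have hLim : ∀ j ∈ X.J A₀, ∀ v, L (j v) = (L v).image j := fun j hj v => by
    have hfix : ∀ b ∈ A₀, j b = b := fun b hb => X.J_fix hj (X.subset_cl A₀ hb)
    show X.cl (insert (j v) A₀) \ A₀ = (X.cl (insert v A₀) \ A₀).image j
    rw [← image_insert_of_fix hfix v, X.cl_image (X.J_le _ hj),
      Finset.image_sdiff _ _ j.injective, Finset.image_congr (g := id) (s := A₀) hfix,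
      Finset.image_id]
  have hLeq : ∀ v ∈ T, ∀ w ∈ L v, L w = L v := fun v hv w hw => by
    show X.cl (insert w A₀) \ A₀ = X.cl (insert v A₀) \ A₀
    rw [(h.top_lines hmax hA₀ hv).2.2.1 w hw]
  -- `J A₀` is transitive on the lines in `T`
  have htrL : ∀ v ∈ T, ∀ w ∈ T, ∃ j ∈ X.J A₀, L w = (L v).image j := by
    intro v hv w hw
    suffices hmeet : ∃ z ∈ L w, z ∈ X.orb A₀ v by
      obtain ⟨z, hz, hzv⟩ := hmeet
      obtain ⟨j, hj, rfl⟩ := X.mem_orb.mp hzv
      exact ⟨j, hj, by rw [← hLim j hj, hLeq w hw _ hz]⟩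
    by_contra hno
    push Not at hno
    -- then the orbit of `v` is a union of lines, as is its complement in `T`
    set O := X.orb A₀ v with hO
    have hOT : O ⊆ T := fun y hy => by
      obtain ⟨j, hj, rfl⟩ := X.mem_orb.mp hy
      rw [← hTinv j hj]; exact Finset.mem_image_of_mem _ hv
    have hlines : ∀ (U : Finset α), U ⊆ T → U.Nonempty → (∀ j ∈ X.J A₀, U.image j = U) →
        (∀ y ∈ U, L y ⊆ U) → (2 : ℤ) ≤ wt U F₀ := by
      intro U hUT hUne hUinv hU
      have := (h.line_card_le hA₀ (Finset.disjoint_of_subset_left hUT hTd) hUinv hUne (c := k - 3)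
        (fun y hy => ⟨hU y hy, (h.top_lines hmax hA₀ (hUT hy)).2.1,
          (h.top_lines hmax hA₀ (hUT hy)).2.2.1⟩) hF₀ hBF₀).1
      rw [hk2] at this; exact_mod_cast this
    -- the set of points of `T` whose line misses `O`
    let U := T.filter fun y => Disjoint (L y) O
    have hUinv : ∀ j ∈ X.J A₀, U.image j = U := fun j hj => image_eq_of_iff fun y hy => by
      simp only [U, Finset.mem_filter] at hy ⊢
      refine ⟨by rw [← hTinv j hj]; exact Finset.mem_image_of_mem _ hy.1, ?_⟩
      rw [hLim j hj]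
      have hOj : O.image j = O := by rw [hO]; exact X.image_orb hj
      rw [← hOj]
      exact (Finset.disjoint_image j.injective).mpr hy.2
    have hwU := hlines U (Finset.filter_subset _ _)
      ⟨w, Finset.mem_filter.mpr ⟨hw, Finset.disjoint_left.mpr fun z hz hz' => hno z hz hz'⟩⟩
      hUinv (fun y hy z hz => by
        simp only [U, Finset.mem_filter] at hy ⊢
        exact ⟨(h.top_lines hmax hA₀ hy.1).1 hz, by rw [hLeq y hy.1 z hz]; exact hy.2⟩)
    have hd : Disjoint U O := Finset.disjoint_left.mpr fun y hy hyO => by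
      simp only [U, Finset.mem_filter] at hy
      refine Finset.disjoint_left.mp hy.2 (Finset.mem_sdiff.mpr ⟨X.subset_cl _
        (Finset.mem_insert_self y A₀), Finset.disjoint_left.mp hTd hy.1⟩) hyO
    have hwO := h.wt_pos hA₀ (Finset.disjoint_of_subset_left hOT hTd)
      (fun j hj => X.image_orb hj) ⟨v, X.self_mem_orb A₀ v⟩ hF₀ hBF₀
    have hwUO := h.wt_le hA₀ (T := U ∪ O)
      (Finset.disjoint_union_left.mpr ⟨Finset.disjoint_of_subset_left (Finset.filter_subset _ _) hTd,
        Finset.disjoint_of_subset_left hOT hTd⟩)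
      (fun j hj => by rw [Finset.image_union, hUinv j hj, X.image_orb hj]) hF₀ hBF₀
    -- together with the rest this exceeds three
    have hrest3 : wt (U ∪ O) F₀ + 1 ≤ 3 := by
      have hsub : U ∪ O ⊆ T := Finset.union_subset (Finset.filter_subset _ _) hOT
      rcases (T \ (U ∪ O)).eq_empty_or_nonempty with he | hne'
      · have : U ∪ O = T := hsub.antisymm (Finset.sdiff_eq_empty_iff_subset.mp he)
        rw [this, hwT]; norm_num
      · have h7 := h.wt_pos hA₀ (T := T \ (U ∪ O))
          (Finset.disjoint_of_subset_left Finset.sdiff_subset hTd)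
          (fun j hj => by rw [Finset.image_sdiff _ _ j.injective, hTinv j hj, Finset.image_union,
            hUinv j hj, X.image_orb hj]) hne' hF₀ hBF₀
        have h8 : wt T F₀ = wt (T \ (U ∪ O)) F₀ + wt (U ∪ O) F₀ := by
          have e1 := Finset.card_sdiff_add_card_eq_card hsub
          have e2 : (T \ (U ∪ O)) ∩ F₀ = (T ∩ F₀) \ ((U ∪ O) ∩ F₀) := by
            ext; simp; tauto
          have e3 := Finset.card_sdiff_add_card_eq_card
            (Finset.inter_subset_inter_right (u := F₀) hsub)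
          simp only [wt, e2]; omega
        omega
    have hadd : wt (U ∪ O) F₀ = wt U F₀ + wt O F₀ := by
      simp only [wt, Finset.union_inter_distrib_right, Finset.card_union_of_disjoint hd,
        Finset.card_union_of_disjoint (Finset.disjoint_of_subset_left Finset.inter_subset_left
          (Finset.disjoint_of_subset_right Finset.inter_subset_left hd))]
      push_cast; ring
    omega
  -- every line and every point of `R`: the line is in all or in no closure
  have htrR : ∀ w ∈ T, ∀ v ∈ R, ∀ v' ∈ R, w ∈ X.cl (insert v A₀) → w ∈ X.cl (insert v' A₀) := by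
    intro w hw v hv v' hv' hwv
    have hwA : w ∉ A₀ := Finset.disjoint_left.mp hTd hw
    set S := insert w A₀ with hS
    have hcS : S.card = 3 + 1 := by rw [hS, Finset.card_insert_of_notMem hwA, hA₀]
    obtain ⟨F, hF, hSF⟩ := h.covered_succ hcS
    have hSA : A₀ ⊆ S := Finset.subset_insert w A₀
    have hclS : Disjoint R (X.cl S) := Finset.disjoint_left.mpr fun a haR ha => by
      by_cases haA : a ∈ A₀
      · exact Finset.disjoint_left.mp hRd haR haA
      · exact hnotR a ((h.top_lines hmax hA₀ hw).1 (Finset.mem_sdiff.mpr ⟨ha, haA⟩)) haR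
    have hinvS : ∀ j ∈ X.J S, R.image j = R := fun j hj => hRinv j (X.J_mono hSA hj)
    have hone : ∀ y ∈ R, 1 ≤ wt (X.orb S y) F := fun y hy =>
      X.one_le_wt_orb (Finset.insert_nonempty _ _) hF hSF (Finset.disjoint_left.mp hclS hy)
    have horb : v' ∈ X.orb S v := by
      by_contra hh
      have hsum := X.wt_eq_sum (F := F) hclS hinvS
      rw [hwR' F hF (hSA.trans hSF)] at hsum
      have hsub : ∀ y ∈ R, X.orb S y ∈ (X.orbits S).filter (· ⊆ R) := fun y hy =>
        Finset.mem_filter.mpr ⟨X.orb_mem_orbits (Finset.disjoint_left.mp hclS hy), fun z hz => by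
          obtain ⟨j, hj, rfl⟩ := X.mem_orb.mp hz
          rw [← hinvS j hj]; exact Finset.mem_image_of_mem _ hy⟩
      have hne2 : X.orb S v ≠ X.orb S v' := fun e => hh (e ▸ X.self_mem_orb S v')
      have hle := Finset.sum_le_sum_of_subset_of_nonneg (f := fun O => wt O F)
        (s := {X.orb S v, X.orb S v'}) (t := (X.orbits S).filter (· ⊆ R))
        (by simp [Finset.insert_subset_iff, hsub v hv, hsub v' hv'])
        (fun O hO _ => by
          obtain ⟨y, hy, rfl⟩ := X.mem_orbits.mp (Finset.mem_filter.mp hO).1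
          exact le_trans (by norm_num) (X.one_le_wt_orb (Finset.insert_nonempty _ _) hF hSF hy))
      rw [Finset.sum_pair hne2] at hle
      have := hone v hv
      have := hone v' hv'
      omega
    obtain ⟨j, hj, rfl⟩ := X.mem_orb.mp horb
    have hfix : ∀ b ∈ S, j b = b := fun b hb => X.J_fix hj (X.subset_cl S hb)
    rw [← image_insert_of_fix (fun b hb => hfix b (hSA hb)) v, X.cl_image (X.J_le _ hj)]
    exact Finset.mem_image.mpr ⟨w, hwv, hfix w (Finset.mem_insert_self w A₀)⟩
  by_cases hmeet : ∃ w ∈ T, ∃ v ∈ R, w ∈ X.cl (insert v A₀)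
  · -- all of `T` lies in one closure, so in a flat
    obtain ⟨w, hw, v, hv, hwv⟩ := hmeet
    have hsub : T ⊆ X.cl (insert v A₀) := by
      intro w' hw'
      obtain ⟨j, hj, hjL⟩ := htrL w hw w' hw'
      have hw'L : w' ∈ L w' := Finset.mem_sdiff.mpr
        ⟨X.subset_cl _ (Finset.mem_insert_self _ _), Finset.disjoint_left.mp hTd hw'⟩
      rw [hjL] at hw'L
      obtain ⟨z, hz, rfl⟩ := Finset.mem_image.mp hw'L
      have hjv : j v ∈ R := by rw [← hRinv j hj]; exact Finset.mem_image_of_mem _ hv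
      refine htrR _ hw' (j v) hjv v hv ?_
      rw [← image_insert_of_fix (fun b hb => X.J_fix hj (X.subset_cl A₀ hb)) v,
        X.cl_image (X.J_le _ hj)]
      refine Finset.mem_image_of_mem _ ?_
      have hz1 : X.cl (insert w A₀) ⊆ X.cl (insert v A₀) := by
        rw [← X.cl_cl (insert v A₀)]
        exact X.cl_mono (Finset.insert_subset hwv
          ((Finset.subset_insert _ _).trans (X.subset_cl _)))
      exact hz1 (Finset.mem_sdiff.mp hz).1
    obtain ⟨F, hF, hvF⟩ := h.covered_succ (S := insert v A₀)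
      (by rw [Finset.card_insert_of_notMem (Finset.disjoint_left.mp hRd hv), hA₀])
    have hTF : T ⊆ F := hsub.trans (X.cl_subset hF hvF)
    have := X.wt_eq hF₀ hBF₀ hF ((Finset.subset_insert v A₀).trans hvF) hTinv
    rw [hwT] at this
    simp only [wt, Finset.inter_eq_left.mpr hTF] at this
    omega
  · push Not at hmeet
    obtain ⟨v₀, hv₀⟩ := hRne
    have horbR : ∀ v ∈ R, v ∈ X.orb A₀ v₀ := by
      intro v hv
      by_contra hh
      have hOR : X.orb A₀ v₀ ⊆ R := fun y hy => by
        obtain ⟨j, hj, rfl⟩ := X.mem_orb.mp hy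
        rw [← hRinv j hj]; exact Finset.mem_image_of_mem _ hv₀
      have h5 := h.wt_pos hA₀ (Finset.disjoint_of_subset_left hOR hRd)
        (fun j hj => X.image_orb hj) ⟨v₀, X.self_mem_orb _ _⟩ hF₀ hBF₀
      have h6 := h.wt_pos hA₀ (T := R \ X.orb A₀ v₀)
        (Finset.disjoint_of_subset_left Finset.sdiff_subset hRd)
        (fun j hj => by rw [Finset.image_sdiff _ _ j.injective, hRinv j hj, X.image_orb hj])
        ⟨v, Finset.mem_sdiff.mpr ⟨hv, hh⟩⟩ hF₀ hBF₀
      have e1 := Finset.card_sdiff_add_card_eq_card hOR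
      have e2 : (R \ X.orb A₀ v₀) ∩ F₀ = (R ∩ F₀) \ (X.orb A₀ v₀ ∩ F₀) := by
        ext; simp; tauto
      have e3 := Finset.card_sdiff_add_card_eq_card
        (Finset.inter_subset_inter_right (u := F₀) hOR)
      simp only [wt, e2] at h5 h6 hwR
      omega
    have hLR : ∀ v ∈ R, L v ⊆ R := fun v hv y hy => by
      rw [Finset.mem_sdiff] at hy
      by_contra hyR
      exact hmeet y (hmemT y hy.2 hyR) v hv hy.1
    have hsame : ∀ v ∈ R, X.N (insert v A₀) = X.N (insert v₀ A₀) ∧ (L v).card = (L v₀).card := by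
      intro v hv
      obtain ⟨j, hj, rfl⟩ := X.mem_orb.mp (horbR v hv)
      refine ⟨?_, by rw [hLim j hj, Finset.card_image_of_injective _ j.injective]⟩
      rw [← image_insert_of_fix (fun b hb => X.J_fix hj (X.subset_cl A₀ hb)) v₀,
        X.N_image (X.J_le _ hj)]
    have h9 := (h.line_card_le hA₀ hRd hRinv ⟨v₀, hv₀⟩ (c := (L v₀).card)
      (fun v hv => ⟨hLR v hv, (hsame v hv).2, fun y hy =>
        X.cl_eq_of_N_le (Finset.insert_subset (Finset.mem_sdiff.mp hy).1
          ((Finset.subset_insert _ _).trans (X.subset_cl _)))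
          (by rw [(hsame v hv).1, (hsame y (hLR v hv hy)).1])⟩) hF₀ hBF₀).1
    have hv₀A := Finset.disjoint_left.mp hRd hv₀
    have hc : (insert v₀ A₀).card = 3 + 1 := by rw [Finset.card_insert_of_notMem hv₀A, hA₀]
    have h10 := Finset.card_lt_card
      (Finset.ssubset_iff_subset_ne.mpr ⟨X.subset_cl (insert v₀ A₀), (hnc _ hc).symm⟩)
    have h11 : (L v₀).card = (X.cl (insert v₀ A₀)).card - 3 := by
      show (X.cl (insert v₀ A₀) \ A₀).card = _
      rw [Finset.card_sdiff_of_subset ((Finset.subset_insert _ _).trans (X.subset_cl _)), hA₀]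
    rw [hwR] at h9
    omega

end Level

end CfsgLib.Pronormal.Geom
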