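/-
The end of the proof that no flat geometry of a minimal counterexample exists (S3399).
-/
import Cfsg.Agent.Lib.Pronormal.Leak
import Cfsg.Agent.Lib.Pronormal.Closed
import Cfsg.Agent.Lib.Pronormal.Small
import Cfsg.Agent.Lib.Pronormal.Patterns
import Cfsg.Agent.Lib.Pronormal.Block

set_option autoImplicit false
set_option linter.unusedSectionVars false

open Equiv Finset

namespace CfsgLib.Pronormal.Geom

variable {α : Type*} [Fintype α] [DecidableEq α] {X : Geom α} {m : ℕ}

theorem Level.exch_of_mid (h : X.Level m) (h4 : 4 ≤ m)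
    {S : Finset α} (hS : S.card = m + 1) (hlt : (X.cl S).card ≤ 2 * m) {M γ : ℕ} (hγ : 2 ≤ γ)
    (hup : ∀ T : Finset α, T.card = m + 1 → X.N S < X.N T →
      X.N T = M ∧ (X.cl T).card = m + γ)
    (hMax : ∀ T : Finset α, T.card = m + 1 → X.N T ≤ M) : X.Exch S := by
  -- one exchange keeps the closure
  have step : ∀ S1 : Finset α, S1.card = m + 1 → X.cl S1 = X.cl S →
      ∀ b ∈ S1, ∀ y ∈ X.cl S, y ∉ S1 → X.cl (insert y (S1.erase b)) = X.cl S := by
    intro S1 hS1 hcl1 b hb y hy hy1
    have hsub : ∀ c, insert y (S1.erase c) ⊆ X.cl S1 := fun c =>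
      Finset.insert_subset (hcl1 ▸ hy) ((Finset.erase_subset _ _).trans (X.subset_cl S1))
    have hcard : ∀ c ∈ S1, (insert y (S1.erase c)).card = m + 1 := fun c hc => by
      rw [Finset.card_insert_of_notMem (fun hh => hy1 (Finset.mem_of_mem_erase hh)),
        Finset.card_erase_of_mem hc, hS1]; omega
    by_cases hle : X.N (insert y (S1.erase b)) ≤ X.N S1
    · rw [X.cl_eq_of_N_le (hsub b) hle, hcl1]
    exfalso
    push Not at hle
    have hN1 : X.N S1 = X.N S := X.N_eq_of_cl_eq hcl1
    obtain ⟨hbM, hbc⟩ := hup _ (hcard b hb) (hN1 ▸ hle)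
    have hlift := h.hasLifts h4 hS1 (by rw [hcl1]; exact hlt)
    obtain ⟨c, hc, hcb⟩ := Finset.exists_mem_ne (s := S1) (by omega) b
    obtain ⟨d, hd, hdb, hdc⟩ : ∃ d ∈ S1, d ≠ b ∧ d ≠ c := by
      obtain ⟨d, hd⟩ : (S1 \ {b, c}).Nonempty := by
        rw [← Finset.card_pos]
        have := Finset.le_card_sdiff ({b, c} : Finset α) S1
        have := Finset.card_le_two (a := b) (b := c)
        omega
      simp at hd
      exact ⟨d, hd.1, hd.2.1, hd.2.2⟩
    obtain ⟨g, hg, gb, gc, gd, gfix⟩ := hlift b hb c hc d hd hcb.symm hdc.symm hdb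
    have hgS : S1.image g = S1 := by
      refine Finset.eq_of_subset_of_card_le ?_ (Finset.card_image_of_injective _ g.injective).ge
      intro v hv
      obtain ⟨u, hu, rfl⟩ := Finset.mem_image.mp hv
      by_cases u1 : u = b
      · rw [u1, gb]; exact hc
      by_cases u2 : u = c
      · rw [u2, gc]; exact hd
      by_cases u3 : u = d
      · rw [u3, gd]; exact hb
      rw [gfix u (X.subset_cl S1 hu) u1 u2 u3]; exact hu
    have gout : ∀ v ∈ X.cl S1, v ∉ S1 → g v = v := fun v hv hv1 => gfix v hv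
      (fun e => hv1 (e ▸ hb)) (fun e => hv1 (e ▸ hc)) (fun e => hv1 (e ▸ hd))
    have himg : (insert y (S1.erase b)).image g = insert y (S1.erase c) := by
      rw [Finset.image_insert, Finset.image_erase g.injective, hgS, gb,
        gout y (hcl1 ▸ hy) hy1]
    have hclc : X.cl (insert y (S1.erase c)) = (X.cl (insert y (S1.erase b))).image g := by
      rw [← himg, X.cl_image hg]
    have hNc : X.N (insert y (S1.erase c)) = M := by rw [← himg, X.N_image hg, hbM]
    have hclsub : ∀ e, X.cl (insert y (S1.erase e)) ⊆ X.cl S1 := fun e =>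
      (X.cl_mono (hsub e)).trans (X.cl_cl S1).le
    have notin : ∀ e ∈ S1, X.N S1 < X.N (insert y (S1.erase e)) →
        e ∉ X.cl (insert y (S1.erase e)) := by
      intro e he hlt' hh
      have : S1 ⊆ X.cl (insert y (S1.erase e)) := fun v hv => by
        by_cases hve : v = e
        · exact hve ▸ hh
        · exact X.subset_cl _ (Finset.mem_insert_of_mem (Finset.mem_erase.mpr ⟨hve, hv⟩))
      have := X.N_mono this
      rw [X.N_cl] at this
      omega
    have hbnot := notin b hb hle
    have hcnot := notin c hc (by rw [hNc, ← hbM]; exact hle)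
    -- the extra points are the same for `b` and `c`
    have hP : X.cl (insert y (S1.erase b)) \ S1 ⊆ X.cl (insert y (S1.erase c)) := by
      intro v hv
      rw [Finset.mem_sdiff] at hv
      rw [hclc, ← gout v (hclsub b hv.1) hv.2]
      exact Finset.mem_image_of_mem g hv.1
    have hbig : m + 1 ≤ ((S1.erase b).erase c ∪ (X.cl (insert y (S1.erase b)) \ S1)).card := by
      have e1 : X.cl (insert y (S1.erase b)) =
          S1.erase b ∪ (X.cl (insert y (S1.erase b)) \ S1) := by
        ext v
        simp only [Finset.mem_union, Finset.mem_sdiff, Finset.mem_erase]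
        constructor
        · intro hv
          by_cases hvS : v ∈ S1
          · exact Or.inl ⟨fun e => hbnot (e ▸ hv), hvS⟩
          · exact Or.inr ⟨hv, hvS⟩
        · rintro (⟨hvb, hvS⟩ | ⟨hv, -⟩)
          · exact X.subset_cl _ (Finset.mem_insert_of_mem (Finset.mem_erase.mpr ⟨hvb, hvS⟩))
          · exact hv
      have e2 : Disjoint (S1.erase b) (X.cl (insert y (S1.erase b)) \ S1) :=
        Finset.disjoint_left.mpr fun v hv hv' =>
          (Finset.mem_sdiff.mp hv').2 (Finset.mem_of_mem_erase hv)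
      have e3 := congrArg Finset.card e1
      rw [Finset.card_union_of_disjoint e2, hbc, Finset.card_erase_of_mem hb, hS1] at e3
      rw [Finset.card_union_of_disjoint (e2.mono_left (Finset.erase_subset _ _)),
        Finset.card_erase_of_mem (Finset.mem_erase.mpr ⟨hcb, hc⟩),
        Finset.card_erase_of_mem hb, hS1]
      omega
    obtain ⟨A, hA, hAc⟩ := Finset.exists_subset_card_eq hbig
    have hAb : A ⊆ X.cl (insert y (S1.erase b)) := hA.trans (Finset.union_subset
      (fun v hv => X.subset_cl _ (Finset.mem_insert_of_mem (Finset.mem_of_mem_erase hv)))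
      Finset.sdiff_subset)
    have hAc' : A ⊆ X.cl (insert y (S1.erase c)) := hA.trans (Finset.union_subset
      (fun v hv => by
        simp only [Finset.mem_erase] at hv
        exact X.subset_cl _ (Finset.mem_insert_of_mem (Finset.mem_erase.mpr ⟨hv.1, hv.2.2⟩))) hP)
    have eb := X.cl_eq_of_N_le hAb (by rw [hbM]; exact hMax A hAc)
    have ec := X.cl_eq_of_N_le hAc' (by rw [hNc]; exact hMax A hAc)
    apply hcnot
    rw [← ec, eb]
    exact X.subset_cl _ (Finset.mem_insert_of_mem (Finset.mem_erase.mpr ⟨hcb, hc⟩))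
  intro A hA hAc
  suffices ∀ n : ℕ, ∀ S1 : Finset α, S1.card = m + 1 → X.cl S1 = X.cl S → (A \ S1).card = n →
      X.cl A = X.cl S from this _ S hS rfl rfl
  intro n
  induction n with
  | zero =>
    intro S1 h1 h2 h3
    rw [Finset.card_eq_zero, Finset.sdiff_eq_empty_iff_subset] at h3
    rw [Finset.eq_of_subset_of_card_le h3 (by omega)]
    exact h2
  | succ n ih =>
    intro S1 h1 h2 h3
    obtain ⟨y, hy⟩ : (A \ S1).Nonempty := by rw [← Finset.card_pos]; omega
    obtain ⟨b, hb⟩ : (S1 \ A).Nonempty := by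
      rw [← Finset.card_pos, Finset.card_sdiff_comm (show S1.card = A.card by omega)]; omega
    rw [Finset.mem_sdiff] at hy hb
    refine ih (insert y (S1.erase b)) ?_ (step S1 h1 h2 b hb.1 y (hA hy.1) hy.2) ?_
    · rw [Finset.card_insert_of_notMem (fun hh => hy.2 (Finset.mem_of_mem_erase hh)),
        Finset.card_erase_of_mem hb.1, h1]; omega
    · have : A \ insert y (S1.erase b) = (A \ S1).erase y := by
        ext v
        simp only [Finset.mem_sdiff, Finset.mem_insert, Finset.mem_erase]
        constructor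
        · rintro ⟨hv, hv'⟩
          exact ⟨fun e => hv' (Or.inl e), hv, fun h4 => hv' (Or.inr ⟨fun e => hb.2 (e ▸ hv), h4⟩)⟩
        · rintro ⟨hvy, hv, hv1⟩
          exact ⟨hv, fun h4 => h4.elim hvy fun h5 => hv1 h5.2⟩
      rw [this, Finset.card_erase_of_mem (Finset.mem_sdiff.mpr hy)]
      omega

theorem Level.false (h : X.Level m) : False := by
  have hnc := h.noClosed
  have h4 := h.four_le hnc
  have hmn : m ≤ Fintype.card α := by
    obtain ⟨F, hF⟩ := X.flats_nonempty
    obtain ⟨F', hF', O, hOc, hOd, -⟩ := X.r_attained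
    have := Finset.card_le_univ O
    have := h.lt_r
    omega
  obtain ⟨B, -, hB⟩ := Finset.exists_subset_card_eq (s := (univ : Finset α)) (n := m)
    (by simpa using hmn)
  obtain ⟨x, hxB, hex, hlt, hmax⟩ := h.exists_top hB
  have hS : (insert x B).card = m + 1 := by rw [Finset.card_insert_of_notMem hxB, hB]
  have hSe : (insert x B).erase x = B := Finset.erase_insert hxB
  obtain ⟨-, ⟨z, hz0, hOcard, hRcard⟩, hRwt, hdis⟩ :=
    h.block h4 hnc hS hlt hex (Finset.mem_insert_self x B)
  rw [hSe] at hOcard hRcard hRwt hdis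
  set O := X.orb B x with hO
  set R := univ \ (B ∪ O) with hR
  set γ := (X.cl (insert x B)).card - m with hγ
  have hclS : m + 2 ≤ (X.cl (insert x B)).card := by
    have h1 := Finset.card_le_card (X.subset_cl (insert x B))
    rcases Nat.lt_or_ge (X.cl (insert x B)).card (m + 2) with h2 | h2
    · exact absurd (Finset.eq_of_subset_of_card_le (X.subset_cl _) (by omega)).symm (hnc _ hS)
    · exact h2
  have hxcl : x ∉ X.cl B := by rw [h.cl_eq hB]; exact hxB
  have hmemR : ∀ v, v ∈ R ↔ v ∉ B ∧ v ∉ O := by intro v; simp [hR]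
  obtain ⟨y0, hy0B, hy0O⟩ := h.exists_other_orbit hB x
  have hRne : R.Nonempty := ⟨y0, (hmemR y0).mpr ⟨hy0B, hy0O⟩⟩
  obtain ⟨y, hy, hymax⟩ := Finset.exists_max_image R (fun v => X.N (insert v B)) hRne
  obtain ⟨hyB, hyO⟩ := (hmemR y).mp hy
  have hS' : (insert y B).card = m + 1 := by rw [Finset.card_insert_of_notMem hyB, hB]
  have hBimg : ∀ j ∈ X.J B, B.image j = B := fun j hj => by
    conv_rhs => rw [← Finset.image_id (s := B)]
    exact Finset.image_congr fun a ha => X.J_fix hj (X.subset_cl B ha)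
  -- the values of `N` above the middle one are the top one
  have hup : ∀ T : Finset α, T.card = m + 1 → X.N (insert y B) < X.N T →
      X.N T = X.N (insert x B) ∧ (X.cl T).card = m + γ := by
    intro T hT hlt'
    obtain ⟨t, ht⟩ : T.Nonempty := by rw [← Finset.card_pos]; omega
    obtain ⟨g, hg, hgB⟩ := X.exists_image_eq h.trans hB
      (show (T.erase t).card = m by rw [Finset.card_erase_of_mem ht, hT]; rfl)
    set v := (g⁻¹ : Perm α) t with hv
    have hTimg : (insert v B).image g = T := by
      rw [Finset.image_insert, hgB, hv, Equiv.Perm.coe_inv, Equiv.apply_symm_apply,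
        Finset.insert_erase ht]
    have hvB : v ∉ B := fun hh => by
      have := Finset.mem_image_of_mem g hh
      rw [hgB, hv] at this
      simp at this
    have hNT : X.N T = X.N (insert v B) := by rw [← hTimg, X.N_image hg]
    have hvO : v ∈ O := by
      by_contra hh
      have := hymax v ((hmemR v).mpr ⟨hvB, hh⟩)
      omega
    obtain ⟨j, hj, hjx⟩ := X.mem_orb.mp hvO
    have hjimg : (insert x B).image j = insert v B := by
      rw [Finset.image_insert, hBimg j hj, hjx]
    refine ⟨by rw [hNT, ← hjimg, X.N_image (X.J_le B hj)], ?_⟩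
    rw [← hTimg, X.cl_image hg, Finset.card_image_of_injective _ g.injective, ← hjimg,
      X.cl_image (X.J_le B hj), Finset.card_image_of_injective _ j.injective]
    omega
  -- the lines of the middle class stay in `R`
  have hline : ∀ v ∈ R, X.cl (insert v B) \ B ⊆ R := fun v hv w hw => by
    rw [Finset.mem_sdiff] at hw
    obtain ⟨hvB, hvO⟩ := (hmemR v).mp hv
    exact (hmemR w).mpr ⟨hw.2, fun hwO => Finset.disjoint_left.mp (hdis v hvB hvO) hw.1 hwO⟩
  let T := R.filter fun v => X.N (insert v B) = X.N (insert y B) ∧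
    (X.cl (insert v B)).card = (X.cl (insert y B)).card
  have hyT : y ∈ T := Finset.mem_filter.mpr ⟨hy, rfl, rfl⟩
  have hTinv : ∀ j ∈ X.J B, T.image j = T := by
    intro j hj
    refine Finset.eq_of_subset_of_card_le ?_ (Finset.card_image_of_injective _ j.injective).ge
    intro w hw
    obtain ⟨v, hv, rfl⟩ := Finset.mem_image.mp hw
    obtain ⟨hvR, hvN, hvc⟩ := Finset.mem_filter.mp hv
    obtain ⟨hvB, hvO⟩ := (hmemR v).mp hvR
    have hj' : (insert v B).image j = insert (j v) B := by
      rw [Finset.image_insert, hBimg j hj]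
    refine Finset.mem_filter.mpr ⟨(hmemR _).mpr ⟨fun hh => hvB ?_, fun hh => hvO ?_⟩,
      by rw [← hj', X.N_image (X.J_le B hj), hvN],
      by rw [← hj', X.cl_image (X.J_le B hj), Finset.card_image_of_injective _ j.injective, hvc]⟩
    · have h1 := X.J_fix hj (X.subset_cl B hh)
      rw [j.injective h1] at hh; exact hh
    · have h1 : j v ∈ X.orb B v := X.mem_orb.mpr ⟨j, hj, rfl⟩
      have h2 : X.orb B v = O := by rw [← X.orb_eq_of_mem h1, X.orb_eq_of_mem hh]
      rw [← h2]; exact X.self_mem_orb B v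
  obtain ⟨F, hF, hBF⟩ := h.covered_m hB
  have hTdis : Disjoint T B := Finset.disjoint_left.mpr fun v hv =>
    ((hmemR v).mp (Finset.mem_filter.mp hv).1).1
  have hcl' : ∀ v, v ∉ B → X.cl (insert v B) = B ∪ (X.cl (insert v B) \ B) := fun v _ =>
    (Finset.union_sdiff_of_subset ((Finset.subset_insert v B).trans (X.subset_cl _))).symm
  obtain ⟨hle, -⟩ := h.line_card_le hB hTdis hTinv ⟨y, hyT⟩
    (c := (X.cl (insert y B)).card - m) (fun v hv => by
      obtain ⟨hvR, hvN, hvc⟩ := Finset.mem_filter.mp hv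
      obtain ⟨hvB, -⟩ := (hmemR v).mp hvR
      have hsame : ∀ w ∈ X.cl (insert v B) \ B, X.cl (insert w B) = X.cl (insert v B) := by
        intro w hw
        refine X.cl_eq_of_N_le (Finset.insert_subset (Finset.mem_sdiff.mp hw).1
          ((Finset.subset_insert v B).trans (X.subset_cl _))) ?_
        have := hymax w (hline v hvR hw)
        omega
      refine ⟨fun w hw => Finset.mem_filter.mpr ⟨hline v hvR hw, ?_, ?_⟩, ?_, hsame⟩
      · rw [← hvN]; exact X.N_eq_of_cl_eq (hsame w hw)
      · rw [hsame w hw, hvc]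
      · rw [Finset.card_sdiff_of_subset ((Finset.subset_insert v B).trans (X.subset_cl _)), hvc,
          hB]) hF hBF
  have hRinv : ∀ j ∈ X.J B, R.image j = R := fun j hj => by
    rw [hR, Finset.image_sdiff _ _ j.injective, Finset.image_union, hBimg j hj, hO,
      X.image_orb hj, Finset.image_univ_of_surjective j.surjective]
  have hRd : Disjoint R (X.cl B) := by
    rw [h.cl_eq hB]; exact Finset.disjoint_left.mpr fun v hv => ((hmemR v).mp hv).1
  have hTle : wt T F ≤ wt R F := by
    rw [X.wt_eq_sum (hTdis.mono_right (h.cl_eq hB).le) hTinv, X.wt_eq_sum hRd hRinv]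
    refine Finset.sum_le_sum_of_subset_of_nonneg (fun Q hQ => ?_) fun Q hQ _ => ?_
    · rw [Finset.mem_filter] at hQ ⊢
      exact ⟨hQ.1, hQ.2.trans (Finset.filter_subset _ _)⟩
    · obtain ⟨v, hv, rfl⟩ := X.mem_orbits.mp (Finset.mem_filter.mp hQ).1
      exact le_trans (by norm_num) (X.one_le_wt_orb (h.nonempty hB) hF hBF hv)
  rw [hRwt F hF hBF] at hTle
  have hγ' : (X.cl (insert y B)).card - m ≤ γ := by exact_mod_cast hle.trans hTle
  have hlt' : (X.cl (insert y B)).card ≤ 2 * m := by omega
  have hex' : X.Exch (insert y B) :=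
    h.exch_of_mid h4 hS' hlt' (by omega) hup hmax
  obtain ⟨-, ⟨z', hz', hO'card, hR'card⟩, -, -⟩ :=
    h.block h4 hnc hS' hlt' hex' (Finset.mem_insert_self y B)
  rw [Finset.erase_insert hyB] at hO'card hR'card
  have hsub1 : X.orb B y ⊆ R := fun v hv => by
    obtain ⟨j, hj, rfl⟩ := X.mem_orb.mp hv
    rw [← hRinv j hj]; exact Finset.mem_image_of_mem _ hy
  have hsub2 : O ⊆ univ \ (B ∪ X.orb B y) := fun v hv => by
    simp only [Finset.mem_sdiff, Finset.mem_univ, true_and, Finset.mem_union, not_or]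
    exact ⟨fun hh => Finset.disjoint_left.mp (X.disjoint_orb_cl hxcl) hv (X.subset_cl B hh),
      fun hh => ((hmemR v).mp (hsub1 hh)).2 hv⟩
  have e1 := Finset.card_le_card hsub1
  have e2 := Finset.card_le_card hsub2
  rw [hO'card, hRcard] at e1
  rw [hR'card, hOcard] at e2
  set γ' := (X.cl (insert y B)).card - m
  nlinarith [Nat.mul_le_mul_left m e1, Nat.mul_le_mul_left γ e2,
    Nat.mul_le_mul_right z' (Nat.mul_le_mul (show γ ≤ m by omega) (show γ' ≤ m by omega))]

theorem orbitAt_one : X.OrbitAt 1 := by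
  intro B hB y z hy hz
  obtain ⟨a, rfl⟩ := Finset.card_eq_one.mp hB
  have hcl : X.cl {a} = {a} := Finset.eq_singleton_iff_unique_mem.mpr
    ⟨X.subset_cl _ (Finset.mem_singleton_self a), fun x hx =>
      X.singleton_closed a x fun F hF ha => X.mem_cl.mp hx F hF (Finset.singleton_subset_iff.mpr ha)⟩
  obtain ⟨F, hF⟩ := X.flats_nonempty
  have hne : F.Nonempty := by
    rw [← Finset.card_pos, X.flat_card F hF]
    have := Fintype.card_pos_iff.mpr ⟨a⟩
    rw [X.card_univ_eq] at this
    omega
  obtain ⟨b, hb⟩ := hne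
  obtain ⟨g, hg, hgb⟩ := X.transitive b a
  have hA : ({a} : Finset α) ⊆ F.image g :=
    Finset.singleton_subset_iff.mpr (Finset.mem_image.mpr ⟨b, hb, hgb⟩)
  have h1 := X.card_orbits_le (Finset.singleton_nonempty a) (X.flat_image g hg F hF) hA
  rw [hcl, Finset.card_singleton] at h1
  have h2 := Finset.card_le_one.mp h1 _ (X.orb_mem_orbits (by rw [hcl]; exact hy)) _
    (X.orb_mem_orbits (by rw [hcl]; exact hz))
  have h3 : z ∈ X.orb {a} y := h2 ▸ X.self_mem_orb {a} z
  exact X.mem_orb.mp h3

theorem closedAt_one : X.ClosedAt 1 := by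
  intro A hA
  obtain ⟨a, rfl⟩ := Finset.card_eq_one.mp hA
  exact Finset.eq_singleton_iff_unique_mem.mpr
    ⟨X.subset_cl _ (Finset.mem_singleton_self a), fun x hx =>
      X.singleton_closed a x fun F hF ha => X.mem_cl.mp hx F hF (Finset.singleton_subset_iff.mpr ha)⟩

theorem coveredAt_one : X.CoveredAt 1 := by
  intro A hA
  obtain ⟨a, rfl⟩ := Finset.card_eq_one.mp hA
  obtain ⟨F, hF⟩ := X.flats_nonempty
  obtain ⟨b, hb⟩ : F.Nonempty := by
    rw [← Finset.card_pos, X.flat_card F hF]
    have := Fintype.card_pos_iff.mpr ⟨a⟩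
    rw [X.card_univ_eq] at this
    omega
  obtain ⟨g, hg, hgb⟩ := X.transitive b a
  exact ⟨F.image g, X.flat_image g hg F hF,
    Finset.singleton_subset_iff.mpr (Finset.mem_image.mpr ⟨b, hb, hgb⟩)⟩

theorem coveredAt_succ {s : ℕ} (hs : 1 ≤ s) (hsr : s < X.r) (hcov : X.CoveredAt s)
    (hcl : X.ClosedAt s) : X.CoveredAt (s + 1) := by
  intro A hA
  obtain ⟨a, ha⟩ : A.Nonempty := by rw [← Finset.card_pos]; omega
  have hc : (A.erase a).card = s := by rw [Finset.card_erase_of_mem ha, hA]; rfl
  rw [← Finset.insert_erase ha]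
  exact X.covered_insert (by rw [← Finset.card_pos]; omega) (hcov _ hc)
    (by rw [hcl _ hc, hc]; exact hsr) a

theorem levels (s : ℕ) (hs : 1 ≤ s) (hsr : s < X.r) :
    (∀ k, 1 ≤ k → k ≤ s → X.CoveredAt k) ∧ (∀ k, 1 ≤ k → k ≤ s → X.ClosedAt k) ∧
    (∀ k, 1 ≤ k → k < s → X.OrbitAt k) ∧ X.MultiTrans s := by
  induction s, hs using Nat.le_induction with
  | base =>
    exact ⟨fun k h1 h2 => (show k = 1 by omega) ▸ X.coveredAt_one,
      fun k h1 h2 => (show k = 1 by omega) ▸ X.closedAt_one,
      fun k h1 h2 => by omega, X.multiTrans_one⟩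
  | succ s hs ih =>
    obtain ⟨hcov, hcl, horb, htr⟩ := ih (by omega)
    have hcov' : ∀ k, 1 ≤ k → k ≤ s + 1 → X.CoveredAt k := by
      intro k h1 h2
      rcases Nat.lt_or_ge k (s + 1) with h3 | h3
      · exact hcov k h1 (by omega)
      · obtain rfl : k = s + 1 := by omega
        exact coveredAt_succ hs (by omega) (hcov s hs le_rfl) (hcl s hs le_rfl)
    have hs1 : X.OrbitAt s := by
      rcases Nat.lt_or_ge 1 s with h1 | h1
      · by_contra hno
        exact Level.false (X := X) (m := s) ⟨h1, hsr, hcov', hcl,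
          horb (s - 1) (by omega) (by omega), htr, hno⟩
      · obtain rfl : s = 1 := by omega
        exact orbitAt_one
    have horb' : ∀ k, 1 ≤ k → k < s + 1 → X.OrbitAt k := by
      intro k h1 h2
      rcases Nat.lt_or_ge k s with h3 | h3
      · exact horb k h1 h3
      · obtain rfl : k = s := by omega
        exact hs1
    have htr' := X.multiTrans_succ htr hs1
    refine ⟨hcov', fun k h1 h2 => ?_, horb', htr'⟩
    rcases Nat.lt_or_ge k (s + 1) with h3 | h3
    · exact hcl k h1 (by omega)
    · obtain rfl : k = s + 1 := by omega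
      exact X.closedAt_of_orbitAt (s + 1) (by omega) hsr hcov' (fun q q1 q2 => hcl q q1 (by omega))
        horb' htr'

end CfsgLib.Pronormal.Geom

namespace CfsgLib.Pronormal

/-- There is no flat geometry of a minimal counterexample. -/
theorem false_of_geom {α : Type*} [Fintype α] [DecidableEq α] (X : Geom α) : False := by
  have hr := X.two_le_r
  obtain ⟨hcov, hcl, -, -⟩ := Geom.levels (X := X) (X.r - 1) (by omega) (by omega)
  obtain ⟨F, hF, O, hOc, hOd, hOinv⟩ := X.r_attained
  have hcr : X.CoveredAt (X.r - 1 + 1) :=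
    Geom.coveredAt_succ (by omega) (by omega) (hcov _ (by omega) le_rfl) (hcl _ (by omega) le_rfl)
  obtain ⟨F', hF', hsub⟩ := hcr O (by omega)
  exact X.invariant_not_subset_flat F hF O (by rw [← Finset.card_pos]; omega) hOd hOinv F' hF' hsub

end CfsgLib.Pronormal
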